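import Mathlib
import Cfsg.Prelude.Def_Characters
import Cfsg.Agent.Lib.CharTheory.Basic
import Cfsg.Agent.Lib.CharTheory.Decomp
import Cfsg.Agent.Lib.CharTheory.Orthogonality

/-!
# Matrix representations of 2-groups of extraspecial type
-/

set_option autoImplicit false
set_option linter.style.haveILetI false

open Cfsg CfsgLib.CharTheory
open scoped ComplexConjugate

namespace CfsgLib.Correspondences.ExtraExt

variable {G : Type*} [Group G]

/-- A finite group with squares in a central subgroup `⟨z⟩` of order two which is the whole centre. -/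
structure IsES (E : Subgroup G) (z : G) : Prop where
  z_mem : z ∈ E
  z_sq : z * z = 1
  z_ne : z ≠ 1
  z_comm : ∀ e ∈ E, z * e = e * z
  sq : ∀ e ∈ E, e * e = 1 ∨ e * e = z
  center : ∀ e ∈ E, (∀ f ∈ E, e * f = f * e) → e = 1 ∨ e = z

variable {E : Subgroup G} {z : G}

theorem IsES.z_inv (hE : IsES E z) : z⁻¹ = z := inv_eq_of_mul_eq_one_left hE.z_sq

theorem IsES.inv_eq (hE : IsES E z) {e : G} (he : e ∈ E) : e⁻¹ = e ∨ e⁻¹ = z * e := by
  rcases hE.sq e he with h | h
  · exact Or.inl (inv_eq_of_mul_eq_one_left h)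
  · refine Or.inr (inv_eq_of_mul_eq_one_left ?_)
    rw [mul_assoc, h, hE.z_sq]

theorem IsES.mul_comm_cases (hE : IsES E z) {e f : G} (he : e ∈ E) (hf : f ∈ E) :
    f * e = e * f ∨ f * e = z * (e * f) := by
  have hef := E.mul_mem he hf
  have h1 : f * e = e⁻¹ * ((e * f) * (e * f)) * f⁻¹ := by group
  have hze := hE.z_comm e he
  have hzef := hE.z_comm (e * f) hef
  rcases hE.sq _ hef with h | h <;> rcases hE.inv_eq he with h2 | h2 <;>
    rcases hE.inv_eq hf with h3 | h3 <;> rw [h, h2, h3] at h1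
  · left; rw [h1, mul_one]
  · right; rw [h1, mul_one, ← mul_assoc, ← mul_assoc, hze]
  · right; rw [h1, mul_one, mul_assoc]
  · left; rw [h1, mul_one, mul_assoc z e, ← mul_assoc e z f, ← hze, mul_assoc z e f, ← mul_assoc z z,
      hE.z_sq, one_mul]
  · right; rw [h1, ← hze, mul_assoc]
  · left; rw [h1, ← hze, mul_assoc z e, ← mul_assoc e z f, ← hze, mul_assoc z e f, ← mul_assoc z z,
      hE.z_sq, one_mul]
  · left; rw [h1, mul_assoc z e z, ← hze, ← mul_assoc z z e, hE.z_sq, one_mul]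
  · right; rw [h1, mul_assoc z e z, ← hze, ← mul_assoc z z e, hE.z_sq, one_mul, ← mul_assoc, ← hze,
      mul_assoc]

/-- An element normalising `E` and fixing `z`. -/
def Acts (E : Subgroup G) (z : G) (g : G) : Prop :=
  g ∈ Subgroup.normalizer (E : Set G) ∧ g * z = z * g

theorem acts_mem_conj {g e : G} (hg : Acts E z g) (he : e ∈ E) : g * e * g⁻¹ ∈ E :=
  (Subgroup.mem_normalizer_iff.1 hg.1 e).1 he

/-- Conjugation by an element normalising `E`. -/
def conjE {g : G} (hg : Acts E z g) : E →* E where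
  toFun e := ⟨g * (e : G) * g⁻¹, acts_mem_conj hg e.2⟩
  map_one' := Subtype.ext (by simp)
  map_mul' a b := Subtype.ext (by simp [mul_assoc])

@[simp] theorem conjE_coe {g : G} (hg : Acts E z g) (e : E) :
    (conjE hg e : G) = g * (e : G) * g⁻¹ := rfl

/-- A matrix representation of `E` of degree `n` with `2 n ^ 2 = |E|`, `z` acting as `-1`. -/
structure Rep (E : Subgroup G) (z : G) (n : ℕ) where
  toHom : E →* Matrix (Fin n) (Fin n) ℂ
  card : 2 * (n * n) = Nat.card E
  neg : ∀ h : z ∈ E, toHom ⟨z, h⟩ = -1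

namespace Rep

variable {n : ℕ} (R : Rep E z n)

/-- The associated representation. -/
noncomputable def linRep : Representation ℂ E (Fin n → ℂ) :=
  (Matrix.toLinAlgEquiv' : Matrix (Fin n) (Fin n) ℂ ≃ₐ[ℂ] _).toMonoidHom.comp R.toHom

theorem character_linRep (e : E) : R.linRep.character e = (R.toHom e).trace := by
  show LinearMap.trace ℂ _ (Matrix.toLin' (R.toHom e)) = _
  rw [Matrix.trace_toLin'_eq]

theorem apply_inv_mul (e : E) : R.toHom e⁻¹ * R.toHom e = 1 := by
  rw [← map_mul, inv_mul_cancel, map_one]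

theorem apply_mul_inv (e : E) : R.toHom e * R.toHom e⁻¹ = 1 := by
  rw [← map_mul, mul_inv_cancel, map_one]

theorem trace_eq_zero (hE : IsES E z) {e : E} (h1 : (e : G) ≠ 1) (hz : (e : G) ≠ z) :
    (R.toHom e).trace = 0 := by
  obtain ⟨f, hf, hne⟩ : ∃ f ∈ E, (e : G) * f ≠ f * e := by
    by_contra h
    push Not at h
    exact (hE.center e e.2 h).elim h1 hz
  have h : (⟨f, hf⟩ : E) * e = ⟨z, hE.z_mem⟩ * (e * ⟨f, hf⟩) :=
    Subtype.ext ((hE.mul_comm_cases e.2 hf).resolve_left (Ne.symm hne))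
  have h2 : R.toHom ⟨f, hf⟩ * R.toHom e * R.toHom (⟨f, hf⟩⁻¹) = - R.toHom e := by
    rw [← map_mul, h, map_mul, map_mul, R.neg, neg_one_mul, neg_mul, mul_assoc, R.apply_mul_inv,
      mul_one]
  have h3 := congrArg Matrix.trace h2
  rw [Matrix.trace_mul_cycle, R.apply_inv_mul, one_mul, Matrix.trace_neg] at h3
  linear_combination h3 / 2

theorem trace_one : (R.toHom 1).trace = n := by simp

theorem trace_z (hz : z ∈ E) : (R.toHom ⟨z, hz⟩).trace = -(n : ℂ) := by
  rw [R.neg]; simp

variable [Finite G]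

theorem n_ne_zero (R : Rep E z n) : n ≠ 0 := by
  rintro rfl
  have := R.card
  have hp : 0 < Nat.card E := Nat.card_pos
  omega

open Classical in
omit [Finite G] in
theorem sum_eq (hE : IsES E z) [Fintype E] (f : E → ℂ)
    (hf : ∀ e : E, (e : G) ≠ 1 → (e : G) ≠ z → f e = 0) :
    ∑ e : E, f e = f 1 + f ⟨z, hE.z_mem⟩ := by
  refine Fintype.sum_eq_add _ _ (fun h => hE.z_ne (congrArg Subtype.val h).symm) fun e he => hf e
    (fun h => he.1 (Subtype.ext h)) (fun h => he.2 (Subtype.ext h))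

theorem classInner_character (hE : IsES E z) [Fintype E] :
    classInner R.linRep.character R.linRep.character = 1 := by
  rw [classInner, sum_eq hE _ fun e h1 hz => by rw [R.character_linRep, R.trace_eq_zero hE h1 hz,
    zero_mul], R.character_linRep, R.character_linRep, R.trace_one, R.trace_z, map_neg,
    Complex.conj_natCast]
  have hn : (n : ℂ) ≠ 0 := Nat.cast_ne_zero.2 R.n_ne_zero
  rw [← R.card]
  push_cast
  field_simp
  ring

/-- Two representations of the same degree are equivalent. -/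
theorem exists_intertwiner (hE : IsES E z) (R' : Rep E z n) :
    ∃ P P' : Matrix (Fin n) (Fin n) ℂ, P * P' = 1 ∧
      ∀ e, P * R.toHom e = R'.toHom e * P := by
  classical
  have hch : R.linRep.character = R'.linRep.character := by
    funext e
    rw [R.character_linRep, R'.character_linRep]
    by_cases h1 : (e : G) = 1
    · obtain rfl : e = 1 := Subtype.ext h1
      rw [R.trace_one, R'.trace_one]
    by_cases hz : (e : G) = z
    · obtain rfl : e = ⟨z, hE.z_mem⟩ := Subtype.ext hz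
      rw [R.trace_z, R'.trace_z]
    rw [R.trace_eq_zero hE h1 hz, R'.trace_eq_zero hE h1 hz]
  obtain ⟨φ⟩ := nonempty_equiv_of_character_eq R.linRep R'.linRep hch
  let T := φ.toLinearEquiv
  refine ⟨LinearMap.toMatrix' T.toLinearMap, LinearMap.toMatrix' T.symm.toLinearMap, ?_, fun e => ?_⟩
  · rw [← LinearMap.toMatrix'_comp]
    simp
  · have h := φ.toIntertwiningMap.isIntertwining' e
    have h' := congrArg LinearMap.toMatrix' h
    rw [LinearMap.toMatrix'_comp, LinearMap.toMatrix'_comp] at h'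
    have key : ∀ (S : Rep E z n), LinearMap.toMatrix' (S.linRep e) = S.toHom e :=
      fun S => LinearMap.toMatrix'_toLin' _
    rw [key, key] at h'
    exact h'

/-- Schur's lemma. -/
theorem exists_scalar (hE : IsES E z) {X : Matrix (Fin n) (Fin n) ℂ}
    (hX : ∀ e, X * R.toHom e = R.toHom e * X) : ∃ c : ℂ, X = c • 1 := by
  haveI : Fintype E := Fintype.ofFinite _
  have hirr := (isIrrCharacter_iff_norm_one (isCharacter_character R.linRep)).2
    (R.classInner_character hE)
  obtain ⟨d, σ, hσ, hch⟩ := hirr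
  obtain ⟨φ⟩ := nonempty_equiv_of_character_eq σ R.linRep hch
  haveI := isIrreducible_of_equiv φ
  obtain ⟨c, hc⟩ := exists_smul_of_commute R.linRep (Matrix.toLin' X) fun e => by
    show Matrix.toLin' X ∘ₗ Matrix.toLin' (R.toHom e) = Matrix.toLin' (R.toHom e) ∘ₗ Matrix.toLin' X
    rw [← Matrix.toLin'_mul, ← Matrix.toLin'_mul, hX e]
  exact ⟨c, Matrix.toLin'.injective (by rw [hc, map_smul, Matrix.toLin'_one])⟩

theorem sum_conj (hE : IsES E z) [Fintype E] (X : Matrix (Fin n) (Fin n) ℂ) :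
    ∑ e : E, R.toHom e * X * R.toHom e⁻¹ = (2 * (n : ℂ) * X.trace) • 1 := by
  set S := ∑ e : E, R.toHom e * X * R.toHom e⁻¹ with hS
  obtain ⟨c, hc⟩ := R.exists_scalar hE (X := S) fun a => by
    rw [hS, Finset.sum_mul, Finset.mul_sum]
    refine (Fintype.sum_equiv (Equiv.mulLeft a) _ _ fun e => ?_).symm
    simp only [Equiv.coe_mulLeft, map_mul, mul_inv_rev, mul_assoc]
    rw [R.apply_inv_mul, mul_one]
  have htr := congrArg Matrix.trace hc
  rw [hS, Matrix.trace_sum, Finset.sum_congr rfl fun e _ => by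
    rw [Matrix.trace_mul_cycle, R.apply_inv_mul, one_mul], Finset.sum_const, Matrix.trace_smul,
    Matrix.trace_one, Finset.card_univ, ← Nat.card_eq_fintype_card, ← R.card] at htr
  simp only [nsmul_eq_mul, Nat.cast_mul, Nat.cast_ofNat, Fintype.card_fin, smul_eq_mul] at htr
  have hn : (n : ℂ) ≠ 0 := Nat.cast_ne_zero.2 R.n_ne_zero
  rw [hc]
  congr 1
  exact mul_right_cancel₀ hn (by linear_combination -htr)

/-- A fixed-point-free twist has trace of absolute value one. -/
theorem trace_mul_trace (hE : IsES E z) {X X' : Matrix (Fin n) (Fin n) ℂ} (hX : X * X' = 1)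
    (a : E →* E) (haz : ∀ h : z ∈ E, a ⟨z, h⟩ = ⟨z, h⟩)
    (hfix : ∀ e : E, ((e : G) * (a e : G)⁻¹ = 1 ∨ (e : G) * (a e : G)⁻¹ = z) →
      (e : G) = 1 ∨ (e : G) = z)
    (hint : ∀ e, X * R.toHom e = R.toHom (a e) * X) : X.trace * X'.trace = 1 := by
  classical
  haveI : Fintype E := Fintype.ofFinite _
  have h := congrArg (fun M => (M * X').trace) (R.sum_conj hE X)
  simp only [Finset.sum_mul, Matrix.trace_sum, Matrix.smul_mul, one_mul, Matrix.trace_smul] at h
  have ht : ∀ e : E, (R.toHom e * X * R.toHom e⁻¹ * X').trace = (R.toHom (e * (a e)⁻¹)).trace := by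
    intro e
    rw [mul_assoc (R.toHom e) X, hint, map_inv a, mul_assoc (R.toHom e), mul_assoc _ X X', hX,
      mul_one, ← map_mul]
  rw [Finset.sum_congr rfl fun e _ => ht e, sum_eq hE _ fun e h1 hz => R.trace_eq_zero hE
    (fun h' => (hfix e (Or.inl h')).elim h1 hz) (fun h' => (hfix e (Or.inr h')).elim h1 hz),
    map_one a, inv_one, mul_one, haz hE.z_mem, mul_inv_cancel, R.trace_one, smul_eq_mul] at h
  have hn : (n : ℂ) ≠ 0 := Nat.cast_ne_zero.2 R.n_ne_zero
  exact mul_left_cancel₀ hn (by linear_combination -h / 2)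

/-- The twist by conjugation. -/
def twist {g : G} (hg : Acts E z g) : Rep E z n where
  toHom := R.toHom.comp (conjE hg)
  card := R.card
  neg h := by
    show R.toHom (conjE hg ⟨z, h⟩) = -1
    rw [show conjE hg ⟨z, h⟩ = ⟨z, h⟩ from Subtype.ext (by
      show g * z * g⁻¹ = z
      rw [hg.2, mul_inv_cancel_right])]
    exact R.neg h

/-- An intertwiner of determinant one for an element normalising `E`. -/
theorem exists_det_one (hE : IsES E z) {g : G} (hg : Acts E z g) :
    ∃ U : Matrix (Fin n) (Fin n) ℂ, U.det = 1 ∧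
      ∀ e, U * R.toHom e = R.toHom (conjE hg e) * U := by
  obtain ⟨P, P', hP, hint⟩ := R.exists_intertwiner hE (R.twist hg)
  have hd : P.det ≠ 0 := fun h => by
    have := congrArg Matrix.det hP
    rw [Matrix.det_mul, h, zero_mul, Matrix.det_one] at this
    exact zero_ne_one this
  obtain ⟨c, hc⟩ := IsAlgClosed.exists_pow_nat_eq P.det⁻¹ (Nat.pos_of_ne_zero R.n_ne_zero)
  refine ⟨c • P, ?_, fun e => ?_⟩
  · rw [Matrix.det_smul, Fintype.card_fin, hc, inv_mul_cancel₀ hd]
  · rw [Matrix.smul_mul, Matrix.mul_smul, hint e]; rfl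

end Rep

/-- Existence of a representation. -/
theorem exists_rep [Finite G] (hE : IsES E z) : ∃ n, Nonempty (Rep E z n) := by
  classical
  haveI : Fintype E := Fintype.ofFinite _
  haveI : Fintype (IrrCharacter E) := Fintype.ofFinite _
  set z' : E := ⟨z, hE.z_mem⟩
  obtain ⟨χ, hχ⟩ : ∃ χ : IrrCharacter E, (χ : E → ℂ) z' ≠ (χ : E → ℂ) 1 := by
    by_contra h
    push Not at h
    have h1 := sum_degree_mul z'
    rw [Finset.sum_congr rfl fun χ _ => by rw [h χ], if_neg fun h' => hE.z_ne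
      (congrArg Subtype.val h'), sum_degree_mul (1 : E), if_pos rfl] at h1
    exact Nat.cast_ne_zero.2 Nat.card_pos.ne' h1
  obtain ⟨n, ρ, hρ, hch⟩ := χ.2
  obtain ⟨c, hc⟩ := exists_smul_of_commute ρ (ρ z') fun e => by
    rw [← Module.End.mul_eq_comp, ← Module.End.mul_eq_comp, ← map_mul, ← map_mul]
    exact congrArg ρ (Subtype.ext (hE.z_comm e e.2))
  have hnn : n ≠ 0 := by
    rintro rfl
    apply hχ
    rw [← hch]
    simp [Representation.character, Subsingleton.elim (ρ z') (ρ 1)]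
  have hc2 : c * c = 1 := by
    have h2 : ρ z' * ρ z' = 1 := by
      rw [← map_mul, show z' * z' = 1 from Subtype.ext hE.z_sq, map_one]
    rw [hc] at h2
    haveI : Nonempty (Fin n) := ⟨⟨0, Nat.pos_of_ne_zero hnn⟩⟩
    have h3 := congrArg (fun f : Module.End ℂ (Fin n → ℂ) => f (fun _ => 1) ⟨0, Nat.pos_of_ne_zero hnn⟩) h2
    simpa using h3
  have hc1 : c = -1 := by
    refine (mul_self_eq_one_iff.1 hc2).resolve_left fun h => hχ ?_
    rw [← hch]
    show LinearMap.trace ℂ _ (ρ z') = LinearMap.trace ℂ _ (ρ 1)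
    rw [hc, h, one_smul, map_one]
    rfl
  let M : E →* Matrix (Fin n) (Fin n) ℂ :=
    (LinearMap.toMatrixAlgEquiv' : _ ≃ₐ[ℂ] Matrix (Fin n) (Fin n) ℂ).toMonoidHom.comp ρ
  have hMz : M z' = -1 := by
    show LinearMap.toMatrixAlgEquiv' (ρ z') = -1
    rw [hc, hc1, map_smul, show LinearMap.toMatrixAlgEquiv' (LinearMap.id : (Fin n → ℂ) →ₗ[ℂ] _) = 1 from
      map_one LinearMap.toMatrixAlgEquiv', neg_one_smul]
  have htr : ∀ e : E, (χ : E → ℂ) e = (M e).trace := fun e => by
    rw [← hch]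
    show LinearMap.trace ℂ _ (ρ e) = _
    rw [LinearMap.trace_eq_matrix_trace ℂ (Pi.basisFun ℂ (Fin n)), LinearMap.toMatrix_eq_toMatrix']
    rfl
  refine ⟨n, ⟨⟨M, ?_, fun h => hMz⟩⟩⟩
  have h0 : ∀ e : E, (e : G) ≠ 1 → (e : G) ≠ z → (χ : E → ℂ) e = 0 := by
    intro e h1 hz
    obtain ⟨f, hf, hne⟩ : ∃ f ∈ E, (e : G) * f ≠ f * e := by
      by_contra h
      push Not at h
      exact (hE.center e e.2 h).elim h1 hz
    have h : (⟨f, hf⟩ : E) * e = z' * (e * ⟨f, hf⟩) :=
      Subtype.ext ((hE.mul_comm_cases e.2 hf).resolve_left (Ne.symm hne))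
    have h2 : M ⟨f, hf⟩ * M e * M (⟨f, hf⟩⁻¹) = - M e := by
      rw [← map_mul, h, map_mul, map_mul, hMz, neg_one_mul, neg_mul, mul_assoc, ← map_mul,
        mul_inv_cancel, map_one, mul_one]
    have h3 := congrArg Matrix.trace h2
    rw [Matrix.trace_mul_cycle, ← map_mul, inv_mul_cancel, map_one, one_mul, Matrix.trace_neg] at h3
    rw [htr]
    linear_combination h3 / 2
  have hn := classInner_self_of_isIrr χ.2
  rw [classInner, Rep.sum_eq hE _ fun e h1 hz => by rw [h0 e h1 hz, zero_mul], htr, htr,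
    show (⟨z, hE.z_mem⟩ : E) = z' from rfl, hMz, map_one, Matrix.trace_neg, Matrix.trace_one,
    Fintype.card_fin, map_neg, Complex.conj_natCast] at hn
  have hc' : (Nat.card E : ℂ) ≠ 0 := Nat.cast_ne_zero.2 Nat.card_pos.ne'
  field_simp at hn
  have : ((2 * (n * n) : ℕ) : ℂ) = (Nat.card E : ℂ) := by push_cast; linear_combination hn
  exact_mod_cast this

end CfsgLib.Correspondences.ExtraExt
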