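import Mathlib
import Cfsg.Prelude.Def_Characters
import Cfsg.Agent.Lib.CharTheory.Basic
import Cfsg.Agent.Lib.CharTheory.Decomp
import Cfsg.Agent.Lib.RealChar.Extraspecial

/-!
# A matrix group commuting with a matrix of prime order all of whose traces have absolute value one
-/

set_option autoImplicit false
set_option linter.style.haveILetI false

open Cfsg CfsgLib.CharTheory
open scoped ComplexConjugate

namespace CfsgLib.Correspondences.ExtraExt

theorem isCharacter_trace_proj {C : Type*} [Group C] {n : ℕ}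
    (M : C →* Matrix (Fin n) (Fin n) ℂ) {P : Matrix (Fin n) (Fin n) ℂ} (hP : P * P = P)
    (hcomm : ∀ x, M x * P = P * M x) : IsCharacter C (fun x => (M x * P).trace) := by
  classical
  set W := LinearMap.range (Matrix.toLin' P) with hW
  have hmem : ∀ x, ∀ v ∈ W, Matrix.toLin' (M x) v ∈ W := by
    rintro x v ⟨w, rfl⟩
    refine ⟨Matrix.toLin' (M x) w, ?_⟩
    rw [← Matrix.toLin'_mul_apply, ← Matrix.toLin'_mul_apply, hcomm]
  let ρW : Representation ℂ C W :=
    { toFun := fun x => (Matrix.toLin' (M x)).restrict (hmem x)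
      map_one' := LinearMap.ext fun v => Subtype.ext (by simp [LinearMap.restrict_apply])
      map_mul' := fun x y => LinearMap.ext fun v => Subtype.ext (by
        simp [LinearMap.restrict_apply, Matrix.toLin'_mul]) }
  refine ⟨Module.finrank ℂ W, conjRep ρW (Module.finBasis ℂ W).equivFun, ?_⟩
  rw [character_conjRep]
  funext x
  show LinearMap.trace ℂ W ((Matrix.toLin' (M x)).restrict (hmem x)) = _
  rw [← Matrix.trace_toLin'_eq (M x * P), Matrix.toLin'_mul,
    ← LinearMap.trace_restrict_eq_of_forall_mem W (Matrix.toLin' (M x) ∘ₗ Matrix.toLin' P)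
      (fun v => hmem x _ ⟨v, rfl⟩)]
  congr 1
  refine LinearMap.ext fun v => Subtype.ext ?_
  obtain ⟨w, hw⟩ := v.2
  simp only [LinearMap.restrict_apply, LinearMap.comp_apply]
  rw [← hw, ← Matrix.toLin'_mul_apply P P, hP]

/-- At most `2 (r - 1)` unordered-pair weight on `r` points forces one exceptional point. -/
theorem exists_exceptional {J β : Type*} [Fintype J] [DecidableEq J] [DecidableEq β] (f : J → β)
    (N : J → J → ℤ) (hN : ∀ j k, f j ≠ f k → 1 ≤ N j k) (hN0 : ∀ j k, f j = f k → N j k = 0)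
    (hsum : ∑ j, ∑ k, N j k = 2 * ((Fintype.card J : ℤ) - 1)) (hJ : 2 ≤ Fintype.card J) :
    ∃ j₀, (∀ j k, j ≠ j₀ → k ≠ j₀ → f j = f k) ∧ ∀ k, k ≠ j₀ → N j₀ k = 1 := by
  classical
  obtain ⟨j, k₁, hne⟩ : ∃ j k, f j ≠ f k := by
    by_contra h
    push Not at h
    rw [Finset.sum_eq_zero fun j _ => Finset.sum_eq_zero fun k _ => hN0 j k (h j k)] at hsum
    omega
  set I : J → J → ℤ := fun a b => if f a = f b then 0 else 1 with hI
  have hle : ∀ a b, I a b ≤ N a b := by
    intro a b
    simp only [hI]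
    split_ifs with h
    · exact (hN0 a b h).ge
    · exact hN a b h
  set K : J → J → ℤ := fun a b => if (f a = f j ↔ f b = f j) then 0 else 1 with hK
  have hle2 : ∀ a b, K a b ≤ I a b := by
    intro a b
    simp only [hK, hI]
    split_ifs with h1 h2 h2
    · exact le_rfl
    · exact zero_le_one
    · exact absurd (by rw [h2]) h1
    · exact le_rfl
  set A := Finset.univ.filter fun k => f k = f j with hA
  have hAn : (A.card : ℤ) + (Finset.univ.filter fun k => ¬ f k = f j).card = Fintype.card J := by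
    exact_mod_cast Finset.card_filter_add_card_filter_not (s := Finset.univ) (fun k => f k = f j)
  set B := Finset.univ.filter fun k => ¬ f k = f j with hB
  have hKsum : ∑ a, ∑ b, K a b = 2 * ((A.card : ℤ) * B.card) := by
    have h1 : ∀ a, ∑ b, K a b = if f a = f j then (B.card : ℤ) else A.card := by
      intro a
      by_cases ha : f a = f j
      · rw [if_pos ha]
        simp only [hK, ha, true_iff]
        rw [Finset.sum_ite, Finset.sum_const_zero, zero_add, Finset.sum_const, nsmul_one]
      · rw [if_neg ha]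
        simp only [hK, ha, false_iff, ite_not]
        rw [Finset.sum_ite, Finset.sum_const_zero, add_zero, Finset.sum_const, nsmul_one]
    rw [Finset.sum_congr rfl fun a _ => h1 a, Finset.sum_ite, Finset.sum_const, Finset.sum_const]
    simp only [nsmul_eq_mul, ← hA, ← hB]
    ring
  have hAB : (A.card : ℤ) * B.card ≤ (Fintype.card J : ℤ) - 1 := by
    have := Finset.sum_le_sum fun a (_ : a ∈ Finset.univ) => Finset.sum_le_sum
      fun b (_ : b ∈ Finset.univ) => (hle2 a b).trans (hle a b)
    rw [hKsum, hsum] at this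
    omega
  have hA1 : 1 ≤ (A.card : ℤ) := by
    exact_mod_cast Finset.card_pos.2 ⟨j, by simp [hA]⟩
  have hB1 : 1 ≤ (B.card : ℤ) := by
    exact_mod_cast Finset.card_pos.2 ⟨k₁, by simp [hB, Ne.symm hne]⟩
  have hor : A.card = 1 ∨ B.card = 1 := by
    by_contra h
    push Not at h
    have h1 : (2 : ℤ) ≤ A.card := by omega
    have h2 : (2 : ℤ) ≤ B.card := by omega
    nlinarith
  have heq : ∀ a b, N a b = K a b := by
    have htot : ∑ a, ∑ b, (N a b - K a b) = 0 := by
      simp only [Finset.sum_sub_distrib]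
      rw [hsum, hKsum]
      rcases hor with h | h <;> rw [h] at hAn ⊢ <;> push_cast at hAn ⊢ <;> linarith
    intro a b
    have hnn : ∀ a b, 0 ≤ N a b - K a b := fun a b => sub_nonneg.2 ((hle2 a b).trans (hle a b))
    have h1 := (Finset.sum_eq_zero_iff_of_nonneg fun a _ => Finset.sum_nonneg fun b _ => hnn a b).1
      htot a (Finset.mem_univ a)
    have h2 := (Finset.sum_eq_zero_iff_of_nonneg fun b _ => hnn a b).1 h1 b (Finset.mem_univ b)
    omega
  have hkey : ∀ a b, (f a = f j ↔ f b = f j) → f a = f b := by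
    intro a b h
    by_contra hab
    have := hN a b hab
    rw [heq] at this
    simp [hK, h] at this
  obtain ⟨j₀, S, hS, hj₀, hmem⟩ : ∃ j₀, ∃ S : Prop, ∃ _ : (f j₀ = f j ↔ S), True ∧
      ∀ k, k ≠ j₀ → ¬(f k = f j ↔ S) := by
    rcases hor with h | h
    · obtain ⟨x, hx⟩ := Finset.card_eq_one.1 h
      refine ⟨x, True, by simpa [hA] using (hx ▸ Finset.mem_singleton_self x : x ∈ A), trivial,
        fun k hk hk' => hk ?_⟩
      exact Finset.mem_singleton.1 (hx ▸ (by simpa [hA] using hk' : k ∈ A))
    · obtain ⟨x, hx⟩ := Finset.card_eq_one.1 h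
      refine ⟨x, False, by simpa [hB] using (hx ▸ Finset.mem_singleton_self x : x ∈ B), trivial,
        fun k hk hk' => hk ?_⟩
      exact Finset.mem_singleton.1 (hx ▸ (by simpa [hB] using hk' : k ∈ B))
  refine ⟨j₀, fun a b ha hb => hkey a b ?_, fun k hk => ?_⟩
  · have := hmem a ha; have := hmem b hb; tauto
  · rw [heq]
    have := hmem k hk
    simp only [hK]
    rw [if_neg]
    tauto

variable {r n : ℕ} [Fact r.Prime] {C : Type*} [Group C] [Finite C]

theorem exists_linear_of_traces (M : C →* Matrix (Fin n) (Fin n) ℂ)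
    (X : AddChar (ZMod r) (Matrix (Fin n) (Fin n) ℂ)) (hXM : ∀ x i, M x * X i = X i * M x)
    (habs : ∀ x : C, ∀ i : ZMod r, i ≠ 0 →
      (M x * X i).trace * conj ((M x * X i).trace) = 1)
    {ψ : AddChar (ZMod r) ℂ} (hψ : ψ.IsPrimitive) :
    ∃ (j₀ : ZMod r) (ε : ℂ) (lam : C →* ℂ), (ε = 1 ∨ ε = -1) ∧
      ∀ x : C, ∀ i : ZMod r, i ≠ 0 → (M x * X i).trace = ε * ψ (i * j₀) * lam x := by
  classical
  haveI : Fintype C := Fintype.ofFinite C
  have hr : (r : ℂ) ≠ 0 := Nat.cast_ne_zero.2 (Fact.out : r.Prime).ne_zero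
  have horth : ∀ b : ZMod r, ∑ x : ZMod r, ψ (x * b) = if b = 0 then (r : ℂ) else 0 := by
    intro b
    rw [AddChar.sum_mulShift b hψ, ZMod.card]
    split_ifs <;> simp
  set P : ZMod r → Matrix (Fin n) (Fin n) ℂ :=
    fun j => (r : ℂ)⁻¹ • ∑ i, ψ (-(i * j)) • X i with hP
  have hXP : ∀ i j, X i * P j = ψ (i * j) • P j := by
    intro i j
    simp only [hP, Finset.mul_sum, Matrix.mul_smul, smul_comm (ψ (i * j)), Finset.smul_sum, smul_smul]
    refine Fintype.sum_equiv (Equiv.addLeft i) _ _ fun k => ?_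
    simp only [Equiv.coe_addLeft, AddChar.map_add_eq_mul X]
    congr 1
    rw [mul_assoc, ← AddChar.map_add_eq_mul]
    congr 2
    ring
  have hidem : ∀ j, P j * P j = P j := by
    intro j
    conv_lhs => lhs; rw [hP]
    simp only [Matrix.smul_mul, Finset.sum_mul, hXP, smul_smul, ← AddChar.map_add_eq_mul,
      neg_add_cancel, AddChar.map_zero_eq_one, one_smul, Finset.sum_const, Finset.card_univ,
      ZMod.card]
    rw [← Nat.cast_smul_eq_nsmul ℂ, smul_smul, inv_mul_cancel₀ hr, one_smul]
  have hPM : ∀ x j, M x * P j = P j * M x := by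
    intro x j
    simp only [hP, Matrix.mul_smul, Matrix.smul_mul, Finset.mul_sum, Finset.sum_mul, hXM]
  set f : ZMod r → C → ℂ := fun j x => (M x * P j).trace with hf
  have hchar : ∀ j, IsCharacter C (f j) := fun j => isCharacter_trace_proj M (hidem j) fun x => hPM x j
  have hF : ∀ x i, (M x * X i).trace = ∑ j, ψ (i * j) * f j x := by
    intro x i
    have h : ∑ j, ψ (i * j) • P j = X i := by
      simp only [hP, Finset.smul_sum, smul_smul]
      rw [Finset.sum_comm]
      have : ∀ k, ∑ j, (ψ (i * j) * ((r : ℂ)⁻¹ * ψ (-(k * j)))) • X k =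
          (if i - k = 0 then (1 : ℂ) else 0) • X k := by
        intro k
        rw [← Finset.sum_smul]
        congr 1
        calc ∑ j, ψ (i * j) * ((r : ℂ)⁻¹ * ψ (-(k * j)))
            = (r : ℂ)⁻¹ * ∑ j, ψ (j * (i - k)) := by
              rw [Finset.mul_sum]
              refine Finset.sum_congr rfl fun j _ => ?_
              rw [show j * (i - k) = i * j + -(k * j) by ring, AddChar.map_add_eq_mul]
              ring
          _ = _ := by
              rw [horth]
              split_ifs <;> simp [hr]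
      rw [Finset.sum_congr rfl fun k _ => this k]
      simp [sub_eq_zero, ite_smul]
    simp only [hf]
    rw [← h, Finset.mul_sum, Matrix.trace_sum]
    simp
  -- Parseval at every point
  have hpoint : ∀ x, ∑ j, ∑ k, (f j x - f k x) * conj (f j x - f k x) = 2 * ((r : ℂ) - 1) := by
    intro x
    have hpars : ∑ i, (M x * X i).trace * conj ((M x * X i).trace) =
        (r : ℂ) * ∑ j, f j x * conj (f j x) := by
      simp only [hF, map_sum, Finset.sum_mul, Finset.mul_sum, map_mul]
      rw [Finset.sum_comm]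
      refine Finset.sum_congr rfl fun j _ => ?_
      rw [Finset.sum_comm]
      rw [Finset.sum_eq_single j]
      · have : ∀ i, ψ (i * j) * f j x * (conj (ψ (i * j)) * conj (f j x)) = f j x * conj (f j x) := by
          intro i
          rw [show conj (ψ (i * j)) = ψ (-(i * j)) from (AddChar.map_neg_eq_conj ψ _).symm]
          rw [show ψ (i * j) * f j x * (ψ (-(i * j)) * conj (f j x)) =
            ψ (i * j) * ψ (-(i * j)) * (f j x * conj (f j x)) by ring, ← AddChar.map_add_eq_mul,
            add_neg_cancel, AddChar.map_zero_eq_one, one_mul]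
        rw [Finset.sum_congr rfl fun i _ => this i, Finset.sum_const, Finset.card_univ, ZMod.card,
          nsmul_eq_mul]
      · intro k _ hk
        have : ∀ i, ψ (i * k) * f k x * (conj (ψ (i * j)) * conj (f j x)) =
            ψ (i * (k - j)) * (f k x * conj (f j x)) := by
          intro i
          rw [show conj (ψ (i * j)) = ψ (-(i * j)) from (AddChar.map_neg_eq_conj ψ _).symm,
            show i * (k - j) = i * k + -(i * j) by ring, AddChar.map_add_eq_mul]
          ring
        rw [Finset.sum_congr rfl fun i _ => this i, ← Finset.sum_mul, horth,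
          if_neg (sub_ne_zero.2 hk), zero_mul]
      · exact fun h => absurd (Finset.mem_univ j) h
    rw [← Finset.add_sum_erase _ _ (Finset.mem_univ (0 : ZMod r)), AddChar.map_zero_eq_one, mul_one,
      Finset.sum_congr rfl fun i hi => habs x i (Finset.ne_of_mem_erase hi), Finset.sum_const,
      Finset.card_erase_of_mem (Finset.mem_univ _), Finset.card_univ, ZMod.card, nsmul_one,
      Nat.cast_sub (Fact.out : r.Prime).one_lt.le, Nat.cast_one] at hpars
    have h0 : (M x).trace = ∑ j, f j x := by
      have := hF x 0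
      simpa using this
    rw [h0] at hpars
    simp only [map_sub, sub_mul, mul_sub, Finset.sum_sub_distrib, Finset.sum_const, Finset.card_univ,
      ZMod.card, nsmul_eq_mul, ← Finset.mul_sum, ← Finset.sum_mul]
    rw [map_sum] at hpars
    linear_combination -(2 : ℂ) * hpars
  have hD : ∀ j k, IsGeneralizedCharacter C (f j - f k) := fun j k =>
    ⟨f j, f k, hchar j, hchar k, rfl⟩
  choose N hN using fun j k => exists_classInner_eq_int (hD j k) (hD j k)
  have hre : ∀ θ : C → ℂ, classInner θ θ =
      (((Nat.card C : ℝ)⁻¹ * ∑ x, Complex.normSq (θ x) : ℝ) : ℂ) := by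
    intro θ
    simp [classInner, Complex.mul_conj]
  have hzero : ∀ j k, N j k = 0 → f j = f k := by
    intro j k h
    have h1 := hN j k
    rw [hre, h, Int.cast_zero, Complex.ofReal_eq_zero] at h1
    have h2 := (Finset.sum_eq_zero_iff_of_nonneg fun x _ => Complex.normSq_nonneg _).1
      ((mul_eq_zero.1 h1).resolve_left (inv_ne_zero (Nat.cast_ne_zero.2 Nat.card_pos.ne')))
    funext x
    exact sub_eq_zero.1 (Complex.normSq_eq_zero.1 (h2 x (Finset.mem_univ x)))
  have hnn : ∀ j k, 0 ≤ N j k := by
    intro j k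
    have h1 := hN j k
    rw [hre, ← Complex.ofReal_intCast, Complex.ofReal_inj] at h1
    have : (0 : ℝ) ≤ (N j k : ℝ) := h1 ▸ mul_nonneg (by positivity)
      (Finset.sum_nonneg fun x _ => Complex.normSq_nonneg _)
    exact_mod_cast this
  have hcardC : (Nat.card C : ℂ) ≠ 0 := Nat.cast_ne_zero.2 Nat.card_pos.ne'
  have hsum : ∑ j, ∑ k, N j k = 2 * ((Fintype.card (ZMod r) : ℤ) - 1) := by
    rw [ZMod.card]
    have : ((∑ j, ∑ k, N j k : ℤ) : ℂ) = 2 * ((r : ℂ) - 1) := by
      push_cast
      simp only [← hN, classInner, ← Finset.mul_sum, Pi.sub_apply]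
      rw [Finset.sum_congr rfl fun j _ => Finset.sum_comm, Finset.sum_comm,
        Finset.sum_congr rfl fun x _ => hpoint x, Finset.sum_const, Finset.card_univ,
        ← Nat.card_eq_fintype_card, nsmul_eq_mul, ← mul_assoc, inv_mul_cancel₀ hcardC, one_mul]
    exact_mod_cast this
  obtain ⟨j₀, hj₀, hone⟩ := exists_exceptional f N
    (fun j k h => lt_of_le_of_ne (hnn j k) fun h' => h (hzero j k h'.symm))
    (fun j k h => by
      have h1 := hN j k
      rw [h, sub_self, classInner_zero_left] at h1
      exact_mod_cast h1.symm)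
    hsum (by rw [ZMod.card]; exact (Fact.out : r.Prime).two_le)
  obtain ⟨k, hk⟩ : ∃ k, k ≠ j₀ := exists_ne j₀
  set D := f j₀ - f k
  have hform : ∀ x i, i ≠ 0 → (M x * X i).trace = ψ (i * j₀) * D x := by
    intro x i hi
    have hall : ∀ j, f j x = f k x + if j = j₀ then D x else 0 := by
      intro j
      split_ifs with h
      · rw [h]; exact (add_sub_cancel _ _).symm
      · rw [hj₀ j k h hk, add_zero]
    rw [hF, Finset.sum_congr rfl fun j _ => by rw [hall j, mul_add], Finset.sum_add_distrib,
      ← Finset.sum_mul, Finset.sum_congr rfl fun j (_ : j ∈ Finset.univ) => by rw [mul_comm i j],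
      horth, if_neg hi, zero_mul, zero_add]
    simp [mul_comm]
  obtain ⟨i, hi⟩ : ∃ i : ZMod r, i ≠ 0 := exists_ne 0
  have hsq : ∀ x, D x * conj (D x) = 1 := by
    intro x
    have h := habs x i hi
    rwa [hform x i hi, map_mul (starRingEnd ℂ), show conj (ψ (i * j₀)) = ψ (-(i * j₀)) from
      (AddChar.map_neg_eq_conj ψ _).symm, mul_mul_mul_comm, ← AddChar.map_add_eq_mul,
      add_neg_cancel, AddChar.map_zero_eq_one, one_mul] at h
  have hDn : classInner D D = 1 := by rw [hN, hone k hk, Int.cast_one]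
  obtain ⟨ε, χ, hε, hχ, hDχ⟩ : ∃ (ε : ℂ) (χ : C → ℂ), (ε = 1 ∨ ε = -1) ∧ IsIrrCharacter C χ ∧
      D = fun x => ε * χ x := by
    rcases exists_sign_irr_of_norm_one (hD j₀ k) hDn with h | h
    · exact ⟨1, D, Or.inl rfl, h, by simp⟩
    · exact ⟨-1, -D, Or.inr rfl, h, by simp⟩
  have hχ1 : χ 1 = 1 := by
    obtain ⟨d, -, hd⟩ := exists_degree_of_isIrr hχ
    have h := hsq 1
    rw [hDχ] at h
    simp only [map_mul, hd, Complex.conj_natCast] at h
    have h' : (d : ℂ) * d = 1 := by
      rcases hε with rfl | rfl <;> simpa using h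
    rw [hd]
    have : d * d = 1 := by exact_mod_cast h'
    rw [(mul_eq_one.1 this).1, Nat.cast_one]
  let lam : C →* ℂ :=
    { toFun := χ
      map_one' := hχ1
      map_mul' := CfsgLib.RealChar.Extraspecial.linear_mul
        (IsIrrCharacter.isCharacter hχ) hχ1 }
  refine ⟨j₀, ε, lam, hε, fun x i hi => ?_⟩
  rw [hform x i hi, hDχ]
  show ψ (i * j₀) * (ε * χ x) = ε * ψ (i * j₀) * χ x
  ring

end CfsgLib.Correspondences.ExtraExt
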