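import Mathlib
import Cfsg.Agent.Lib.Correspondences.ExtraExtRep
import Cfsg.Agent.Lib.Correspondences.ExtraExtSpectral
import Cfsg.Agent.Lib.RealChar.Extension

/-!
# Lifting a 2-group normalising a fixed-point-free automorphism of odd prime order
-/

set_option autoImplicit false
set_option linter.style.haveILetI false

open Cfsg CfsgLib.CharTheory
open scoped ComplexConjugate

namespace CfsgLib.Correspondences.ExtraExt

variable {G : Type*} [Group G] [Finite G] {E T : Subgroup G} {z : G}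

/-- `T` lifts to a group of operators on the faithful representation of `E`. -/
def Ext (E T : Subgroup G) (z : G) : Prop :=
  ∃ (n : ℕ) (R : Rep E z n) (U : T →* Matrix (Fin n) (Fin n) ℂ),
    ∀ (t : T) (e : E) (h : (t : G) * e * (t : G)⁻¹ ∈ E),
      U t * R.toHom e = R.toHom ⟨(t : G) * e * (t : G)⁻¹, h⟩ * U t

namespace Rep

variable {n : ℕ}

theorem toHom_injective (R : Rep E z n) (hE : IsES E z) : Function.Injective R.toHom := by
  refine (injective_iff_map_eq_one _).2 fun e he => Subtype.ext ?_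
  have hn : (n : ℂ) ≠ 0 := Nat.cast_ne_zero.2 R.n_ne_zero
  by_contra h1
  by_cases hz : (e : G) = z
  · obtain rfl : e = ⟨z, hE.z_mem⟩ := Subtype.ext hz
    have h := congrArg Matrix.trace he
    rw [R.trace_z, Matrix.trace_one, Fintype.card_fin] at h
    exact hn (by linear_combination -h / 2)
  · have h := congrArg Matrix.trace he
    rw [R.trace_eq_zero hE h1 hz, Matrix.trace_one, Fintype.card_fin] at h
    exact hn h.symm

end Rep

omit [Finite G] in
theorem mem_or_of_conj_pow {a : G} {r : ℕ} (hr : r.Prime) (hr2 : r ≠ 2) (hE : IsES E z)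
    (ha : Acts E z a) (hpow : ∀ e ∈ E, a ^ r * e = e * a ^ r)
    (hfix : ∀ e ∈ E, a * e * a⁻¹ = e → e = 1 ∨ e = z) {i : ℕ} (hi : ¬ r ∣ i) {e : G} (he : e ∈ E)
    (h : a ^ i * e * (a ^ i)⁻¹ = e ∨ a ^ i * e * (a ^ i)⁻¹ = z * e) : e = 1 ∨ e = z := by
  have hzc : a ^ i * z = z * a ^ i := (Commute.pow_left (show Commute a z from ha.2) i).eq
  have hri : a ^ i * e = e * a ^ i := by
    rcases h with h | h
    · rw [mul_inv_eq_iff_eq_mul] at h
      exact h
    · exfalso
      rw [mul_inv_eq_iff_eq_mul] at h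
      have hk : ∀ k : ℕ, (a ^ i) ^ k * e = z ^ k * e * (a ^ i) ^ k := by
        intro k
        induction k with
        | zero => simp
        | succ k ih =>
          have hzk : a ^ i * z ^ k = z ^ k * a ^ i := (Commute.pow_right (show Commute (a ^ i) z from hzc) k).eq
          calc (a ^ i) ^ (k + 1) * e = a ^ i * ((a ^ i) ^ k * e) := by rw [pow_succ', mul_assoc]
            _ = (a ^ i * z ^ k) * e * (a ^ i) ^ k := by rw [ih]; simp only [mul_assoc]
            _ = z ^ k * (a ^ i * e) * (a ^ i) ^ k := by rw [hzk]; simp only [mul_assoc]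
            _ = z ^ (k + 1) * e * (a ^ i) ^ (k + 1) := by
              rw [h, pow_succ, pow_succ']; simp only [mul_assoc]
      have h1 := hk r
      rw [← pow_mul, mul_comm i r, pow_mul] at h1
      have h2 : (a ^ r) ^ i * e = e * (a ^ r) ^ i := (Commute.pow_left (hpow e he) i).eq
      rw [h2] at h1
      have h3 : e = z ^ r * e := mul_right_cancel h1
      obtain ⟨j, hj⟩ := hr.odd_of_ne_two hr2
      rw [hj, pow_succ, pow_mul, pow_two, hE.z_sq, one_pow, one_mul] at h3
      exact hE.z_ne (mul_eq_right.1 h3.symm)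
  obtain ⟨k, hk⟩ := Nat.exists_mul_mod_eq_one_of_coprime
    ((hr.coprime_iff_not_dvd.2 hi).symm) hr.one_lt
  refine hfix e he ?_
  rw [mul_inv_eq_iff_eq_mul]
  have hk1 : i * k = r * (i * k / r) + 1 := by
    conv_lhs => rw [← Nat.div_add_mod (i * k) r, hk.2]
  have h1 : a ^ (i * k) * e = e * a ^ (i * k) := by
    rw [pow_mul]; exact (Commute.pow_left hri k).eq
  rw [hk1, pow_succ, pow_mul] at h1
  have h2 : (a ^ r) ^ (i * k / r) * (a * e) = (a ^ r) ^ (i * k / r) * (e * a) := by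
    rw [← mul_assoc, h1, ← mul_assoc, ← mul_assoc,
      ← (Commute.pow_left (show Commute (a ^ r) e from hpow e he) _).eq]
  exact mul_left_cancel h2

/-- Complex conjugation of traces in a finite group of commuting operators. -/
theorem conj_trace_mul_pow {n r : ℕ} [Fact r.Prime] {C : Type*} [Group C] [Finite C]
    (M : C →* Matrix (Fin n) (Fin n) ℂ) (Y : Matrix (Fin n) (Fin n) ℂ) (hY : Y ^ r = 1)
    (hMY : ∀ x, M x * Y = Y * M x) (x : C) (i : ZMod r) :
    conj ((M x * Y ^ i.val).trace) = (Y ^ (-i).val * M x⁻¹).trace := by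
  let Xc : AddChar (ZMod r) (Matrix (Fin n) (Fin n) ℂ) := ⟨fun i => Y ^ i.val, by simp, fun i j => by
    rw [← pow_add, ZMod.val_add, ← pow_eq_pow_mod _ hY]⟩
  let D : C × Multiplicative (ZMod r) →* Matrix (Fin n) (Fin n) ℂ :=
    MonoidHom.noncommCoprod M Xc.toMonoidHom fun a b => Commute.pow_right (hMY a) _
  let Δ : Representation ℂ (C × Multiplicative (ZMod r)) (Fin n → ℂ) :=
    (Matrix.toLinAlgEquiv' : Matrix (Fin n) (Fin n) ℂ ≃ₐ[ℂ] _).toMonoidHom.comp D
  have hΔ : ∀ p, Δ.character p = (D p).trace := fun p => by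
    show LinearMap.trace ℂ _ (Matrix.toLin' (D p)) = _
    rw [Matrix.trace_toLin'_eq]
  have h := isCharacter_inv (isCharacter_character Δ) (x, Multiplicative.ofAdd i)
  rw [hΔ, hΔ] at h
  rw [(Commute.pow_right (hMY x⁻¹) _).symm.eq]
  exact h.symm

/-- **The cyclic case.** -/
theorem ext_cyclic (hE : IsES E z) (hT : IsPGroup 2 T) (hTA : ∀ t ∈ T, Acts E z t)
    {a : G} {r : ℕ} (hr : r.Prime) (hr2 : r ≠ 2) (ha : Acts E z a)
    (hpow : ∀ e ∈ E, a ^ r * e = e * a ^ r)
    (hfix : ∀ e ∈ E, a * e * a⁻¹ = e → e = 1 ∨ e = z)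
    (hnorm : ∀ t ∈ T, ∃ k : ℕ, ∀ e ∈ E, t * a * t⁻¹ * e * (t * a * t⁻¹)⁻¹ = a ^ k * e * (a ^ k)⁻¹)
    (hbig : ∃ e ∈ E, e ≠ 1 ∧ e ≠ z) : Ext E T z := by
  classical
  haveI := Fact.mk hr
  obtain ⟨n, ⟨R⟩⟩ := exists_rep hE
  haveI : Nonempty (Fin n) := ⟨⟨0, Nat.pos_of_ne_zero R.n_ne_zero⟩⟩
  obtain ⟨ζ, hζ⟩ : ∃ ζ : ℂ, IsPrimitiveRoot ζ r := ⟨_, Complex.isPrimitiveRoot_exp r hr.ne_zero⟩
  set ψ : AddChar (ZMod r) ℂ := AddChar.zmodChar r hζ.pow_eq_one with hψdef
  have hψ : ψ.IsPrimitive := AddChar.zmodChar_primitive_of_primitive_root r hζ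
  -- the operator of `a`
  have haN : ∀ (i : ℕ) (e : E), a ^ i * (e : G) * (a ^ i)⁻¹ ∈ E := fun i e =>
    (Subgroup.mem_normalizer_iff.1 (Subgroup.pow_mem _ ha.1 i) (e : G)).1 e.2
  obtain ⟨X₀, hX₀d, hX₀⟩ := R.exists_det_one hE ha
  have hpowint : ∀ (Y : Matrix (Fin n) (Fin n) ℂ), (∀ e, Y * R.toHom e = R.toHom (conjE ha e) * Y) →
      ∀ (i : ℕ) (e : E), Y ^ i * R.toHom e = R.toHom ⟨a ^ i * e * (a ^ i)⁻¹, haN i e⟩ * Y ^ i := by
    intro Y hY i
    induction i with
    | zero => intro e; simp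
    | succ i ih =>
      intro e
      calc Y ^ (i + 1) * R.toHom e = Y ^ i * (Y * R.toHom e) := by rw [pow_succ, mul_assoc]
        _ = R.toHom ⟨a ^ i * (conjE ha e : G) * (a ^ i)⁻¹, haN i _⟩ * Y ^ (i + 1) := by
          rw [hY, ← mul_assoc, ih, mul_assoc, ← pow_succ]
        _ = _ := by
          congr 3
          simp [pow_succ, mul_assoc]
  have hrpow : ∀ e : E, (⟨a ^ r * e * (a ^ r)⁻¹, haN r e⟩ : E) = e := fun e =>
    Subtype.ext (by simp [hpow e e.2, mul_assoc])
  obtain ⟨c, hc⟩ := R.exists_scalar hE (X := X₀ ^ r) fun e => by rw [hpowint X₀ hX₀ r e, hrpow]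
  have hc0 : c ≠ 0 := by
    rintro rfl
    have := congrArg Matrix.det hc
    rw [Matrix.det_pow, hX₀d, one_pow, zero_smul, Matrix.det_zero] at this
    exact one_ne_zero this
  obtain ⟨s, hs⟩ := IsAlgClosed.exists_pow_nat_eq c⁻¹ hr.pos
  set X₁ := s • X₀ with hX₁
  have hX₁r : X₁ ^ r = 1 := by rw [hX₁, smul_pow, hc, smul_smul, hs, inv_mul_cancel₀ hc0, one_smul]
  have hX₁i : ∀ e, X₁ * R.toHom e = R.toHom (conjE ha e) * X₁ := fun e => by
    rw [hX₁, Matrix.smul_mul, Matrix.mul_smul, hX₀ e]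
  -- powers as an additive character
  let mkX : ∀ (Y : Matrix (Fin n) (Fin n) ℂ), Y ^ r = 1 → AddChar (ZMod r) (Matrix (Fin n) (Fin n) ℂ) :=
    fun Y hY => ⟨fun i => Y ^ i.val, by simp, fun i j => by
      rw [← pow_add, ZMod.val_add, ← pow_eq_pow_mod _ hY]⟩
  -- absolute values
  have habs : ∀ (Y : Matrix (Fin n) (Fin n) ℂ) (hY : Y ^ r = 1),
      (∀ e, Y * R.toHom e = R.toHom (conjE ha e) * Y) →
      ∀ (u u' : Matrix (Fin n) (Fin n) ℂ) (t : G) (N : ℕ), u * u' = 1 → u * Y = Y * u →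
        (∀ e : E, ∃ h : t * e * t⁻¹ ∈ E, u * R.toHom e = R.toHom ⟨t * e * t⁻¹, h⟩ * u) →
        (∀ e : E, u ^ N * R.toHom e = R.toHom e * u ^ N) → ¬ r ∣ N →
        ∀ i : ZMod r, i ≠ 0 → (u * mkX Y hY i).trace * (mkX Y hY (-i) * u').trace = 1 := by
    intro Y hY hYi u u' t N huu hcom hint hN hrN i hi
    have hY1 : mkX Y hY i * mkX Y hY (-i) = 1 := by
      rw [← AddChar.map_add_eq_mul, add_neg_cancel, AddChar.map_zero_eq_one]
    have htE : t ∈ Subgroup.normalizer (E : Set G) := by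
      refine Subgroup.mem_normalizer_fintype fun e he => (hint ⟨e, he⟩).1
    have hta : ∀ e : E, t * (a ^ i.val * (e : G) * (a ^ i.val)⁻¹) * t⁻¹ ∈ E := fun e =>
      (Subgroup.mem_normalizer_iff.1 htE _).1 (haN i.val e)
    let α : E →* E :=
      { toFun := fun e => ⟨t * (a ^ i.val * (e : G) * (a ^ i.val)⁻¹) * t⁻¹, hta e⟩
        map_one' := Subtype.ext (by simp)
        map_mul' := fun e f => Subtype.ext (by simp [mul_assoc]) }
    have hα : ∀ e, u * mkX Y hY i * R.toHom e = R.toHom (α e) * (u * mkX Y hY i) := by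
      intro e
      obtain ⟨h, h'⟩ := hint ⟨_, haN i.val e⟩
      calc u * Y ^ i.val * R.toHom e
          = u * (R.toHom ⟨_, haN i.val e⟩ * Y ^ i.val) := by rw [mul_assoc, hpowint Y hYi]
        _ = R.toHom (α e) * (u * Y ^ i.val) := by rw [← mul_assoc, h', mul_assoc]; rfl
    refine R.trace_mul_trace hE (X := u * mkX Y hY i) (X' := mkX Y hY (-i) * u')
      (by rw [mul_assoc, ← mul_assoc (mkX Y hY i), hY1, one_mul, huu]) α (fun h => ?_) (fun e he => ?_) hα
    · refine R.toHom_injective hE ?_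
      have h1 := hα ⟨z, h⟩
      rw [R.neg h, mul_neg, mul_one, ← neg_one_mul, ← R.neg h] at h1
      have h2 : u * mkX Y hY i * (mkX Y hY (-i) * u') = 1 := by
        rw [mul_assoc, ← mul_assoc (mkX Y hY i), hY1, one_mul, huu]
      have h3 := congrArg (· * (mkX Y hY (-i) * u')) h1
      simp only [mul_assoc _ (u * mkX Y hY i), h2, mul_one] at h3
      exact h3.symm
    · -- `u X^i` commutes with `e` up to sign, so some power of `a` does
      set M := u * Y ^ i.val with hM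
      obtain ⟨σ, hσ, hMe⟩ : ∃ σ : ℂ, (σ = 1 ∨ σ = -1) ∧ M * R.toHom e = σ • (R.toHom e * M) := by
        rcases he with he | he
        · refine ⟨1, Or.inl rfl, ?_⟩
          have hMα : M * R.toHom e = R.toHom (α e) * M := hα e
          rw [hMα, one_smul, show α e = e from Subtype.ext (mul_inv_eq_one.1 he).symm]
        · refine ⟨-1, Or.inr rfl, ?_⟩
          have h' : α e = ⟨z, hE.z_mem⟩ * e := Subtype.ext (by
            have h4 := (mul_inv_eq_iff_eq_mul.1 he)
            show (α e : G) = z * e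
            rw [h4, ← mul_assoc, hE.z_sq, one_mul])
          have hMα : M * R.toHom e = R.toHom (α e) * M := hα e
          rw [hMα, h', map_mul, R.neg, neg_one_smul, neg_one_mul, neg_mul]
      have hpowM : ∀ k : ℕ, M ^ k * R.toHom e = σ ^ k • (R.toHom e * M ^ k) := by
        intro k
        induction k with
        | zero => simp
        | succ k ih => rw [pow_succ, mul_assoc, hMe, Matrix.mul_smul, ← mul_assoc, ih, Matrix.smul_mul,
            smul_smul, mul_assoc, ← pow_succ']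
      have hcomm : Commute u (Y ^ i.val) := Commute.pow_right hcom _
      have h1 := hpowM N
      rw [hM, hcomm.mul_pow, ← pow_mul] at h1
      obtain ⟨d, hd⟩ := R.exists_scalar hE (X := u ^ N) hN
      have hd0 : d ≠ 0 := by
        rintro rfl
        have := congrArg (· * u' ^ N) hd
        simp only [zero_smul, zero_mul] at this
        rw [← Commute.mul_pow (show Commute u u' by
          show u * u' = u' * u
          rw [huu, mul_eq_one_comm.1 huu]), huu, one_pow] at this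
        exact one_ne_zero this
      rw [hd, Matrix.smul_mul, one_mul, Matrix.smul_mul, Matrix.mul_smul, hpowint Y hYi,
        smul_comm] at h1
      have h1' := smul_right_injective (Matrix (Fin n) (Fin n) ℂ) hd0 h1
      have hYinv : Y ^ (i.val * N) * Y ^ ((r - 1) * (i.val * N)) = 1 := by
        rw [← pow_add, show i.val * N + (r - 1) * (i.val * N) = r * (i.val * N) by
          rw [Nat.sub_mul, one_mul, ← Nat.add_sub_assoc (Nat.le_mul_of_pos_left _ hr.pos)]; omega,
          pow_mul, hY, one_pow]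
      have h2 := congrArg (· * Y ^ ((r - 1) * (i.val * N))) h1'
      simp only [Matrix.smul_mul, mul_assoc, hYinv, mul_one] at h2
      have hiN : ¬ r ∣ i.val * N := fun h => (hr.dvd_mul.1 h).elim (fun h' => hi (by
        rw [← ZMod.natCast_zmod_val i]; exact (ZMod.natCast_eq_zero_iff _ _).2 h')) hrN
      refine mem_or_of_conj_pow hr hr2 hE ha hpow hfix hiN e.2 ?_
      have hσN : σ ^ N = 1 ∨ σ ^ N = -1 := by
        rcases hσ with rfl | rfl
        · exact Or.inl (one_pow N)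
        · exact neg_one_pow_eq_or ℂ N
      rcases hσN with h' | h'
      · left
        rw [h', one_smul] at h2
        simpa [mul_assoc] using congrArg Subtype.val (R.toHom_injective hE h2)
      · right
        rw [h', neg_one_smul, ← neg_one_mul (R.toHom e), ← R.neg hE.z_mem, ← map_mul] at h2
        simpa [mul_assoc] using congrArg Subtype.val (R.toHom_injective hE h2)
  -- normalising the operator of `a`
  have hone : ∀ (Y : Matrix (Fin n) (Fin n) ℂ), Y ^ r = 1 →
      (∀ e, Y * R.toHom e = R.toHom (conjE ha e) * Y) →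
      ∃ (j₀ : ZMod r) (ε : ℂ), (ε = 1 ∨ ε = -1) ∧ ∀ i : ZMod r, i ≠ 0 →
        (Y ^ i.val).trace = ε * ψ (i * j₀) := by
    intro Y hY hYi
    obtain ⟨j₀, ε, lam, hε, h⟩ := exists_linear_of_traces (C := Unit) 1 (mkX Y hY)
      (fun x i => by simp) (fun x i hi => by
        simp only [MonoidHom.one_apply, one_mul]
        show (Y ^ i.val).trace * conj ((Y ^ i.val).trace) = 1
        have h1 := conj_trace_mul_pow (1 : Unit →* Matrix (Fin n) (Fin n) ℂ) Y hY (fun _ => by simp) () i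
        simp only [MonoidHom.one_apply, one_mul, mul_one] at h1
        rw [h1]
        have h2 := habs Y hY hYi 1 1 1 1 (one_mul 1) (by simp)
          (fun e => ⟨by simp, by simp⟩) (by simp) hr.not_dvd_one i hi
        rw [one_mul, mul_one] at h2
        exact h2) hψ
    refine ⟨j₀, ε, hε, fun i hi => ?_⟩
    have h' := h () i hi
    simp only [MonoidHom.one_apply, one_mul] at h'
    rw [show lam () = 1 from map_one lam, mul_one] at h'
    exact h'
  obtain ⟨j₀, ε, hε, hj₀⟩ := hone X₁ hX₁r hX₁i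
  set X := ψ (-j₀) • X₁ with hX
  have hψr : ∀ j, ψ j ^ r = 1 := fun j => by
    rw [← AddChar.map_nsmul_eq_pow, nsmul_eq_mul, ZMod.natCast_self, zero_mul, AddChar.map_zero_eq_one]
  have hXr : X ^ r = 1 := by rw [hX, smul_pow, hψr, one_smul, hX₁r]
  have hXi : ∀ e, X * R.toHom e = R.toHom (conjE ha e) * X := fun e => by
    rw [hX, Matrix.smul_mul, Matrix.mul_smul, hX₁i e]
  have hXtr : ∀ i : ZMod r, i ≠ 0 → (X ^ i.val).trace = ε := by
    intro i hi
    rw [hX, smul_pow, Matrix.trace_smul, hj₀ i hi, ← AddChar.map_nsmul_eq_pow, nsmul_eq_mul,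
      ZMod.natCast_zmod_val, smul_eq_mul, mul_left_comm, ← AddChar.map_add_eq_mul, mul_neg,
      neg_add_cancel, AddChar.map_zero_eq_one, mul_one]
  have hε0 : ε ≠ 0 := by rcases hε with rfl | rfl <;> norm_num
  have hX1 : X ≠ 1 := by
    intro h
    obtain ⟨e, he, h1, hz⟩ := hbig
    refine (hfix e he ?_).elim h1 hz
    have h2 := hXi ⟨e, he⟩
    rw [h, one_mul, mul_one] at h2
    exact congrArg Subtype.val (R.toHom_injective hE h2).symm
  let Xc := mkX X hXr
  have hXinj : Function.Injective Xc := by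
    intro i j hij
    by_contra hne
    have h0 : Xc (i - j) = 1 := by
      rw [sub_eq_add_neg, AddChar.map_add_eq_mul, hij, ← AddChar.map_add_eq_mul, add_neg_cancel,
        AddChar.map_zero_eq_one]
    set d := i - j with hd
    have hd0 : d ≠ 0 := sub_ne_zero.2 hne
    refine hX1 ?_
    have h1 : Xc 1 = 1 := by
      have := congrArg (· ^ (d⁻¹).val) h0
      simp only [one_pow, ← AddChar.map_nsmul_eq_pow, nsmul_eq_mul, ZMod.natCast_zmod_val,
        inv_mul_cancel₀ hd0] at this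
      exact this
    simpa [Xc, mkX, ZMod.val_one] using h1
  -- the group of liftings
  have htN : ∀ (t : T) (e : E), (t : G) * e * (t : G)⁻¹ ∈ E := fun t e =>
    acts_mem_conj (hTA t t.2) e.2
  let Tt : Subgroup (T × (Matrix (Fin n) (Fin n) ℂ)ˣ) :=
    { carrier := {p | (p.2 : Matrix (Fin n) (Fin n) ℂ).det = 1 ∧
        ∀ e : E, (p.2 : Matrix (Fin n) (Fin n) ℂ) * R.toHom e = R.toHom ⟨_, htN p.1 e⟩ * p.2}
      one_mem' := ⟨by simp, fun e => by simp⟩
      mul_mem' := by
        rintro p q ⟨hp1, hp2⟩ ⟨hq1, hq2⟩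
        refine ⟨by simp [hp1, hq1], fun e => ?_⟩
        rw [Prod.snd_mul, Units.val_mul, mul_assoc, hq2, ← mul_assoc, hp2, mul_assoc]
        congr 3
        simp [mul_assoc]
      inv_mem' := by
        rintro p ⟨hp1, hp2⟩
        refine ⟨?_, fun e => ?_⟩
        · rw [Prod.snd_inv]
          have := congrArg Matrix.det p.2.inv_mul
          rwa [Matrix.det_mul, hp1, mul_one, Matrix.det_one] at this
        · have h := hp2 ⟨_, htN p.1⁻¹ e⟩
          rw [show (⟨_, htN p.1 ⟨_, htN p.1⁻¹ e⟩⟩ : E) = e from Subtype.ext (by simp [mul_assoc])] at h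
          show ((p.2⁻¹ : (Matrix (Fin n) (Fin n) ℂ)ˣ) : Matrix (Fin n) (Fin n) ℂ) * R.toHom e =
            R.toHom ⟨_, htN p.1⁻¹ e⟩ * ((p.2⁻¹ : (Matrix (Fin n) (Fin n) ℂ)ˣ) : Matrix (Fin n) (Fin n) ℂ)
          rw [Units.inv_mul_eq_iff_eq_mul, ← mul_assoc, h, mul_assoc, Units.mul_inv, mul_one] }
  have hlift : ∀ t : T, ∃ p : Tt, (p : T × (Matrix (Fin n) (Fin n) ℂ)ˣ).1 = t := by
    intro t
    obtain ⟨u, hu1, hu2⟩ := R.exists_det_one hE (hTA t t.2)
    have hu : IsUnit u := (Matrix.isUnit_iff_isUnit_det u).2 (by rw [hu1]; exact isUnit_one)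
    exact ⟨⟨(t, hu.unit), hu1, fun e => hu2 e⟩, rfl⟩
  choose lift hlift using hlift
  have hfib : ∀ p q : Tt, (p : T × (Matrix (Fin n) (Fin n) ℂ)ˣ).1 = (q : T × (Matrix (Fin n) (Fin n) ℂ)ˣ).1 → ∃ c : ℂ, c ^ n = 1 ∧
      ((p : T × (Matrix (Fin n) (Fin n) ℂ)ˣ).2 : Matrix (Fin n) (Fin n) ℂ) =
        c • ((q : T × (Matrix (Fin n) (Fin n) ℂ)ˣ).2 : Matrix (Fin n) (Fin n) ℂ) := by
    intro p q hpq
    have hm := (q⁻¹ * p).2.2
    obtain ⟨c, hc⟩ := R.exists_scalar hE
      (X := (((q⁻¹ * p : Tt) : T × (Matrix (Fin n) (Fin n) ℂ)ˣ).2 : Matrix (Fin n) (Fin n) ℂ)) fun e => by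
        rw [hm e]
        congr 2
        apply Subtype.ext
        simp [hpq]
    refine ⟨c, ?_, ?_⟩
    · have h := (q⁻¹ * p).2.1
      rwa [hc, Matrix.det_smul, Matrix.det_one, mul_one, Fintype.card_fin] at h
    · have h := congrArg (fun M => ((q : T × (Matrix (Fin n) (Fin n) ℂ)ˣ).2 :
        Matrix (Fin n) (Fin n) ℂ) * M) hc
      simp only [Subgroup.coe_mul, Subgroup.coe_inv, Prod.snd_mul, Prod.snd_inv, Units.val_mul,
        Units.mul_inv_cancel_left, Matrix.mul_smul, mul_one] at h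
      exact h
  haveI : Finite Tt := by
    haveI : Finite {c : ℂ // c ^ n = 1} :=
      ((Polynomial.nthRootsFinset n (1 : ℂ)).finite_toSet.subset (fun c hc =>
        (Polynomial.mem_nthRootsFinset (Nat.pos_of_ne_zero R.n_ne_zero) (1 : ℂ)).2 hc)).to_subtype
    choose c hcn hc using fun p => hfib p (lift (p : T × (Matrix (Fin n) (Fin n) ℂ)ˣ).1) (hlift _).symm
    refine Finite.of_injective (fun p : Tt => ((p : T × (Matrix (Fin n) (Fin n) ℂ)ˣ).1, (⟨c p, hcn p⟩ : {c : ℂ // c ^ n = 1})))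
      fun p q h => ?_
    simp only [Prod.mk.injEq, Subtype.mk.injEq] at h
    apply Subtype.ext
    refine Prod.ext h.1 (Units.ext ?_)
    rw [hc p, hc q, h.2, h.1]
  -- action on the powers of `X`
  have hκex : ∀ p : Tt, ∃ k : ZMod r,
      ((p : T × (Matrix (Fin n) (Fin n) ℂ)ˣ).2 : Matrix (Fin n) (Fin n) ℂ) * Xc 1 =
        Xc k * ((p : T × (Matrix (Fin n) (Fin n) ℂ)ˣ).2 : Matrix (Fin n) (Fin n) ℂ) := by
    intro p
    obtain ⟨⟨t, u⟩, hud, hui⟩ := p
    obtain ⟨k, hk⟩ := hnorm t t.2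
    refine ⟨(k : ZMod r), ?_⟩
    have hX1v : Xc 1 = X := by simp [Xc, mkX, ZMod.val_one]
    have hXk : Xc (k : ZMod r) = X ^ k := by
      show X ^ ((k : ZMod r).val) = _
      rw [ZMod.val_natCast, ← pow_eq_pow_mod _ hXr]
    rw [hX1v, hXk]
    set Y := (u : Matrix (Fin n) (Fin n) ℂ) * X * ((u⁻¹ : (Matrix (Fin n) (Fin n) ℂ)ˣ) : Matrix (Fin n) (Fin n) ℂ) with hY
    have hYr : Y ^ r = 1 := by
      rw [hY, Units.conj_pow, hXr, mul_one, Units.mul_inv]
    have hYe : ∀ e : E, Y * R.toHom e = R.toHom ⟨a ^ k * e * (a ^ k)⁻¹, haN k e⟩ * Y := by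
      intro e
      set f : E := ⟨_, htN t⁻¹ e⟩ with hf
      have hfe : (⟨_, htN t f⟩ : E) = e := Subtype.ext (by simp [hf, mul_assoc])
      have h1 : ((u⁻¹ : (Matrix (Fin n) (Fin n) ℂ)ˣ) : Matrix (Fin n) (Fin n) ℂ) * R.toHom e =
          R.toHom f * ((u⁻¹ : (Matrix (Fin n) (Fin n) ℂ)ˣ) : Matrix (Fin n) (Fin n) ℂ) := by
        rw [Units.inv_mul_eq_iff_eq_mul, ← mul_assoc, hui f, hfe, mul_assoc, Units.mul_inv, mul_one]
      rw [hY, mul_assoc, h1, ← mul_assoc, mul_assoc (u : Matrix (Fin n) (Fin n) ℂ), hXi, ← mul_assoc,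
        hui, mul_assoc _ (u : Matrix (Fin n) (Fin n) ℂ), mul_assoc]
      congr 2
      apply Subtype.ext
      show (t : G) * (a * ((t : G)⁻¹ * (e : G) * ((t : G)⁻¹)⁻¹) * a⁻¹) * (t : G)⁻¹ = a ^ k * e * (a ^ k)⁻¹
      rw [← hk e e.2]
      group
    have hk0 : (k : ZMod r) ≠ 0 := by
      intro hk0
      obtain ⟨e, he, h1, hz⟩ := hbig
      have hee : ∀ e : E, a ^ k * (e : G) * (a ^ k)⁻¹ = e := by
        intro e
        obtain ⟨q, rfl⟩ := (ZMod.natCast_eq_zero_iff _ _).1 hk0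
        rw [pow_mul, (Commute.pow_left (show Commute (a ^ r) (e : G) from hpow e e.2) q).eq,
          mul_inv_cancel_right]
      set f : G := (t : G)⁻¹ * e * (t : G) with hf
      have hfE : f ∈ E := by
        simpa [hf] using htN t⁻¹ ⟨e, he⟩
      have h2 : a * f * a⁻¹ = f := by
        have h3 := hk e he
        rw [show a ^ k * e * (a ^ k)⁻¹ = e from hee ⟨e, he⟩] at h3
        calc a * f * a⁻¹ = (t : G)⁻¹ * ((t : G) * a * (t : G)⁻¹ * e * ((t : G) * a * (t : G)⁻¹)⁻¹) *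
              (t : G) := by rw [hf]; group
          _ = f := by rw [h3]
      rcases hfix f hfE h2 with h | h
      · exact h1 (by rw [show e = (t : G) * f * (t : G)⁻¹ by rw [hf]; group, h]; group)
      · exact hz (by
          rw [show e = (t : G) * f * (t : G)⁻¹ by rw [hf]; group, h, (hTA t t.2).2]; group)
    obtain ⟨d, hd⟩ := R.exists_scalar hE (X := Y * Xc (-(k : ZMod r))) fun e => by
      have hXk' : ∀ e : E, Xc (-(k : ZMod r)) * R.toHom ⟨a ^ k * e * (a ^ k)⁻¹, haN k e⟩ =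
          R.toHom e * Xc (-(k : ZMod r)) := by
        intro e
        have h1 : X ^ k * R.toHom e = R.toHom ⟨a ^ k * e * (a ^ k)⁻¹, haN k e⟩ * X ^ k :=
          hpowint X hXi k e
        have hi1 : Xc (-(k : ZMod r)) * X ^ k = 1 := by
          rw [← hXk, ← AddChar.map_add_eq_mul, neg_add_cancel, AddChar.map_zero_eq_one]
        have h2 := congrArg (fun M => Xc (-(k : ZMod r)) * M * Xc (-(k : ZMod r))) h1
        simp only [← mul_assoc, hi1, one_mul] at h2
        rw [mul_assoc _ (X ^ k), mul_eq_one_comm.1 hi1, mul_one] at h2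
        exact h2.symm
      set f : E := ⟨(a ^ k)⁻¹ * (e : G) * ((a ^ k)⁻¹)⁻¹,
        (Subgroup.mem_normalizer_iff.1 (Subgroup.inv_mem _ (Subgroup.pow_mem _ ha.1 k)) _).1 e.2⟩
      have hfe : (⟨a ^ k * f * (a ^ k)⁻¹, haN k f⟩ : E) = e := Subtype.ext (by simp [f, mul_assoc])
      have h5 := hXk' f
      rw [hfe] at h5
      rw [mul_assoc, h5, ← mul_assoc, hYe, hfe, mul_assoc]
    have hYd : Y = d • X ^ k := by
      have h := congrArg (· * X ^ k) hd
      simp only [Matrix.smul_mul, one_mul] at h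
      rwa [mul_assoc, ← hXk, ← AddChar.map_add_eq_mul, neg_add_cancel, AddChar.map_zero_eq_one,
        mul_one, hXk] at h
    have hdr : d ^ r = 1 := by
      have h := hYr
      rw [hYd, smul_pow, ← pow_mul, mul_comm k r, pow_mul, hXr, one_pow] at h
      have h2 := congrArg Matrix.trace h
      rw [Matrix.trace_smul, Matrix.trace_one, smul_eq_mul, Fintype.card_fin] at h2
      exact mul_eq_right₀ (Nat.cast_ne_zero.2 R.n_ne_zero) |>.1 h2
    have htrY : Y.trace = ε := by
      rw [hY, Matrix.trace_units_conj]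
      simpa [ZMod.val_one] using hXtr 1 one_ne_zero
    have htrk : (X ^ k).trace = ε := by rw [← hXk]; exact hXtr _ hk0
    have hd1 : d = 1 := by
      rw [hYd, Matrix.trace_smul, htrk, smul_eq_mul] at htrY
      exact (mul_eq_right₀ hε0).1 htrY
    rw [hd1, one_smul, hY, Units.mul_inv_eq_iff_eq_mul] at hYd
    exact hYd
  choose κ hκ using hκex
  have hκpow : ∀ (p : Tt) (i : ZMod r),
      ((p : T × (Matrix (Fin n) (Fin n) ℂ)ˣ).2 : Matrix (Fin n) (Fin n) ℂ) * Xc i =
        Xc (i * κ p) * ((p : T × (Matrix (Fin n) (Fin n) ℂ)ˣ).2 : Matrix (Fin n) (Fin n) ℂ) := by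
    intro p i
    have hnat : ∀ m : ℕ, ((p : T × (Matrix (Fin n) (Fin n) ℂ)ˣ).2 : Matrix (Fin n) (Fin n) ℂ) *
        Xc (m : ZMod r) = Xc ((m : ZMod r) * κ p) *
          ((p : T × (Matrix (Fin n) (Fin n) ℂ)ˣ).2 : Matrix (Fin n) (Fin n) ℂ) := by
      intro m
      induction m with
      | zero => simp
      | succ m ih =>
        rw [Nat.cast_succ, AddChar.map_add_eq_mul, ← mul_assoc, ih, mul_assoc, hκ, ← mul_assoc,
          ← AddChar.map_add_eq_mul, add_mul, one_mul]
    simpa using hnat i.val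
  have hκmul : ∀ p q : Tt, κ (p * q) = κ p * κ q := by
    intro p q
    refine hXinj ((((p * q : Tt) : T × (Matrix (Fin n) (Fin n) ℂ)ˣ).2).isUnit.mul_left_injective ?_)
    simp only
    rw [← hκ (p * q)]
    simp only [Subgroup.coe_mul, Prod.snd_mul, Units.val_mul]
    rw [mul_assoc, hκ q, ← mul_assoc, hκpow p, mul_comm (κ q), mul_assoc]
  let κh : Tt →* ZMod r :=
    { toFun := κ
      map_one' := hXinj (by have := hκ 1; simpa using this.symm)
      map_mul' := hκmul }
  set C := κh.ker with hC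
  have hCcomm : ∀ (x : C) (i : ZMod r),
      (((x : Tt) : T × (Matrix (Fin n) (Fin n) ℂ)ˣ).2 : Matrix (Fin n) (Fin n) ℂ) * Xc i =
        Xc i * (((x : Tt) : T × (Matrix (Fin n) (Fin n) ℂ)ˣ).2 : Matrix (Fin n) (Fin n) ℂ) := by
    intro x i
    have := hκpow (x : Tt) i
    rwa [show κ (x : Tt) = 1 from x.2, mul_one] at this
  let M : C →* Matrix (Fin n) (Fin n) ℂ :=
    ((Units.coeHom _).comp ((MonoidHom.snd T _).comp Tt.subtype)).comp C.subtype
  obtain ⟨m, hm⟩ := IsPGroup.iff_card.1 hT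
  obtain ⟨j₁, ε', lam, hε', hlam⟩ := exists_linear_of_traces M Xc
    (fun x i => hCcomm x i) (fun x i hi => by
      obtain ⟨⟨⟨t, u⟩, hud, hui⟩, hxC⟩ := x
      show ((u : Matrix (Fin n) (Fin n) ℂ) * Xc i).trace * conj (((u : Matrix (Fin n) (Fin n) ℂ) * Xc i).trace) = 1
      set x : C := ⟨⟨⟨t, u⟩, hud, hui⟩, hxC⟩
      have hx1 := hCcomm x 1
      have huX : (u : Matrix (Fin n) (Fin n) ℂ) * X = X * u := by
        simpa [x, Xc, mkX, ZMod.val_one] using hx1
      have hconj := conj_trace_mul_pow M X hXr (fun y => by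
        have := hCcomm y 1
        simp [Xc, mkX, ZMod.val_one] at this
        exact this) x i
      show _ * conj ((M x * X ^ i.val).trace) = 1
      rw [hconj]
      refine habs X hXr hXi u ((u⁻¹ : (Matrix (Fin n) (Fin n) ℂ)ˣ) : Matrix (Fin n) (Fin n) ℂ)
        (t : G) (2 ^ m) (Units.mul_inv u) huX (fun e => ⟨htN t e, hui e⟩) ?_ ?_ i hi
      · intro e
        have htm : t ^ (2 ^ m) = 1 := hm ▸ pow_card_eq_one'
        have hmem := ((⟨(t, u), hud, hui⟩ : Tt) ^ (2 ^ m)).2.2 e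
        simp only [Subgroup.coe_pow, Prod.pow_mk, Units.val_pow_eq_pow_val] at hmem
        rw [hmem]
        congr 2
        apply Subtype.ext
        have htm' : (t : G) ^ 2 ^ m = 1 := by exact_mod_cast congrArg Subtype.val htm
        simp [htm']
      · exact fun h => hr2 ((Nat.prime_dvd_prime_iff_eq hr Nat.prime_two).1 (hr.dvd_of_dvd_pow h))) hψ
  have hlamX : ∀ (x : C) (i : ZMod r), i ≠ 0 → (M x * Xc i).trace = ε * lam x := by
    intro x i hi
    have h := hlam x i hi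
    have h1 := hlam 1 i hi
    rw [map_one, map_one, one_mul, mul_one] at h1
    have : Xc i = X ^ i.val := rfl
    rw [this, hXtr i hi] at h1
    rw [h, ← h1]
  have hinv : ∀ (p : Tt) (x : C), lam ⟨p * x * p⁻¹, (MonoidHom.normal_ker κh).conj_mem x x.2 p⟩ =
      lam x := by
    intro p x
    set y : C := ⟨p * x * p⁻¹, (MonoidHom.normal_ker κh).conj_mem x x.2 p⟩
    have hi : (κ p⁻¹ : ZMod r) ≠ 0 := by
      intro h0
      have h1 := hκmul p⁻¹ p
      rw [inv_mul_cancel, h0, zero_mul, show κ (1 : Tt) = 1 from κh.map_one] at h1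
      exact one_ne_zero h1
    refine mul_left_cancel₀ hε0 ?_
    rw [← hlamX y 1 one_ne_zero, ← hlamX x _ hi]
    have hy : M y = ((p : T × (Matrix (Fin n) (Fin n) ℂ)ˣ).2 : Matrix (Fin n) (Fin n) ℂ) * M x *
        (((p⁻¹ : Tt) : T × (Matrix (Fin n) (Fin n) ℂ)ˣ).2 : Matrix (Fin n) (Fin n) ℂ) := rfl
    rw [hy, mul_assoc, hκ p⁻¹, ← mul_assoc, Matrix.trace_mul_comm, ← mul_assoc, ← mul_assoc,
      show (((p⁻¹ : Tt) : T × (Matrix (Fin n) (Fin n) ℂ)ˣ).2 : Matrix (Fin n) (Fin n) ℂ) *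
        ((p : T × (Matrix (Fin n) (Fin n) ℂ)ˣ).2 : Matrix (Fin n) (Fin n) ℂ) = 1 from by
        simp, one_mul]
  haveI : IsCyclic (Tt ⧸ C) := by
    let κu : Tt →* (ZMod r)ˣ := κh.toHomUnits
    have hker : κu.ker = C := by
      ext x
      simp [κu, hC, MonoidHom.mem_ker, Units.ext_iff]
    let f : Tt ⧸ C →* (ZMod r)ˣ := QuotientGroup.lift C κu (by rw [hker])
    exact isCyclic_of_injective f ((MonoidHom.ker_eq_bot_iff f).1
      (by rw [QuotientGroup.ker_lift, hker, QuotientGroup.map_mk'_self]))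
  haveI : Fintype C := Fintype.ofFinite _
  let Λ : Representation ℂ C (Fin 1 → ℂ) :=
    { toFun := fun x => lam x • (1 : Module.End ℂ (Fin 1 → ℂ))
      map_one' := by rw [map_one, one_smul]
      map_mul' := fun x y => by rw [map_mul, smul_mul_smul_comm, one_mul] }
  have hΛ : Λ.character = fun x => lam x := by
    funext x
    show LinearMap.trace ℂ _ (lam x • (1 : Module.End ℂ (Fin 1 → ℂ))) = _
    rw [map_smul, LinearMap.trace_one, Module.finrank_fin_fun]
    simp
  have hirr : IsIrrCharacter C (fun x => lam x) :=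
    CfsgLib.RealChar.Extraspecial.linear_isIrr (hΛ ▸ isCharacter_character Λ) (map_one lam)
  obtain ⟨ν, hν, hνC⟩ := CfsgLib.RealChar.exists_extension_character_of_cyclic C inferInstance
    (fun x => lam x) hirr fun p x => hinv p x
  have hν1 : ν 1 = 1 := by
    have := hνC 1
    rw [Subgroup.coe_one, map_one] at this
    exact this
  have hνmul := CfsgLib.RealChar.Extraspecial.linear_mul (IsIrrCharacter.isCharacter hν) hν1
  have hscal : ∀ p : Tt, (p : T × (Matrix (Fin n) (Fin n) ℂ)ˣ).1 = 1 →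
      ((p : T × (Matrix (Fin n) (Fin n) ℂ)ˣ).2 : Matrix (Fin n) (Fin n) ℂ) = ν p • 1 := by
    intro p hp
    obtain ⟨c, -, hc⟩ := hfib p 1 (by simpa using hp)
    simp only [OneMemClass.coe_one, Prod.snd_one, Units.val_one] at hc
    have hpC : p ∈ C := hXinj (by
      have h := hκ p
      rw [hc, Matrix.smul_mul, Matrix.mul_smul, one_mul, mul_one] at h
      exact (smul_right_injective _ (fun h0 => by
        subst h0
        rw [zero_smul] at hc
        exact (Units.ne_zero _) hc) h).symm)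
    have h := hlamX ⟨p, hpC⟩ 1 one_ne_zero
    have hM' : M ⟨p, hpC⟩ = c • 1 := hc
    rw [hM', Matrix.smul_mul, one_mul, Matrix.trace_smul, show (Xc 1).trace = ε from hXtr 1 one_ne_zero,
      smul_eq_mul, mul_comm] at h
    rw [hc, mul_left_cancel₀ hε0 h, hνC ⟨p, hpC⟩]
  let U₀ : Tt →* Matrix (Fin n) (Fin n) ℂ :=
    { toFun := fun p => ν p⁻¹ • ((p : T × (Matrix (Fin n) (Fin n) ℂ)ˣ).2 : Matrix (Fin n) (Fin n) ℂ)
      map_one' := by simp [hν1]
      map_mul' := fun p q => by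
        simp only [Subgroup.coe_mul, Prod.snd_mul, Units.val_mul, mul_inv_rev]
        rw [hνmul, Matrix.smul_mul, Matrix.mul_smul, smul_smul, mul_comm (ν q⁻¹)] }
  have hU0 : ∀ p q : Tt, (p : T × (Matrix (Fin n) (Fin n) ℂ)ˣ).1 = (q : T × (Matrix (Fin n) (Fin n) ℂ)ˣ).1 → U₀ p = U₀ q := by
    intro p q h
    have h1 : U₀ (q⁻¹ * p) = 1 := by
      simp only [U₀, MonoidHom.coe_mk, OneHom.coe_mk]
      rw [hscal (q⁻¹ * p) (by simp [h]), smul_smul, ← hνmul, inv_mul_cancel, hν1, one_smul]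
    have h2 : U₀ q * U₀ (q⁻¹ * p) = U₀ p := by rw [← map_mul, mul_inv_cancel_left]
    rw [← h2, h1, mul_one]
  refine ⟨n, R, ⟨⟨fun t => U₀ (lift t), ?_⟩, fun s t => ?_⟩, fun t e h => ?_⟩
  · rw [hU0 (lift 1) 1 (hlift 1), map_one]
  · show U₀ (lift (s * t)) = U₀ (lift s) * U₀ (lift t)
    rw [hU0 (lift (s * t)) (lift s * lift t) (by simp [hlift]), map_mul]
  · show U₀ (lift t) * R.toHom e = _ * U₀ (lift t)
    show ν _ • _ * R.toHom e = _ * (ν _ • _)
    rw [Matrix.smul_mul, Matrix.mul_smul, (lift t).2.2 e]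
    congr 3
    apply Subtype.ext
    simp [hlift t]

end CfsgLib.Correspondences.ExtraExt
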