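import Cfsg.Agent.Lib.Correspondences.ExtraExtMain

/-!
# The induction for lifting a 2-group normalising an odd group
-/

set_option autoImplicit false
set_option linter.style.haveILetI false

open Cfsg
open scoped commutatorElement

namespace CfsgLib.Correspondences.ExtraExt

variable {G : Type*} [Group G] [Finite G] {E T : Subgroup G} {z : G}

/-- The inductive hypothesis: smaller groups of extraspecial type already lift. -/
def Below (E : Subgroup G) (z : G) : Prop :=
  ∀ E' T' K : Subgroup G, Nat.card E' < Nat.card E → IsES E' z → IsPGroup 2 T' →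
    (∀ t ∈ T', Acts E' z t) → (∀ k ∈ K, Acts E' z k) → Odd (Nat.card K) →
    (∀ t ∈ T', ∀ k ∈ K, t * k * t⁻¹ ∈ K) →
    (∀ e ∈ E', e ∈ Subgroup.centralizer (K : Set G) → e = 1 ∨ e = z) → Ext E' T' z

theorem card_lt_of_ne {A B : Subgroup G} (h : A ≤ B) (hne : A ≠ B) : Nat.card A < Nat.card B :=
  lt_of_le_of_ne (Subgroup.card_le_of_le h) fun hc =>
    hne (Subgroup.eq_of_le_of_card_ge h hc.ge)

/-- A proper nontrivial invariant piece of extraspecial type splits the problem. -/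
theorem ext_split (hE : IsES E z) (hT : IsPGroup 2 T) (hTA : ∀ t ∈ T, Acts E z t)
    {K : Subgroup G} (hK : ∀ k ∈ K, Acts E z k) (hKodd : Odd (Nat.card K))
    (hnorm : ∀ t ∈ T, ∀ k ∈ K, t * k * t⁻¹ ∈ K)
    (hfix : ∀ e ∈ E, e ∈ Subgroup.centralizer (K : Set G) → e = 1 ∨ e = z)
    (IH : Below E z) {F : Subgroup G} (hF : IsES F z) (hFE : F ≤ E) (hne : F ≠ E)
    (hbig : ∃ e ∈ F, e ≠ 1 ∧ e ≠ z) (hFT : ∀ t ∈ T, ∀ x ∈ F, t * x * t⁻¹ ∈ F)
    (hFK : ∀ k ∈ K, ∀ x ∈ F, k * x * k⁻¹ ∈ F) : Ext E T z := by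
  obtain ⟨hsup, hF'⟩ := exists_dual hE hF hFE
  set F' := E ⊓ Subgroup.centralizer (F : Set G) with hF'def
  have hF'E : F' ≤ E := inf_le_left
  have hcomm : ∀ a ∈ F, ∀ b ∈ F', a * b = b * a := fun a ha b hb =>
    Subgroup.mem_centralizer_iff.1 hb.2 a ha
  have hne' : F' ≠ E := by
    intro h
    obtain ⟨e, he, he1, hez⟩ := hbig
    exact (hE.center e (hFE he) fun f hf => hcomm e he f (h.symm ▸ hf)).elim he1 hez
  have hinv : ∀ L : Subgroup G, (∀ g ∈ L, Acts E z g) → (∀ g ∈ L, ∀ x ∈ F, g * x * g⁻¹ ∈ F) →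
      ∀ g ∈ L, Acts F' z g := fun L hL hLF g hg =>
    ⟨Subgroup.mem_normalizer_fintype fun x hx => inter_conj_mem (hL g hg).1
      (fun b hb => by simpa using hLF g⁻¹ (inv_mem hg) b hb) hx, (hL g hg).2⟩
  have h₁ : ∀ t ∈ T, Acts F z t := Acts.mono hFT fun t ht => (hTA t ht).2
  have h₂ : ∀ t ∈ T, Acts F' z t := hinv T hTA hFT
  refine ext_tensor hF hF' hcomm (fun a ha ha' => ?_) hsup h₁ h₂
    (IH F T K (card_lt_of_ne hFE hne) hF hT h₁ (Acts.mono hFK fun k hk => (hK k hk).2) hKodd hnorm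
      fun e he h => hfix e (hFE he) h)
    (IH F' T K (card_lt_of_ne hF'E hne') hF' hT h₂ (hinv K hK hFK) hKodd hnorm
      fun e he h => hfix e (hF'E he) h)
  exact hF.center a ha fun b hb => (hcomm b hb a ha').symm

theorem ext_trivial (hE : IsES E z) (hTA : ∀ t ∈ T, Acts E z t)
    (h : ∀ e ∈ E, e = 1 ∨ e = z) : Ext E T z := by
  obtain ⟨n, ⟨R⟩⟩ := exists_rep hE
  refine ⟨n, R, 1, fun t e hm => ?_⟩
  have : (⟨(t : G) * e * (t : G)⁻¹, hm⟩ : E) = e := by
    apply Subtype.ext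
    rcases h e e.2 with he | he
    · simp [he]
    · simp [he, (hTA t t.2).2]
  rw [this, MonoidHom.one_apply, one_mul, mul_one]

/-- Distinct maximal members have commuting fixed-point groups. -/
theorem AbHyp.fixed_comm (hE : IsES E z) {A B B' : Subgroup G} {r : ℕ} (hA : AbHyp E T A z r)
    (hBA : B ≤ A) (hB'A : B' ≤ A) (hnormB : ∀ a ∈ A, ∀ b ∈ B, a * b * a⁻¹ ∈ B)
    (hgen : ∀ b ∈ A, b ∉ B → B ⊔ Subgroup.zpowers b = A) {b : G} (hb : b ∈ B') (hbB : b ∉ B)
    {f g : G} (hf : f ∈ E ⊓ Subgroup.centralizer (B : Set G))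
    (hg : g ∈ E ⊓ Subgroup.centralizer (B' : Set G)) : f * g = g * f := by
  classical
  set Q := E ⊓ Subgroup.centralizer (B : Set G) with hQ
  have hbA := hB'A hb
  have hzb : b * z = z * b := (hA.acts b hbA).2
  have hQb : ∀ x ∈ Q, b * x * b⁻¹ ∈ Q := fun x hx => inter_conj_mem (hA.acts b hbA).1
    (fun w hw => by simpa using hnormB b⁻¹ (inv_mem hbA) w hw) hx
  have hzQ : z ∈ Q := ⟨hE.z_mem, Subgroup.mem_centralizer_iff.2 fun w hw => (hA.acts w (hBA hw)).2⟩
  have hfree : ∀ x ∈ Q, b * x * b⁻¹ = x → x = 1 ∨ x = z := by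
    intro x hx hbx
    refine hA.fixed x hx.1 ?_
    rw [← hgen b hbA hbB]
    have hle : B ⊔ Subgroup.zpowers b ≤ Subgroup.centralizer ({x} : Set G) :=
      sup_le (fun w hw => Subgroup.mem_centralizer_singleton_iff.2
        (Subgroup.mem_centralizer_iff.1 hx.2 w hw))
        (Subgroup.zpowers_le.2 (Subgroup.mem_centralizer_singleton_iff.2 (mul_inv_eq_iff_eq_mul.1 hbx)))
    exact Subgroup.mem_centralizer_iff.2 fun w hw => Subgroup.mem_centralizer_singleton_iff.1 (hle hw)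
  let Φ : Q → Q := fun x => x⁻¹ * ⟨b * x * b⁻¹, hQb x x.2⟩
  let zQ : Q := ⟨z, hzQ⟩
  have hcancel : ∀ {x y : Q}, ((x : G)⁻¹ * (b * x * b⁻¹) = (y : G)⁻¹ * (b * y * b⁻¹)) →
      y = x ∨ y = zQ * x := by
    intro x y h
    rw [inv_mul_eq_iff_eq_mul, ← mul_assoc] at h
    have h' : b * ((y : G) * (x : G)⁻¹) * b⁻¹ = (y : G) * (x : G)⁻¹ := by
      calc b * ((y : G) * (x : G)⁻¹) * b⁻¹ = (b * y * b⁻¹) * (b * x * b⁻¹)⁻¹ := by group
        _ = (y : G) * (x : G)⁻¹ := by rw [h]; group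
    rcases hfree _ (Q.mul_mem y.2 (inv_mem x.2)) h' with h'' | h''
    · exact Or.inl (Subtype.ext (mul_inv_eq_one.1 h''))
    · exact Or.inr (Subtype.ext (mul_inv_eq_iff_eq_mul.1 h''))
  haveI := Fintype.ofFinite Q
  set I := Finset.univ.image Φ with hI
  have h1 : (Finset.univ : Finset Q).card ≤ 2 * I.card :=
    Finset.card_le_mul_card_image (f := Φ) (s := Finset.univ) 2 fun c hc => by
      obtain ⟨x, -, rfl⟩ := Finset.mem_image.1 hc
      refine (Finset.card_le_card (t := {x, zQ * x}) fun y hy => ?_).trans Finset.card_le_two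
      rcases hcancel (congrArg Subtype.val (Finset.mem_filter.1 hy).2).symm with rfl | rfl <;> simp
  have hdisj : Disjoint I (I.image (zQ * ·)) := by
    rw [Finset.disjoint_left]
    intro c hc hc'
    obtain ⟨x, -, rfl⟩ := Finset.mem_image.1 hc
    obtain ⟨d, hd, hdc⟩ := Finset.mem_image.1 hc'
    obtain ⟨y, -, rfl⟩ := Finset.mem_image.1 hd
    have h : z * ((y : G)⁻¹ * (b * y * b⁻¹)) = (x : G)⁻¹ * (b * x * b⁻¹) := congrArg Subtype.val hdc
    rw [eq_inv_mul_iff_mul_eq, ← mul_assoc, ← hE.z_comm x x.2.1, mul_assoc, ← mul_assoc (x : G)] at h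
    have hflip : b * ((x : G) * (y : G)⁻¹) * b⁻¹ = z * ((x : G) * (y : G)⁻¹) := by
      calc b * ((x : G) * (y : G)⁻¹) * b⁻¹ = (b * x * b⁻¹) * (b * y * b⁻¹)⁻¹ := by group
        _ = _ := by rw [← h]; group
    exact false_of_flip hA.odd hE.z_sq hE.z_ne hzb
      (Subgroup.mem_centralizer_iff.1 (hA.pow b hbA) _ (E.mul_mem x.2.1 (inv_mem y.2.1))).symm hflip
  have huniv : I ∪ I.image (zQ * ·) = Finset.univ := Finset.eq_univ_of_card _ (by
    have h2 := Finset.card_union_of_disjoint hdisj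
    rw [Finset.card_image_of_injective _ (mul_right_injective zQ)] at h2
    have h3 := Finset.card_le_univ (I ∪ I.image (zQ * ·))
    rw [Finset.card_univ] at h1
    omega)
  -- images of `Φ` commute with `g`
  have hΦ : ∀ x : Q, ((Φ x : Q) : G) * g = g * (Φ x : Q) := by
    intro x
    obtain ⟨c, hc, hxg⟩ : ∃ c, (c = 1 ∨ c = z) ∧ (x : G) * g = c * (g * x) := by
      rcases hE.mul_comm_cases hg.1 x.2.1 with h | h
      · exact ⟨1, Or.inl rfl, by rw [h, one_mul]⟩
      · exact ⟨z, Or.inr rfl, h⟩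
    have hcb : b * c = c * b := by rcases hc with rfl | rfl <;> simp [hzb]
    have hcx : (x : G) * c = c * x := by
      rcases hc with rfl | rfl
      · simp
      · exact (hE.z_comm x x.2.1).symm
    have hbg : b * g = g * b := Subgroup.mem_centralizer_iff.1 hg.2 b hb
    have hbg' : b⁻¹ * g = g * b⁻¹ := (Commute.inv_left (show Commute b g from hbg)).eq
    have h1 : b * x * b⁻¹ * g = c * (g * (b * x * b⁻¹)) := by
      calc b * x * b⁻¹ * g = b * ((x : G) * g) * b⁻¹ := by rw [mul_assoc, hbg']; simp [mul_assoc]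
        _ = (b * c) * (g * x) * b⁻¹ := by rw [hxg]; simp [mul_assoc]
        _ = c * ((b * g) * x * b⁻¹) := by rw [hcb]; simp [mul_assoc]
        _ = c * (g * (b * x * b⁻¹)) := by rw [hbg]; simp [mul_assoc]
    have h2 : g * (x : G)⁻¹ = (x : G)⁻¹ * (c * g) := by
      rw [mul_inv_eq_iff_eq_mul, eq_comm, mul_assoc, mul_assoc, inv_mul_eq_iff_eq_mul, hxg]
    show (x : G)⁻¹ * (b * x * b⁻¹) * g = g * ((x : G)⁻¹ * (b * x * b⁻¹))
    rw [mul_assoc, h1, ← mul_assoc c, ← mul_assoc (x : G)⁻¹, ← h2, mul_assoc]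
  have hfI : (⟨f, hf⟩ : Q) ∈ I ∪ I.image (zQ * ·) := by rw [huniv]; exact Finset.mem_univ _
  rcases Finset.mem_union.1 hfI with h | h
  · obtain ⟨x, -, hx⟩ := Finset.mem_image.1 h
    have := hΦ x
    rwa [show ((Φ x : Q) : G) = f from congrArg Subtype.val hx] at this
  · obtain ⟨d, hd, hdc⟩ := Finset.mem_image.1 h
    obtain ⟨x, -, rfl⟩ := Finset.mem_image.1 hd
    have : z * ((Φ x : Q) : G) = f := congrArg Subtype.val hdc
    rw [← this, mul_assoc, hΦ x, ← mul_assoc, hE.z_comm g hg.1, mul_assoc]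

theorem ext_of_abHyp (hE : IsES E z) (hT : IsPGroup 2 T) (hTA : ∀ t ∈ T, Acts E z t)
    {A : Subgroup G} {r : ℕ} (hA : AbHyp E T A z r) (hbig : ∃ e ∈ E, e ≠ 1 ∧ e ≠ z)
    (IH : Below E z) : Ext E T z := by
  classical
  obtain ⟨B, hBA, hKB, ⟨e₀, he₀, he₀1, he₀z⟩, hBne, hgen, hnormB⟩ := hA.exists_max hE hbig
  set Q := E ⊓ Subgroup.centralizer (B : Set G) with hQ
  by_cases hQE : Q = E
  · obtain ⟨b, hbA, hbB⟩ := SetLike.exists_of_lt (lt_of_le_of_ne hBA hBne)
    have hBc : ∀ w ∈ B, ∀ e ∈ E, w * e = e * w := fun w hw e he =>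
      Subgroup.mem_centralizer_iff.1 (hQE.symm.le he).2 w hw
    refine ext_cyclic hE hT hTA hA.prime (fun h => absurd (h ▸ hA.odd) (by decide)) (hA.acts b hbA)
      (fun e he => (Subgroup.mem_centralizer_iff.1 (hA.pow b hbA) e he).symm) (fun e he hbe => ?_)
      (fun t ht => ?_) hbig
    · refine hA.fixed e he ?_
      rw [← hgen b hbA hbB]
      have hle : B ⊔ Subgroup.zpowers b ≤ Subgroup.centralizer ({e} : Set G) :=
        sup_le (fun w hw => Subgroup.mem_centralizer_singleton_iff.2 (hBc w hw e he))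
          (Subgroup.zpowers_le.2 (Subgroup.mem_centralizer_singleton_iff.2 (mul_inv_eq_iff_eq_mul.1 hbe)))
      exact Subgroup.mem_centralizer_iff.2 fun w hw => Subgroup.mem_centralizer_singleton_iff.1 (hle hw)
    · have hle : Subgroup.zpowers b ≤ Subgroup.normalizer (B : Set G) :=
        Subgroup.zpowers_le.2 (Subgroup.mem_normalizer_fintype fun w hw => hnormB b hbA w hw)
      have hm : t * b * t⁻¹ ∈ ((B ⊔ Subgroup.zpowers b : Subgroup G) : Set G) := by
        rw [hgen b hbA hbB]; exact hA.norm t ht b hbA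
      rw [Subgroup.coe_mul_of_right_le_normalizer_left _ _ hle] at hm
      obtain ⟨w, hw, v, hv, hwv⟩ := Set.mem_mul.1 hm
      obtain ⟨k, rfl⟩ := (isOfFinOrder_of_finite b).mem_powers_iff_mem_zpowers.2 hv
      refine ⟨k, fun e he => ?_⟩
      have hm' : b ^ k * e * (b ^ k)⁻¹ ∈ E :=
        (Subgroup.mem_normalizer_iff.1 (Subgroup.pow_mem _ (hA.acts b hbA).1 k) e).1 he
      rw [← hwv]
      calc w * b ^ k * e * (w * b ^ k)⁻¹ = w * (b ^ k * e * (b ^ k)⁻¹) * w⁻¹ := by group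
        _ = b ^ k * e * (b ^ k)⁻¹ := by rw [hBc w hw _ hm', mul_inv_cancel_right]
  · -- the conjugates of `Q`
    let Bc : G → Subgroup G := fun g => B.map (MulAut.conj g).toMonoidHom
    have hmemBc : ∀ g x, x ∈ Bc g ↔ g⁻¹ * x * g ∈ B := fun g x => by
      simp only [Bc, Subgroup.mem_map]
      constructor
      · rintro ⟨w, hw, rfl⟩
        simpa [MulAut.conj_apply, mul_assoc] using hw
      · exact fun h => ⟨_, h, by simp [MulAut.conj_apply, mul_assoc]⟩
    let Qc : G → Subgroup G := fun g => E ⊓ Subgroup.centralizer (Bc g : Set G)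
    have hQc1 : Qc 1 = Q := by
      have : Bc 1 = B := by ext x; simp [hmemBc]
      simp only [Qc, this, hQ]
    have hBcA : ∀ t ∈ T, Bc t ≤ A := fun t ht x hx => by
      have := hA.norm t ht _ (hBA ((hmemBc t x).1 hx))
      simpa [mul_assoc] using this
    have hQcA : ∀ t ∈ T, ∀ a ∈ A, ∀ x ∈ Qc t, a * x * a⁻¹ ∈ Qc t := fun t ht a ha x hx =>
      inter_conj_mem (hA.acts a ha).1 (fun w hw => by
        rw [hmemBc] at hw ⊢
        have h := hnormB (t⁻¹ * a⁻¹ * t)
          (by simpa using hA.norm t⁻¹ (inv_mem ht) a⁻¹ (inv_mem ha)) _ hw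
        simpa [mul_assoc] using h) hx
    have hQconj : ∀ s ∈ T, ∀ g, ∀ x ∈ Qc g, s * x * s⁻¹ ∈ Qc (s * g) := by
      intro s hs g x hx
      refine ⟨acts_mem_conj (hTA s hs) hx.1, Subgroup.mem_centralizer_iff.2 fun w hw => ?_⟩
      have hw' : s⁻¹ * w * s ∈ Bc g := by
        rw [SetLike.mem_coe, hmemBc] at hw
        rw [hmemBc]
        simpa [mul_assoc] using hw
      have h := Subgroup.mem_centralizer_iff.1 hx.2 _ hw'
      calc w * (s * x * s⁻¹) = s * ((s⁻¹ * w * s) * x) * s⁻¹ := by group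
        _ = s * (x * (s⁻¹ * w * s)) * s⁻¹ := by rw [h]
        _ = s * x * s⁻¹ * w := by group
    have hpair : ∀ t ∈ T, ∀ u ∈ T, Bc t ≠ Bc u → ∀ f ∈ Qc t, ∀ g ∈ Qc u, f * g = g * f := by
      intro t ht u hu hne f hf g hg
      obtain ⟨b, hb, hb'⟩ : ∃ b ∈ Bc u, b ∉ Bc t := by
        by_contra h
        push Not at h
        refine hne (Subgroup.eq_of_le_of_card_ge h ?_).symm
        simp only [Bc]
        rw [Subgroup.card_map_of_injective (MulAut.conj t).injective,
          Subgroup.card_map_of_injective (MulAut.conj u).injective]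
      refine hA.fixed_comm hE (hBcA t ht) (hBcA u hu) (fun a ha w hw => ?_) (fun c hc hc' => ?_) hb hb' hf hg
      · rw [hmemBc] at hw ⊢
        have h := hnormB (t⁻¹ * a * t) (by simpa using hA.norm t⁻¹ (inv_mem ht) a ha) _ hw
        simpa [mul_assoc] using h
      · refine le_antisymm (sup_le (hBcA t ht) (Subgroup.zpowers_le.2 hc)) fun x hx => ?_
        have h1 : t⁻¹ * x * t ∈ B ⊔ Subgroup.zpowers (t⁻¹ * c * t) := by
          rw [hgen _ (by simpa using hA.norm t⁻¹ (inv_mem ht) c hc) (by rwa [← hmemBc])]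
          simpa using hA.norm t⁻¹ (inv_mem ht) x hx
        have h2 := Subgroup.mem_map_of_mem (MulAut.conj t).toMonoidHom h1
        rw [Subgroup.map_sup, MonoidHom.map_zpowers] at h2
        simpa [MulAut.conj_apply, mul_assoc, Bc] using h2
    let ι : Type _ := Set.range fun t : T => Bc t
    let Qi : ι → Subgroup G := fun i => E ⊓ Subgroup.centralizer ((i : Subgroup G) : Set G)
    haveI : Fintype ι := Fintype.ofFinite ι
    let F : Subgroup G := ⨆ i ∈ (Finset.univ : Finset ι), Qi i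
    have hQF : ∀ t ∈ T, Qc t ≤ F := fun t ht =>
      le_biSup (f := Qi) (s := ((Finset.univ : Finset ι) : Set ι))
        (i := (⟨Bc t, ⟨t, ht⟩, rfl⟩ : ι)) (Finset.mem_coe.2 (Finset.mem_univ _))
    have hQiE : ∀ i : ι, Qi i ≤ E := fun i => inf_le_left
    have hFE : F ≤ E := iSup₂_le fun i _ => hQiE i
    have hQiES : ∀ i : ι, IsES (Qi i) z := by
      rintro ⟨_, ⟨t, ht⟩, rfl⟩
      exact isES_fixed hE (fun b hb => hA.acts b (hBcA t ht hb))
        (Odd.of_dvd_nat hA.cardOdd (Subgroup.card_dvd_of_le (hBcA t ht)))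
    have hF : IsES F z := by
      refine isES_biSup hE Qi Finset.univ hQiE hQiES
        (Finset.mem_univ (⟨Bc 1, (1 : T), rfl⟩ : ι)) ?_
      rintro ⟨_, ⟨t, ht⟩, rfl⟩ - ⟨_, ⟨u, hu⟩, rfl⟩ - hne f hf g hg
      exact hpair t ht u hu (fun h => hne (Subtype.ext h)) f hf g hg
    have hFle : ∀ g, g * z = z * g → (∀ t ∈ T, ∀ x ∈ Qc t, g * x * g⁻¹ ∈ F) →
        ∀ x ∈ F, g * x * g⁻¹ ∈ F := by
      intro g _ h x hx
      have hle : F ≤ F.comap (MulAut.conj g).toMonoidHom := iSup₂_le fun i _ y hy => by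
        obtain ⟨⟨t, ht⟩, hi⟩ := i.2
        have hy' : y ∈ Qc t := by
          have : Bc t = (i : Subgroup G) := hi
          simpa [Qc, Qi, this] using hy
        simpa [MulAut.conj_apply] using h t ht y hy'
      simpa [MulAut.conj_apply] using hle hx
    have hFT : ∀ t ∈ T, ∀ x ∈ F, t * x * t⁻¹ ∈ F := fun s hs =>
      hFle s (hTA s hs).2 fun t ht x hx => hQF _ (T.mul_mem hs ht) (hQconj s hs t x hx)
    have hFA : ∀ a ∈ A, ∀ x ∈ F, a * x * a⁻¹ ∈ F := fun a ha =>
      hFle a (hA.acts a ha).2 fun t ht x hx => hQF t ht (hQcA t ht a ha x hx)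
    by_cases hFEeq : F = E
    · -- two halves
      let S : Subgroup G :=
        { carrier := {t | t ∈ T ∧ Bc t = B}
          one_mem' := ⟨T.one_mem, by ext x; simp [hmemBc]⟩
          mul_mem' := by
            rintro a b ⟨ha, ha'⟩ ⟨hb, hb'⟩
            refine ⟨T.mul_mem ha hb, ?_⟩
            ext x
            have h1 := SetLike.ext_iff.1 hb' (a⁻¹ * x * a)
            have h2 := SetLike.ext_iff.1 ha' x
            rw [hmemBc] at h1 h2 ⊢
            rw [← h2, ← h1]
            simp [mul_assoc]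
          inv_mem' := by
            rintro a ⟨ha, ha'⟩
            refine ⟨inv_mem ha, ?_⟩
            ext x
            have h2 := SetLike.ext_iff.1 ha' (a * x * a⁻¹)
            rw [hmemBc] at h2 ⊢
            simpa [mul_assoc] using h2.symm }
      have hST : S.subgroupOf T ≠ ⊤ := by
        intro h
        have hS : ∀ t ∈ T, Bc t = B := fun t ht =>
          (show (⟨t, ht⟩ : T) ∈ S.subgroupOf T by rw [h]; trivial).2
        refine hQE (le_antisymm inf_le_left (hFEeq.symm.le.trans (iSup₂_le fun i _ => ?_)))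
        obtain ⟨⟨t, ht⟩, hi⟩ := i.2
        have hBi : B = (i : Subgroup G) := (hS t ht).symm.trans hi
        simp only [Qi, hQ]
        rw [← hBi]
      haveI : Fact (Nat.Prime 2) := ⟨Nat.prime_two⟩
      obtain ⟨M, hSM, -, hM, -⟩ := PGroups.exists_le_index_prime (p := 2) hT hST
      let T₁ : Subgroup G := M.map T.subtype
      have hT₁ : T₁ ≤ T := Subgroup.map_subtype_le M
      have hidx : T₁.relIndex T = 2 := by
        rw [Subgroup.relIndex, Subgroup.subgroupOf,
          Subgroup.comap_map_eq_self_of_injective T.subtype_injective, hM]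
      obtain ⟨t, ht, ht₁⟩ : ∃ t ∈ T, t ∉ T₁ := by
        by_contra h
        push Not at h
        have h' : T₁ = T := le_antisymm hT₁ h
        rw [h', Subgroup.relIndex_self] at hidx
        omega
      have hST₁ : ∀ s ∈ S, s ∈ T₁ := fun s hs => ⟨⟨s, hs.1⟩, hSM hs, rfl⟩
      have hout : ∀ s ∈ T, s ∉ T₁ → t⁻¹ * s ∈ T₁ := by
        intro s hs hs₁
        have h := (Subgroup.mul_mem_iff_of_index_two (H := T₁.subgroupOf T) hidx
          (a := (⟨t, ht⟩ : T)⁻¹) (b := ⟨s, hs⟩)).2 ⟨fun h => (ht₁ (by simpa [Subgroup.mem_subgroupOf] using h)).elim,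
            fun h => (hs₁ h).elim⟩
        simpa [Subgroup.mem_subgroupOf] using h
      let E₁ : Subgroup G := ⨆ y ∈ (T₁ : Set G), Qc y
      let E₂ : Subgroup G := E₁.map (MulAut.conj t).toMonoidHom
      have hE₁E : E₁ ≤ E := iSup₂_le fun y _ => inf_le_left
      have hE₂E : E₂ ≤ E := by
        rintro _ ⟨x, hx, rfl⟩
        exact acts_mem_conj (hTA t ht) (hE₁E hx)
      have hQE₁ : ∀ y ∈ T₁, Qc y ≤ E₁ := fun y hy => le_biSup (f := Qc) (s := (T₁ : Set G)) hy
      have hcomm : ∀ a ∈ E₁, ∀ b ∈ E₂, a * b = b * a := by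
        have h1 : E₁ ≤ Subgroup.centralizer (E₂ : Set G) := iSup₂_le fun y hy x hx =>
          Subgroup.mem_centralizer_iff.2 fun b hb => by
            have h2 : E₁ ≤ (Subgroup.centralizer ({x} : Set G)).comap (MulAut.conj t).toMonoidHom := by
              refine iSup₂_le fun w hw v hv => ?_
              rw [Subgroup.mem_comap, Subgroup.mem_centralizer_singleton_iff]
              show t * v * t⁻¹ * x = x * (t * v * t⁻¹)
              have hne : Bc y ≠ Bc (t * w) := by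
                intro heq
                have hyS : y⁻¹ * (t * w) ∈ S := by
                  refine ⟨T.mul_mem (inv_mem (hT₁ hy)) (T.mul_mem ht (hT₁ hw)), ?_⟩
                  ext u
                  have h3 := SetLike.ext_iff.1 heq (y * u * y⁻¹)
                  rw [hmemBc, hmemBc] at h3
                  rw [hmemBc]
                  simpa [mul_assoc] using h3.symm
                refine ht₁ ?_
                have h4 := T₁.mul_mem (T₁.mul_mem hy (hST₁ _ hyS)) (inv_mem hw)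
                simpa [mul_assoc] using h4
              exact (hpair y (hT₁ hy) (t * w) (T.mul_mem ht (hT₁ hw)) hne x hx _
                (hQconj t ht w v hv)).symm
            obtain ⟨v, hv, rfl⟩ := hb
            exact Subgroup.mem_centralizer_singleton_iff.1 (h2 hv)
        exact fun a ha b hb => (Subgroup.mem_centralizer_iff.1 (h1 ha) b hb).symm
      have hsup : E₁ ⊔ E₂ = E := by
        refine le_antisymm (sup_le hE₁E hE₂E) (hFEeq.symm.le.trans (iSup₂_le fun i _ x hx => ?_))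
        obtain ⟨⟨s, hs⟩, hi⟩ := i.2
        have hx' : x ∈ Qc s := by
          have : Bc s = (i : Subgroup G) := hi
          simpa [Qc, Qi, this] using hx
        by_cases hs₁ : s ∈ T₁
        · exact Subgroup.mem_sup_left (hQE₁ s hs₁ hx')
        · refine Subgroup.mem_sup_right ⟨t⁻¹ * x * t, hQE₁ _ (hout s hs hs₁) ?_, by
            simp [MulAut.conj_apply, mul_assoc]⟩
          simpa using hQconj t⁻¹ (inv_mem ht) s x hx'
      have hz₁ : z ∈ E₁ := hQE₁ 1 T₁.one_mem ⟨hE.z_mem, Subgroup.mem_centralizer_iff.2 fun w hw =>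
        (hA.acts w (hBcA 1 T.one_mem hw)).2⟩
      have hzt : t * z = z * t := (hTA t ht).2
      have hz₂ : z ∈ E₂ := ⟨z, hz₁, by simp [MulAut.conj_apply, hzt]⟩
      have hcent : ∀ e ∈ E, (∀ a ∈ E₁, e * a = a * e) → (∀ b ∈ E₂, e * b = b * e) → e = 1 ∨ e = z := by
        intro e he h1 h2
        refine hE.center e he fun f hf => ?_
        rw [← hsup] at hf
        obtain ⟨a, ha, b, hb, rfl⟩ := exists_mul_eq hcomm hf
        rw [← mul_assoc, h1 a ha, mul_assoc, h2 b hb, mul_assoc]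
      have hES₁ : IsES E₁ z := hE.of_le hE₁E hz₁ fun e he h =>
        hcent e (hE₁E he) h fun b hb => hcomm e he b hb
      have hES₂ : IsES E₂ z := hE.of_le hE₂E hz₂ fun e he h =>
        hcent e (hE₂E he) (fun a ha => (hcomm a ha e he).symm) h
      have hne₁ : E₁ ≠ E := by
        intro h
        have he' : t * e₀ * t⁻¹ ∈ E₂ := ⟨e₀, hQE₁ 1 T₁.one_mem (hQc1.symm ▸ he₀), by
          simp [MulAut.conj_apply]⟩
        rcases hE.center _ (hE₂E he') (fun f hf => (hcomm f (h.symm ▸ hf) _ he').symm) with h' | h'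
        · exact he₀1 (conj_eq_one_iff.1 h')
        · refine he₀z (mul_left_cancel (a := t) (mul_right_cancel (b := t⁻¹) ?_))
          rw [h', hzt, mul_inv_cancel_right]
      have hTE₁ : ∀ y ∈ T₁, Acts E₁ z y := Acts.mono (fun y hy x hx => by
          have hle : E₁ ≤ E₁.comap (MulAut.conj y).toMonoidHom := iSup₂_le fun w hw v hv =>
            hQE₁ _ (T₁.mul_mem hy hw) (hQconj y (hT₁ hy) w v hv)
          simpa [MulAut.conj_apply] using hle hx) fun y hy => (hTA y (hT₁ hy)).2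
      have hAE₁ : ∀ a ∈ A, Acts E₁ z a := Acts.mono (fun a ha x hx => by
          have hle : E₁ ≤ E₁.comap (MulAut.conj a).toMonoidHom := iSup₂_le fun w hw v hv =>
            hQE₁ w hw (hQcA w (hT₁ hw) a ha v hv)
          simpa [MulAut.conj_apply] using hle hx) fun a ha => (hA.acts a ha).2
      refine ext_swap hES₁ hES₂ hcomm (fun a ha ha' => hES₁.center a ha fun b hb =>
          (hcomm b hb a ha').symm) hsup hT₁ hidx ht ht₁ hzt hTE₁ (fun x => ?_)
        (IH E₁ T₁ A (card_lt_of_ne hE₁E hne₁) hES₁ (hT.to_le hT₁) hTE₁ hAE₁ hA.cardOdd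
          (fun y hy a ha => hA.norm y (hT₁ hy) a ha) fun e he h => hA.fixed e (hE₁E he) h)
      constructor
      · rintro ⟨v, hv, rfl⟩
        simpa [MulAut.conj_apply, mul_assoc] using hv
      · exact fun h => ⟨_, h, by simp [MulAut.conj_apply, mul_assoc]⟩
    · exact ext_split hE hT hTA hA.acts hA.cardOdd hA.norm hA.fixed IH hF hFE hFEeq
        ⟨e₀, hQF 1 T.one_mem (hQc1.symm ▸ he₀), he₀1, he₀z⟩ hFT hFA

theorem ext_aux (hE : IsES E z) (hT : IsPGroup 2 T) (hTA : ∀ t ∈ T, Acts E z t) {K : Subgroup G}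
    (hK : ∀ k ∈ K, Acts E z k) (hKodd : Odd (Nat.card K))
    (hnorm : ∀ t ∈ T, ∀ k ∈ K, t * k * t⁻¹ ∈ K)
    (hfix : ∀ e ∈ E, e ∈ Subgroup.centralizer (K : Set G) → e = 1 ∨ e = z)
    (IH : Below E z) : Ext E T z := by
  classical
  by_cases htriv : ∀ e ∈ E, e = 1 ∨ e = z
  · exact ext_trivial hE hTA htriv
  push Not at htriv
  obtain ⟨e₁, he₁, he₁1, he₁z⟩ := htriv
  set 𝒜 : Set (Subgroup G) := {A | A ≤ K ∧ (∀ k ∈ K, ∀ a ∈ A, k * a * k⁻¹ ∈ A) ∧
    (∀ t ∈ T, ∀ a ∈ A, t * a * t⁻¹ ∈ A) ∧ ¬ A ≤ Subgroup.centralizer (E : Set G)} with h𝒜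
  have hne : 𝒜.Nonempty := ⟨K, le_rfl, fun k hk a ha => K.mul_mem (K.mul_mem hk ha) (inv_mem hk),
    hnorm, fun h => (hfix e₁ he₁ (Subgroup.mem_centralizer_iff.2 fun k hk =>
      (Subgroup.mem_centralizer_iff.1 (h hk) e₁ he₁).symm)).elim he₁1 he₁z⟩
  obtain ⟨A, ⟨hAK, hAKn, hATn, hAne⟩, hmin⟩ := 𝒜.toFinite.exists_minimal hne
  have hAodd : Odd (Nat.card A) := Odd.of_dvd_nat hKodd (Subgroup.card_dvd_of_le hAK)
  have hAacts : ∀ a ∈ A, Acts E z a := fun a ha => hK a (hAK ha)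
  have hsub : ∀ D : Subgroup G, D ≤ A → (∀ k ∈ K, ∀ a ∈ D, k * a * k⁻¹ ∈ D) →
      (∀ t ∈ T, ∀ a ∈ D, t * a * t⁻¹ ∈ D) → D ≠ A → D ≤ Subgroup.centralizer (E : Set G) := by
    intro D hD h1 h2 hne'
    by_contra h
    exact hne' (le_antisymm hD (hmin ⟨hD.trans hAK, h1, h2, h⟩ hD))
  have hAbot : A ≠ ⊥ := fun h => hAne (h ▸ bot_le)
  -- the commutator
  have hcomm : ⁅A, A⁆ ≤ Subgroup.centralizer (E : Set G) := by
    have hconj : ∀ g : G, (∀ a ∈ A, g * a * g⁻¹ ∈ A) → ∀ x ∈ ⁅A, A⁆, g * x * g⁻¹ ∈ ⁅A, A⁆ := by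
      intro g hg x hx
      have hle : ⁅A, A⁆ ≤ ⁅A, A⁆.comap (MulAut.conj g).toMonoidHom :=
        Subgroup.commutator_le.2 fun a ha b hb => by
          show g * ⁅a, b⁆ * g⁻¹ ∈ ⁅A, A⁆
          have h := Subgroup.commutator_mem_commutator (hg a ha) (hg b hb)
          simpa [commutatorElement_def, mul_assoc] using h
      simpa [MulAut.conj_apply] using hle hx
    refine hsub _ (Subgroup.commutator_le.2 fun a ha b hb => ?_) (fun k hk => hconj k (hAKn k hk))
      (fun t ht => hconj t (hATn t ht)) ?_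
    · rw [commutatorElement_def]
      exact A.mul_mem (A.mul_mem (A.mul_mem ha hb) (inv_mem ha)) (inv_mem hb)
    · haveI : Group.IsSolvable A := Cfsg.Agent.S0205.result hAodd
      haveI : Nontrivial A := (Subgroup.nontrivial_iff_ne_bot A).2 hAbot
      intro h
      refine (Group.IsSolvable.commutator_lt_top_of_nontrivial A).ne ?_
      refine Subgroup.map_injective A.subtype_injective ?_
      rw [commutator_def, Subgroup.map_commutator, ← MonoidHom.range_eq_map, Subgroup.range_subtype, h]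
  -- the prime
  have hAnorm : ∀ a ∈ A, a ∈ Subgroup.normalizer (E : Set G) := fun a ha => (hAacts a ha).1
  let N : Subgroup A := (Subgroup.centralizer (E : Set G)).subgroupOf A
  haveI : N.Normal := ⟨fun c hc g => conj_mem_centralizer (hAnorm g g.2) hc⟩
  have hNtop : N ≠ ⊤ := fun h => hAne (Subgroup.subgroupOf_eq_top.1 h)
  have hcard : Nat.card (A ⧸ N) ≠ 1 := by
    rw [← Subgroup.index_eq_card, Ne, Subgroup.index_eq_one]
    exact hNtop
  obtain ⟨r, hr, hrdvd⟩ := Nat.exists_prime_and_dvd hcard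
  haveI := Fact.mk hr
  have hrodd : Odd r := Odd.of_dvd_nat hAodd
    (hrdvd.trans ⟨Nat.card N, Subgroup.card_eq_card_quotient_mul_card_subgroup N⟩)
  let P : Subgroup G := Subgroup.closure ((fun a : G => a ^ r) '' (A : Set G))
  have hPA : P ≤ A := (Subgroup.closure_le A).2 (by rintro _ ⟨a, ha, rfl⟩; exact pow_mem ha r)
  have hPconj : ∀ g : G, (∀ a ∈ A, g * a * g⁻¹ ∈ A) → ∀ x ∈ P, g * x * g⁻¹ ∈ P := by
    intro g hg x hx
    have hle : P ≤ P.comap (MulAut.conj g).toMonoidHom := (Subgroup.closure_le _).2 (by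
      rintro _ ⟨a, ha, rfl⟩
      show MulAut.conj g (a ^ r) ∈ P
      rw [map_pow]
      exact Subgroup.subset_closure ⟨_, hg a ha, rfl⟩)
    simpa [MulAut.conj_apply] using hle hx
  have hpow : P ≤ Subgroup.centralizer (E : Set G) := by
    refine hsub P hPA (fun k hk => hPconj k (hAKn k hk)) (fun t ht => hPconj t (hATn t ht)) fun hPA' => ?_
    have hab : ∀ x y : A ⧸ N, x * y = y * x := by
      intro x y
      obtain ⟨a, rfl⟩ := QuotientGroup.mk_surjective x
      obtain ⟨b, rfl⟩ := QuotientGroup.mk_surjective y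
      rw [← QuotientGroup.mk_mul, ← QuotientGroup.mk_mul, QuotientGroup.eq]
      show ((a * b)⁻¹ * (b * a) : G) ∈ Subgroup.centralizer (E : Set G)
      have h := hcomm (Subgroup.commutator_mem_commutator (inv_mem b.2) (inv_mem a.2))
      simpa [commutatorElement_def, mul_assoc] using h
    letI : CommGroup (A ⧸ N) := { (inferInstance : Group (A ⧸ N)) with mul_comm := hab }
    let R : Subgroup G :=
      ((powMonoidHom r : A ⧸ N →* A ⧸ N).range.comap (QuotientGroup.mk' N)).map A.subtype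
    have hAR : A ≤ R := by
      conv_lhs => rw [← hPA']
      refine (Subgroup.closure_le R).2 ?_
      rintro _ ⟨a, ha, rfl⟩
      exact ⟨⟨a, ha⟩ ^ r, ⟨QuotientGroup.mk' N ⟨a, ha⟩, (map_pow (QuotientGroup.mk' N) _ r).symm⟩, rfl⟩
    have hsurj : Function.Surjective (powMonoidHom r : A ⧸ N →* A ⧸ N) := by
      intro x
      obtain ⟨a, rfl⟩ := QuotientGroup.mk'_surjective N x
      obtain ⟨a', ha', haa'⟩ := hAR a.2
      obtain rfl : a' = a := Subtype.ext haa'
      exact ha'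
    obtain ⟨x, hx⟩ := exists_prime_orderOf_dvd_card' r hrdvd
    have h1 : x = 1 := Finite.injective_iff_surjective.2 hsurj
      (show x ^ r = (1 : A ⧸ N) ^ r by rw [← hx, pow_orderOf_eq_one, one_pow])
    rw [h1, orderOf_one] at hx
    exact hr.one_lt.ne hx
  by_cases hfixA : ∀ e ∈ E, e ∈ Subgroup.centralizer (A : Set G) → e = 1 ∨ e = z
  · exact ext_of_abHyp hE hT hTA
      (⟨hr, hrodd, hAodd, hAacts, hATn,
        fun a ha b hb => hcomm (Subgroup.commutator_mem_commutator ha hb),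
        fun a ha => hpow (Subgroup.subset_closure ⟨a, ha, rfl⟩), hfixA⟩ : AbHyp E T A z r)
      ⟨e₁, he₁, he₁1, he₁z⟩ IH
  · push Not at hfixA
    obtain ⟨e, he, heA, he1, hez⟩ := hfixA
    refine ext_split hE hT hTA hK hKodd hnorm hfix IH (isES_fixed hE hAacts hAodd) inf_le_left
      (fun h => hAne fun a ha => Subgroup.mem_centralizer_iff.2 fun f hf =>
        (Subgroup.mem_centralizer_iff.1 (h.symm.le hf).2 a ha).symm)
      ⟨e, ⟨he, heA⟩, he1, hez⟩
      (fun t ht x hx => inter_conj_mem (hTA t ht).1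
        (fun b hb => by simpa using hATn t⁻¹ (inv_mem ht) b hb) hx)
      (fun k hk x hx => inter_conj_mem (hK k hk).1
        (fun b hb => by simpa using hAKn k⁻¹ (inv_mem hk) b hb) hx)

/-- A 2-group normalising an odd group without fixed points on `E / ⟨z⟩` lifts. -/
theorem ext_of_fixedPointFree (hE : IsES E z) (hT : IsPGroup 2 T) (hTA : ∀ t ∈ T, Acts E z t)
    {K : Subgroup G} (hK : ∀ k ∈ K, Acts E z k) (hKodd : Odd (Nat.card K))
    (hnorm : ∀ t ∈ T, ∀ k ∈ K, t * k * t⁻¹ ∈ K)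
    (hfix : ∀ e ∈ E, e ∈ Subgroup.centralizer (K : Set G) → e = 1 ∨ e = z) : Ext E T z := by
  suffices h : ∀ (m : ℕ) (E T K : Subgroup G), Nat.card E = m → IsES E z → IsPGroup 2 T →
      (∀ t ∈ T, Acts E z t) → (∀ k ∈ K, Acts E z k) → Odd (Nat.card K) →
      (∀ t ∈ T, ∀ k ∈ K, t * k * t⁻¹ ∈ K) →
      (∀ e ∈ E, e ∈ Subgroup.centralizer (K : Set G) → e = 1 ∨ e = z) → Ext E T z from
    h _ E T K rfl hE hT hTA hK hKodd hnorm hfix
  intro m
  induction m using Nat.strong_induction_on with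
  | _ m ih =>
    intro E T K hm hE hT hTA hK hKodd hnorm hfix
    exact ext_aux hE hT hTA hK hKodd hnorm hfix fun E' T' K' hlt =>
      ih _ (hm ▸ hlt) E' T' K' rfl

end CfsgLib.Correspondences.ExtraExt
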