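import Mathlib
import Cfsg.Agent.Lib.Correspondences.ExtraExtCyclic

/-!
# Tensor decompositions for groups of extraspecial type
-/

set_option autoImplicit false
set_option linter.style.haveILetI false

open Cfsg
open scoped Kronecker

namespace CfsgLib.Correspondences.ExtraExt

variable {G : Type*} [Group G] [Finite G] {E E₁ E₂ T : Subgroup G} {z : G}

/-- Kronecker product reindexed to `Fin`. -/
noncomputable def kron {m n : ℕ} (A : Matrix (Fin m) (Fin m) ℂ) (B : Matrix (Fin n) (Fin n) ℂ) :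
    Matrix (Fin (m * n)) (Fin (m * n)) ℂ :=
  Matrix.reindexAlgEquiv ℂ ℂ finProdFinEquiv (A ⊗ₖ B)

theorem kron_mul {m n : ℕ} (A A' : Matrix (Fin m) (Fin m) ℂ) (B B' : Matrix (Fin n) (Fin n) ℂ) :
    kron (A * A') (B * B') = kron A B * kron A' B' := by
  rw [kron, kron, kron, ← map_mul, Matrix.mul_kronecker_mul]

theorem kron_one {m n : ℕ} : kron (1 : Matrix (Fin m) (Fin m) ℂ) (1 : Matrix (Fin n) (Fin n) ℂ) = 1 := by
  rw [kron, Matrix.one_kronecker_one, map_one]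

theorem kron_neg_left {m n : ℕ} (A : Matrix (Fin m) (Fin m) ℂ) (B : Matrix (Fin n) (Fin n) ℂ) :
    kron (-A) B = -kron A B := by
  rw [kron, kron, ← map_neg]
  congr 1
  ext i j
  simp

theorem kron_neg_neg {m n : ℕ} : kron (-1 : Matrix (Fin m) (Fin m) ℂ) (-1 : Matrix (Fin n) (Fin n) ℂ) = 1 := by
  rw [kron_neg_left, kron, show ((1 : Matrix (Fin m) (Fin m) ℂ) ⊗ₖ (-1 : Matrix (Fin n) (Fin n) ℂ)) = -1 from ?_,
    map_neg, map_one, neg_neg]
  rw [show (-1 : Matrix (Fin n) (Fin n) ℂ) = (-1 : ℂ) • 1 from (neg_one_smul ℂ _).symm,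
    Matrix.kronecker_smul, Matrix.one_kronecker_one, neg_one_smul]

/-- The swap of the two factors. -/
noncomputable def swapMat (n : ℕ) : Matrix (Fin (n * n)) (Fin (n * n)) ℂ :=
  Matrix.reindexAlgEquiv ℂ ℂ finProdFinEquiv
    (Matrix.of fun p q : Fin n × Fin n => if q = p.swap then 1 else 0)

theorem swapMat_mul_kron {n : ℕ} (A B : Matrix (Fin n) (Fin n) ℂ) :
    swapMat n * kron A B = kron B A * swapMat n := by
  rw [swapMat, kron, kron, ← map_mul, ← map_mul]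
  congr 1
  ext ⟨i, j⟩ ⟨k, l⟩
  rw [Matrix.mul_apply, Matrix.mul_apply, Finset.sum_eq_single (j, i), Finset.sum_eq_single (l, k)]
  · simp [mul_comm]
  · intro b _ hb
    rw [Matrix.of_apply, if_neg, mul_zero]
    rintro h
    exact hb (by rw [← Prod.swap_swap b, ← h]; rfl)
  · simp
  · intro b _ hb
    rw [Matrix.of_apply, if_neg (by simpa using hb), zero_mul]
  · simp

theorem swapMat_sq (n : ℕ) : swapMat n * swapMat n = 1 := by
  rw [swapMat, ← map_mul]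
  refine (congrArg _ ?_).trans (map_one _)
  ext p q
  rw [Matrix.mul_apply, Finset.sum_eq_single p.swap]
  · simp [Matrix.one_apply, eq_comm]
  · intro b _ hb
    simp [hb]
  · simp

theorem Acts.mono (h : ∀ t ∈ T, ∀ e ∈ E, t * e * t⁻¹ ∈ E) (hz : ∀ t ∈ T, t * z = z * t) :
    ∀ t ∈ T, Acts E z t :=
  fun t ht => ⟨Subgroup.mem_normalizer_fintype fun e he => h t ht e he, hz t ht⟩

omit [Finite G] in
theorem exists_mul_eq (hcomm : ∀ a ∈ E₁, ∀ b ∈ E₂, a * b = b * a) {x : G} (hx : x ∈ E₁ ⊔ E₂) :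
    ∃ a ∈ E₁, ∃ b ∈ E₂, x = a * b := by
  have h := (MonoidHom.noncommCoprod_range E₁.subtype E₂.subtype fun a b => hcomm a a.2 b b.2).symm.le
  simp only [Subgroup.range_subtype] at h
  obtain ⟨⟨a, b⟩, hab⟩ := h hx
  exact ⟨a, a.2, b, b.2, hab.symm⟩

theorem exists_tensor (hE₁ : IsES E₁ z) (hE₂ : IsES E₂ z)
    (hcomm : ∀ a ∈ E₁, ∀ b ∈ E₂, a * b = b * a) (hinter : ∀ a ∈ E₁, a ∈ E₂ → a = 1 ∨ a = z)
    (hE : E₁ ⊔ E₂ = E) (h₁ : ∀ t ∈ T, Acts E₁ z t) (h₂ : ∀ t ∈ T, Acts E₂ z t) {m n : ℕ}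
    (R₁ : Rep E₁ z m) (R₂ : Rep E₂ z n) (U₁ : T →* Matrix (Fin m) (Fin m) ℂ)
    (U₂ : T →* Matrix (Fin n) (Fin n) ℂ)
    (hi₁ : ∀ (t : T) (e : E₁) (h : (t : G) * e * (t : G)⁻¹ ∈ E₁),
      U₁ t * R₁.toHom e = R₁.toHom ⟨(t : G) * e * (t : G)⁻¹, h⟩ * U₁ t)
    (hi₂ : ∀ (t : T) (e : E₂) (h : (t : G) * e * (t : G)⁻¹ ∈ E₂),
      U₂ t * R₂.toHom e = R₂.toHom ⟨(t : G) * e * (t : G)⁻¹, h⟩ * U₂ t) :
    ∃ R : Rep E z (m * n),
      (∀ (a : E₁) (b : E₂) (h : (a : G) * b ∈ E),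
        R.toHom ⟨a * b, h⟩ = kron (R₁.toHom a) (R₂.toHom b)) ∧
      ∃ U : T →* Matrix (Fin (m * n)) (Fin (m * n)) ℂ, (∀ t, U t = kron (U₁ t) (U₂ t)) ∧
        ∀ (t : T) (e : E) (h : (t : G) * e * (t : G)⁻¹ ∈ E),
          U t * R.toHom e = R.toHom ⟨(t : G) * e * (t : G)⁻¹, h⟩ * U t := by
  classical
  have hmem : ∀ p : E₁ × E₂, (p.1 : G) * p.2 ∈ E := fun p =>
    hE ▸ Subgroup.mul_mem_sup p.1.2 p.2.2
  let φ : E₁ × E₂ →* E :=
    { toFun := fun p => ⟨p.1 * p.2, hmem p⟩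
      map_one' := Subtype.ext (by simp)
      map_mul' := fun p q => Subtype.ext (by
        show ((p.1 : G) * q.1) * ((p.2 : G) * q.2) = ((p.1 : G) * p.2) * ((q.1 : G) * q.2)
        rw [mul_assoc, ← mul_assoc (q.1 : G), hcomm _ q.1.2 _ p.2.2]
        simp only [mul_assoc]) }
  have hrange : E ≤ φ.range.map E.subtype := by
    conv_lhs => rw [← hE]
    refine sup_le (fun x hx => ?_) fun x hx => ?_
    · exact Subgroup.mem_map.2 ⟨φ (⟨x, hx⟩, 1), ⟨_, rfl⟩, by simp [φ]⟩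
    · exact Subgroup.mem_map.2 ⟨φ (1, ⟨x, hx⟩), ⟨_, rfl⟩, by simp [φ]⟩
  have hsurj : Function.Surjective φ := by
    intro e
    obtain ⟨y, ⟨p, hp⟩, hy⟩ := Subgroup.mem_map.1 (hrange e.2)
    exact ⟨p, hp.trans (Subtype.ext hy)⟩
  have hker : (φ.ker : Set (E₁ × E₂)) = {1, (⟨z, hE₁.z_mem⟩, ⟨z, hE₂.z_mem⟩)} := by
    ext ⟨a, b⟩
    simp only [SetLike.mem_coe, MonoidHom.mem_ker, Set.mem_insert_iff, Set.mem_singleton_iff]
    constructor
    · intro h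
      have h' : (a : G) * b = 1 := congrArg Subtype.val h
      have hb : (b : G) = (a : G)⁻¹ := eq_inv_of_mul_eq_one_right h'
      rcases hinter a a.2 (by rw [← inv_inv (a : G), ← hb]; exact inv_mem b.2) with ha | ha
      · left; exact Prod.ext (Subtype.ext ha) (Subtype.ext (by rw [hb, ha, inv_one]; rfl))
      · right; exact Prod.ext (Subtype.ext ha) (Subtype.ext (by rw [hb, ha, hE₁.z_inv]))
    · rintro (h | h)
      · rw [h, map_one]
      · rw [h]; exact Subtype.ext hE₁.z_sq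
  let τ : E₁ × E₂ →* Matrix (Fin (m * n)) (Fin (m * n)) ℂ :=
    { toFun := fun p => kron (R₁.toHom p.1) (R₂.toHom p.2)
      map_one' := by rw [Prod.fst_one, Prod.snd_one, map_one, map_one, kron_one]
      map_mul' := fun p q => by rw [Prod.fst_mul, Prod.snd_mul, map_mul, map_mul, kron_mul] }
  have hτ : ∀ p q, φ p = φ q → τ p = τ q := by
    intro p q h
    have hk : p⁻¹ * q ∈ (φ.ker : Set (E₁ × E₂)) := by
      show φ (p⁻¹ * q) = 1
      rw [map_mul, map_inv, h, inv_mul_cancel]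
    rw [hker] at hk
    rcases hk with hk | hk
    · rw [inv_mul_eq_one.1 hk]
    · rw [show q = p * (p⁻¹ * q) by rw [mul_inv_cancel_left], hk, map_mul]
      show τ p = τ p * kron (R₁.toHom ⟨z, hE₁.z_mem⟩) (R₂.toHom ⟨z, hE₂.z_mem⟩)
      rw [R₁.neg, R₂.neg, kron_neg_neg, mul_one]
  choose s hs using hsurj
  let ρ : E →* Matrix (Fin (m * n)) (Fin (m * n)) ℂ :=
    { toFun := fun e => τ (s e)
      map_one' := (hτ (s 1) 1 (by rw [hs, map_one])).trans (map_one τ)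
      map_mul' := fun x y => by rw [← map_mul]; exact hτ _ _ (by rw [hs, map_mul, hs, hs]) }
  have hρ : ∀ p, ρ (φ p) = τ p := fun p => hτ _ _ (hs _)
  have hcard : 2 * (m * n * (m * n)) = Nat.card E := by
    have h1 := Subgroup.card_eq_card_quotient_mul_card_subgroup φ.ker
    rw [Nat.card_congr (QuotientGroup.quotientKerEquivOfSurjective φ (fun e => ⟨s e, hs e⟩)).toEquiv,
      Nat.card_prod, ← R₁.card, ← R₂.card] at h1
    have h2 : Nat.card φ.ker = 2 := by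
      rw [← SetLike.coe_sort_coe, Nat.card_coe_set_eq, hker, Set.ncard_pair]
      intro h
      exact hE₁.z_ne (congrArg (fun p : E₁ × E₂ => (p.1 : G)) h).symm
    rw [h2] at h1
    nlinarith
  refine ⟨⟨ρ, hcard, fun h => ?_⟩, fun a b h => hρ (a, b), ?_⟩
  · have h1 : (⟨z, h⟩ : E) = φ (⟨z, hE₁.z_mem⟩, 1) := Subtype.ext (by simp [φ])
    rw [h1, hρ]
    show kron (R₁.toHom ⟨z, hE₁.z_mem⟩) (R₂.toHom 1) = -1
    rw [R₁.neg, map_one, kron_neg_left, kron_one]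
  let U : T →* Matrix (Fin (m * n)) (Fin (m * n)) ℂ :=
    { toFun := fun t => kron (U₁ t) (U₂ t)
      map_one' := by rw [map_one, map_one, kron_one]
      map_mul' := fun x y => by rw [map_mul, map_mul, kron_mul] }
  refine ⟨U, fun t => rfl, fun t e h => ?_⟩
  obtain ⟨⟨a, b⟩, rfl⟩ : ∃ p, φ p = e := ⟨s e, hs e⟩
  have e1 : (⟨(t : G) * (φ (a, b) : G) * (t : G)⁻¹, h⟩ : E) =
      φ (⟨_, acts_mem_conj (h₁ t t.2) a.2⟩, ⟨_, acts_mem_conj (h₂ t t.2) b.2⟩) :=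
    Subtype.ext (by simp [φ, mul_assoc])
  show kron (U₁ t) (U₂ t) * ρ (φ (a, b)) = ρ _ * kron (U₁ t) (U₂ t)
  rw [e1, hρ, hρ]
  show kron _ _ * kron _ _ = kron _ _ * kron _ _
  rw [← kron_mul, ← kron_mul, hi₁ t a, hi₂ t b]

theorem ext_tensor (hE₁ : IsES E₁ z) (hE₂ : IsES E₂ z)
    (hcomm : ∀ a ∈ E₁, ∀ b ∈ E₂, a * b = b * a) (hinter : ∀ a ∈ E₁, a ∈ E₂ → a = 1 ∨ a = z)
    (hE : E₁ ⊔ E₂ = E) (h₁ : ∀ t ∈ T, Acts E₁ z t) (h₂ : ∀ t ∈ T, Acts E₂ z t)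
    (e₁ : Ext E₁ T z) (e₂ : Ext E₂ T z) : Ext E T z := by
  obtain ⟨m, R₁, U₁, hi₁⟩ := e₁
  obtain ⟨n, R₂, U₂, hi₂⟩ := e₂
  obtain ⟨R, -, U, -, hU⟩ := exists_tensor hE₁ hE₂ hcomm hinter hE h₁ h₂ R₁ R₂ U₁ U₂ hi₁ hi₂
  exact ⟨_, R, U, hU⟩

/-- A homomorphism on a subgroup of index two extends along a compatible element. -/
theorem exists_hom_of_index_two {H M : Type*} [Group H] [Monoid M] (N : Subgroup H)
    (hN : N.index = 2) {t : H} (ht : t ∉ N) (f : N →* M) (W : M)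
    (hconj : ∀ (y : N) (h : t * y * t⁻¹ ∈ N), W * f y = f ⟨t * y * t⁻¹, h⟩ * W)
    (hsq : ∀ h : t * t ∈ N, W * W = f ⟨t * t, h⟩) :
    ∃ F : H →* M, (∀ y : N, F y = f y) ∧ F t = W := by
  classical
  haveI := Subgroup.normal_of_index_eq_two hN
  have hiff : ∀ a b : H, a * b ∈ N ↔ (a ∈ N ↔ b ∈ N) := fun a b =>
    Subgroup.mul_mem_iff_of_index_two hN
  have hout : ∀ g : H, g ∉ N → g * t⁻¹ ∈ N := fun g hg => by
    rw [hiff]; simp [hg, ht]
  let F : H → M := fun g => if h : g ∈ N then f ⟨g, h⟩ else f ⟨g * t⁻¹, hout g h⟩ * W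
  have htt : t * t ∈ N := by rw [hiff]
  have hcongr : ∀ (x : H) (y : N), x = y → ∀ h : x ∈ N, f ⟨x, h⟩ = f y := fun x y hxy h => by
    congr 1; exact Subtype.ext hxy
  have hcj : ∀ y : N, t * y * t⁻¹ ∈ N := fun y => Subgroup.Normal.conj_mem inferInstance _ y.2 t
  refine ⟨⟨⟨F, ?_⟩, fun a b => ?_⟩, fun y => ?_, ?_⟩
  · simp only [F, dif_pos N.one_mem]
    exact map_one f
  · show F (a * b) = F a * F b
    by_cases ha : a ∈ N <;> by_cases hb : b ∈ N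
    · simp only [F, dif_pos ha, dif_pos hb, dif_pos (N.mul_mem ha hb)]
      rw [← map_mul]; rfl
    · have hab : a * b ∉ N := by rw [hiff]; tauto
      simp only [F, dif_pos ha, dif_neg hb, dif_neg hab]
      rw [← mul_assoc (f _) (f _) W, ← map_mul]
      congr 1
      exact hcongr _ _ (by simp [mul_assoc]) _
    · have hab : a * b ∉ N := by rw [hiff]; tauto
      simp only [F, dif_neg ha, dif_pos hb, dif_neg hab]
      rw [mul_assoc (f _) W, hconj ⟨b, hb⟩ (hcj ⟨b, hb⟩), ← mul_assoc (f _) (f _) W, ← map_mul]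
      congr 1
      exact hcongr _ _ (by simp [mul_assoc]) _
    · have hab : a * b ∈ N := by rw [hiff]; tauto
      simp only [F, dif_neg ha, dif_neg hb, dif_pos hab]
      rw [mul_assoc (f _) W, ← mul_assoc W, hconj ⟨_, hout b hb⟩ (hcj ⟨_, hout b hb⟩), mul_assoc (f _) W W,
        hsq htt, ← map_mul, ← map_mul]
      exact hcongr _ _ (by simp [mul_assoc]) _
  · show F y = f y
    simp only [F, dif_pos y.2]
  · show F t = W
    simp only [F, dif_neg ht]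
    rw [hcongr _ 1 (by simp) _, map_one, one_mul]

/-- Two pieces exchanged by an element outside a subgroup of index two. -/
theorem ext_swap (hE₁ : IsES E₁ z) (hE₂ : IsES E₂ z)
    (hcomm : ∀ a ∈ E₁, ∀ b ∈ E₂, a * b = b * a) (hinter : ∀ a ∈ E₁, a ∈ E₂ → a = 1 ∨ a = z)
    (hE : E₁ ⊔ E₂ = E) {T₁ : Subgroup G} (hT₁ : T₁ ≤ T) (hidx : T₁.relIndex T = 2) {t : G}
    (ht : t ∈ T) (ht₁ : t ∉ T₁) (htz : t * z = z * t) (h₁ : ∀ y ∈ T₁, Acts E₁ z y)
    (hswap : ∀ x, x ∈ E₂ ↔ t⁻¹ * x * t ∈ E₁) (e₁ : Ext E₁ T₁ z) : Ext E T z := by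
  classical
  obtain ⟨n, R₁, U₁, hi₁⟩ := e₁
  have hnorm : ∀ s ∈ T, ∀ y ∈ T₁, s * y * s⁻¹ ∈ T₁ := by
    intro s hs y hy
    haveI := Subgroup.normal_of_index_eq_two (H := T₁.subgroupOf T) hidx
    exact this.conj_mem ⟨y, hT₁ hy⟩ hy ⟨s, hs⟩
  have htt : t * t ∈ T₁ := by
    have h := (Subgroup.mul_self_mem_of_index_two (H := T₁.subgroupOf T) hidx ⟨t, ht⟩)
    exact h
  have hty : ∀ y ∈ T₁, t⁻¹ * y * t ∈ T₁ := fun y hy => by
    simpa using hnorm t⁻¹ (inv_mem ht) y hy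
  have hb : ∀ b : E₂, t⁻¹ * (b : G) * t ∈ E₁ := fun b => (hswap b).1 b.2
  have ha : ∀ a : E₁, t * (a : G) * t⁻¹ ∈ E₂ := fun a => (hswap _).2 (by simp [mul_assoc])
  have hzz : t⁻¹ * z * t = z := by rw [mul_assoc, ← htz, inv_mul_cancel_left]
  let π₂ : E₂ ≃* E₁ :=
    { toFun := fun b => ⟨_, hb b⟩
      invFun := fun a => ⟨_, ha a⟩
      left_inv := fun b => Subtype.ext (by simp [mul_assoc])
      right_inv := fun a => Subtype.ext (by simp [mul_assoc])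
      map_mul' := fun x y => Subtype.ext (by simp [mul_assoc]) }
  let R₂ : Rep E₂ z n :=
    { toHom := R₁.toHom.comp π₂.toMonoidHom
      card := by rw [Nat.card_congr π₂.toEquiv]; exact R₁.card
      neg := fun h => by
        show R₁.toHom (π₂ ⟨z, h⟩) = -1
        rw [show π₂ ⟨z, h⟩ = ⟨z, hE₁.z_mem⟩ from Subtype.ext hzz]
        exact R₁.neg _ }
  let U₂ : T₁ →* Matrix (Fin n) (Fin n) ℂ :=
    { toFun := fun y => U₁ ⟨_, hty y y.2⟩
      map_one' := by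
        rw [show (⟨t⁻¹ * ((1 : T₁) : G) * t, hty _ (1 : T₁).2⟩ : T₁) = 1 from Subtype.ext (by simp),
          map_one]
      map_mul' := fun x y => by
        rw [← map_mul]; congr 1; exact Subtype.ext (by simp [mul_assoc]) }
  have h₂ : ∀ y ∈ T₁, Acts E₂ z y := fun y hy => ⟨Subgroup.mem_normalizer_fintype fun b hb' => by
    rw [SetLike.mem_coe, hswap] at hb' ⊢
    have := acts_mem_conj (h₁ _ (hty y hy)) hb'
    simpa [mul_assoc] using this, (h₁ y hy).2⟩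
  have hi₂ : ∀ (y : T₁) (e : E₂) (h : (y : G) * e * (y : G)⁻¹ ∈ E₂),
      U₂ y * R₂.toHom e = R₂.toHom ⟨(y : G) * e * (y : G)⁻¹, h⟩ * U₂ y := by
    intro y e h
    show U₁ _ * R₁.toHom (π₂ e) = R₁.toHom (π₂ _) * U₁ _
    rw [hi₁ _ (π₂ e) (acts_mem_conj (h₁ _ (hty y y.2)) (hb e))]
    congr 2
    exact Subtype.ext (by simp [π₂, mul_assoc])
  obtain ⟨R, hR, U, hU, hUi⟩ := exists_tensor hE₁ hE₂ hcomm hinter hE h₁ h₂ R₁ R₂ U₁ U₂ hi₁ hi₂
  set u := U₁ ⟨t * t, htt⟩ with hu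
  set W := kron u 1 * swapMat n with hW
  have hWk : ∀ (A B B' : Matrix (Fin n) (Fin n) ℂ), u * B = B' * u →
      W * kron A B = kron B' A * W := by
    intro A B B' h
    rw [hW, mul_assoc, swapMat_mul_kron, ← mul_assoc, ← kron_mul, h, one_mul, ← mul_assoc, ← kron_mul,
      mul_one]
  let f : T₁.subgroupOf T →* Matrix (Fin (n * n)) (Fin (n * n)) ℂ :=
    U.comp (Subgroup.subgroupOfEquivOfLe hT₁).toMonoidHom
  obtain ⟨F, hF, hFt⟩ := exists_hom_of_index_two (T₁.subgroupOf T) hidx (t := ⟨t, ht⟩) ht₁ f W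
    (fun y hy' => by
      show W * U _ = U _ * W
      rw [hU, hU, hWk _ _ (U₁ ⟨t * ((y : T) : G) * t⁻¹, hnorm t ht _ y.2⟩)]
      · congr 2
        show U₁ _ = U₁ _
        congr 1
        exact Subtype.ext (by simp [mul_assoc])
      · show u * U₁ _ = _ * u
        simp only [hu, ← map_mul]
        congr 1
        exact Subtype.ext (by simp [mul_assoc]))
    (fun h => by
      show W * W = U _
      rw [hU, hW, mul_assoc, ← mul_assoc (swapMat n), swapMat_mul_kron, mul_assoc _ (swapMat n),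
        swapMat_sq, mul_one, ← kron_mul, one_mul, mul_one]
      congr 1
      all_goals
        show u = U₁ _
        rw [hu]; congr 1
        exact Subtype.ext (by simp [mul_assoc]))
  refine ⟨n * n, R, F, fun s e h => ?_⟩
  have hbase : ∀ (y : T₁.subgroupOf T) (e : E) (h : ((y : T) : G) * e * ((y : T) : G)⁻¹ ∈ E),
      F y * R.toHom e = R.toHom ⟨_, h⟩ * F y := fun y e h => by
    rw [hF]
    exact hUi _ e h
  have htE : ∀ e : E, t * (e : G) * t⁻¹ ∈ E ∧ ∀ h : t * (e : G) * t⁻¹ ∈ E,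
      W * R.toHom e = R.toHom ⟨_, h⟩ * W := by
    intro e
    obtain ⟨a, ha', b, hb', he⟩ : ∃ a ∈ E₁, ∃ b ∈ E₂, (e : G) = a * b := by
      exact exists_mul_eq hcomm (hE.symm ▸ e.2)
    have hc : t * b * t⁻¹ ∈ E₁ := by
      have h1 : t⁻¹ * b * t ∈ E₁ := (hswap b).1 hb'
      have h2 := acts_mem_conj (h₁ _ htt) h1
      simpa [mul_assoc] using h2
    have hte : t * (e : G) * t⁻¹ = (t * b * t⁻¹) * (t * a * t⁻¹) := by
      rw [he, hcomm a ha' b hb']; simp [mul_assoc]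
    have hmem : t * (e : G) * t⁻¹ ∈ E := by
      rw [hte, ← hE]; exact Subgroup.mul_mem_sup hc (ha ⟨a, ha'⟩)
    refine ⟨hmem, fun h => ?_⟩
    have heq : e = ⟨a * b, hE ▸ Subgroup.mul_mem_sup ha' hb'⟩ := Subtype.ext he
    have heq2 : (⟨_, h⟩ : E) = ⟨(t * b * t⁻¹) * (t * a * t⁻¹), hte ▸ hmem⟩ := Subtype.ext hte
    rw [show R.toHom ⟨_, h⟩ = R.toHom _ from congrArg _ heq2, hR ⟨_, hc⟩ ⟨_, ha ⟨a, ha'⟩⟩,
      show R.toHom e = R.toHom _ from congrArg _ heq, hR ⟨a, ha'⟩ ⟨b, hb'⟩]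
    rw [hWk _ _ (R₁.toHom ⟨_, hc⟩)]
    · congr 2
      show R₁.toHom _ = R₁.toHom (π₂ _)
      congr 1
      exact Subtype.ext (by simp [π₂, mul_assoc])
    · show u * R₁.toHom (π₂ ⟨b, hb'⟩) = _
      have hm : t * t * (t⁻¹ * b * t) * (t * t)⁻¹ ∈ E₁ := acts_mem_conj (h₁ _ htt) ((hswap b).1 hb')
      rw [hu, hi₁ ⟨t * t, htt⟩ (π₂ ⟨b, hb'⟩) hm]
      congr 2
      exact Subtype.ext (by simp [π₂, mul_assoc])
  by_cases hs : s ∈ T₁.subgroupOf T
  · exact hbase ⟨s, hs⟩ e h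
  · have hy : s * (⟨t, ht⟩ : T)⁻¹ ∈ T₁.subgroupOf T := by
      rw [Subgroup.mul_mem_iff_of_index_two hidx]
      simp [hs, Subgroup.inv_mem_iff]
      exact ht₁
    obtain ⟨hm, hW'⟩ := htE e
    have hs' : s = (⟨_, hy⟩ : T₁.subgroupOf T).1 * ⟨t, ht⟩ := by simp
    have hm2 : ((s * (⟨t, ht⟩ : T)⁻¹ : T) : G) * (t * e * t⁻¹) * ((s * (⟨t, ht⟩ : T)⁻¹ : T) : G)⁻¹ ∈ E := by
      have : (s : G) * e * (s : G)⁻¹ ∈ E := h
      simpa [mul_assoc] using this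
    have hFs : F s = F (⟨_, hy⟩ : T₁.subgroupOf T).1 * W := by
      conv_lhs => rw [hs']
      rw [map_mul, hFt]
    rw [hFs, mul_assoc, hW' hm, ← mul_assoc, hbase ⟨_, hy⟩ ⟨_, hm⟩ hm2, mul_assoc]
    congr 2
    exact Subtype.ext (by simp [mul_assoc])

end CfsgLib.Correspondences.ExtraExt
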