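import Mathlib
import Cfsg.Agent.Lib.Correspondences.ExtraExtSplit
import Cfsg.Agent.Lib.CoprimeAction.Basic
import Cfsg.Agent.Lib.PGroups.Basic
import Cfsg.Agent.S0205

/-!
# Lifting a 2-group normalising an odd group without fixed points on `E / Z`
-/

set_option autoImplicit false
set_option linter.style.haveILetI false

open Cfsg
open scoped commutatorElement

namespace CfsgLib.Correspondences.ExtraExt

variable {G : Type*} [Group G] [Finite G] {E T : Subgroup G} {z : G}

omit [Finite G] in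
theorem IsES.isPGroup (hE : IsES E z) : IsPGroup 2 E := fun e => ⟨2, Subtype.ext (by
  show (e : G) ^ (2 ^ 2) = 1
  rw [show (2 : ℕ) ^ 2 = 2 * 2 from rfl, pow_mul, pow_two, pow_two]
  rcases hE.sq e e.2 with h | h <;> rw [h]
  · exact one_mul 1
  · exact hE.z_sq)⟩

omit [Finite G] in
theorem conj_mem_centralizer {g c : G} (hg : g ∈ Subgroup.normalizer (E : Set G))
    (hc : c ∈ Subgroup.centralizer (E : Set G)) : g * c * g⁻¹ ∈ Subgroup.centralizer (E : Set G) := by
  rw [Subgroup.mem_centralizer_iff] at hc ⊢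
  intro e he
  have h := hc (g⁻¹ * e * g) (by simpa using (Subgroup.mem_normalizer_iff.1 (inv_mem hg) e).1 he)
  calc e * (g * c * g⁻¹) = g * ((g⁻¹ * e * g) * c) * g⁻¹ := by simp [mul_assoc]
    _ = g * (c * (g⁻¹ * e * g)) * g⁻¹ := by rw [h]
    _ = g * c * g⁻¹ * e := by simp [mul_assoc]

omit [Finite G] in
theorem inter_conj_mem {B : Subgroup G} {g x : G} (hg : g ∈ Subgroup.normalizer (E : Set G))
    (hB : ∀ b ∈ B, g⁻¹ * b * g ∈ B) (hx : x ∈ E ⊓ Subgroup.centralizer (B : Set G)) :
    g * x * g⁻¹ ∈ E ⊓ Subgroup.centralizer (B : Set G) := by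
  refine ⟨(Subgroup.mem_normalizer_iff.1 hg x).1 hx.1, Subgroup.mem_centralizer_iff.2 fun b hb => ?_⟩
  have h := Subgroup.mem_centralizer_iff.1 hx.2 _ (hB b hb)
  calc b * (g * x * g⁻¹) = g * ((g⁻¹ * b * g) * x) * g⁻¹ := by simp [mul_assoc]
    _ = g * (x * (g⁻¹ * b * g)) * g⁻¹ := by rw [h]
    _ = g * x * g⁻¹ * b := by simp [mul_assoc]

omit [Finite G] in
theorem IsES.of_le (hE : IsES E z) {F : Subgroup G} (hF : F ≤ E) (hz : z ∈ F)
    (hc : ∀ e ∈ F, (∀ f ∈ F, e * f = f * e) → e = 1 ∨ e = z) : IsES F z :=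
  ⟨hz, hE.z_sq, hE.z_ne, fun e he => hE.z_comm e (hF he), fun e he => hE.sq e (hF he), hc⟩

omit [Finite G] in
theorem IsES.commute_commutator (hE : IsES E z) {f a b : G} (hf : f ∈ E) (ha : a ∈ E)
    (hzb : b * z = z * b) (hfb : f * b = b * f) : ⁅a, b⁆ * f = f * ⁅a, b⁆ := by
  obtain ⟨c, hc, hc1⟩ : ∃ c, (c = 1 ∨ c = z) ∧ f * a = c * a * f := by
    rcases hE.mul_comm_cases ha hf with h | h
    · exact ⟨1, Or.inl rfl, by rw [h, one_mul]⟩
    · exact ⟨z, Or.inr rfl, by rw [h, mul_assoc]⟩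
  have hcb : c * b = b * c := by
    rcases hc with rfl | rfl
    · simp
    · exact hzb.symm
  have hca : a * c = c * a := by
    rcases hc with rfl | rfl
    · simp
    · exact (hE.z_comm a ha).symm
  have e1 : f * a * f⁻¹ = c * a := by rw [hc1, mul_inv_cancel_right]
  have e2 : f * b * f⁻¹ = b := by rw [hfb, mul_inv_cancel_right]
  have e3 : Commute c (a * b * a⁻¹) :=
    ((Commute.symm hca).mul_right hcb).mul_right (Commute.symm hca).inv_right
  have h : f * ⁅a, b⁆ * f⁻¹ = ⁅a, b⁆ := by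
    calc f * ⁅a, b⁆ * f⁻¹ = ⁅f * a * f⁻¹, f * b * f⁻¹⁆ := by
          simp [commutatorElement_def, mul_assoc]
      _ = c * (a * b * a⁻¹) * c⁻¹ * b⁻¹ := by
          rw [e1, e2]; simp [commutatorElement_def, mul_assoc]
      _ = ⁅a, b⁆ := by rw [e3.eq, mul_inv_cancel_right, commutatorElement_def]
  exact (mul_inv_eq_iff_eq_mul.1 h).symm

/-- The fixed points of an odd group of automorphisms are of extraspecial type. -/
theorem isES_fixed (hE : IsES E z) {B : Subgroup G} (hB : ∀ b ∈ B, Acts E z b)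
    (hBodd : Odd (Nat.card B)) : IsES (E ⊓ Subgroup.centralizer (B : Set G)) z := by
  have hzC : z ∈ Subgroup.centralizer (B : Set G) :=
    Subgroup.mem_centralizer_iff.2 fun b hb => (hB b hb).2
  refine hE.of_le inf_le_left ⟨hE.z_mem, hzC⟩ fun f hf hcent => hE.center f hf.1 fun e he => ?_
  obtain ⟨k, hk⟩ := IsPGroup.iff_card.1 hE.isPGroup
  have hgen := CoprimeAction.commutator_sup_centralizer (A := B) (K := E) (fun b hb => (hB b hb).1)
    (by rw [hk]; exact (Nat.coprime_two_right.2 hBodd).pow_right k)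
    (Or.inr (haveI := hE.isPGroup.isNilpotent; inferInstance))
  have hle : ⁅E, B⁆ ⊔ (E ⊓ Subgroup.centralizer (B : Set G)) ≤ Subgroup.centralizer ({f} : Set G) := by
    refine sup_le (Subgroup.commutator_le.2 fun a ha b hb => ?_) fun x hx => ?_
    · rw [Subgroup.mem_centralizer_singleton_iff]
      exact hE.commute_commutator hf.1 ha (hB b hb).2
        (Subgroup.mem_centralizer_iff.1 hf.2 b hb).symm
    · rw [Subgroup.mem_centralizer_singleton_iff]
      exact (hcent x hx).symm
  have := hle (hgen.symm.le he)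
  rw [Subgroup.mem_centralizer_singleton_iff] at this
  exact this.symm

omit [Finite G] in
/-- Commuting with a fixed element is a homomorphism to a group of order two. -/
theorem IsES.comm_mul_iff (hE : IsES E z) {x f g : G} (hx : x ∈ E) (hf : f ∈ E) (hg : g ∈ E) :
    x * (f * g) = f * g * x ↔ (x * f = f * x ↔ x * g = g * x) := by
  have hne : ∀ w : G, w ≠ z * w := fun w h => hE.z_ne (mul_eq_right.1 h.symm)
  have hfz : f * z = z * f := (hE.z_comm f hf).symm
  have key : ∀ c₁ c₂ : G, f * x = c₁ * (x * f) → g * x = c₂ * (x * g) → f * c₂ = c₂ * f →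
      f * g * x = c₂ * c₁ * (x * (f * g)) := fun c₁ c₂ h1 h2 h3 => by
    rw [mul_assoc, h2, ← mul_assoc f c₂, h3, mul_assoc c₂ f, ← mul_assoc f x g, h1]
    simp only [mul_assoc]
  rcases hE.mul_comm_cases hx hf with h1 | h1 <;> rcases hE.mul_comm_cases hx hg with h2 | h2
  · have h := key 1 1 (by rw [one_mul, h1]) (by rw [one_mul, h2]) (by simp)
    simp only [one_mul] at h
    simp [h, h1, h2]
  · have h := key 1 z (by rw [one_mul, h1]) h2 hfz
    simp only [mul_one] at h
    rw [h, h1, h2]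
    simp [hne]
  · have h := key z 1 h1 (by rw [one_mul, h2]) (by simp)
    simp only [one_mul] at h
    rw [h, h1, h2]
    simp [hne]
  · have h := key z z h1 h2 hfz
    simp only [hE.z_sq, one_mul] at h
    rw [h, h1, h2]
    simp [hne]

/-- A subgroup of extraspecial type is complemented by its centraliser. -/
theorem exists_dual (hE : IsES E z) {F : Subgroup G} (hF : IsES F z) (hFE : F ≤ E) :
    F ⊔ (E ⊓ Subgroup.centralizer (F : Set G)) = E ∧
      IsES (E ⊓ Subgroup.centralizer (F : Set G)) z := by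
  classical
  have hsup : F ⊔ (E ⊓ Subgroup.centralizer (F : Set G)) = E := by
    refine le_antisymm (sup_le hFE inf_le_left) fun e he => ?_
    by_cases htriv : ∀ f ∈ F, f = 1 ∨ f = z
    · refine Subgroup.mem_sup_right ⟨he, Subgroup.mem_centralizer_iff.2 fun f hf => ?_⟩
      rcases htriv f hf with rfl | rfl
      · simp
      · exact hE.z_comm e he
    push Not at htriv
    obtain ⟨f₀, hf₀, hf₀1, hf₀z⟩ := htriv
    have hz1 : z ≠ 1 := hE.z_ne
    -- the sign of commutation
    let χ : E → (F →* ℂˣ) := fun x =>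
      { toFun := fun f => if (x : G) * f = f * x then 1 else -1
        map_one' := by simp
        map_mul' := fun f g => by
          have h := hE.comm_mul_iff x.2 (hFE f.2) (hFE g.2)
          by_cases h1 : (x : G) * f = f * x <;> by_cases h2 : (x : G) * g = g * x <;>
            simp [h1, h2] at h ⊢ <;> simp [h] }
    have hχ : ∀ x y : E, χ x = χ y → ∀ f ∈ F, ((x : G)⁻¹ * y) * f = f * ((x : G)⁻¹ * y) := by
      intro x y hxy f hf
      have h := DFunLike.congr_fun hxy ⟨f, hf⟩
      simp only [χ, MonoidHom.coe_mk, OneHom.coe_mk] at h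
      have hne : (-1 : ℂˣ) ≠ 1 := fun h' => by
        have := congrArg (fun u : ℂˣ => (u : ℂ)) h'
        norm_num at this
      by_cases h1 : (x : G) * f = f * x
      · rw [if_pos h1] at h
        have h2 : (y : G) * f = f * y := by
          by_contra h2
          rw [if_neg h2] at h
          exact hne h.symm
        rw [mul_assoc, h2, ← mul_assoc, (Commute.inv_left (show Commute (x : G) f from h1)).eq, mul_assoc]
      · rw [if_neg h1] at h
        have h2 : ¬ (y : G) * f = f * y := by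
          intro h2
          rw [if_pos h2] at h
          exact hne h
        have e1 := (hE.mul_comm_cases (hFE hf) x.2).resolve_left h1
        have e2 := (hE.mul_comm_cases (hFE hf) y.2).resolve_left h2
        have e3 : (x : G)⁻¹ * (z * f) = f * (x : G)⁻¹ := by
          rw [inv_mul_eq_iff_eq_mul, ← mul_assoc, e1, ← mul_assoc, mul_inv_cancel_right]
        calc (x : G)⁻¹ * y * f = ((x : G)⁻¹ * (z * f)) * y := by rw [mul_assoc, e2]; simp [mul_assoc]
          _ = f * ((x : G)⁻¹ * y) := by rw [e3, mul_assoc]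
    let ι : F →* E := Subgroup.inclusion hFE
    -- the characters of `F` number at most half of it
    haveI hnc : Nonempty F := ⟨1⟩
    have hzF : (⟨z, hF.z_mem⟩ : F) ∈ commutator F := by
      obtain ⟨g, hg, hne⟩ : ∃ g ∈ F, f₀ * g ≠ g * f₀ := by
        by_contra h
        push Not at h
        exact (hF.center f₀ hf₀ h).elim hf₀1 hf₀z
      have h := Subgroup.commutator_mem_commutator (G := F) (Subgroup.mem_top ⟨g, hg⟩)
        (Subgroup.mem_top ⟨f₀, hf₀⟩)
      rw [← commutator_def] at h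
      convert h using 1
      apply Subtype.ext
      show z = g * f₀ * g⁻¹ * f₀⁻¹
      rw [(hF.mul_comm_cases hf₀ hg).resolve_left (Ne.symm hne)]
      simp [mul_assoc]
    have hab : 2 * Nat.card (Abelianization F) ≤ Nat.card F := by
      have h1 : 2 ≤ Nat.card (commutator F) := by
        haveI : Nontrivial (commutator F) := ⟨⟨⟨_, hzF⟩, 1, fun h => hz1
          (congrArg (fun c : commutator F => ((c : F) : G)) h)⟩⟩
        exact Finite.one_lt_card
      rw [Subgroup.card_eq_card_quotient_mul_card_subgroup (commutator F), mul_comm]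
      exact Nat.mul_le_mul_left _ h1
    have hhom : Nat.card (F →* ℂˣ) = Nat.card (Abelianization F) := by
      rw [Nat.card_congr (Abelianization.lift (G := F) (A := ℂˣ))]
      haveI : NeZero (Monoid.exponent (Abelianization F)) := ⟨Monoid.exponent_ne_zero_of_finite⟩
      exact Nat.card_congr (CommGroup.monoidHom_mulEquiv_of_hasEnoughRootsOfUnity
        (Abelianization F) ℂ).some.toEquiv
    haveI : Finite (F →* ℂˣ) := Nat.finite_of_card_ne_zero (by rw [hhom]; exact Nat.card_pos.ne')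
    -- fibres of `χ` on `F` have at most two elements
    obtain ⟨f, hf⟩ : ∃ f : F, χ (ι f) = χ ⟨e, he⟩ := by
      have hfib : ∀ f g : F, χ (ι f) = χ (ι g) → g = f ∨ g = f * ⟨z, hF.z_mem⟩ := by
        intro f g hfg
        have h := hF.center _ (F.mul_mem (inv_mem f.2) g.2) fun w hw => hχ _ _ hfg w hw
        rcases h with h | h
        · exact Or.inl (Subtype.ext (inv_mul_eq_one.1 h).symm)
        · exact Or.inr (Subtype.ext (inv_mul_eq_iff_eq_mul.1 h))
      by_contra hno
      push Not at hno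
      haveI := Fintype.ofFinite F
      haveI := Fintype.ofFinite (F →* ℂˣ)
      have hle : (Finset.univ.image fun f : F => χ (ι f)).card < Fintype.card (F →* ℂˣ) :=
        Finset.card_lt_univ_of_notMem (x := χ ⟨e, he⟩) (by simpa using hno)
      have hbound := Finset.card_le_mul_card_image (s := Finset.univ) (f := fun f : F => χ (ι f)) 2
        (fun b hb => by
          obtain ⟨f, -, rfl⟩ := Finset.mem_image.1 hb
          refine (Finset.card_le_card (t := {f, f * ⟨z, hF.z_mem⟩}) fun g hg => ?_).trans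
            Finset.card_le_two
          rcases hfib f g (Finset.mem_filter.1 hg).2.symm with rfl | rfl <;> simp)
      rw [Finset.card_univ, ← Nat.card_eq_fintype_card] at hbound
      rw [← Nat.card_eq_fintype_card (α := F →* ℂˣ), hhom] at hle
      omega
    have h : (f : G)⁻¹ * e ∈ E ⊓ Subgroup.centralizer (F : Set G) :=
      ⟨E.mul_mem (inv_mem (hFE f.2)) he, Subgroup.mem_centralizer_iff.2 fun w hw => (hχ _ _ hf w hw).symm⟩
    simpa using Subgroup.mul_mem_sup f.2 h
  refine ⟨hsup, hE.of_le inf_le_left ⟨hE.z_mem, Subgroup.mem_centralizer_iff.2 fun f hf =>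
    (hF.z_comm f hf).symm⟩ fun f hf hcent => hE.center f hf.1 fun e he => ?_⟩
  rw [← hsup] at he
  obtain ⟨a, ha, b, hb, rfl⟩ := exists_mul_eq
    (fun a ha b (hb : b ∈ E ⊓ Subgroup.centralizer (F : Set G)) =>
      Subgroup.mem_centralizer_iff.1 hb.2 a ha) he
  rw [← mul_assoc, ← Subgroup.mem_centralizer_iff.1 hf.2 a ha, mul_assoc, hcent b hb, mul_assoc]

omit [Finite G] in
/-- A supremum of pairwise commuting subgroups of extraspecial type is of extraspecial type. -/
theorem isES_biSup (hE : IsES E z) {ι : Type*} [DecidableEq ι] (Q : ι → Subgroup G) (s : Finset ι)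
    (hQE : ∀ i, Q i ≤ E) (hQ : ∀ i, IsES (Q i) z) {i₀ : ι} (hi₀ : i₀ ∈ s)
    (hcomm : ∀ i ∈ s, ∀ j ∈ s, i ≠ j → ∀ a ∈ Q i, ∀ b ∈ Q j, a * b = b * a) :
    IsES (⨆ i ∈ s, Q i) z := by
  have hle : (⨆ i ∈ s, Q i) ≤ E := iSup₂_le fun i _ => hQE i
  refine hE.of_le hle (le_biSup (f := Q) hi₀ (hQ i₀).z_mem) ?_
  clear hle hi₀
  induction s using Finset.induction with
  | empty =>
    intro e he _
    simp only [Finset.notMem_empty, not_false_eq_true, iSup_neg, iSup_bot] at he
    exact Or.inl (Subgroup.mem_bot.1 he)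
  | @insert i s hi ih =>
    intro e he hcent
    rw [Finset.iSup_insert] at he hcent
    have hc : ∀ a ∈ Q i, ∀ b ∈ ⨆ j ∈ s, Q j, a * b = b * a := by
      intro a ha b hb
      have : (⨆ j ∈ s, Q j) ≤ Subgroup.centralizer ({a} : Set G) := iSup₂_le fun j hj x hx =>
        Subgroup.mem_centralizer_singleton_iff.2 (hcomm i (Finset.mem_insert_self i s) j
          (Finset.mem_insert_of_mem hj) (fun h => hi (h ▸ hj)) a ha x hx).symm
      exact (Subgroup.mem_centralizer_singleton_iff.1 (this hb)).symm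
    obtain ⟨q, hq, x, hx, rfl⟩ := exists_mul_eq hc he
    have hqz : q = 1 ∨ q = z := (hQ i).center q hq fun w hw => by
      have h := hcent w (Subgroup.mem_sup_left hw)
      rw [mul_assoc, ← hc w hw x hx, ← mul_assoc, ← mul_assoc] at h
      exact mul_right_cancel h
    have hqc : ∀ w ∈ E, q * w = w * q := fun w hw => by
      rcases hqz with rfl | rfl
      · simp
      · exact hE.z_comm w hw
    have hxz : x = 1 ∨ x = z := by
      refine ih (fun a ha b hb => hcomm a (Finset.mem_insert_of_mem ha) b (Finset.mem_insert_of_mem hb))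
        x hx fun w hw => ?_
      have h := hcent w (Subgroup.mem_sup_right hw)
      have hwE : w ∈ E := (iSup₂_le fun j _ => hQE j : (⨆ j ∈ s, Q j) ≤ E) hw
      rw [mul_assoc, ← mul_assoc w, ← hqc w hwE, mul_assoc] at h
      exact mul_left_cancel h
    rcases hqz with rfl | rfl <;> rcases hxz with rfl | rfl <;> simp [hE.z_sq]

omit [Finite G] in
theorem false_of_flip {a e : G} {r : ℕ} (hr : Odd r) (hz : z * z = 1) (hz1 : z ≠ 1)
    (haz : a * z = z * a) (hpow : a ^ r * e = e * a ^ r) (h : a * e * a⁻¹ = z * e) : False := by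
  have hk : ∀ k : ℕ, a ^ k * e = z ^ k * e * a ^ k := by
    intro k
    induction k with
    | zero => simp
    | succ k ih =>
      have hzk : a * z ^ k = z ^ k * a := (Commute.pow_right (show Commute a z from haz) k).eq
      rw [mul_inv_eq_iff_eq_mul] at h
      calc a ^ (k + 1) * e = a * (a ^ k * e) := by rw [pow_succ', mul_assoc]
        _ = (a * z ^ k) * e * a ^ k := by rw [ih]; simp only [mul_assoc]
        _ = z ^ k * (a * e) * a ^ k := by rw [hzk]; simp only [mul_assoc]
        _ = z ^ (k + 1) * e * a ^ (k + 1) := by rw [h, pow_succ, pow_succ']; simp only [mul_assoc]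
  have h1 := hk r
  rw [hpow] at h1
  obtain ⟨j, rfl⟩ := hr
  rw [pow_succ z, pow_mul z, pow_two, hz, one_pow, one_mul] at h1
  exact hz1 (mul_eq_right.1 (mul_right_cancel h1).symm)

/-- The hypotheses on an odd group acting on `E` with a commutative image of exponent `r`. -/
structure AbHyp (E T A : Subgroup G) (z : G) (r : ℕ) : Prop where
  prime : r.Prime
  odd : Odd r
  cardOdd : Odd (Nat.card A)
  acts : ∀ a ∈ A, Acts E z a
  norm : ∀ t ∈ T, ∀ a ∈ A, t * a * t⁻¹ ∈ A
  comm : ∀ a ∈ A, ∀ b ∈ A, ⁅a, b⁆ ∈ Subgroup.centralizer (E : Set G)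
  pow : ∀ a ∈ A, a ^ r ∈ Subgroup.centralizer (E : Set G)
  fixed : ∀ e ∈ E, e ∈ Subgroup.centralizer (A : Set G) → e = 1 ∨ e = z

omit [Finite G] in
theorem conj_mul_pow_eq {g h : G} (hg : Acts E z g) (hh : Acts E z h)
    (hc : ⁅g, h⁆ ∈ Subgroup.centralizer (E : Set G)) (i : ℕ) :
    ∀ e ∈ E, (g * h) ^ i * e * ((g * h) ^ i)⁻¹ = g ^ i * h ^ i * e * (g ^ i * h ^ i)⁻¹ := by
  let π := Subgroup.normalizerMonoidHom E
  let g' : Subgroup.normalizer (E : Set G) := ⟨g, hg.1⟩
  let h' : Subgroup.normalizer (E : Set G) := ⟨h, hh.1⟩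
  have hπ : ∀ (u : Subgroup.normalizer (E : Set G)) (e : E), (π u e : G) = u * e * (u : G)⁻¹ :=
    fun u e => rfl
  have hcomm : Commute (π g') (π h') := by
    refine MulEquiv.ext fun e => Subtype.ext ?_
    show (π g' (π h' e) : G) = π h' (π g' e)
    rw [hπ, hπ, hπ, hπ]
    have hm : h * (g * (e : G) * g⁻¹) * h⁻¹ ∈ E := acts_mem_conj hh (acts_mem_conj hg e.2)
    calc g * (h * (e : G) * h⁻¹) * g⁻¹
        = ⁅g, h⁆ * (h * (g * (e : G) * g⁻¹) * h⁻¹) * ⁅g, h⁆⁻¹ := by
          simp [commutatorElement_def, mul_assoc]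
      _ = h * (g * (e : G) * g⁻¹) * h⁻¹ := by
          rw [← Subgroup.mem_centralizer_iff.1 hc _ hm, mul_inv_cancel_right]
  intro e he
  have key : π ((g' * h') ^ i) = π (g' ^ i * h' ^ i) := by
    rw [map_pow, map_mul, hcomm.mul_pow, ← map_pow, ← map_pow, ← map_mul]
  have := congrArg (fun φ : MulAut E => (φ ⟨e, he⟩ : G)) key
  simpa [hπ, g', h'] using this

theorem AbHyp.exists_max (hE : IsES E z) {A : Subgroup G} {r : ℕ} (hA : AbHyp E T A z r)
    (hbig : ∃ e ∈ E, e ≠ 1 ∧ e ≠ z) :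
    ∃ B : Subgroup G, B ≤ A ∧ A ⊓ Subgroup.centralizer (E : Set G) ≤ B ∧
      (∃ e ∈ E ⊓ Subgroup.centralizer (B : Set G), e ≠ 1 ∧ e ≠ z) ∧ B ≠ A ∧
      (∀ b ∈ A, b ∉ B → B ⊔ Subgroup.zpowers b = A) ∧ ∀ a ∈ A, ∀ b ∈ B, a * b * a⁻¹ ∈ B := by
  classical
  set S : Set (Subgroup G) := {B | B ≤ A ∧ A ⊓ Subgroup.centralizer (E : Set G) ≤ B ∧
    ∃ e ∈ E ⊓ Subgroup.centralizer (B : Set G), e ≠ 1 ∧ e ≠ z} with hS
  obtain ⟨e₁, he₁, he₁1, he₁z⟩ := hbig
  have hne : S.Nonempty := ⟨A ⊓ Subgroup.centralizer (E : Set G), inf_le_left, le_rfl, e₁,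
    ⟨he₁, Subgroup.mem_centralizer_iff.2 fun b hb => (Subgroup.mem_centralizer_iff.1 hb.2 e₁ he₁).symm⟩,
    he₁1, he₁z⟩
  obtain ⟨B, ⟨hBA, hKB, e₀, he₀, he₀1, he₀z⟩, hmax⟩ := S.toFinite.exists_maximal hne
  have hnorm : ∀ a ∈ A, ∀ b ∈ B, a * b * a⁻¹ ∈ B := fun a ha b hb => by
    have h1 : ⁅a, b⁆ ∈ B := hKB ⟨by
      rw [commutatorElement_def]
      exact A.mul_mem (A.mul_mem (A.mul_mem ha (hBA hb)) (inv_mem ha)) (inv_mem (hBA hb)),
      hA.comm a ha b (hBA hb)⟩
    have h2 := B.mul_mem h1 hb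
    rwa [commutatorElement_def, inv_mul_cancel_right] at h2
  have hne' : B ≠ A := by
    rintro rfl
    exact (hA.fixed e₀ he₀.1 he₀.2).elim he₀1 he₀z
  refine ⟨B, hBA, hKB, ⟨e₀, he₀, he₀1, he₀z⟩, hne', fun b hb hbB => ?_, hnorm⟩
  by_contra hne2
  obtain ⟨a, haA, ha⟩ : ∃ a ∈ A, a ∉ B ⊔ Subgroup.zpowers b := by
    by_contra h
    push Not at h
    exact hne2 (le_antisymm (sup_le hBA (Subgroup.zpowers_le.2 hb)) h)
  -- the quotient of the fixed points by `⟨z⟩`
  set Q := E ⊓ Subgroup.centralizer (B : Set G) with hQ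
  have hQES := isES_fixed hE (fun x hx => hA.acts x (hBA hx))
    (Odd.of_dvd_nat hA.cardOdd (Subgroup.card_dvd_of_le hBA))
  set Zq : Subgroup Q := (Subgroup.zpowers z).subgroupOf Q with hZq
  have hmemZ : ∀ x : Q, x ∈ Zq ↔ ((x : G) = 1 ∨ (x : G) = z) := by
    intro x
    rw [hZq, Subgroup.mem_subgroupOf]
    constructor
    · intro h
      obtain ⟨k, hk⟩ := Subgroup.mem_zpowers_iff.1 h
      rcases Int.even_or_odd k with ⟨m, rfl⟩ | ⟨m, rfl⟩
      · left
        rw [← hk, ← two_mul, zpow_mul, zpow_two, hE.z_sq, one_zpow]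
      · right
        rw [← hk, zpow_add_one, zpow_mul, zpow_two, hE.z_sq, one_zpow, one_mul]
    · rintro (h | h) <;> rw [h]
      · exact one_mem _
      · exact Subgroup.mem_zpowers z
  haveI : Zq.Normal := ⟨fun x hx g => by
    rcases (hmemZ x).1 hx with h | h
    · refine (hmemZ _).2 (Or.inl ?_)
      simp [h]
    · refine (hmemZ _).2 (Or.inr ?_)
      show (g : G) * x * (g : G)⁻¹ = z
      rw [h, ← hE.z_comm g g.2.1, mul_inv_cancel_right]⟩
  letI : CommGroup (Q ⧸ Zq) :=
    { (inferInstance : Group (Q ⧸ Zq)) with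
      mul_comm := fun x y => by
        obtain ⟨x, rfl⟩ := QuotientGroup.mk_surjective x
        obtain ⟨y, rfl⟩ := QuotientGroup.mk_surjective y
        rw [← QuotientGroup.mk_mul, ← QuotientGroup.mk_mul, QuotientGroup.eq, hmemZ]
        show ((x : G) * y)⁻¹ * ((y : G) * x) = 1 ∨ ((x : G) * y)⁻¹ * ((y : G) * x) = z
        rcases hE.mul_comm_cases x.2.1 y.2.1 with h | h
        · left; rw [h, inv_mul_cancel]
        · right; rw [h, hE.z_comm _ (E.mul_mem x.2.1 y.2.1), inv_mul_cancel_left] }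
  have hQA : ∀ g ∈ A, ∀ x ∈ Q, g * x * g⁻¹ ∈ Q := fun g hg x hx =>
    inter_conj_mem (hA.acts g hg).1
      (fun w hw => by simpa using hnorm g⁻¹ (inv_mem hg) w hw) hx
  let σ : A → (Q →* Q ⧸ Zq) := fun g =>
    { toFun := fun x => QuotientGroup.mk (⟨(g : G) * x * (g : G)⁻¹, hQA g g.2 x x.2⟩ : Q)
      map_one' := by
        rw [← QuotientGroup.mk_one]; congr 1; exact Subtype.ext (by simp)
      map_mul' := fun x y => by
        rw [← QuotientGroup.mk_mul]; congr 1; exact Subtype.ext (by simp [mul_assoc]) }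
  have hr0 := hA.prime.pos
  have hfix : ∀ g : A, (g : G) ∉ B → ∀ x : Q, σ g x = QuotientGroup.mk x → x ∈ Zq := by
    intro g hg x hx
    rw [hmemZ]
    simp only [σ, MonoidHom.coe_mk, OneHom.coe_mk] at hx
    rw [QuotientGroup.eq, hmemZ] at hx
    have hgx : (g : G) * x * (g : G)⁻¹ = x := by
      rcases hx with h | h
      · exact inv_mul_eq_one.1 h
      · exfalso
        have hcr := Subgroup.mem_centralizer_iff.1 (hA.pow g g.2) x x.2.1
        refine false_of_flip hA.odd hE.z_sq hE.z_ne (hA.acts g g.2).2 hcr.symm ?_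
        have h' : ((g : G) * x * (g : G)⁻¹)⁻¹ * x = z := h
        rw [inv_mul_eq_iff_eq_mul] at h'
        calc (g : G) * x * (g : G)⁻¹ = ((g : G) * x * (g : G)⁻¹ * z) * z := by rw [mul_assoc _ z z, hE.z_sq, mul_one]
          _ = x * z := by rw [← h']
          _ = z * x := (hE.z_comm x x.2.1).symm
    by_contra hxz
    push Not at hxz
    have hS' : B ⊔ Subgroup.zpowers (g : G) ∈ S := by
      refine ⟨sup_le hBA (Subgroup.zpowers_le.2 g.2), hKB.trans le_sup_left, x, ⟨x.2.1, ?_⟩, hxz.1, hxz.2⟩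
      have hle : B ⊔ Subgroup.zpowers (g : G) ≤ Subgroup.centralizer ({(x : G)} : Set G) :=
        sup_le (fun w hw => Subgroup.mem_centralizer_singleton_iff.2
          (Subgroup.mem_centralizer_iff.1 x.2.2 w hw))
          (Subgroup.zpowers_le.2 (Subgroup.mem_centralizer_singleton_iff.2 (mul_inv_eq_iff_eq_mul.1 hgx)))
      exact Subgroup.mem_centralizer_iff.2 fun w hw =>
        Subgroup.mem_centralizer_singleton_iff.1 (hle hw)
    exact hg ((hmax hS' le_sup_left) (Subgroup.mem_sup_right (Subgroup.mem_zpowers _)))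
  have hcomp : ∀ g h : A, ∀ x : Q, σ (g * h) x = σ g ⟨(h : G) * x * (h : G)⁻¹, hQA h h.2 x x.2⟩ := by
    intro g h x
    simp only [σ, MonoidHom.coe_mk, OneHom.coe_mk]
    congr 1
    exact Subtype.ext (by simp [mul_assoc])
  have hrel : ∀ g : A, (g : G) ∈ Subgroup.centralizer (E : Set G) → ∀ x : Q, σ g x = QuotientGroup.mk x := by
    intro g hg x
    simp only [σ, MonoidHom.coe_mk, OneHom.coe_mk]
    congr 1
    exact Subtype.ext (by
      show (g : G) * x * (g : G)⁻¹ = x
      rw [← Subgroup.mem_centralizer_iff.1 hg x x.2.1, mul_inv_cancel_right])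
  have hnormzero : ∀ g : A, (g : G) ∉ B → ∀ x : Q, ∏ i ∈ Finset.range r, σ (g ^ i) x = 1 := by
    intro g hg x
    choose y hy using fun i : ℕ => QuotientGroup.mk_surjective (σ (g ^ i) x)
    set p : Q := (List.ofFn fun i : Fin r => y i).prod with hp
    have hpmk : QuotientGroup.mk p = ∏ i ∈ Finset.range r, σ (g ^ i) x := by
      rw [hp, ← QuotientGroup.mk'_apply, map_list_prod, List.map_ofFn, List.prod_ofFn,
        ← Fin.prod_univ_eq_prod_range]
      exact Finset.prod_congr rfl fun i _ => hy i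
    rw [← hpmk, QuotientGroup.eq_one_iff]
    refine hfix g hg p ?_
    have key : ∀ i, σ g (y i) = σ (g ^ (i + 1)) x := by
      intro i
      rw [pow_succ' g i, hcomp]
      have h := hy i
      simp only [σ, MonoidHom.coe_mk, OneHom.coe_mk] at h ⊢
      rw [QuotientGroup.eq, hmemZ] at h ⊢
      rcases h with h | h
      · left
        have h2 : (y i : G) = (g ^ i : A) * (x : G) * ((g ^ i : A) : G)⁻¹ := inv_mul_eq_one.1 h
        simp [h2]
      · right
        have h' : (y i : G)⁻¹ * ((g ^ i : A) * (x : G) * ((g ^ i : A) : G)⁻¹) = z := h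
        show ((g : G) * (y i : G) * (g : G)⁻¹)⁻¹ * ((g : G) * ((g ^ i : A) * (x : G) * ((g ^ i : A) : G)⁻¹) * (g : G)⁻¹) = z
        calc _ = (g : G) * ((y i : G)⁻¹ * ((g ^ i : A) * (x : G) * ((g ^ i : A) : G)⁻¹)) * (g : G)⁻¹ := by
              group
          _ = z := by rw [h', (hA.acts g g.2).2, mul_inv_cancel_right]
    rw [hp, map_list_prod, List.map_ofFn, List.prod_ofFn, ← hp, hpmk]
    calc ∏ i : Fin r, (σ g ∘ fun i : Fin r => y i) i = ∏ i : Fin r, σ (g ^ ((i : ℕ) + 1)) x :=
          Finset.prod_congr rfl fun i _ => key i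
      _ = ∏ i ∈ Finset.range r, σ (g ^ (i + 1)) x := Fin.prod_univ_eq_prod_range (fun i => σ (g ^ (i + 1)) x) r
      _ = ∏ i ∈ Finset.range r, σ (g ^ i) x := by
        obtain ⟨r', hr'⟩ := Nat.exists_eq_add_of_le' hr0
        rw [hr']
        conv_rhs => rw [Finset.prod_range_succ']
        rw [Finset.prod_range_succ, ← hr']
        congr 1
        rw [hrel (g ^ r) (by simpa using hA.pow g g.2) x, pow_zero, hrel 1 (one_mem _) x]
  -- sum over the lines through `B` and `b`
  have hzero : ∀ x : Q, x ∈ Zq := by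
    intro x
    have hk : ∀ k : ℕ, ((⟨a, haA⟩ ^ k * ⟨b, hb⟩ : A) : G) ∉ B := by
      intro k hkB
      by_cases hdiv : r ∣ k
      · obtain ⟨q, rfl⟩ := hdiv
        refine hbB ?_
        have h1 : a ^ (r * q) ∈ B := hKB ⟨A.pow_mem haA _, by rw [pow_mul]; exact pow_mem (hA.pow a haA) q⟩
        have h2 := B.mul_mem (inv_mem h1) hkB
        simpa using h2
      · refine ha ?_
        obtain ⟨m, hm, hm'⟩ := Nat.exists_mul_mod_eq_one_of_coprime
          ((hA.prime.coprime_iff_not_dvd.2 hdiv).symm) hA.prime.one_lt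
        have hak : a ^ k ∈ B ⊔ Subgroup.zpowers b := by
          have h2 : (a ^ k * b) * b⁻¹ ∈ B ⊔ Subgroup.zpowers b :=
            mul_mem (Subgroup.mem_sup_left (by simpa using hkB))
              (Subgroup.mem_sup_right (inv_mem (Subgroup.mem_zpowers b)))
          simpa using h2
        have h3 : a ^ (k * m) ∈ B ⊔ Subgroup.zpowers b := by rw [pow_mul]; exact pow_mem hak m
        rw [← Nat.div_add_mod (k * m) r, hm', pow_succ, pow_mul] at h3
        have h4 : (a ^ r) ^ (k * m / r) ∈ B ⊔ Subgroup.zpowers b :=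
          Subgroup.mem_sup_left (hKB ⟨A.pow_mem (A.pow_mem haA r) _, pow_mem (hA.pow a haA) _⟩)
        have h5 := mul_mem (inv_mem h4) h3
        simpa using h5
    have hai : ∀ i, 0 < i → i < r → ((⟨a, haA⟩ ^ i : A) : G) ∉ B := by
      intro i hi0 hir hiB
      refine ha (Subgroup.mem_sup_left ?_)
      obtain ⟨m, hm, hm'⟩ := Nat.exists_mul_mod_eq_one_of_coprime
        ((hA.prime.coprime_iff_not_dvd.2 (Nat.not_dvd_of_pos_of_lt hi0 hir)).symm) hA.prime.one_lt
      have h3 : a ^ (i * m) ∈ B := by rw [pow_mul]; exact pow_mem (by simpa using hiB) m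
      rw [← Nat.div_add_mod (i * m) r, hm', pow_succ, pow_mul] at h3
      have h4 : (a ^ r) ^ (i * m / r) ∈ B := hKB ⟨A.pow_mem (A.pow_mem haA r) _, pow_mem (hA.pow a haA) _⟩
      simpa using mul_mem (inv_mem h4) h3
    set ga : A := ⟨a, haA⟩ with hga
    set gb : A := ⟨b, hb⟩ with hgb
    have hpow_eq : ∀ k i : ℕ, σ ((ga ^ k * gb) ^ i) x = σ ((ga ^ i) ^ k * gb ^ i) x := by
      -- modulo the centraliser of `E` the image is commutative
      intro k i
      have h := conj_mul_pow_eq (hA.acts _ (ga ^ k).2) (hA.acts b hb)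
        (hA.comm _ (ga ^ k).2 b hb) i (x : G) x.2.1
      simp only [σ, MonoidHom.coe_mk, OneHom.coe_mk]
      congr 1
      apply Subtype.ext
      rw [← pow_mul, mul_comm i k, pow_mul]
      simpa [hga, hgb] using h
    have hprod : (∏ k ∈ Finset.range r, ∏ i ∈ Finset.range r, σ ((ga ^ k * gb) ^ i) x) = 1 :=
      Finset.prod_eq_one fun k _ => hnormzero _ (hk k) x
    simp only [hpow_eq] at hprod
    rw [Finset.prod_comm, Finset.prod_eq_single 0] at hprod
    · simp only [pow_zero, one_mul, one_pow, Finset.prod_const, Finset.card_range] at hprod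
      rw [hrel 1 (one_mem _) x, ← QuotientGroup.mk_pow, QuotientGroup.eq_one_iff] at hprod
      have hsq : x ^ 2 ∈ Zq := by
        rw [hmemZ, pow_two]
        exact hE.sq x x.2.1
      obtain ⟨j, hj⟩ := hA.odd
      rw [hj, pow_succ, pow_mul] at hprod
      have h6 := Zq.mul_mem (inv_mem (pow_mem hsq j)) hprod
      rwa [inv_mul_cancel_left] at h6
    · intro i hi hi0
      calc ∏ k ∈ Finset.range r, σ ((ga ^ i) ^ k * gb ^ i) x
          = ∏ k ∈ Finset.range r, σ ((ga ^ i) ^ k) ⟨((gb ^ i : A) : G) * x * ((gb ^ i : A) : G)⁻¹,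
              hQA _ (gb ^ i).2 x x.2⟩ := Finset.prod_congr rfl fun k _ => hcomp _ _ x
        _ = 1 := hnormzero _ (hai i (Nat.pos_of_ne_zero hi0) (Finset.mem_range.1 hi)) _
    · intro h
      exact absurd (Finset.mem_range.2 hr0) h
  exact ((hmemZ ⟨e₀, he₀⟩).1 (hzero _)).elim he₀1 he₀z

end CfsgLib.Correspondences.ExtraExt
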