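import Mathlib
import Cfsg.Agent.Lib.CharTheory.Degree
import Cfsg.Agent.Lib.Correspondences.CharKer
import Cfsg.Agent.Lib.Correspondences.Codegree
import Cfsg.Agent.Lib.Correspondences.Inflate

/-!
Gagola characters: irreducible characters nonzero on exactly two conjugacy classes.
-/

set_option autoImplicit false
set_option linter.style.haveILetI false
set_option linter.unusedSectionVars false

namespace CfsgLib.Correspondences

open Cfsg CfsgLib.CharTheory
open scoped ComplexConjugate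

variable {G : Type*} [Group G] [Finite G]

/-- The data attached to a Gagola character `χ`: its support `N` and the multiplier `m`. -/
structure GagolaData (χ : IrrCharacter G) (N : Subgroup G) (m : ℕ) : Prop where
  mem_iff : ∀ g : G, (χ : G → ℂ) g ≠ 0 ↔ g ∈ N
  normal : N.Normal
  ne_bot : N ≠ ⊥
  fused : ∀ x ∈ N, ∀ y ∈ N, x ≠ 1 → y ≠ 1 → IsConj x y
  m_pos : 0 < m
  apply_one : (χ : G → ℂ) 1 = (m * (Nat.card N - 1) : ℕ)
  apply_mem : ∀ x ∈ N, x ≠ 1 → (χ : G → ℂ) x = -(m : ℂ)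
  card_eq : Nat.card G = m ^ 2 * (Nat.card N - 1) * Nat.card N
  other : ∀ ψ : IrrCharacter G, ψ ≠ χ → ∀ x ∈ N, (ψ : G → ℂ) x = (ψ : G → ℂ) 1

theorem exists_gagolaData (hG : 2 < Nat.card G) (χ : IrrCharacter G)
    (hχ : Nat.card {C : ConjClasses G // ∃ g ∈ C.carrier, (χ : G → ℂ) g ≠ 0} = 2) :
    ∃ (N : Subgroup G) (m : ℕ), GagolaData χ N m := by
  classical
  haveI := Fintype.ofFinite G
  haveI := Fintype.ofFinite (IrrCharacter G)
  set d := charDegree (χ : G → ℂ) with hd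
  have hd0 : 0 < d := charDegree_pos χ.2
  have h1 : (χ : G → ℂ) 1 = d := (charDegree_cast (IsIrrCharacter.isCharacter χ.2)).symm
  have h1ne : (χ : G → ℂ) 1 ≠ 0 := apply_one_ne_zero_of_isIrr χ.2
  obtain ⟨⟨C, hC⟩, hCne, hCuniq⟩ := (Nat.card_eq_two_iff'
    (⟨ConjClasses.mk 1, 1, ConjClasses.mem_carrier_mk, h1ne⟩ :
      {C : ConjClasses G // ∃ g ∈ C.carrier, (χ : G → ℂ) g ≠ 0})).1 hχ
  obtain ⟨c, hcC, hc0⟩ := hC
  have hcC' : ConjClasses.mk c = C := ConjClasses.mem_carrier_iff_mk_eq.1 hcC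
  have hc1 : c ≠ 1 := fun e => hCne (Subtype.ext (by subst e; exact hcC'.symm))
  have hval : ∀ x, IsConj c x → (χ : G → ℂ) x = (χ : G → ℂ) c := fun x hx =>
    (irr_apply_eq_of_isConj hx χ).symm
  have hsupp : ∀ g, (χ : G → ℂ) g ≠ 0 ↔ g = 1 ∨ IsConj c g := by
    intro g
    constructor
    · intro hg
      by_cases h : g = 1
      · exact Or.inl h
      refine Or.inr (ConjClasses.mk_eq_mk_iff_isConj.1 ?_)
      have := hCuniq ⟨ConjClasses.mk g, g, ConjClasses.mem_carrier_mk, hg⟩ (fun e => h (by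
        have h' := congrArg Subtype.val e
        exact isConj_one_left.1 (ConjClasses.mk_eq_mk_iff_isConj.1 h')))
      rw [hcC']
      exact (congrArg Subtype.val this).symm
    · rintro (rfl | h)
      · exact h1ne
      · rw [hval g h]; exact hc0
  set k := Nat.card {x : G // IsConj c x} with hk
  have hk0 : 0 < k := Nat.card_pos_iff.2 ⟨⟨⟨c, IsConj.refl c⟩⟩, inferInstance⟩
  have hfil : ∀ F : G → ℂ, (∀ g, (χ : G → ℂ) g = 0 → F g = 0) → (∀ x, IsConj c x → F x = F c) →
      ∑ g, F g = F 1 + k * F c := by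
    intro F hF0 hFc
    have hsub : ∑ g, F g = ∑ g ∈ insert 1 (Finset.univ.filter (IsConj c)), F g :=
      (Finset.sum_subset (Finset.subset_univ _) fun g _ hg => hF0 g (by
        by_contra hne
        rcases (hsupp g).1 hne with h | h
        · exact hg (Finset.mem_insert.2 (Or.inl h))
        · exact hg (Finset.mem_insert.2 (Or.inr (Finset.mem_filter.2 ⟨Finset.mem_univ _, h⟩))))).symm
    rw [hsub, Finset.sum_insert (by simp [hc1]),
      Finset.sum_congr rfl (fun x hx => hFc x (Finset.mem_filter.1 hx).2), Finset.sum_const,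
      nsmul_eq_mul, hk, Nat.card_eq_fintype_card, Fintype.card_subtype]
  have hclass := IsIrrCharacter.isClassFunction χ.2
  have horth : ∀ ψ : IrrCharacter G, ψ ≠ χ →
      (d : ℂ) * conj ((ψ : G → ℂ) 1) + k * ((χ : G → ℂ) c * conj ((ψ : G → ℂ) c)) = 0 := by
    intro ψ hψ
    have h := classInner_irrCharacter χ ψ
    rw [if_neg (Ne.symm hψ), Cfsg.classInner, mul_eq_zero] at h
    replace h := h.resolve_left (inv_ne_zero (Nat.cast_ne_zero.2 Nat.card_pos.ne'))
    rw [hfil _ (fun g hg => by simp [hg]) (fun x hx => by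
      rw [hval x hx, irr_apply_eq_of_isConj hx ψ]), h1] at h
    exact h
  have htriv : trivIrr G ≠ χ := by
    intro e
    have hall : ∀ g : G, g = 1 ∨ IsConj c g := fun g => (hsupp g).1 (by
      rw [← e, trivIrr_apply]; exact one_ne_zero)
    have hk1 : k + 1 = Nat.card G := by
      rw [hk, Nat.card_eq_fintype_card, Nat.card_eq_fintype_card, Fintype.card_subtype]
      have : Finset.univ.filter (IsConj c) = Finset.univ.erase 1 := by
        ext g
        simp only [Finset.mem_filter, Finset.mem_univ, true_and, Finset.mem_erase, and_true]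
        exact ⟨fun h e => hc1 (isConj_one_left.1 (e ▸ h)), fun h => (hall g).resolve_left h⟩
      rw [this, Finset.card_erase_of_mem (Finset.mem_univ 1), Finset.card_univ]
      have := Fintype.card_pos (α := G)
      omega
    have hdvd : k ∣ Nat.card G := by
      rw [hk, card_isConj]; exact Subgroup.index_dvd_card _
    rw [← hk1, Nat.dvd_add_right (dvd_refl k), Nat.dvd_one] at hdvd
    omega
  have hsum : (d : ℂ) + k * (χ : G → ℂ) c = 0 := by
    simpa [trivIrr_apply] using horth _ htriv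
  have hother : ∀ ψ : IrrCharacter G, ψ ≠ χ → (ψ : G → ℂ) c = (ψ : G → ℂ) 1 := by
    intro ψ hψ
    have h := horth ψ hψ
    have hd' : (d : ℂ) = -((k : ℂ) * (χ : G → ℂ) c) := eq_neg_of_add_eq_zero_left hsum
    rw [hd'] at h
    have h' : (k : ℂ) * (χ : G → ℂ) c * (conj ((ψ : G → ℂ) c) - conj ((ψ : G → ℂ) 1)) = 0 := by
      linear_combination h
    have h'' := (mul_eq_zero.1 h').resolve_left (mul_ne_zero (by exact_mod_cast hk0.ne') hc0)
    exact (starRingEnd ℂ).injective (sub_eq_zero.1 h'')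
  -- the support as a subgroup
  let N : Subgroup G :=
    ⨅ ψ : {ψ : IrrCharacter G // ψ ≠ χ}, charKer (IsIrrCharacter.isCharacter ψ.1.2)
  have hmemN : ∀ g, g ∈ N ↔ ∀ ψ : IrrCharacter G, ψ ≠ χ → (ψ : G → ℂ) g = (ψ : G → ℂ) 1 := fun g => by
    simp only [N, Subgroup.mem_iInf, Subtype.forall]
    rfl
  have hN : ∀ g, (χ : G → ℂ) g ≠ 0 ↔ g ∈ N := by
    intro g
    constructor
    · intro hg
      rw [hmemN]
      intro ψ hψ
      rcases (hsupp g).1 hg with rfl | h
      · rfl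
      · rw [← irr_apply_eq_of_isConj h ψ, hother ψ hψ]
    · intro hg hg0
      rw [hmemN] at hg
      have hg1 : g ≠ 1 := fun e => h1ne (e ▸ hg0)
      have h := sum_degree_mul (G := G) g
      rw [if_neg hg1, ← Finset.add_sum_erase _ _ (Finset.mem_univ χ), hg0, mul_zero, zero_add] at h
      have hnat : ∑ ψ ∈ Finset.univ.erase χ, (ψ : G → ℂ) 1 * (ψ : G → ℂ) g =
          ((∑ ψ ∈ Finset.univ.erase χ, charDegree (ψ : G → ℂ) ^ 2 : ℕ) : ℂ) := by
        rw [Nat.cast_sum]
        exact Finset.sum_congr rfl fun ψ hψ => by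
          rw [hg ψ (Finset.ne_of_mem_erase hψ), Nat.cast_pow,
            charDegree_cast (IsIrrCharacter.isCharacter ψ.2), sq]
      rw [hnat, Nat.cast_eq_zero, Finset.sum_eq_zero_iff] at h
      have := h _ (Finset.mem_erase.2 ⟨htriv, Finset.mem_univ _⟩)
      exact (pow_pos (charDegree_pos (trivIrr G).2) 2).ne' this
  have hcardN : Nat.card N = k + 1 := by
    rw [hk, Nat.card_eq_fintype_card (α := N), Nat.card_eq_fintype_card, Fintype.card_subtype,
      Fintype.card_subtype]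
    have : Finset.univ.filter (fun g => g ∈ N) = insert 1 (Finset.univ.filter (IsConj c)) := by
      ext g
      simp only [Finset.mem_insert, Finset.mem_filter,
        Finset.mem_univ, true_and, ← hN g, hsupp g]
    rw [this, Finset.card_insert_of_notMem (by simp [hc1])]
  -- the value at `c` is a negative integer
  have hkC : (k : ℂ) ≠ 0 := by exact_mod_cast hk0.ne'
  have hdiv : k ∣ d := by
    refine dvd_of_isIntegral_natCast_div hk0.ne' ?_
    have : ((d : ℂ) / k) = -(χ : G → ℂ) c := by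
      rw [eq_neg_of_add_eq_zero_left hsum]; field_simp
    rw [this]
    exact (IsCharacter.isIntegral (IsIrrCharacter.isCharacter χ.2) c).neg
  obtain ⟨m, hm⟩ := hdiv
  have hm0 : 0 < m := by
    rcases Nat.eq_zero_or_pos m with rfl | h
    · rw [mul_zero] at hm; omega
    · exact h
  have hca : (χ : G → ℂ) c = -(m : ℂ) := by
    rw [hm] at hsum
    push_cast at hsum
    have : (k : ℂ) * ((χ : G → ℂ) c + m) = 0 := by linear_combination hsum
    exact eq_neg_of_add_eq_zero_left ((mul_eq_zero.1 this).resolve_left hkC)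
  refine ⟨N, m, ⟨hN, ?_, ?_, ?_, hm0, ?_, ?_, ?_, fun ψ hψ x hx => (hmemN x).1 hx ψ hψ⟩⟩
  · refine ⟨fun x hx g => (hN _).1 ?_⟩
    rw [hclass x g]; exact (hN x).2 hx
  · intro h
    exact hc1 (Subgroup.mem_bot.1 (h ▸ (hN c).1 hc0))
  · intro x hx y hy hx1 hy1
    exact (((hsupp x).1 ((hN x).2 hx)).resolve_left hx1).symm.trans
      (((hsupp y).1 ((hN y).2 hy)).resolve_left hy1)
  · rw [hcardN, Nat.add_sub_cancel, h1, hm, mul_comm]
  · intro x hx hx1
    rw [hval x (((hsupp x).1 ((hN x).2 hx)).resolve_left hx1), hca]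
  · have h := classInner_self_of_isIrr χ.2
    rw [Cfsg.classInner, inv_mul_eq_one₀ (Nat.cast_ne_zero.2 Nat.card_pos.ne'),
      hfil _ (fun g hg => by simp [hg]) (fun x hx => by rw [hval x hx]), h1, hca, hm] at h
    rw [hcardN, Nat.add_sub_cancel]
    have h2 : ((Nat.card G : ℕ) : ℂ) = ((m ^ 2 * k * (k + 1) : ℕ) : ℂ) := by
      rw [h]; simp only [Nat.cast_mul, map_mul, map_neg, Complex.conj_natCast]; push_cast; ring
    exact_mod_cast h2

namespace GagolaData

variable {χ : IrrCharacter G} {N : Subgroup G} {m : ℕ}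

theorem two_le (h : GagolaData χ N m) : 2 ≤ Nat.card N := by
  haveI := (Subgroup.nontrivial_iff_ne_bot N).2 h.ne_bot
  exact Finite.one_lt_card

theorem faithful (h : GagolaData χ N m) {g : G} (hg : (χ : G → ℂ) g = (χ : G → ℂ) 1) : g = 1 := by
  by_contra hne
  have hmem : g ∈ N := (h.mem_iff g).1 (hg.symm ▸ apply_one_ne_zero_of_isIrr χ.2)
  rw [h.apply_mem g hmem hne, h.apply_one] at hg
  have h2 : ((m * (Nat.card N - 1) + m : ℕ) : ℂ) = 0 := by
    rw [Nat.cast_add]; linear_combination -hg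
  rw [Nat.cast_eq_zero] at h2
  have := h.m_pos
  omega

theorem eq_of_nontrivial_on (h : GagolaData χ N m) {ψ : IrrCharacter G} {x : G} (hx : x ∈ N)
    (hne : (ψ : G → ℂ) x ≠ (ψ : G → ℂ) 1) : ψ = χ := by
  by_contra hψ
  exact hne (h.other ψ hψ x hx)

theorem le_of_normal (h : GagolaData χ N m) (K : Subgroup G) [K.Normal] (hK : K ≠ ⊥) : N ≤ K := by
  intro c hc
  by_contra hcK
  obtain ⟨ψ, hψK, hψc⟩ := exists_irr_ker_not_mem K hcK
  obtain rfl := h.eq_of_nontrivial_on hc hψc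
  obtain ⟨x, hx, hx1⟩ := (Subgroup.bot_or_exists_ne_one K).resolve_left hK
  exact hx1 (h.faithful (hψK x hx))

theorem exists_elementary (h : GagolaData χ N m) :
    ∃ p : ℕ, p.Prime ∧ IsPGroup p N ∧ (∀ x ∈ N, ∀ y ∈ N, x * y = y * x) ∧ ∀ x ∈ N, x ^ p = 1 := by
  obtain ⟨c, hc, hc1⟩ := (Subgroup.bot_or_exists_ne_one N).resolve_left h.ne_bot
  have hoc : orderOf c ≠ 1 := fun e => hc1 (orderOf_eq_one_iff.1 e)
  obtain ⟨p, hp, hpd⟩ := Nat.exists_prime_and_dvd hoc
  haveI := Fact.mk hp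
  set z := c ^ (orderOf c / p) with hz
  have hzo : orderOf z = p := orderOf_pow_orderOf_div (orderOf_pos c).ne' hpd
  have hz1 : z ≠ 1 := fun e => hp.ne_one (by rw [← hzo, e, orderOf_one])
  have hexp : ∀ x ∈ N, x ^ p = 1 := by
    intro x hx
    by_cases hx1 : x = 1
    · simp [hx1]
    obtain ⟨g, rfl⟩ := isConj_iff.1 (h.fused z (pow_mem hc _) x hx hz1 hx1)
    rw [conj_pow, ← hzo, pow_orderOf_eq_one]
    group
  have hP : IsPGroup p N := fun x => ⟨1, by rw [pow_one]; exact Subtype.ext (hexp x x.2)⟩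
  refine ⟨p, hp, hP, ?_, hexp⟩
  haveI : Nontrivial N := (Subgroup.nontrivial_iff_ne_bot N).2 h.ne_bot
  haveI := hP.center_nontrivial
  obtain ⟨⟨w, hw⟩, hw1⟩ := exists_ne (1 : Subgroup.center N)
  have hw1' : (w : G) ≠ 1 := fun e => hw1 (Subtype.ext (Subtype.ext e))
  intro x hx y hy
  by_cases hx1 : x = 1
  · simp [hx1]
  obtain ⟨g, rfl⟩ := isConj_iff.1 (h.fused w w.2 x hx hw1' hx1)
  have h1 : g⁻¹ * y * g ∈ N := by simpa using h.normal.conj_mem y hy g⁻¹
  have h2 : (g⁻¹ * y * g) * (w : G) = (w : G) * (g⁻¹ * y * g) :=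
    congrArg Subtype.val (Subgroup.mem_center_iff.1 hw ⟨_, h1⟩)
  calc g * w * g⁻¹ * y = g * ((w : G) * (g⁻¹ * y * g)) * g⁻¹ := by group
    _ = g * ((g⁻¹ * y * g) * w) * g⁻¹ := by rw [h2]
    _ = y * (g * w * g⁻¹) := by group

theorem centralizer_index (h : GagolaData χ N m) {x : G} (hx : x ∈ N) (hx1 : x ≠ 1) :
    (Subgroup.centralizer ({x} : Set G)).index = Nat.card N - 1 := by
  classical
  haveI := Fintype.ofFinite G
  rw [← card_isConj]
  haveI := h.normal
  have : Finset.univ.filter (IsConj x) = (N : Set G).toFinset.erase 1 := by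
    ext g
    simp only [Finset.mem_filter, Finset.mem_univ, true_and, Finset.mem_erase, Set.mem_toFinset,
      SetLike.mem_coe]
    refine ⟨fun hg => ?_, fun hg => h.fused x hx g hg.2 hx1 hg.1⟩
    obtain ⟨y, rfl⟩ := isConj_iff.1 hg
    refine ⟨fun e => hx1 (isConj_one_left.1 (e ▸ hg)), h.normal.conj_mem x hx y⟩
  rw [Nat.card_eq_fintype_card, Fintype.card_subtype, this,
    Finset.card_erase_of_mem (by simp), Set.toFinset_card, Nat.card_eq_fintype_card]
  rfl

theorem centralizer_card (h : GagolaData χ N m) {x : G} (hx : x ∈ N) (hx1 : x ≠ 1) :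
    Nat.card (Subgroup.centralizer ({x} : Set G)) = m ^ 2 * Nat.card N := by
  have h1 := Subgroup.card_mul_index (Subgroup.centralizer ({x} : Set G))
  rw [h.centralizer_index hx hx1, h.card_eq] at h1
  have := h.two_le
  refine Nat.eq_of_mul_eq_mul_right (show 0 < Nat.card N - 1 by omega) (h1.trans ?_)
  ring

theorem exists_m_eq_pow (h : GagolaData χ N m) {p : ℕ} (hp : p.Prime) (hP : IsPGroup p N) :
    ∃ j : ℕ, m = p ^ j := by
  haveI := Fact.mk hp
  obtain ⟨n, hn⟩ := IsPGroup.iff_card.1 hP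
  have hk : 0 < Nat.card N - 1 := by have := h.two_le; omega
  refine ⟨_, Nat.eq_prime_pow_of_unique_prime_dvd h.m_pos.ne' fun {q} hq hqm => ?_⟩
  by_contra hne
  haveI := Fact.mk hq
  obtain ⟨Q⟩ := (Sylow.nonempty : Nonempty (Sylow q G))
  haveI := Fintype.ofFinite G
  haveI := Fintype.ofFinite (Q : Subgroup G)
  haveI : Fintype (IrrCharacter (Q : Subgroup G)) := Fintype.ofFinite _
  have hres : IsCharacter (Q : Subgroup G) (fun u : (Q : Subgroup G) => (χ : G → ℂ) u) := by
    obtain ⟨r, ρ, hρ⟩ := IsIrrCharacter.isCharacter χ.2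
    rw [← hρ]
    exact ⟨r, ρ.comp (Q : Subgroup G).subtype, rfl⟩
  obtain ⟨t, ht⟩ := IsCharacter.exists_classInner_eq_nat hres (trivIrr _)
  rw [Cfsg.classInner, Finset.sum_eq_single (1 : (Q : Subgroup G))] at ht
  · simp only [OneMemClass.coe_one, trivIrr_apply, map_one, mul_one, h.apply_one] at ht
    rw [inv_mul_eq_iff_eq_mul₀ (Nat.cast_ne_zero.2 Nat.card_pos.ne'), ← Nat.cast_mul,
      Nat.cast_inj] at ht
    have hdvd : Nat.card (Q : Subgroup G) ∣ m * (Nat.card N - 1) := Dvd.intro t ht.symm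
    rw [Sylow.card_eq_multiplicity, h.card_eq, hn] at hdvd
    have hq' : (m ^ 2 * (p ^ n - 1) * p ^ n).factorization q ≤ (m * (p ^ n - 1)).factorization q :=
      (hq.pow_dvd_iff_le_factorization (Nat.mul_ne_zero h.m_pos.ne' (hn ▸ hk).ne')).1 hdvd
    have hk' : p ^ n - 1 ≠ 0 := by rw [← hn]; exact hk.ne'
    rw [Nat.factorization_mul (mul_ne_zero (pow_ne_zero 2 h.m_pos.ne') hk') (pow_ne_zero n hp.ne_zero),
      Nat.factorization_mul (pow_ne_zero 2 h.m_pos.ne') hk',
      Nat.factorization_mul h.m_pos.ne' hk', Nat.factorization_pow, Nat.factorization_pow] at hq'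
    simp only [Finsupp.coe_add, Finsupp.coe_smul, Pi.add_apply, Pi.smul_apply, smul_eq_mul] at hq'
    have := hq.factorization_pos_of_dvd h.m_pos.ne' hqm
    omega
  · intro u _ hu
    have : (χ : G → ℂ) (u : G) = 0 := by
      by_contra h0
      have hmem := (h.mem_iff _).1 h0
      have hdisj := IsPGroup.disjoint_of_ne q p hne (Q : Subgroup G) N Q.2 hP
      exact hu (Subtype.ext (Subgroup.disjoint_def.1 hdisj u.2 hmem))
    simp [this]
  · simp

theorem card_centralizer_quotient (h : GagolaData χ N m) [hN : N.Normal] {x : G} (hx : x ∉ N) :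
    Nat.card (Subgroup.centralizer ({x} : Set G)) =
      Nat.card (Subgroup.centralizer ({(x : G ⧸ N)} : Set (G ⧸ N))) := by
  classical
  haveI := Fintype.ofFinite G
  haveI := Fintype.ofFinite (G ⧸ N)
  haveI := Fintype.ofFinite (IrrCharacter G)
  haveI := Fintype.ofFinite (IrrCharacter (G ⧸ N))
  have h0 : (χ : G → ℂ) x = 0 := by
    by_contra h0; exact hx ((h.mem_iff x).1 h0)
  have e1 := sum_mul_conj x x
  have e2 := sum_mul_conj (x : G ⧸ N) (x : G ⧸ N)
  rw [if_pos (IsConj.refl _)] at e1 e2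
  rw [← Finset.add_sum_erase _ _ (Finset.mem_univ χ), h0, zero_mul, zero_add] at e1
  have hdef : ∀ ψ ∈ Finset.univ.erase χ, ∃ φ : IrrCharacter (G ⧸ N),
      ∀ g : G, (φ : G ⧸ N → ℂ) (QuotientGroup.mk' N g) = (ψ : G → ℂ) g := fun ψ hψ =>
    exists_deflate ψ.2 N (h.other ψ (Finset.ne_of_mem_erase hψ))
  choose F hF using hdef
  have hsum : ∑ ψ ∈ Finset.univ.erase χ, (ψ : G → ℂ) x * conj ((ψ : G → ℂ) x) =
      ∑ φ : IrrCharacter (G ⧸ N), (φ : G ⧸ N → ℂ) x * conj ((φ : G ⧸ N → ℂ) x) := by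
    refine Finset.sum_bij F (fun ψ hψ => Finset.mem_univ _) ?_ ?_ ?_
    · intro a ha b hb hab
      exact Subtype.ext (funext fun g => by rw [← hF a ha g, ← hF b hb g, hab])
    · intro φ _
      let ψ : IrrCharacter G := ⟨fun g => (φ : G ⧸ N → ℂ) (QuotientGroup.mk' N g),
        isIrrCharacter_comp_of_surjective φ.2 _ (QuotientGroup.mk'_surjective N)⟩
      have hψ : ψ ∈ Finset.univ.erase χ := by
        refine Finset.mem_erase.2 ⟨fun e => ?_, Finset.mem_univ _⟩
        obtain ⟨c, hc, hc1⟩ := (Subgroup.bot_or_exists_ne_one N).resolve_left h.ne_bot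
        refine hc1 (h.faithful ?_)
        rw [← e]
        show (φ : G ⧸ N → ℂ) (QuotientGroup.mk' N c) = (φ : G ⧸ N → ℂ) (QuotientGroup.mk' N 1)
        rw [show QuotientGroup.mk' N c = 1 from (QuotientGroup.eq_one_iff c).2 hc, map_one]
      refine ⟨ψ, hψ, Subtype.ext (funext fun y => ?_)⟩
      obtain ⟨g, rfl⟩ := QuotientGroup.mk'_surjective N y
      rw [hF ψ hψ g]
    · intro ψ hψ
      rw [← hF ψ hψ x]
      rfl
  rw [hsum, e2] at e1
  exact_mod_cast e1.symm

theorem exists_params (h : GagolaData χ N m) (p : ℕ) [hp : Fact p.Prime] (hP : IsPGroup p N) :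
    ∃ j n : ℕ, 0 < n ∧ m = p ^ j ∧ Nat.card N = p ^ n ∧ (∀ x ∈ N, ∀ y ∈ N, x * y = y * x) ∧
      ∀ x ∈ N, x ^ p = 1 := by
  obtain ⟨q, hq, hQ, hab, hexp⟩ := h.exists_elementary
  haveI := Fact.mk hq
  have hqp : q = p := by
    by_contra hne
    exact h.ne_bot (by simpa using IsPGroup.disjoint_of_ne q p hne N N hQ hP)
  subst hqp
  obtain ⟨j, hj⟩ := h.exists_m_eq_pow hq hP
  obtain ⟨n, hn⟩ := IsPGroup.iff_card.1 hP
  refine ⟨j, n, Nat.pos_of_ne_zero ?_, hj, hn, hab, hexp⟩
  rintro rfl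
  have := h.two_le
  rw [hn, pow_zero] at this
  omega

end GagolaData

theorem exists_gagolaData_of_support (hG : 2 < Nat.card G) (χ : IrrCharacter G)
    (hχ : Nat.card {C : ConjClasses G // ∃ g ∈ C.carrier, (χ : G → ℂ) g ≠ 0} = 2)
    (N : Subgroup G) (hN : ∀ g : G, g ∈ N ↔ (χ : G → ℂ) g ≠ 0) :
    ∃ m : ℕ, GagolaData χ N m := by
  obtain ⟨N', m, h⟩ := exists_gagolaData hG χ hχ
  obtain rfl : N' = N := by ext g; rw [hN, h.mem_iff]
  exact ⟨m, h⟩

end CfsgLib.Correspondences
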