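import Mathlib
import Cfsg.Prelude.Def_Solvable
import Cfsg.Agent.Lib.Cores.PCore
import Cfsg.Agent.Lib.Subnormal.BaerSuzuki
import Cfsg.Agent.Lib.CoprimeAction.Glauberman

/-!
A normal `p`-subgroup `N` that is transitive on its nonidentity elements, with `p`-groups as
centralizers of these, all cosets outside `N` fused and `N = O_p(G)`, is the kernel of a
doubly transitive Frobenius group.
-/

set_option autoImplicit false
set_option linter.style.haveILetI false

namespace CfsgLib.Correspondences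

open Cfsg Subgroup
open scoped Pointwise

variable {G : Type*} [Group G]

theorem conjAut_smul_mem {H : Subgroup G} {g x : G} :
    x ∈ MulAut.conj g • H ↔ g⁻¹ * x * g ∈ H := by
  rw [Subgroup.mem_pointwise_smul_iff_inv_smul_mem]
  simp [MulAut.smul_def, mul_assoc]

theorem coset_fused [Finite G] (N : Subgroup G) [N.Normal] {y : G}
    (hcard : Nat.card (centralizer ({y} : Set G)) =
      Nat.card (centralizer ({(y : G ⧸ N)} : Set (G ⧸ N)))) {n : G} (hn : n ∈ N) :
    ∃ g : G, g * y * g⁻¹ = y * n := by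
  set C' : Subgroup G := (centralizer ({(y : G ⧸ N)} : Set (G ⧸ N))).comap (QuotientGroup.mk' N)
    with hC'
  have hmem : ∀ c : C', y⁻¹ * ((c : G) * y * (c : G)⁻¹) ∈ N := by
    intro c
    have h := Subgroup.mem_centralizer_singleton_iff.1 c.2
    rw [← QuotientGroup.eq_one_iff]
    simp only [QuotientGroup.mk_mul, QuotientGroup.mk_inv]
    simp only [QuotientGroup.mk'_apply] at h
    rw [h]; group
  set D : Subgroup C' := (centralizer ({y} : Set G)).subgroupOf C' with hD
  let φ : C' ⧸ D → N := Quotient.lift (fun c : C' => (⟨_, hmem c⟩ : N)) (by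
    intro a b hab
    replace hab : a⁻¹ * b ∈ D := QuotientGroup.leftRel_apply.1 hab
    have hd : (a : G)⁻¹ * b * y = y * ((a : G)⁻¹ * b) :=
      Subgroup.mem_centralizer_singleton_iff.1 hab
    apply Subtype.ext
    show y⁻¹ * ((a : G) * y * (a : G)⁻¹) = y⁻¹ * ((b : G) * y * (b : G)⁻¹)
    have : (b : G) = (a : G) * ((a : G)⁻¹ * b) := by group
    rw [mul_right_inj]
    conv_rhs => rw [this]
    rw [mul_assoc (a : G) ((a : G)⁻¹ * b) y, hd]
    group)
  have hinj : Function.Injective φ := by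
    rintro ⟨a⟩ ⟨b⟩ hab
    apply Quotient.sound
    show (QuotientGroup.leftRel D) a b
    rw [QuotientGroup.leftRel_apply]
    have h : y⁻¹ * ((a : G) * y * (a : G)⁻¹) = y⁻¹ * ((b : G) * y * (b : G)⁻¹) :=
      congrArg Subtype.val hab
    rw [mul_right_inj] at h
    refine Subgroup.mem_centralizer_singleton_iff.2 ?_
    show (a : G)⁻¹ * b * y = y * ((a : G)⁻¹ * b)
    calc (a : G)⁻¹ * b * y = (a : G)⁻¹ * ((b : G) * y * (b : G)⁻¹) * b := by group
      _ = (a : G)⁻¹ * ((a : G) * y * (a : G)⁻¹) * b := by rw [h]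
      _ = y * ((a : G)⁻¹ * b) := by group
  have hle : centralizer ({y} : Set G) ≤ C' := by
    intro c hc
    have h := Subgroup.mem_centralizer_singleton_iff.1 hc
    refine Subgroup.mem_centralizer_singleton_iff.2 ?_
    simp only [QuotientGroup.mk'_apply, ← QuotientGroup.mk_mul, h]
  have hcardQ : Nat.card (C' ⧸ D) = Nat.card N := by
    have h1 := Subgroup.card_eq_card_quotient_mul_card_subgroup D
    have h2 : Nat.card C' = Nat.card N * Nat.card (centralizer ({(y : G ⧸ N)} : Set (G ⧸ N))) :=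
      CfsgLib.Cores.card_comap_mk' N _
    have h3 : Nat.card D = Nat.card (centralizer ({y} : Set G)) :=
      Nat.card_congr (subgroupOfEquivOfLe hle).toEquiv
    rw [h3, hcard, h2] at h1
    exact (Nat.eq_of_mul_eq_mul_right Nat.card_pos h1).symm
  obtain ⟨⟨c⟩, hc⟩ := ((Nat.bijective_iff_injective_and_card φ).2 ⟨hinj, hcardQ⟩).2 ⟨n, hn⟩
  refine ⟨c, ?_⟩
  have h : y⁻¹ * ((c : G) * y * (c : G)⁻¹) = n := congrArg Subtype.val hc
  rw [← h]; group

/-- In the Gagola setting, a complement to `N` is a Frobenius complement of order `|N| - 1`. -/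
theorem frobenius_of_complement [Finite G] (N H : Subgroup G) [N.Normal]
    (hN3 : 3 ≤ Nat.card N)
    (htrans : ∀ x ∈ N, ∀ y ∈ N, x ≠ 1 → y ≠ 1 → ∃ g : G, g * x * g⁻¹ = y)
    (hab : ∀ x ∈ N, ∀ y ∈ N, x * y = y * x)
    (hcam : ∀ y ∉ N, Nat.card (centralizer ({y} : Set G)) =
      Nat.card (centralizer ({(y : G ⧸ N)} : Set (G ⧸ N))))
    (hdisj : N ⊓ H = ⊥) (hsup : N ⊔ H = ⊤) :
    IsFrobeniusComplement H ∧ frobeniusKernel H = (N : Set G) ∧ Nat.card H + 1 = Nat.card N := by
  have hfpf : ∀ y ∈ H, y ≠ 1 → ∀ x ∈ N, x * y = y * x → x = 1 := by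
    intro y hy hy1 x hx hxy
    by_contra hx1
    have hyN : y ∉ N := fun h => hy1 (Subgroup.mem_bot.1 (hdisj ▸ Subgroup.mem_inf.2 ⟨h, hy⟩))
    have hle : centralizer ({(y : G ⧸ N)} : Set (G ⧸ N)) ≤
        (centralizer ({y} : Set G) ⊓ H).map (QuotientGroup.mk' N) := by
      intro c hc
      obtain ⟨g, rfl⟩ := QuotientGroup.mk'_surjective N c
      have hg : g ∈ N ⊔ H := hsup ▸ Subgroup.mem_top g
      obtain ⟨m, hm, h, hh, rfl⟩ := Subgroup.mem_sup_of_normal_left.1 hg
      have hmk : QuotientGroup.mk' N (m * h) = QuotientGroup.mk' N h := by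
        simp [(QuotientGroup.eq_one_iff m).2 hm]
      refine ⟨h, ⟨?_, hh⟩, hmk.symm⟩
      have hc' := Subgroup.mem_centralizer_singleton_iff.1 hc
      rw [hmk] at hc'
      have : h * y * h⁻¹ * y⁻¹ ∈ N ⊓ H := by
        refine Subgroup.mem_inf.2 ⟨(QuotientGroup.eq_one_iff _).1 ?_, ?_⟩
        · simp only [QuotientGroup.mk'_apply] at hc'
          simp only [QuotientGroup.mk_mul, QuotientGroup.mk_inv]
          rw [hc']; group
        · exact mul_mem (mul_mem (mul_mem hh hy) (inv_mem hh)) (inv_mem hy)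
      rw [hdisj, Subgroup.mem_bot, mul_inv_eq_one, mul_inv_eq_iff_eq_mul] at this
      exact Subgroup.mem_centralizer_singleton_iff.2 this
    have h1 := Subgroup.card_le_of_le hle
    have h2 : Nat.card ((centralizer ({y} : Set G) ⊓ H).map (QuotientGroup.mk' N)) ≤
        Nat.card ↥(centralizer ({y} : Set G) ⊓ H) :=
      Nat.le_of_dvd Nat.card_pos (Subgroup.card_map_dvd _ _)
    have hlt : centralizer ({y} : Set G) ⊓ H < centralizer ({y} : Set G) := by
      refine lt_of_le_of_ne inf_le_left fun h => ?_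
      have : x ∈ centralizer ({y} : Set G) := Subgroup.mem_centralizer_singleton_iff.2 hxy
      rw [← h] at this
      exact hx1 (Subgroup.mem_bot.1 (hdisj ▸ Subgroup.mem_inf.2 ⟨hx, this.2⟩))
    have h3 := Subgroup.card_le_of_le hlt.le
    have h4 : Nat.card ↥(centralizer ({y} : Set G) ⊓ H) ≠ Nat.card (centralizer ({y} : Set G)) :=
      fun h => hlt.ne (Subgroup.eq_of_le_of_card_ge hlt.le h.ge)
    have h5 := hcam y hyN
    omega
  obtain ⟨⟨x, hx⟩, hx1⟩ : ∃ x : N, x ≠ 1 := by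
    haveI : Nontrivial N := Finite.one_lt_card_iff_nontrivial.1 (by omega)
    exact exists_ne 1
  have hx1' : x ≠ 1 := fun h => hx1 (Subtype.ext h)
  have hcardH : Nat.card H = Nat.card {n : N // n ≠ 1} := by
    refine Nat.card_congr (Equiv.ofBijective
      (fun h : H => (⟨⟨(h : G) * x * (h : G)⁻¹, Subgroup.Normal.conj_mem inferInstance x hx _⟩,
        fun e => hx1' (by simpa using congrArg Subtype.val e)⟩ : {n : N // n ≠ 1})) ⟨?_, ?_⟩)
    · intro a b hab'
      have h : (a : G) * x * (a : G)⁻¹ = (b : G) * x * (b : G)⁻¹ :=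
        congrArg (fun n : {n : N // n ≠ 1} => ((n : N) : G)) hab'
      apply Subtype.ext
      by_contra hne
      refine hx1' (hfpf ((a : G)⁻¹ * b) (mul_mem (inv_mem a.2) b.2) ?_ x hx ?_)
      · rwa [Ne, inv_mul_eq_one]
      · calc x * ((a : G)⁻¹ * b) = (a : G)⁻¹ * ((a : G) * x * (a : G)⁻¹) * b := by group
          _ = (a : G)⁻¹ * ((b : G) * x * (b : G)⁻¹) * b := by rw [h]
          _ = (a : G)⁻¹ * b * x := by group
    · rintro ⟨⟨z, hz⟩, hz1⟩
      obtain ⟨g, hg⟩ := htrans x hx z hz hx1' (fun h => hz1 (Subtype.ext h))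
      have hgs : g ∈ H ⊔ N := by rw [sup_comm, hsup]; exact Subgroup.mem_top g
      obtain ⟨h, hh, m, hm, rfl⟩ := Subgroup.mem_sup_of_normal_right.1 hgs
      refine ⟨⟨h, hh⟩, Subtype.ext (Subtype.ext ?_)⟩
      show h * x * h⁻¹ = z
      rw [← hg]
      have := hab m hm x hx
      calc h * x * h⁻¹ = h * (x * m) * m⁻¹ * h⁻¹ := by group
        _ = h * m * x * (h * m)⁻¹ := by rw [← this]; group
  have hcN : Nat.card N = Nat.card {n : N // n ≠ 1} + 1 := by
    classical
    haveI := Fintype.ofFinite N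
    have h1 : Fintype.card N ≥ 1 := Fintype.card_pos
    simp only [Nat.card_eq_fintype_card, Fintype.card_subtype_compl, Fintype.card_subtype_eq]
    omega
  have hH1 : H ≠ ⊥ := fun h => by
    rw [h, Subgroup.card_bot] at hcardH; omega
  have hNH : ∀ g : G, ∀ z ∈ N, z ≠ 1 → z ∉ MulAut.conj g • H := by
    intro g z hz hz1 hzg
    rw [conjAut_smul_mem] at hzg
    have h : g⁻¹ * z * g = 1 := Subgroup.mem_bot.1 (hdisj ▸ Subgroup.mem_inf.2
      ⟨by simpa using Subgroup.Normal.conj_mem inferInstance z hz g⁻¹, hzg⟩)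
    apply hz1
    calc z = g * (g⁻¹ * z * g) * g⁻¹ := by group
      _ = 1 := by rw [h]; group
  refine ⟨⟨hH1, ?_, ?_⟩, ?_, by omega⟩
  · intro h
    have := hNH 1 x hx hx1'
    simp [h] at this
  · intro g hg
    rw [eq_bot_iff]
    intro h hmemh
    obtain ⟨hh, hhg⟩ := Subgroup.mem_inf.1 hmemh
    rw [Subgroup.mem_bot]
    by_contra h1
    rw [conjAut_smul_mem] at hhg
    have hgs : g ∈ N ⊔ H := hsup ▸ Subgroup.mem_top g
    obtain ⟨n, hn, k, hk, rfl⟩ := Subgroup.mem_sup_of_normal_left.1 hgs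
    have hmem : n⁻¹ * h * n ∈ H := by
      have := mul_mem (mul_mem hk hhg) (inv_mem hk)
      simpa [mul_assoc] using this
    have h2 : n⁻¹ * h * n * h⁻¹ = 1 := by
      refine Subgroup.mem_bot.1 (hdisj ▸ Subgroup.mem_inf.2 ⟨?_, mul_mem hmem (inv_mem hh)⟩)
      have := mul_mem (inv_mem hn) (Subgroup.Normal.conj_mem inferInstance n hn h)
      simpa [mul_assoc] using this
    rw [mul_inv_eq_one] at h2
    have hn1 : n = 1 := hfpf h hh h1 n hn (by
      calc n * h = n * (n⁻¹ * h * n) := by rw [h2]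
        _ = h * n := by group)
    exact hg (by simpa [hn1] using hk)
  · ext y
    constructor
    · intro hy
      rcases hy with rfl | hy
      · exact one_mem N
      by_contra hyN
      have hys : y ∈ N ⊔ H := hsup ▸ Subgroup.mem_top y
      obtain ⟨n, hn, h, hh, rfl⟩ := Subgroup.mem_sup_of_normal_left.1 hys
      have h1 : h ≠ 1 := fun e => hyN (by simpa [e] using hn)
      have hinj : Function.Injective (fun m : N => (⟨(m : G) * h * (m : G)⁻¹ * h⁻¹, by
          have := mul_mem m.2 (Subgroup.Normal.conj_mem inferInstance _ (inv_mem m.2) h)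
          simpa [mul_assoc] using this⟩ : N)) := by
        intro a b hab'
        have e : (a : G) * h * (a : G)⁻¹ * h⁻¹ = (b : G) * h * (b : G)⁻¹ * h⁻¹ :=
          congrArg Subtype.val hab'
        rw [mul_left_inj] at e
        apply Subtype.ext
        have := hfpf h hh h1 _ (mul_mem (inv_mem b.2) a.2) (by
          calc (b : G)⁻¹ * a * h = (b : G)⁻¹ * ((a : G) * h * (a : G)⁻¹) * a := by group
            _ = (b : G)⁻¹ * ((b : G) * h * (b : G)⁻¹) * a := by rw [e]
            _ = h * ((b : G)⁻¹ * a) := by group)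
        exact (inv_mul_eq_one.1 this).symm
      obtain ⟨m, hm⟩ := (Finite.injective_iff_surjective.1 hinj) ⟨n, hn⟩
      have e : (m : G) * h * (m : G)⁻¹ * h⁻¹ = n := congrArg Subtype.val hm
      refine hy m (conjAut_smul_mem.2 ?_)
      rw [← e]
      simpa [mul_assoc] using hh
    · intro hy
      by_cases hy1 : y = 1
      · exact Or.inl hy1
      · exact Or.inr fun g => hNH g y hy hy1

theorem exists_complement_odd [Finite G] {p : ℕ} [hp : Fact p.Prime] (hp2 : p ≠ 2)
    (N : Subgroup G) [hNn : N.Normal] (hNp : IsPGroup p N) 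
    (hcent : ∀ x ∈ N, x ≠ 1 → IsPGroup p (centralizer ({x} : Set G)))
    (hab : ∀ x ∈ N, ∀ y ∈ N, x * y = y * x)
    (hCN : centralizer (N : Set G) ≤ N) (heven : 2 ∣ Nat.card G) :
    ∃ H : Subgroup G, N ⊓ H = ⊥ ∧ N ⊔ H = ⊤ := by
  have hpp : p.Prime := hp.out
  have hodd : ∀ z : G, ∀ K : Subgroup G, IsPGroup p K → z ∈ K → orderOf z ∣ 2 → z = 1 := by
    intro z K hK hz h2
    obtain ⟨k, hk⟩ := hK ⟨z, hz⟩
    have hk' : z ^ p ^ k = 1 := congrArg Subtype.val hk
    have h1 : orderOf z ∣ 1 := by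
      have := Nat.dvd_gcd h2 (orderOf_dvd_of_pow_eq_one hk')
      rwa [Nat.Coprime.gcd_eq_one (((Nat.coprime_primes Nat.prime_two hpp).2 hp2.symm).pow_right k)]
        at this
    exact orderOf_eq_one_iff.1 (Nat.dvd_one.1 h1)
  obtain ⟨i, hi⟩ := exists_prime_orderOf_dvd_card' (G := G) 2 heven
  have hii : i * i = 1 := by rw [← pow_two, ← hi]; exact pow_orderOf_eq_one i
  have hiinv : i⁻¹ = i := inv_eq_of_mul_eq_one_right hii
  have hi1 : i ≠ 1 := fun h => by simp [h] at hi
  have hfix : ∀ n ∈ N, i * n * i = n → n = 1 := by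
    intro n hn h
    by_contra hn1
    refine hi1 (hodd i _ (hcent n hn hn1) (Subgroup.mem_centralizer_singleton_iff.2 ?_) (hi ▸ dvd_rfl))
    calc i * n = i * n * i * i⁻¹ := by group
      _ = n * i⁻¹ := by rw [h]
      _ = n * i := by rw [hiinv]
  have hinv : ∀ n ∈ N, i * n * i = n⁻¹ := by
    intro n hn
    have hin : i * n * i ∈ N := by simpa [hiinv] using hNn.conj_mem n hn i
    refine eq_inv_of_mul_eq_one_right (hfix _ (mul_mem hn hin) ?_)
    rw [hab n hn (i * n * i) hin]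
    calc i * (i * n * i * n) * i = (i * i) * n * (i * n * i) := by group
      _ = n * (i * n * i) := by rw [hii, one_mul]
      _ = i * n * i * n := hab n hn _ hin
  refine ⟨centralizer ({i} : Set G), ?_, ?_⟩
  · rw [eq_bot_iff]
    rintro n ⟨hn, hc⟩
    rw [Subgroup.mem_bot]
    refine hfix n hn ?_
    have hc' : n * i = i * n := Subgroup.mem_centralizer_singleton_iff.1 hc
    rw [← hc', mul_assoc, hii, mul_one]
  · rw [eq_top_iff]
    intro g _
    have hm : i * (g * i * g⁻¹) ∈ N := by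
      refine hCN (Subgroup.mem_centralizer_iff.2 fun n hn => ?_)
      have h1 : g⁻¹ * n * g ∈ N := by simpa using hNn.conj_mem n hn g⁻¹
      have h2 : g * i * g⁻¹ * n * (g * i * g⁻¹) = n⁻¹ := by
        calc g * i * g⁻¹ * n * (g * i * g⁻¹) = g * (i * (g⁻¹ * n * g) * i) * g⁻¹ := by group
          _ = g * (g⁻¹ * n * g)⁻¹ * g⁻¹ := by rw [hinv _ h1]
          _ = n⁻¹ := by group
      have h3 : (g * i * g⁻¹) * (g * i * g⁻¹) = 1 := by
        calc g * i * g⁻¹ * (g * i * g⁻¹) = g * (i * i) * g⁻¹ := by group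
          _ = 1 := by rw [hii]; group
      have h4 : g * i * g⁻¹ * n = n⁻¹ * (g * i * g⁻¹) := by
        calc g * i * g⁻¹ * n = g * i * g⁻¹ * n * ((g * i * g⁻¹) * (g * i * g⁻¹)) := by
              rw [h3, mul_one]
          _ = (g * i * g⁻¹ * n * (g * i * g⁻¹)) * (g * i * g⁻¹) := by group
          _ = n⁻¹ * (g * i * g⁻¹) := by rw [h2]
      have h5 : n * i = i * n⁻¹ := by
        rw [← hinv n hn]
        calc n * i = (i * i) * n * i := by rw [hii, one_mul]
          _ = i * (i * n * i) := by group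
      calc n * (i * (g * i * g⁻¹)) = (n * i) * (g * i * g⁻¹) := by group
        _ = i * (n⁻¹ * (g * i * g⁻¹)) := by rw [h5]; group
        _ = i * (g * i * g⁻¹ * n) := by rw [h4]
        _ = i * (g * i * g⁻¹) * n := by group
    -- square roots in `N`
    have hsq : Function.Injective (fun n : N => (⟨(n : G) * n, mul_mem n.2 n.2⟩ : N)) := by
      intro a b h
      have e : (a : G) * a = (b : G) * b := congrArg Subtype.val h
      apply Subtype.ext
      have hc := hab _ a.2 _ (inv_mem b.2)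
      refine mul_inv_eq_one.1 (hodd _ N hNp (mul_mem a.2 (inv_mem b.2)) (orderOf_dvd_of_pow_eq_one ?_))
      calc ((a : G) * (b : G)⁻¹) ^ 2 = (a : G) * ((b : G)⁻¹ * a) * (b : G)⁻¹ := by rw [pow_two]; group
        _ = (a : G) * a * ((b : G) * b)⁻¹ := by rw [← hc]; group
        _ = 1 := by rw [e]; group
    obtain ⟨⟨n, hn⟩, hn2⟩ := (Finite.injective_iff_surjective.1 hsq) ⟨_, inv_mem hm⟩
    have e : n * n = (i * (g * i * g⁻¹))⁻¹ := congrArg Subtype.val hn2
    have hconj : n * i * n⁻¹ = g * i * g⁻¹ := by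
      have h6 : n * i = i * n⁻¹ := by
        rw [← hinv n hn]
        calc n * i = (i * i) * n * i := by rw [hii, one_mul]
          _ = i * (i * n * i) := by group
      calc n * i * n⁻¹ = i * n⁻¹ * n⁻¹ := by rw [h6]
        _ = i * (n * n)⁻¹ := by group
        _ = i * (i * (g * i * g⁻¹)) := by rw [e, inv_inv]
        _ = (i * i) * (g * i * g⁻¹) := by group
        _ = g * i * g⁻¹ := by rw [hii, one_mul]
    have : g = n * (n⁻¹ * g) := by group
    rw [this]
    refine mul_mem (Subgroup.mem_sup_left hn) (Subgroup.mem_sup_right ?_)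
    refine Subgroup.mem_centralizer_singleton_iff.2 ?_
    calc n⁻¹ * g * i = n⁻¹ * (g * i * g⁻¹) * g := by group
      _ = n⁻¹ * (n * i * n⁻¹) * g := by rw [hconj]
      _ = i * (n⁻¹ * g) := by group

theorem odd_quotient_of_two [Finite G] (N : Subgroup G) [hNn : N.Normal] (hNp : IsPGroup 2 N)
    (hcent : ∀ x ∈ N, x ≠ 1 → IsPGroup 2 (centralizer ({x} : Set G)))
    (hexp : ∀ x ∈ N, x ^ 2 = 1)
    (hfus : ∀ y ∉ N, ∀ n ∈ N, ∃ g : G, g * y * g⁻¹ = y * n)
    (hCN : centralizer (N : Set G) ≤ N) (hcore : N = pCore 2 G) :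
    ¬ 2 ∣ Nat.card (G ⧸ N) := by
  intro heven
  haveI : Fact (Nat.Prime 2) := ⟨Nat.prime_two⟩
  have hsurj := QuotientGroup.mk'_surjective N
  have hbot : pCore 2 (G ⧸ N) = ⊥ := by
    apply Subgroup.comap_injective hsurj
    rw [CfsgLib.Cores.comap_pCore_quotient N hNp, MonoidHom.comap_bot, QuotientGroup.ker_mk',
      ← hcore]
  obtain ⟨t, ht⟩ := exists_prime_orderOf_dvd_card' (G := G ⧸ N) 2 heven
  have htt : t * t = 1 := by rw [← pow_two, ← ht]; exact pow_orderOf_eq_one t
  have ht1 : t ≠ 1 := fun h => by simp [h] at ht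
  obtain ⟨g, hg⟩ : ∃ g : G ⧸ N, ¬ IsPGroup 2 ↥(Subgroup.closure ({t, g * t * g⁻¹} : Set (G ⧸ N))) := by
    by_contra h
    push Not at h
    have := CfsgLib.Subnormal.mem_pCore_of_forall_closure_pair h
    rw [hbot, Subgroup.mem_bot] at this
    exact ht1 this
  set t' := g * t * g⁻¹ with ht'
  have ht't' : t' * t' = 1 := by
    calc g * t * g⁻¹ * (g * t * g⁻¹) = g * (t * t) * g⁻¹ := by group
      _ = 1 := by rw [htt]; group
  set u := t * t' with hu
  have htu : t * u * t⁻¹ = u⁻¹ := by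
    rw [hu, mul_inv_rev, inv_eq_of_mul_eq_one_right htt, inv_eq_of_mul_eq_one_right ht't',
      ← mul_assoc, htt, one_mul]
  -- `u` is not a 2-element
  have hunot : ¬ ∃ k : ℕ, u ^ 2 ^ k = 1 := by
    rintro ⟨k, hk⟩
    apply hg
    have hU : IsPGroup 2 (Subgroup.zpowers u) := by
      intro z
      obtain ⟨j, hj⟩ := Subgroup.mem_zpowers_iff.1 z.2
      refine ⟨k, Subtype.ext ?_⟩
      rw [SubmonoidClass.coe_pow, ← hj, ← zpow_natCast, ← zpow_mul, mul_comm, zpow_mul,
        zpow_natCast, hk, one_zpow]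
      rfl
    have hT : IsPGroup 2 (Subgroup.zpowers t) := by
      intro z
      obtain ⟨j, hj⟩ := Subgroup.mem_zpowers_iff.1 z.2
      refine ⟨1, Subtype.ext ?_⟩
      rw [SubmonoidClass.coe_pow, ← hj, pow_one, ← zpow_natCast, ← zpow_mul, mul_comm, zpow_mul,
        zpow_natCast, pow_two, htt, one_zpow]
      rfl
    have hnorm : Subgroup.zpowers t ≤ Subgroup.normalizer (Subgroup.zpowers u : Set (G ⧸ N)) := by
      rw [Subgroup.zpowers_le]
      refine CfsgLib.CoprimeAction.mem_normalizer_of_conj_mem fun z hz => ?_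
      obtain ⟨j, rfl⟩ := Subgroup.mem_zpowers_iff.1 hz
      rw [← conj_zpow, htu]
      exact Subgroup.zpow_mem _ (Subgroup.inv_mem _ (Subgroup.mem_zpowers u)) _
    refine (hT.to_sup_of_normal_right' hU hnorm).to_le ?_
    rw [Subgroup.closure_le]
    intro z hz
    rcases hz with hz | hz
    · rw [hz]; exact Subgroup.mem_sup_left (Subgroup.mem_zpowers t)
    · have : t' = t * u := by rw [hu, ← mul_assoc, htt, one_mul]
      rw [Set.mem_singleton_iff] at hz
      rw [hz, SetLike.mem_coe, this]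
      exact mul_mem (Subgroup.mem_sup_left (Subgroup.mem_zpowers t))
        (Subgroup.mem_sup_right (Subgroup.mem_zpowers u))
  -- a nontrivial element of odd order inverted by `t`
  obtain ⟨a, ha⟩ : ∃ a, a = (orderOf u).factorization 2 := ⟨_, rfl⟩
  set h := u ^ 2 ^ a with hh
  have hh1 : h ≠ 1 := fun e => hunot ⟨a, e⟩
  have hth : t * h * t⁻¹ = h⁻¹ := by
    rw [hh, ← conj_pow, htu, inv_pow]
  have hhodd : ¬ 2 ∣ orderOf h := by
    rw [hh, orderOf_pow_of_dvd (by positivity) (ha ▸ Nat.ordProj_dvd _ _), ha]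
    exact Nat.not_dvd_ordCompl Nat.prime_two (orderOf_pos u).ne'
  obtain ⟨h0, hh0⟩ := hsurj h
  obtain ⟨r, hr⟩ := hsurj t
  have hh0N : h0 ∉ N := fun hm => hh1 (by rw [← hh0]; exact (QuotientGroup.eq_one_iff h0).2 hm)
  -- make the preimage of `h` have odd order
  obtain ⟨b, hb⟩ : ∃ b, b = (orderOf h0).factorization 2 := ⟨_, rfl⟩
  set h' := h0 ^ 2 ^ b with hh'
  set hbar := QuotientGroup.mk' N h' with hhbar
  have hbar_eq : hbar = h ^ 2 ^ b := by rw [hhbar, hh', map_pow, hh0]
  have hbar1 : hbar ≠ 1 := by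
    rw [hbar_eq]
    intro e
    have h2 : orderOf h ∣ 2 ^ b := orderOf_dvd_of_pow_eq_one e
    obtain ⟨k, -, hk⟩ := (Nat.dvd_prime_pow Nat.prime_two).1 h2
    rcases k with _ | k
    · exact hh1 (orderOf_eq_one_iff.1 (by simpa using hk))
    · exact hhodd (hk ▸ dvd_pow_self 2 (Nat.succ_ne_zero k))
  have hbart : t * hbar * t⁻¹ = hbar⁻¹ := by rw [hbar_eq, ← conj_pow, hth, inv_pow]
  have h'odd : ¬ 2 ∣ orderOf h' := by
    rw [hh', orderOf_pow_of_dvd (by positivity) (hb ▸ Nat.ordProj_dvd _ _), hb]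
    exact Nat.not_dvd_ordCompl Nat.prime_two (orderOf_pos h0).ne'
  have h'1 : h' ≠ 1 := fun e => hbar1 (by rw [hhbar, e, map_one])
  have hCh : ∀ n ∈ N, n * h' = h' * n → n = 1 := by
    intro n hn hc
    by_contra hn1
    obtain ⟨k, hk⟩ := hcent n hn hn1 ⟨h', Subgroup.mem_centralizer_singleton_iff.2 hc.symm⟩
    have hk' : h' ^ 2 ^ k = 1 := congrArg Subtype.val hk
    obtain ⟨j, -, hj⟩ := (Nat.dvd_prime_pow Nat.prime_two).1 (orderOf_dvd_of_pow_eq_one hk')
    rcases j with _ | j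
    · exact h'1 (orderOf_eq_one_iff.1 (by simpa using hj))
    · exact h'odd (hj ▸ dvd_pow_self 2 (Nat.succ_ne_zero j))
  have hinj : Function.Injective (fun n : N => (⟨(n : G) * h'⁻¹ * (n : G)⁻¹ * h', by
      have := mul_mem n.2 (hNn.conj_mem _ (inv_mem n.2) h'⁻¹)
      simpa [mul_assoc] using this⟩ : N)) := by
    intro x y hxy
    have e : (x : G) * h'⁻¹ * (x : G)⁻¹ * h' = (y : G) * h'⁻¹ * (y : G)⁻¹ * h' :=
      congrArg Subtype.val hxy
    rw [mul_left_inj] at e
    apply Subtype.ext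
    have := hCh _ (mul_mem (inv_mem y.2) x.2) (by
      calc (y : G)⁻¹ * x * h' = (y : G)⁻¹ * ((x : G) * h'⁻¹ * (x : G)⁻¹)⁻¹ * x := by group
        _ = (y : G)⁻¹ * ((y : G) * h'⁻¹ * (y : G)⁻¹)⁻¹ * x := by rw [e]
        _ = h' * ((y : G)⁻¹ * x) := by group)
    exact (inv_mul_eq_one.1 this).symm
  have hmemN : r * h' * r⁻¹ * h' ∈ N := by
    rw [← QuotientGroup.eq_one_iff]
    show QuotientGroup.mk' N (r * h' * r⁻¹ * h') = 1
    rw [map_mul, map_mul, map_mul, map_inv, hr, ← hhbar, hbart, inv_mul_cancel]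
  obtain ⟨⟨n, hn⟩, hn'⟩ := (Finite.injective_iff_surjective.1 hinj) ⟨_, hmemN⟩
  have e : n * h'⁻¹ * n⁻¹ * h' = r * h' * r⁻¹ * h' := congrArg Subtype.val hn'
  rw [mul_left_inj] at e
  set s := n⁻¹ * r with hs
  have hsmk : QuotientGroup.mk' N s = t := by
    have : QuotientGroup.mk' N n = 1 := (QuotientGroup.eq_one_iff n).2 hn
    rw [hs, map_mul, map_inv, this, inv_one, one_mul, hr]
  have hsh : s * h' * s⁻¹ = h'⁻¹ := by
    calc n⁻¹ * r * h' * (n⁻¹ * r)⁻¹ = n⁻¹ * (r * h' * r⁻¹) * n := by group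
      _ = n⁻¹ * (n * h'⁻¹ * n⁻¹) * n := by rw [e]
      _ = h'⁻¹ := by group
  have hsN : s ∉ N := fun hm => ht1 (by rw [← hsmk]; exact (QuotientGroup.eq_one_iff s).2 hm)
  have hss : s * s = 1 := by
    refine hCh _ ((QuotientGroup.eq_one_iff _).1 ?_) ?_
    · show QuotientGroup.mk' N (s * s) = 1
      rw [map_mul, hsmk, htt]
    · have h2 : s * h'⁻¹ * s⁻¹ = h' := by
        rw [← inv_inj]
        calc (s * h'⁻¹ * s⁻¹)⁻¹ = s * h' * s⁻¹ := by group
          _ = h'⁻¹ := hsh
      calc s * s * h' = s * (s * h' * s⁻¹) * s := by group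
        _ = (s * h'⁻¹ * s⁻¹) * (s * s) := by rw [hsh]; group
        _ = h' * (s * s) := by rw [h2]
  refine hsN (hCN (Subgroup.mem_centralizer_iff.2 fun m hm => ?_))
  obtain ⟨c, hc⟩ := hfus s hsN m hm
  have h1 : (s * m) * (s * m) = 1 := by
    rw [← hc]
    calc c * s * c⁻¹ * (c * s * c⁻¹) = c * (s * s) * c⁻¹ := by group
      _ = 1 := by rw [hss]; group
  have hm2 : m⁻¹ = m := inv_eq_of_mul_eq_one_right (by rw [← pow_two]; exact hexp m hm)
  calc m * s = s⁻¹ * m⁻¹ * (m * s * (m * s)) := by group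
    _ = s * m * (m * s * (m * s)) := by rw [hm2, inv_eq_of_mul_eq_one_right hss]
    _ = s * m * (s⁻¹ * ((s * m) * (s * m)) * s) := by group
    _ = s * m := by rw [h1]; group

/-- Gagola: if `N = O_p(G)` then `G` is a doubly transitive Frobenius group with kernel `N`. -/
theorem gagola_frobenius [Finite G] {p : ℕ} [hp : Fact p.Prime] (N : Subgroup G) [hNn : N.Normal]
    (hNp : IsPGroup p N) (hN1 : N ≠ ⊥) (hG : 2 < Nat.card G)
    (htrans : ∀ x ∈ N, ∀ y ∈ N, x ≠ 1 → y ≠ 1 → ∃ g : G, g * x * g⁻¹ = y)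
    (hab : ∀ x ∈ N, ∀ y ∈ N, x * y = y * x) (hexp : ∀ x ∈ N, x ^ p = 1)
    (hcent : ∀ x ∈ N, x ≠ 1 → IsPGroup p (centralizer ({x} : Set G)))
    (hcam : ∀ y ∉ N, Nat.card (centralizer ({y} : Set G)) =
      Nat.card (centralizer ({(y : G ⧸ N)} : Set (G ⧸ N))))
    (hcore : N = pCore p G) :
    ∃ H : Subgroup G, IsFrobeniusComplement H ∧ frobeniusKernel H = (N : Set G) ∧
      Nat.card H + 1 = Nat.card N := by
  have hCN : centralizer (N : Set G) ≤ N := by
    obtain ⟨x, hx, hx1⟩ := (Subgroup.bot_or_exists_ne_one N).resolve_left hN1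
    rw [hcore]
    exact CfsgLib.Cores.le_pCore ((hcent x hx hx1).to_le
      (Subgroup.centralizer_le (Set.singleton_subset_iff.2 hx)) |> fun h => by rw [← hcore]; exact h)
  obtain ⟨x, hx, hx1⟩ := (Subgroup.bot_or_exists_ne_one N).resolve_left hN1
  have hN3 : 3 ≤ Nat.card N := by
    by_contra hlt
    haveI : Nontrivial N := (Subgroup.nontrivial_iff_ne_bot N).2 hN1
    have h2 : Nat.card N = 2 := by have := Finite.one_lt_card (α := N); omega
    have hall : ∀ z ∈ N, z = 1 ∨ z = x := by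
      intro z hz
      by_contra hc
      push Not at hc
      haveI := Fintype.ofFinite N
      have h3 : 2 < Fintype.card N := Fintype.two_lt_card_iff.2
        ⟨(⟨x, hx⟩ : N), ⟨z, hz⟩, 1, fun e => hc.2 (congrArg Subtype.val e).symm,
          fun e => hx1 (congrArg Subtype.val e), fun e => hc.1 (congrArg Subtype.val e)⟩
      rw [← Nat.card_eq_fintype_card] at h3
      omega
    have htop : centralizer ({x} : Set G) = ⊤ := by
      rw [eq_top_iff]
      intro g _
      refine Subgroup.mem_centralizer_singleton_iff.2 ?_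
      rcases hall _ (hNn.conj_mem x hx g) with h | h
      · refine absurd ?_ hx1
        calc x = g⁻¹ * (g * x * g⁻¹) * g := by group
          _ = 1 := by rw [h]; group
      · calc g * x = g * x * g⁻¹ * g := by group
          _ = x * g := by rw [h]
    have hGp : IsPGroup p G := (htop ▸ hcent x hx hx1).of_equiv Subgroup.topEquiv
    rw [CfsgLib.Cores.pCore_eq_top_iff.2 hGp] at hcore
    rw [hcore, Subgroup.card_top] at h2
    omega
  suffices h : ∃ H : Subgroup G, N ⊓ H = ⊥ ∧ N ⊔ H = ⊤ by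
    obtain ⟨H, h1, h2⟩ := h
    exact ⟨H, frobenius_of_complement N H hN3 htrans hab hcam h1 h2⟩
  by_cases hp2 : p = 2
  · subst hp2
    have hodd : ¬ 2 ∣ Nat.card (G ⧸ N) := odd_quotient_of_two N hNp hcent hexp
      (fun y hy n hn => coset_fused N (hcam y hy) hn) hCN hcore
    obtain ⟨k, hk⟩ := IsPGroup.iff_card.1 hNp
    have hcop : (Nat.card N).Coprime N.index := by
      rw [hk, Subgroup.index_eq_card]
      exact (Nat.prime_two.coprime_iff_not_dvd.2 hodd).pow_left k
    obtain ⟨H, hH⟩ := exists_right_complement'_of_coprime hcop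
    exact ⟨H, hH.disjoint.eq_bot, hH.sup_eq_top⟩
  · refine exists_complement_odd hp2 N hNp hcent hab hCN ?_
    obtain ⟨k, hk⟩ := IsPGroup.iff_card.1 hNp
    classical
    haveI := Fintype.ofFinite G
    have horb : (MulAction.orbit (ConjAct G) x) = (N : Set G) \ {1} := by
      ext z
      rw [ConjAct.mem_orbit_conjAct, Set.mem_sdiff, Set.mem_singleton_iff, SetLike.mem_coe]
      constructor
      · intro hz
        obtain ⟨g, hg⟩ := isConj_iff.1 hz.symm
        refine ⟨hg ▸ hNn.conj_mem x hx g, fun h1 => hx1 ?_⟩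
        rw [h1] at hg
        calc x = g⁻¹ * (g * x * g⁻¹) * g := by group
          _ = 1 := by rw [hg]; group
      · rintro ⟨hz, hz1⟩
        obtain ⟨g, hg⟩ := htrans x hx z hz hx1 hz1
        exact (isConj_iff.2 ⟨g, hg⟩).symm
    have hd : Nat.card ((N : Set G) \ {1} : Set G) ∣ Nat.card G := by
      rw [← horb, ← Nat.card_congr (ConjAct.ofConjAct (G := G)).toEquiv,
        Nat.card_congr (MulAction.orbitEquivQuotientStabilizer (ConjAct G) x)]
      exact Subgroup.card_quotient_dvd_card _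
    have hc : Nat.card ((N : Set G) \ {1} : Set G) = Nat.card N - 1 := by
      rw [Nat.card_coe_set_eq, Set.ncard_sdiff_singleton_of_mem (one_mem N), ← Nat.card_coe_set_eq]
      rfl
    refine dvd_trans ?_ (hc ▸ hd)
    have hpo : Odd (p ^ k) := (hp.out.odd_of_ne_two hp2).pow
    rw [hk]
    obtain ⟨j, hj⟩ := hpo
    exact ⟨j, by omega⟩

end CfsgLib.Correspondences
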