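import Mathlib
import Cfsg.Agent.Lib.Correspondences.OddIndexReal
import Cfsg.Agent.Lib.Correspondences.RealIrr
import Cfsg.Agent.Lib.Correspondences.CharKer
import Cfsg.Agent.Lib.Correspondences.Codegree
import Cfsg.Agent.Lib.Frobenius.BrauerPerm
import Cfsg.Agent.Lib.Clifford.Basic

/-!
Real classes, real characters, and real characters above a real character of a normal subgroup
of odd index.
-/

set_option autoImplicit false
set_option linter.style.haveILetI false

namespace CfsgLib.Correspondences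

open Cfsg CfsgLib.CharTheory CfsgLib.RealChar
open scoped ComplexConjugate

attribute [local instance 10000] Classical.propDecidable

variable {G : Type*} [Group G] [Finite G]

/-- A real character of a normal subgroup of odd index lies under a real character. -/
theorem exists_real_over [Fintype G] (N : Subgroup G) [N.Normal] [Fintype N] (hodd : Odd N.index)
    (θ : IrrCharacter N) (hθ : ∀ k : N, ((θ : N → ℂ) k).im = 0) :
    ∃ χ : IrrCharacter G, (∀ g : G, ((χ : G → ℂ) g).im = 0) ∧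
      classInner (fun n : N => (χ : G → ℂ) n) (θ : N → ℂ) ≠ 0 := by
  haveI := Fintype.ofFinite (IrrCharacter G)
  let ip : IrrCharacter G → ℂ := fun χ => classInner (fun n : N => (χ : G → ℂ) n) (θ : N → ℂ)
  have hsum : ∑ χ : IrrCharacter G, fsIndicator (χ : G → ℂ) * ip χ = fsIndicator (θ : N → ℂ) := by
    simp only [ip, ← classInner_smul_left, ← classInner_sum_left]
    rw [← conj_fsIndicator_irr θ.2, fsIndicator, Cfsg.classInner, map_mul, map_inv₀,
      Complex.conj_natCast, map_sum]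
    congr 1
    symm
    rw [← Finset.sum_fiberwise (Finset.univ : Finset N) (fun u : N => u * u)]
    refine Finset.sum_congr rfl fun n _ => ?_
    rw [Finset.sum_congr rfl (g := fun _ => conj ((θ : N → ℂ) n)) fun u hu => by
      rw [(Finset.mem_filter.1 hu).2], Finset.sum_const, nsmul_eq_mul]
    congr 1
    rw [Finset.sum_apply]
    refine Eq.trans ?_ (card_sqrt_eq_sum (n : G))
    rw [Nat.cast_inj]
    refine Finset.card_bij (fun u _ => (u : G)) (fun u hu => ?_) (fun u _ v _ huv => Subtype.ext huv)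
      fun v hv => ?_
    · exact Finset.mem_filter.2 ⟨Finset.mem_univ _, congrArg Subtype.val (Finset.mem_filter.1 hu).2⟩
    · have hv2 := (Finset.mem_filter.1 hv).2
      exact ⟨⟨v, mem_of_mul_self_mem_of_odd N hodd (hv2 ▸ n.2)⟩,
        Finset.mem_filter.2 ⟨Finset.mem_univ _, Subtype.ext hv2⟩, rfl⟩
  obtain ⟨χ, -, hne⟩ := Finset.exists_ne_zero_of_sum_ne_zero
    (hsum.symm ▸ (fsIndicator_irr_ne_zero_iff θ.2).2 hθ)
  exact ⟨χ, (fsIndicator_irr_ne_zero_iff χ.2).1 (left_ne_zero_of_mul hne), right_ne_zero_of_mul hne⟩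

/-- Brauer: as many real characters as real classes. -/
theorem card_real_irr_eq_card_real_classes :
    Nat.card {χ : IrrCharacter G // ∀ g : G, ((χ : G → ℂ) g).im = 0} =
      Nat.card {C : ConjClasses G // ∃ g, ConjClasses.mk g = C ∧ IsConj g g⁻¹} := by
  haveI := Fintype.ofFinite G
  haveI := Fintype.ofFinite (ConjClasses G)
  have e : {χ : IrrCharacter G // ∀ g : G, ((χ : G → ℂ) g).im = 0} ≃
      {χ : IrrCharacter G // (χ : G → ℂ) ∘ (fun g => g⁻¹) = (χ : G → ℂ)} :=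
    Equiv.subtypeEquivRight fun χ => by
      simp only [funext_iff, Function.comp_apply, IsIrrCharacter.inv χ.2, Complex.conj_eq_iff_im]
  have h := CfsgLib.Frobenius.card_fixed_irr (fun g : G => g⁻¹)
    (fun χ => CfsgLib.Frobenius.isIrrCharacter_comp_inv χ.2)
  rw [← Nat.card_congr e, ← Finset.sum_fiberwise (Finset.univ : Finset G) ConjClasses.mk] at h
  have h2 : ∀ C : ConjClasses G, ∑ g ∈ Finset.univ.filter (fun g => ConjClasses.mk g = C),
      (if IsConj g⁻¹ g then (Nat.card (Subgroup.centralizer ({g} : Set G)) : ℂ) else 0) =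
      if ∃ g, ConjClasses.mk g = C ∧ IsConj g g⁻¹ then (Nat.card G : ℂ) else 0 := by
    intro C
    induction C using Quotient.inductionOn' with | h g₀ => ?_
    have hreal : ∀ g, IsConj g₀ g → (IsConj g⁻¹ g ↔ IsConj g₀ g₀⁻¹) := fun g hg => by
      obtain ⟨c, hc⟩ := isConj_iff.1 hg
      have hi : IsConj g₀⁻¹ g⁻¹ := isConj_iff.2 ⟨c, by rw [← hc]; group⟩
      exact ⟨fun h => hg.trans (h.symm.trans hi.symm), fun h => hi.symm.trans (h.symm.trans hg)⟩
    have hex : (∃ g, ConjClasses.mk g = ConjClasses.mk g₀ ∧ IsConj g g⁻¹) ↔ IsConj g₀ g₀⁻¹ :=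
      ⟨fun ⟨g, hg, hr⟩ => (hreal g (ConjClasses.mk_eq_mk_iff_isConj.1 hg).symm).1 hr.symm,
        fun h => ⟨g₀, rfl, h⟩⟩
    show ∑ g ∈ Finset.univ.filter (fun g => ConjClasses.mk g = ConjClasses.mk g₀), _ =
      if ∃ g, ConjClasses.mk g = ConjClasses.mk g₀ ∧ IsConj g g⁻¹ then _ else _
    have hc : ∀ g ∈ Finset.univ.filter (fun g => ConjClasses.mk g = ConjClasses.mk g₀),
        (if IsConj g⁻¹ g then (Nat.card (Subgroup.centralizer ({g} : Set G)) : ℂ) else 0) =
        if IsConj g₀ g₀⁻¹ then (Nat.card (Subgroup.centralizer ({g₀} : Set G)) : ℂ) else 0 := by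
      intro g hg
      have hg' : IsConj g₀ g := (ConjClasses.mk_eq_mk_iff_isConj.1 (Finset.mem_filter.1 hg).2).symm
      simp only [hreal g hg']
      have ei : (Subgroup.centralizer ({g} : Set G)).index =
          (Subgroup.centralizer ({g₀} : Set G)).index := by
        rw [← card_isConj, ← card_isConj]
        exact Nat.card_congr (Equiv.subtypeEquiv (Equiv.refl G) fun x =>
          ⟨fun hx => hg'.trans hx, fun hx => hg'.symm.trans hx⟩)
      have hm := (Subgroup.card_mul_index (Subgroup.centralizer ({g} : Set G))).trans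
        (Subgroup.card_mul_index (Subgroup.centralizer ({g₀} : Set G))).symm
      rw [ei] at hm
      rw [Nat.eq_of_mul_eq_mul_right (Nat.pos_of_ne_zero Subgroup.index_ne_zero_of_finite) hm]
    rw [Finset.sum_congr rfl hc, Finset.sum_const, nsmul_eq_mul, if_congr hex rfl rfl]
    have hcl : (Finset.univ.filter (fun g => ConjClasses.mk g = ConjClasses.mk g₀)).card =
        (Subgroup.centralizer ({g₀} : Set G)).index := by
      rw [← card_isConj, ← Fintype.card_subtype, ← Nat.card_eq_fintype_card]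
      exact Nat.card_congr (Equiv.subtypeEquivRight fun g => by
        rw [ConjClasses.mk_eq_mk_iff_isConj]; exact isConj_comm)
    rw [hcl]
    split_ifs
    · rw [← Nat.cast_mul, mul_comm, Subgroup.card_mul_index]
    · rw [mul_zero]
  rw [Finset.sum_congr rfl fun C _ => h2 C, ← Finset.sum_filter, Finset.sum_const, nsmul_eq_mul,
    mul_comm, mul_assoc, mul_inv_cancel₀ (Nat.cast_ne_zero.2 Nat.card_pos.ne'), mul_one,
    Nat.cast_inj, ← Fintype.card_subtype, ← Nat.card_eq_fintype_card] at h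
  exact h

/-- A real coset of a normal subgroup of odd order contains a real element. -/
theorem exists_real_lift (M : Subgroup G) [M.Normal] (hodd : Odd (Nat.card M)) {x : G ⧸ M}
    (hx : IsConj x x⁻¹) : ∃ y : G, (y : G ⧸ M) = x ∧ IsConj y y⁻¹ := by
  obtain ⟨tq, htq⟩ := isConj_iff.1 hx
  obtain ⟨t₀, rfl⟩ := QuotientGroup.mk_surjective tq
  obtain ⟨x₀, rfl⟩ := QuotientGroup.mk_surjective x
  obtain ⟨e, s, hs, hes⟩ : ∃ e s, Odd s ∧ orderOf t₀ = 2 ^ e * s := by
    refine ⟨(orderOf t₀).factorization 2, _, ?_, (Nat.ordProj_mul_ordCompl_eq_self _ 2).symm⟩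
    rw [← Nat.not_even_iff_odd, even_iff_two_dvd]
    exact Nat.not_dvd_ordCompl Nat.prime_two (orderOf_pos t₀).ne'
  set t := t₀ ^ s with ht
  have hts : ∀ i : ℕ, Odd i →
      ((t₀ ^ i : G) : G ⧸ M) * (x₀ : G ⧸ M) * ((t₀ ^ i : G) : G ⧸ M)⁻¹ = (x₀ : G ⧸ M)⁻¹ := by
    rintro _ ⟨j, rfl⟩
    induction j with
    | zero => simpa using htq
    | succ j ih =>
      have h' : (t₀ : G ⧸ M) * (x₀ : G ⧸ M)⁻¹ * (t₀ : G ⧸ M)⁻¹ = (x₀ : G ⧸ M) := by
        calc (t₀ : G ⧸ M) * (x₀ : G ⧸ M)⁻¹ * (t₀ : G ⧸ M)⁻¹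
            = ((t₀ : G ⧸ M) * (x₀ : G ⧸ M) * (t₀ : G ⧸ M)⁻¹)⁻¹ := by group
          _ = _ := by rw [htq, inv_inv]
      rw [show 2 * (j + 1) + 1 = 2 * j + 1 + 1 + 1 from by ring, pow_succ', pow_succ']
      simp only [QuotientGroup.mk_mul]
      calc (t₀ : G ⧸ M) * ((t₀ : G ⧸ M) * ((t₀ ^ (2 * j + 1) : G) : G ⧸ M)) * (x₀ : G ⧸ M) *
            ((t₀ : G ⧸ M) * ((t₀ : G ⧸ M) * ((t₀ ^ (2 * j + 1) : G) : G ⧸ M)))⁻¹
          = (t₀ : G ⧸ M) * ((t₀ : G ⧸ M) * (((t₀ ^ (2 * j + 1) : G) : G ⧸ M) * (x₀ : G ⧸ M) *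
            ((t₀ ^ (2 * j + 1) : G) : G ⧸ M)⁻¹) * (t₀ : G ⧸ M)⁻¹) * (t₀ : G ⧸ M)⁻¹ := by group
        _ = _ := by rw [ih, h', htq]
  have htx : (t : G ⧸ M) * (x₀ : G ⧸ M) * (t : G ⧸ M)⁻¹ = (x₀ : G ⧸ M)⁻¹ := hts s hs
  let Y := {y : G // (y : G ⧸ M) = x₀}
  have hcard : Nat.card Y = Nat.card M :=
    Nat.card_congr
      { toFun := fun y => ⟨x₀⁻¹ * y.1, (QuotientGroup.eq).1 y.2.symm⟩
        invFun := fun m => ⟨x₀ * m, ((QuotientGroup.eq).2 (by simp)).symm⟩
        left_inv := fun y => Subtype.ext (by simp)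
        right_inv := fun m => Subtype.ext (by simp) }
  have hmap : ∀ y : Y, ((t * y.1⁻¹ * t⁻¹ : G) : G ⧸ M) = (x₀ : G ⧸ M) := fun y => by
    simp only [QuotientGroup.mk_mul, QuotientGroup.mk_inv, y.2]
    calc (t : G ⧸ M) * (x₀ : G ⧸ M)⁻¹ * (t : G ⧸ M)⁻¹
        = ((t : G ⧸ M) * (x₀ : G ⧸ M) * (t : G ⧸ M)⁻¹)⁻¹ := by group
      _ = _ := by rw [htx, inv_inv]
  let σ : Equiv.Perm Y := Equiv.ofBijective (fun y => ⟨t * y.1⁻¹ * t⁻¹, hmap y⟩)
    (Finite.injective_iff_bijective.1 fun a b h => Subtype.ext (by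
      have := congrArg Subtype.val h
      simpa using this))
  have hσ : ∀ (n : ℕ) (y : Y), ((σ ^ (2 * n)) y).1 = t ^ (2 * n) * y.1 * (t ^ (2 * n))⁻¹ := by
    intro n
    induction n with
    | zero => intro y; simp
    | succ n ih =>
      intro y
      rw [show 2 * (n + 1) = 2 * n + 1 + 1 from by ring, pow_succ' σ, pow_succ' σ,
        Equiv.Perm.mul_apply, Equiv.Perm.mul_apply]
      show t * (t * ((σ ^ (2 * n)) y).1⁻¹ * t⁻¹)⁻¹ * t⁻¹ = _
      rw [ih, pow_succ' t, pow_succ' t]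
      group
  have ht2 : t ^ (2 ^ (e + 1)) = 1 := by
    rw [ht, ← pow_mul, ← orderOf_dvd_iff_pow_eq_one, hes, pow_succ']
    exact ⟨2, by ring⟩
  have hord : σ ^ 2 ^ (e + 1) = 1 := Equiv.ext fun y => Subtype.ext (by
    rw [pow_succ', hσ, ← pow_succ' 2 e, ht2]
    simp)
  haveI : Fact (2 : ℕ).Prime := ⟨Nat.prime_two⟩
  have hPG : IsPGroup 2 (Subgroup.zpowers σ) := by
    obtain ⟨j, -, hj⟩ := (Nat.dvd_prime_pow Nat.prime_two).1 (orderOf_dvd_of_pow_eq_one hord)
    exact IsPGroup.of_card (n := j) (by rw [Nat.card_zpowers, hj])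
  obtain ⟨y, hy⟩ := hPG.nonempty_fixed_point_of_prime_not_dvd_card Y
    (by rw [hcard]; exact hodd.not_two_dvd_nat)
  have h1 : t * y.1⁻¹ * t⁻¹ = y.1 := congrArg Subtype.val
    (hy ⟨σ, Subgroup.mem_zpowers σ⟩ : σ y = y)
  exact ⟨y.1, y.2, (isConj_iff.2 ⟨t, h1⟩).symm⟩

/-- If every real character is trivial on the normal subgroup `M` of odd order, `M` contains no
nontrivial real element. -/
theorem eq_one_of_real_of_trivial (M : Subgroup G) [M.Normal] (hodd : Odd (Nat.card M))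
    (htriv : ∀ χ : IrrCharacter G, (∀ g : G, ((χ : G → ℂ) g).im = 0) →
      ∀ m ∈ M, (χ : G → ℂ) m = (χ : G → ℂ) 1) {m : G} (hm : m ∈ M) (hr : IsConj m m⁻¹) : m = 1 := by
  let Q := G ⧸ M
  let RG := {C : ConjClasses G // ∃ g, ConjClasses.mk g = C ∧ IsConj g g⁻¹}
  let RQ := {C : ConjClasses Q // ∃ g, ConjClasses.mk g = C ∧ IsConj g g⁻¹}
  let φ : RG → RQ := fun C => ⟨ConjClasses.map (QuotientGroup.mk' M) C.1, by
    obtain ⟨g, hg, hgr⟩ := C.2
    refine ⟨QuotientGroup.mk' M g, ?_, ?_⟩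
    · rw [← hg]; rfl
    · rw [← map_inv]; exact (QuotientGroup.mk' M).map_isConj hgr⟩
  have hsurj : Function.Surjective φ := by
    rintro ⟨C, g, hg, hgr⟩
    obtain ⟨y, hy, hyr⟩ := exists_real_lift M hodd hgr
    exact ⟨⟨ConjClasses.mk y, y, rfl, hyr⟩, Subtype.ext (by
      show ConjClasses.mk (QuotientGroup.mk' M y) = C
      rw [← hg, ← hy]; rfl)⟩
  let ψ : {χ : IrrCharacter Q // ∀ g : Q, ((χ : Q → ℂ) g).im = 0} →
      {χ : IrrCharacter G // ∀ g : G, ((χ : G → ℂ) g).im = 0} := fun χ =>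
    ⟨⟨_, isIrrCharacter_comp_of_surjective χ.1.2 (QuotientGroup.mk' M) (QuotientGroup.mk'_surjective M)⟩,
      fun g => χ.2 _⟩
  have hψ : Function.Surjective ψ := by
    intro χ
    obtain ⟨θ, hθ⟩ := exists_deflate χ.1.2 M (htriv χ.1 χ.2)
    refine ⟨⟨θ, fun q => ?_⟩, Subtype.ext (Subtype.ext (funext hθ))⟩
    obtain ⟨g, rfl⟩ := QuotientGroup.mk'_surjective M q
    rw [hθ]; exact χ.2 g
  have hle : Nat.card RG ≤ Nat.card RQ := by
    rw [← card_real_irr_eq_card_real_classes, ← card_real_irr_eq_card_real_classes]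
    exact Nat.card_le_card_of_surjective ψ hψ
  have hbij : Function.Bijective φ :=
    (Nat.bijective_iff_surjective_and_card φ).2 ⟨hsurj,
      le_antisymm hle (Nat.card_le_card_of_surjective φ hsurj)⟩
  have h1 := hbij.1 (a₁ := ⟨ConjClasses.mk m, m, rfl, hr⟩)
    (a₂ := ⟨ConjClasses.mk 1, 1, rfl, by rw [inv_one]⟩) (Subtype.ext (by
      show ConjClasses.mk (QuotientGroup.mk' M m) = ConjClasses.mk (QuotientGroup.mk' M 1)
      rw [map_one]
      exact congrArg ConjClasses.mk ((QuotientGroup.eq_one_iff m).2 hm)))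
  exact isConj_one_right.1 (ConjClasses.mk_eq_mk_iff_isConj.1 (congrArg Subtype.val h1)).symm

end CfsgLib.Correspondences
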