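import Mathlib
import Cfsg.Agent.Lib.Correspondences.RealOver
import Cfsg.Agent.Lib.Correspondences.SeparableDegrees
import Cfsg.Agent.Lib.Correspondences.DetExtension

/-!
Groups in which the real irreducible characters have `p'`-degree and some normal solvable
subgroup has `p'`-index: the Sylow `p`-subgroup of `O^{2'}` is normal.
-/

set_option autoImplicit false
set_option linter.style.haveILetI false

namespace CfsgLib.Correspondences

open Cfsg CfsgLib.CharTheory CfsgLib.Clifford
open scoped Pointwise commutatorElement ComplexConjugate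

universe u

/-- Every real irreducible character has `p'`-degree. -/
def RealDegrees (p : ℕ) (G : Type u) [Group G] : Prop :=
  ∀ χ : IrrCharacter G, (∀ g : G, ((χ : G → ℂ) g).im = 0) → ¬ p ∣ charDegree (χ : G → ℂ)

/-- A normal solvable subgroup of `p'`-index exists. -/
def SolvableResidual (p : ℕ) (G : Type u) [Group G] : Prop :=
  ∃ S : Subgroup G, S.Normal ∧ Group.IsSolvable S ∧ ¬ p ∣ S.index

/-- The subgroup generated by the `2`-elements. -/
def twoResidual (G : Type u) [Group G] : Subgroup G :=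
  Subgroup.closure {g : G | ∃ k : ℕ, orderOf g = 2 ^ k}

variable {G : Type u} [Group G] [Finite G] {p : ℕ}

theorem RealDegrees.quotient (h : RealDegrees p G) (N : Subgroup G) [N.Normal] :
    RealDegrees p (G ⧸ N) := by
  intro χ hr
  have h1 := h ⟨_, isIrrCharacter_comp_of_surjective χ.2 (QuotientGroup.mk' N)
    (QuotientGroup.mk'_surjective N)⟩ (fun g => hr _)
  simp only [charDegree, map_one] at h1 ⊢
  exact h1

theorem RealDegrees.of_odd_index (h : RealDegrees p G) (M : Subgroup G) [M.Normal]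
    (hodd : Odd M.index) : RealDegrees p M := by
  classical
  haveI := Fintype.ofFinite G
  haveI := Fintype.ofFinite M
  intro θ hθ hd
  obtain ⟨χ, hχ, hne⟩ := exists_real_over M hodd θ hθ
  have hcM : IsCharacter M (fun n : M => (χ : G → ℂ) n) :=
    CfsgLib.Coherence.isCharacter_comp (IsIrrCharacter.isCharacter χ.2) M.subtype
  obtain ⟨a, ha⟩ := IsCharacter.exists_classInner_eq_nat hcM θ
  have h1 := CfsgLib.Clifford.apply_one_eq M χ.2 θ.2 hne
  rw [ha, ← charDegree_cast (IsIrrCharacter.isCharacter χ.2),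
    ← charDegree_cast (IsIrrCharacter.isCharacter θ.2), ← Nat.cast_mul, ← Nat.cast_mul,
    Nat.cast_inj] at h1
  exact h χ hχ (h1 ▸ hd.mul_left _)

theorem SolvableResidual.quotient (h : SolvableResidual p G) (N : Subgroup G) [N.Normal] :
    SolvableResidual p (G ⧸ N) := by
  obtain ⟨S, hS, hsol, hidx⟩ := h
  haveI := hsol
  refine ⟨S.map (QuotientGroup.mk' N), hS.map _ (QuotientGroup.mk'_surjective N),
    Group.isSolvable_of_surjective (f := (QuotientGroup.mk' N).subgroupMap S)
      ((QuotientGroup.mk' N).subgroupMap_surjective S), fun hd => hidx (hd.trans ?_)⟩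
  exact Subgroup.index_map_dvd _ (QuotientGroup.mk'_surjective N)

theorem SolvableResidual.subgroup (h : SolvableResidual p G) (M : Subgroup G) :
    SolvableResidual p M := by
  obtain ⟨S, hS, hsol, hidx⟩ := h
  haveI := hS
  haveI := hsol
  refine ⟨S.subgroupOf M, inferInstance, ?_, fun hd => hidx (hd.trans ?_)⟩
  · exact Group.isSolvable_of_isSolvable_injective (f := M.subtype.subgroupComap S)
      (fun a b h => Subtype.ext (Subtype.ext (congrArg (Subtype.val : S → G) h)))
  · exact Subgroup.relIndex_dvd_index_of_normal S M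

theorem solvableResidual_closure [hp : Fact p.Prime]
    (h : Group.IsSolvable ↥(Subgroup.closure {g : G | ∃ k : ℕ, orderOf g = p ^ k})) :
    SolvableResidual p G := by
  refine ⟨_, ⟨fun n hn g => ?_⟩, h, fun hd => ?_⟩
  · have : (Subgroup.closure {g : G | ∃ k : ℕ, orderOf g = p ^ k}).map (MulAut.conj g).toMonoidHom ≤
        Subgroup.closure {g : G | ∃ k : ℕ, orderOf g = p ^ k} := by
      rw [MonoidHom.map_closure, Subgroup.closure_le]
      rintro _ ⟨x, ⟨k, hk⟩, rfl⟩
      exact Subgroup.subset_closure ⟨k, by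
        rw [show (MulAut.conj g).toMonoidHom x = MulAut.conj g x from rfl, MulEquiv.orderOf_eq, hk]⟩
    exact this ⟨n, hn, rfl⟩
  · obtain ⟨P⟩ : Nonempty (Sylow p G) := inferInstance
    refine P.not_dvd_index (hd.trans (Subgroup.index_dvd_of_le fun x hx => ?_))
    obtain ⟨k, hk⟩ := IsPGroup.iff_orderOf.1 P.2 ⟨x, hx⟩
    exact Subgroup.subset_closure ⟨k, by rw [← hk, ← Subgroup.orderOf_coe]⟩

theorem twoResidual_normal : (twoResidual G).Normal := ⟨fun n hn g => by
  have : (twoResidual G).map (MulAut.conj g).toMonoidHom ≤ twoResidual G := by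
    rw [twoResidual, MonoidHom.map_closure, Subgroup.closure_le]
    rintro _ ⟨x, ⟨k, hk⟩, rfl⟩
    exact Subgroup.subset_closure ⟨k, by
      rw [show (MulAut.conj g).toMonoidHom x = MulAut.conj g x from rfl, MulEquiv.orderOf_eq, hk]⟩
  exact this ⟨n, hn, rfl⟩⟩

theorem odd_index_twoResidual : Odd (twoResidual G).index := by
  haveI : Fact (2 : ℕ).Prime := ⟨Nat.prime_two⟩
  obtain ⟨P⟩ : Nonempty (Sylow 2 G) := inferInstance
  rw [← Nat.not_even_iff_odd, even_iff_two_dvd]
  refine fun hd => P.not_dvd_index (hd.trans (Subgroup.index_dvd_of_le fun x hx => ?_))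
  obtain ⟨k, hk⟩ := IsPGroup.iff_orderOf.1 P.2 ⟨x, hx⟩
  exact Subgroup.subset_closure ⟨k, by rw [← hk, ← Subgroup.orderOf_coe]⟩

/-- A subgroup of odd index containing the residual has the same residual. -/
theorem twoResidual_subgroup {M : Subgroup G} (hM : twoResidual G ≤ M) :
    twoResidual M = (twoResidual G).subgroupOf M := by
  have h : (twoResidual M).map M.subtype = twoResidual G := by
    rw [twoResidual, MonoidHom.map_closure]
    refine congrArg Subgroup.closure (Set.ext fun x => ⟨?_, fun hx => ?_⟩)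
    · rintro ⟨y, ⟨k, hk⟩, rfl⟩
      exact ⟨k, by rw [Subgroup.subtype_apply, Subgroup.orderOf_coe, hk]⟩
    · obtain ⟨k, hk⟩ := hx
      have hxM : x ∈ M := hM (Subgroup.subset_closure ⟨k, hk⟩)
      exact ⟨⟨x, hxM⟩, ⟨k, by rw [← Subgroup.orderOf_coe]; exact hk⟩, rfl⟩
  rw [← h]
  exact (Subgroup.comap_map_eq_self_of_injective M.subtype_injective _).symm

/-- Some power of a `2`-element acts as an involution. -/
theorem exists_inverting_pow {α : Type*} (σ : α → α) {k : ℕ} (hk : σ^[2 ^ k] = id) {a : α}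
    (ha : σ a ≠ a) : ∃ i, ∃ b, σ^[2 ^ i] b ≠ b ∧ ∀ c, σ^[2 ^ i] (σ^[2 ^ i] c) = c := by
  induction k with
  | zero => exact absurd (congrFun hk a) ha
  | succ k ih =>
    by_cases h : σ^[2 ^ k] = id
    · exact ih h
    · obtain ⟨b, hb⟩ := Function.ne_iff.1 h
      refine ⟨k, b, hb, fun c => ?_⟩
      rw [← Function.iterate_add_apply, ← two_mul, ← pow_succ', hk, id_eq]

/-- A real irreducible character above a linear character of an abelian complemented normal
subgroup that is inverted by conjugation. -/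
theorem exists_real_above {G : Type*} [Group G] [Finite G] (V L : Subgroup G) [V.Normal] [Fintype V]
    (hd : Disjoint V L) (hsup : V ⊔ L = ⊤) (l : V →* ℂˣ) (t : G)
    (htL : t ∈ L) (ht : ∀ v : V, l (MulAut.conjNormal t v) = (l v)⁻¹) :
    ∃ χ : IrrCharacter G, (∀ g : G, ((χ : G → ℂ) g).im = 0) ∧
      classInner (fun v : V => (χ : G → ℂ) v) (fun v => (l v : ℂ)) ≠ 0 := by
  classical
  haveI := Fintype.ofFinite G
  have hθ : IsIrrCharacter V (fun v => (l v : ℂ)) := isIrrCharacter_linear l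
  set T := inertia V (fun v => (l v : ℂ)) with hT
  have hVT : V ≤ T := le_inertia V (IsIrrCharacter.isClassFunction hθ)
  have hmem : ∀ g : G, g ∈ T ↔ ∀ v : V, l (MulAut.conjNormal g v) = l v := fun g => by
    rw [hT, mem_inertia, conjChar_eq_comp, funext_iff]
    exact forall_congr' fun v => ⟨fun h => Units.ext h, congrArg Units.val⟩
  have hTU : T = V ⊔ (T ⊓ L) := by
    refine le_antisymm (fun g hg => ?_) (sup_le hVT inf_le_left)
    have h1 : g ∈ ((V ⊔ L : Subgroup G) : Set G) := by rw [hsup]; exact Subgroup.mem_top g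
    rw [Subgroup.normal_mul] at h1
    obtain ⟨v, hv, y, hy, rfl⟩ := h1
    refine mul_mem (Subgroup.mem_sup_left hv) (Subgroup.mem_sup_right ⟨?_, hy⟩)
    simpa using mul_mem (inv_mem (hVT hv)) hg
  obtain ⟨μ₀, hμ₀⟩ := exists_hom_extension (hd.mono_right (inf_le_right : T ⊓ L ≤ L)) l
    (fun a ha v => (hmem a).1 ha.1 v)
  -- the extension trivial on `T ⊓ L`
  have hdec : ∀ u : T, ∃ v : V, ∃ y : G, y ∈ T ⊓ L ∧ (u : G) = v * y := fun u => by
    have h1 : (u : G) ∈ ((V ⊔ (T ⊓ L) : Subgroup G) : Set G) := by rw [← hTU]; exact u.2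
    rw [Subgroup.normal_mul] at h1
    obtain ⟨v, hv, y, hy, h⟩ := h1
    exact ⟨⟨v, hv⟩, y, hy, h.symm⟩
  choose vf yf hyf hf using hdec
  have huniq : ∀ (u : T) (v : V) (y : G), y ∈ L → (u : G) = v * y → vf u = v := by
    intro u v y hy h
    have h2 : ((v : G)⁻¹ * vf u) = y * (yf u)⁻¹ := by
      have := (hf u).symm.trans h
      calc (v : G)⁻¹ * vf u = (v : G)⁻¹ * ((vf u : G) * yf u) * (yf u)⁻¹ := by group
        _ = y * (yf u)⁻¹ := by rw [this]; group
    have h3 : (v : G)⁻¹ * vf u = 1 := Subgroup.disjoint_def.1 hd (mul_mem (inv_mem v.2) (vf u).2)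
      (h2 ▸ mul_mem hy (inv_mem (hyf u).2))
    exact Subtype.ext (inv_mul_eq_one.1 h3).symm
  let μ : T →* ℂˣ := MonoidHom.mk' (fun u => l (vf u)) fun u w => by
    rw [huniq (u * w) (vf u * MulAut.conjNormal (yf u) (vf w)) (yf u * yf w)
      (mul_mem (hyf u).2 (hyf w).2) (by
        rw [Subgroup.coe_mul, hf u, hf w, Subgroup.coe_mul, MulAut.conjNormal_apply]
        group), map_mul, (hmem _).1 (hyf u).1]
  have hμV : ∀ v : V, μ ⟨(v : G), hVT v.2⟩ = l v := fun v =>
    congrArg l (huniq _ v 1 (one_mem _) (by simp))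
  have hirr : IsIrrCharacter T (fun u => (μ u : ℂ)) := isIrrCharacter_linear μ
  have h1 : classInner (fun v : V => (μ ⟨(v : G), hVT v.2⟩ : ℂ)) (fun v => (l v : ℂ)) = 1 := by
    rw [show (fun v : V => (μ ⟨(v : G), hVT v.2⟩ : ℂ)) = fun v => (l v : ℂ) from
      funext fun v => by rw [hμV]]
    exact classInner_self_of_isIrr hθ
  haveI := Fintype.ofFinite T
  obtain ⟨hI, hin⟩ := isIrrCharacter_indFun_inertia (G := G) (N := V) hθ
    (fun g => mem_inertia V _ g) hVT hirr (by rw [h1]; exact one_ne_zero)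
  refine ⟨⟨_, hI⟩, fun g => ?_, by rw [hin, h1]; exact one_ne_zero⟩
  -- conjugation by `t` turns the extension into its conjugate
  have htT : ∀ u : G, u ∈ T → t * u * t⁻¹ ∈ T := fun u hu => by
    rw [hmem]
    intro v
    have e : ∀ w : V, l (MulAut.conjNormal t⁻¹ w) = (l w)⁻¹ := fun w => by
      have := ht (MulAut.conjNormal t⁻¹ w)
      rw [← MulAut.mul_apply, ← map_mul, mul_inv_cancel, map_one, MulAut.one_apply] at this
      rw [this, inv_inv]
    rw [map_mul, map_mul, MulAut.mul_apply, MulAut.mul_apply, ht, (hmem u).1 hu, e, inv_inv]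
  have hμt : ∀ (u : T) (w : T), (w : G) = t * u * t⁻¹ → μ w = (μ u)⁻¹ := fun u w hw => by
    show l (vf w) = (l (vf u))⁻¹
    rw [huniq w (MulAut.conjNormal t (vf u)) (t * yf u * t⁻¹)
      (mul_mem (mul_mem htL (hyf u).2) (inv_mem htL)) (by
        rw [hw, hf u, MulAut.conjNormal_apply]; group), ht]
  have hnorm : ∀ u : T, conj (μ u : ℂ) = ((μ u)⁻¹ : ℂˣ) := fun u => by
    have h : ‖(μ u : ℂ)‖ = 1 := Complex.norm_eq_one_of_pow_eq_one (n := Nat.card T) (by
      rw [← Units.val_pow_eq_pow_val, ← map_pow, pow_card_eq_one', map_one, Units.val_one])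
      Nat.card_pos.ne'
    rw [Units.val_inv_eq_inv_val, Complex.inv_eq_conj h]
  have hext : ∀ z : G, conj (Cfsg.extendByZero T (fun u => (μ u : ℂ)) z) =
      Cfsg.extendByZero T (fun u => (μ u : ℂ)) (t * z * t⁻¹) := by
    intro z
    by_cases hz : z ∈ T
    · rw [CfsgLib.Frobenius.extendByZero_coe T _ (⟨z, hz⟩ : T),
        CfsgLib.Frobenius.extendByZero_coe T _ (⟨_, htT z hz⟩ : T), hnorm, hμt ⟨z, hz⟩ ⟨_, htT z hz⟩ rfl]
    · have hz' : t * z * t⁻¹ ∉ T := fun h => hz (by
        have e : ∀ n : ℕ, t ^ n * (t * z * t⁻¹) * (t ^ n)⁻¹ ∈ T := by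
          intro n
          induction n with
          | zero => simpa using h
          | succ n ih =>
            have := htT _ ih
            rw [pow_succ']
            convert this using 1
            group
        have := e (orderOf t - 1)
        rw [← mul_assoc, ← mul_assoc, ← pow_succ, Nat.sub_add_cancel (orderOf_pos t),
          pow_orderOf_eq_one, one_mul, mul_assoc, ← mul_inv_rev, ← pow_succ,
          Nat.sub_add_cancel (orderOf_pos t), pow_orderOf_eq_one, inv_one, mul_one] at this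
        exact this)
      simp [Cfsg.extendByZero, hz, hz']
  refine Complex.conj_eq_iff_im.1 ?_
  show conj (indFun T (fun u => (μ u : ℂ)) g) = indFun T (fun u => (μ u : ℂ)) g
  simp only [indFun, map_mul, map_inv₀, Complex.conj_natCast, map_sum, hext]
  congr 1
  exact Fintype.sum_equiv (Equiv.mulRight t⁻¹) _ _ fun x => by
    simp only [Equiv.coe_mulRight]
    congr 1
    group

/-- The main induction. -/
theorem sylow_normal_of_twoResidual_index.{v} {G : Type v} [Group G] [Finite G] {p : ℕ}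
    [Fact p.Prime] (hreal : RealDegrees p G) (hsol : SolvableResidual p G)
    (hidx : ∃ a, (twoResidual G).index = p ^ a) (P : Sylow p G) : (P : Subgroup G).Normal := by
  classical
  induction hn : Nat.card G using Nat.strong_induction_on generalizing G with
  | h n ih =>
  subst hn
  have hp : p.Prime := Fact.out
  haveI := Fintype.ofFinite G
  rcases subsingleton_or_nontrivial G with hs | hnt
  · rw [Subsingleton.elim (P : Subgroup G) ⊥]; infer_instance
  obtain ⟨N, ⟨hNn, hNne⟩, hNmin⟩ := Set.Finite.exists_minimal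
    (s := {W : Subgroup G | W.Normal ∧ W ≠ ⊥}) (Set.toFinite _) ⟨⊤, inferInstance, top_ne_bot⟩
  haveI := hNn
  have hlt : Nat.card (G ⧸ N) < Nat.card G := by
    rw [Subgroup.card_eq_card_quotient_mul_card_subgroup N]
    exact lt_mul_of_one_lt_right Nat.card_pos (N.one_lt_card_iff_ne_bot.2 hNne)
  obtain ⟨a, ha⟩ := hidx
  have hsurj := QuotientGroup.mk'_surjective N
  have hidxQ : ∃ b, (twoResidual (G ⧸ N)).index = p ^ b := by
    have hle : (twoResidual G).map (QuotientGroup.mk' N) ≤ twoResidual (G ⧸ N) := by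
      rw [twoResidual, twoResidual, MonoidHom.map_closure]
      refine Subgroup.closure_mono ?_
      rintro _ ⟨x, ⟨k, hk⟩, rfl⟩
      obtain ⟨j, -, hj⟩ := (Nat.dvd_prime_pow Nat.prime_two).1
        (hk ▸ orderOf_map_dvd (QuotientGroup.mk' N) x)
      exact ⟨j, hj⟩
    obtain ⟨b, -, hb⟩ := (Nat.dvd_prime_pow hp).1
      (ha ▸ (Subgroup.index_dvd_of_le hle).trans (Subgroup.index_map_dvd _ hsurj))
    exact ⟨b, hb⟩
  have hPN : ((P : Subgroup G).map (QuotientGroup.mk' N)).Normal :=
    ih _ hlt (hreal.quotient N) (hsol.quotient N) hidxQ (P.mapSurjective hsurj) rfl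
  set H := (P : Subgroup G) ⊔ N with hH
  haveI hHn : H.Normal := by
    have := hPN.comap (QuotientGroup.mk' N)
    rwa [Subgroup.comap_map_eq, QuotientGroup.ker_mk'] at this
  obtain ⟨S, hSn, hSsol, hSidx⟩ := hsol
  haveI := hSn
  haveI := hSsol
  have hPS : (P : Subgroup G) ≤ S := pgroup_le_of_not_dvd_index P.2 hSidx
  -- a minimal normal subgroup inside `S` is an abelian `q`-group
  have hprim : N ≤ S → (∀ u ∈ N, ∀ w ∈ N, u * w = w * u) ∧ ∃ q, q.Prime ∧ IsPGroup q N := by
    intro hNS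
    haveI : Group.IsSolvable N := CfsgLib.CoprimeAction.isSolvable_of_le hNS
    have hab : ⁅N, N⁆ = ⊥ := by
      by_contra hne
      have heq : ⁅N, N⁆ = N := le_antisymm (Subgroup.commutator_le_self N)
        (hNmin (show ⁅N, N⁆ ∈ _ from ⟨inferInstance, hne⟩) (Subgroup.commutator_le_self N))
      haveI : Nontrivial N := (Subgroup.nontrivial_iff_ne_bot N).2 hNne
      refine (Group.IsSolvable.commutator_lt_top_of_nontrivial (G := N)).ne ?_
      refine Subgroup.map_injective N.subtype_injective ?_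
      rw [Subgroup.map_subtype_commutator, heq, ← MonoidHom.range_eq_map, Subgroup.range_subtype]
    have hcomm : ∀ u ∈ N, ∀ w ∈ N, u * w = w * u := fun u hu w hw =>
      Subgroup.mem_centralizer_iff.1 (Subgroup.commutator_eq_bot_iff_le_centralizer.1 hab hw) u hu
    refine ⟨hcomm, ?_⟩
    obtain ⟨q, hq, hqN⟩ := Nat.exists_prime_and_dvd (N.one_lt_card_iff_ne_bot.2 hNne).ne'
    haveI : Fact q.Prime := ⟨hq⟩
    obtain ⟨Qs⟩ : Nonempty (Sylow q N) := inferInstance
    haveI hQn : (Qs : Subgroup N).Normal := ⟨fun n hn g => by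
      rw [show g * n * g⁻¹ = n from Subtype.ext (by
        rw [Subgroup.coe_mul, Subgroup.coe_mul, hcomm g g.2 n n.2, Subgroup.coe_inv, mul_inv_cancel_right])]
      exact hn⟩
    haveI := Sylow.characteristic_of_normal Qs hQn
    have hQN : ((Qs : Subgroup N).map N.subtype) = N := by
      refine le_antisymm (Subgroup.map_subtype_le _)
        (hNmin (show (Qs : Subgroup N).map N.subtype ∈ _ from ⟨inferInstance, ?_⟩) (Subgroup.map_subtype_le _))
      rw [Ne, Subgroup.map_eq_bot_iff_of_injective _ N.subtype_injective]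
      exact Qs.ne_bot_of_dvd_card hqN
    exact ⟨q, hq, hQN ▸ Qs.2.map _⟩
  have hNP : IsPGroup p N → (P : Subgroup G).Normal := fun hNp => by
    have hle : N ≤ (P : Subgroup G) :=
      le_sup_right.trans (P.3 (P.2.to_sup_of_normal_right hNp) le_sup_left).le
    rwa [hH, sup_eq_left.2 hle] at hHn
  by_cases hcen : ∀ x ∈ (P : Subgroup G), ∀ y ∈ N, x * y = y * x ∧ True
  · by_cases hpN : p ∣ Nat.card N
    · have hNS : N ≤ S := by
        by_contra h
        have hbot : N ⊓ S = ⊥ := by
          by_contra hb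
          exact h ((hNmin (show N ⊓ S ∈ _ from ⟨inferInstance, hb⟩) inf_le_left).trans inf_le_right)
        obtain ⟨z, hz⟩ := exists_prime_orderOf_dvd_card' (G := N) p hpN
        have hz' : orderOf (z : G) = p := by rw [Subgroup.orderOf_coe, hz]
        have h1 : (z : G) ∈ N ⊓ S := ⟨z.2, pgroup_le_of_not_dvd_index
          (A := Subgroup.zpowers (z : G))
          (IsPGroup.of_card (n := 1) (by rw [Nat.card_zpowers, hz', pow_one])) hSidx
          (Subgroup.mem_zpowers _)⟩
        rw [hbot, Subgroup.mem_bot] at h1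
        rw [h1, orderOf_one] at hz'
        exact hp.one_lt.ne hz'
      obtain ⟨-, q, hq, hNq⟩ := hprim hNS
      refine hNP ?_
      haveI : Fact q.Prime := ⟨hq⟩
      obtain ⟨j, hj⟩ := IsPGroup.iff_card.1 hNq
      rwa [(Nat.prime_dvd_prime_iff_eq hp hq).1 (hp.dvd_of_dvd_pow (hj ▸ hpN))]
    · refine ⟨fun x hx g => ?_⟩
      have h1 : g * x * g⁻¹ ∈ (H : Set G) := hHn.conj_mem x (Subgroup.mem_sup_left hx) g
      rw [hH, Subgroup.mul_normal] at h1
      obtain ⟨u, hu, v, hv, huv⟩ := h1
      obtain ⟨k, hk⟩ := IsPGroup.iff_card.1 P.2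
      have hconjp : (g * x * g⁻¹) ^ p ^ k = 1 := by
        rw [conj_pow, ← hk, show x ^ Nat.card (P : Subgroup G) = 1 from
          congrArg Subtype.val (pow_card_eq_one' (x := (⟨x, hx⟩ : (P : Subgroup G)))), mul_one,
          mul_inv_cancel]
      have hup : u ^ p ^ k = 1 := hk ▸
        congrArg Subtype.val (pow_card_eq_one' (x := (⟨u, hu⟩ : (P : Subgroup G))))
      have hv1 : v = 1 := by
        have h2 : v ^ p ^ k = 1 := by
          rw [← huv, Commute.mul_pow (hcen u hu v hv).1, hup, one_mul] at hconjp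
          exact hconjp
        refine orderOf_eq_one_iff.1 (Nat.eq_one_of_dvd_coprimes
          ((hp.coprime_iff_not_dvd.2 hpN).pow_left k) (orderOf_dvd_of_pow_eq_one h2)
          (Subgroup.orderOf_dvd_natCard N hv))
      rw [← huv, hv1]
      show u * 1 ∈ (P : Subgroup G)
      rw [mul_one]
      exact hu
  -- `P` acts nontrivially on `N`
  have hNS : N ≤ S := by
    by_contra h
    have hbot : N ⊓ S = ⊥ := by
      by_contra hb
      exact h (hNmin (show N ⊓ S ∈ _ from ⟨inferInstance, hb⟩) inf_le_left |>.trans inf_le_right)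
    exact hcen fun x hx y hy => ⟨(Subgroup.commute_of_normal_of_disjoint S N hSn hNn
      (disjoint_iff.2 (inf_comm N S ▸ hbot)) x y (hPS hx) hy).eq, trivial⟩
  obtain ⟨hcomm, q, hq, hNq⟩ := hprim hNS
  haveI : Fact q.Prime := ⟨hq⟩
  letI : CommGroup N := { (inferInstance : Group N) with
    mul_comm := fun u w => Subtype.ext (hcomm u u.2 w w.2) }
  have hqN : q ∣ Nat.card N :=
    hNq.card_eq_or_dvd.resolve_left (N.one_lt_card_iff_ne_bot.2 hNne).ne'
  by_cases hqp : q = p
  · exact hNP (hqp ▸ hNq)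
  have hpN : ¬ p ∣ Nat.card N := by
    obtain ⟨j, hj⟩ := IsPGroup.iff_card.1 hNq
    exact fun h => hqp ((Nat.prime_dvd_prime_iff_eq hp hq).1 (hp.dvd_of_dvd_pow (hj ▸ h))).symm
  have hPc : (Nat.card (P : Subgroup G)).Coprime (Nat.card N) := coprime_of_pgroup P.2 hpN
  have hHcard : Nat.card H = Nat.card N * Nat.card (P : Subgroup G) := by
    have hc := CfsgLib.Cores.card_comap_mk' N ((P : Subgroup G).map (QuotientGroup.mk' N))
    rw [Subgroup.comap_map_eq, QuotientGroup.ker_mk', ← hH] at hc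
    rw [hc]
    congr 1
    refine (Nat.card_congr (Equiv.ofBijective
      (fun x => (⟨QuotientGroup.mk' N x.1, x.1, x.2, rfl⟩ : (P : Subgroup G).map (QuotientGroup.mk' N)))
      ⟨fun x y h => ?_, ?_⟩)).symm
    · have h' := (QuotientGroup.eq).1 (congrArg Subtype.val h)
      exact Subtype.ext (inv_mul_eq_one.1 (Subgroup.disjoint_def.1
        (Subgroup.disjoint_of_coprime_natCard hPc) (mul_mem (inv_mem x.2) y.2) h'))
    · rintro ⟨_, x, hx, rfl⟩
      exact ⟨⟨x, hx⟩, rfl⟩
  obtain ⟨P0, hP0H, hP0c, hP0d, hP0s, hfr⟩ := exists_frattini_complement N H le_sup_right hcomm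
    hHcard hPc.symm
  have hP0p : IsPGroup p P0 := by
    obtain ⟨k, hk⟩ := IsPGroup.iff_card.1 P.2
    exact IsPGroup.of_card (n := k) (hP0c.trans hk)
  set L := Subgroup.normalizer (P0 : Set G) with hL
  set W := N ⊓ Subgroup.centralizer (P0 : Set G) with hW
  have hLconj : ∀ l ∈ L, ∀ h ∈ P0, l * h * l⁻¹ ∈ P0 := fun l hl h hh =>
    (Subgroup.mem_normalizer_iff.1 hl h).1 hh
  have hWbot : W = ⊥ := by
    by_contra hWne
    have hWn : W.Normal := ⟨fun w hw g => by
      obtain ⟨v, hv, hvg⟩ := hfr g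
      have h1 : (v * g) * w * (v * g)⁻¹ ∈ W := by
        refine ⟨hNn.conj_mem w hw.1 _, Subgroup.mem_centralizer_iff.2 fun h hh => ?_⟩
        have h2 := hLconj _ (inv_mem hvg) h hh
        rw [inv_inv] at h2
        have h3 := Subgroup.mem_centralizer_iff.1 hw.2 _ h2
        calc h * (v * g * w * (v * g)⁻¹)
            = (v * g) * (((v * g)⁻¹ * h * (v * g)) * w) * (v * g)⁻¹ := by group
          _ = (v * g) * (w * ((v * g)⁻¹ * h * (v * g))) * (v * g)⁻¹ := by rw [h3]
          _ = _ := by group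
      have e : g * w * g⁻¹ = v⁻¹ * ((v * g) * w * (v * g)⁻¹) * v := by group
      rw [e, hcomm v⁻¹ (inv_mem hv) _ h1.1, mul_assoc, inv_mul_cancel, mul_one]
      exact h1⟩
    have hNW : N ≤ W := hNmin ⟨hWn, hWne⟩ inf_le_left
    refine hcen fun x hx y hy => ⟨?_, trivial⟩
    have h1 : x ∈ ((N ⊔ P0 : Subgroup G) : Set G) := by rw [hP0s]; exact Subgroup.mem_sup_left hx
    rw [Subgroup.normal_mul] at h1
    obtain ⟨u, hu, v, hv, rfl⟩ := h1
    have h2 := Subgroup.mem_centralizer_iff.1 (hNW hy).2 v hv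
    calc u * v * y = u * (y * v) := by rw [mul_assoc, h2]
      _ = y * (u * v) := by rw [← mul_assoc, hcomm u hu y hy, mul_assoc]
  have hNL : ∀ v ∈ N, v ∈ L → v = 1 := fun v hv hvL => by
    rw [← Subgroup.mem_bot, ← hWbot]
    refine ⟨hv, Subgroup.mem_centralizer_iff.2 fun h hh => ?_⟩
    have h1 : v * h * v⁻¹ * h⁻¹ ∈ N ⊓ P0 := ⟨by
      rw [show v * h * v⁻¹ * h⁻¹ = v * (h * v⁻¹ * h⁻¹) by group]
      exact mul_mem hv (hNn.conj_mem _ (inv_mem hv) h),
      P0.mul_mem (hLconj v hvL h hh) (P0.inv_mem hh)⟩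
    rw [hP0d, Subgroup.mem_bot] at h1
    calc h * v = (v * h * v⁻¹ * h⁻¹) * (h * v) := by rw [h1, one_mul]
      _ = v * h := by group
  have hd : Disjoint N L := Subgroup.disjoint_def.2 fun hv hl => hNL _ hv hl
  have hsupL : N ⊔ L = ⊤ := eq_top_iff.2 fun g _ => by
    obtain ⟨v, hv, hvg⟩ := hfr g
    simpa using mul_mem (Subgroup.mem_sup_left (T := L) (inv_mem hv)) (Subgroup.mem_sup_right hvg)
  -- nontrivial linear characters are not fixed by `P0`
  haveI := Fintype.ofFinite N
  have hfree : ∀ l : N →* ℂˣ, l ≠ 1 → ∀ χ : IrrCharacter G,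
      classInner (fun v : N => (χ : G → ℂ) v) (fun v => (l v : ℂ)) ≠ 0 →
      p ∣ charDegree (χ : G → ℂ) := by
    intro l hl χ hχ
    by_contra hpd
    have hθ : IsIrrCharacter N (fun v => (l v : ℂ)) := isIrrCharacter_linear l
    obtain ⟨c, hc⟩ : ∃ c : ℕ, classInner (fun v : N => (χ : G → ℂ) v) (fun v => (l v : ℂ)) = c :=
      IsCharacter.exists_classInner_eq_nat
        (CfsgLib.Coherence.isCharacter_comp (IsIrrCharacter.isCharacter χ.2) N.subtype) ⟨_, hθ⟩
    set T := inertia N (fun v => (l v : ℂ)) with hT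
    have h := CfsgLib.Clifford.apply_one_eq N χ.2 hθ hχ
    rw [CfsgLib.Clifford.card_conjOrbit N _ T (fun g => mem_inertia N _ g), hc,
      ← charDegree_cast (IsIrrCharacter.isCharacter χ.2)] at h
    simp only [map_one, Units.val_one, mul_one, ← Nat.cast_mul, Nat.cast_inj] at h
    have hTp : ¬ p ∣ T.index := fun hd => hpd (h ▸ hd.mul_left c)
    have hNT : N ≤ T := le_inertia N (IsIrrCharacter.isClassFunction hθ)
    have hP0T : P0 ≤ T := by
      intro x hx
      have hrel : T.relIndex H = 1 := by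
        refine Nat.eq_one_of_dvd_coprimes (a := T.index) (b := Nat.card (P : Subgroup G))
          (coprime_of_pgroup P.2 hTp).symm (relIndex_dvd_index_of_normal_right T) ?_
        refine (Subgroup.relIndex_dvd_of_le_left H hNT).trans (dvd_of_eq ?_)
        refine Nat.eq_of_mul_eq_mul_left (Nat.card_pos (α := N)) ?_
        rw [← hHcard, ← Nat.card_congr (Subgroup.subgroupOfEquivOfLe (le_sup_right : N ≤ H)).toEquiv]
        exact Subgroup.card_mul_index _
      exact Subgroup.relIndex_eq_one.1 hrel (hP0H hx)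
    refine hl (MonoidHom.ext fun v => ?_)
    have hnorm : P0 ≤ Subgroup.normalizer (N : Set G) := by
      rw [Subgroup.normalizer_eq_top]; exact le_top
    haveI := hP0p.isNilpotent
    have hsplit := CfsgLib.CoprimeAction.commutator_sup_centralizer hnorm
      (coprime_of_pgroup hP0p hpN) (Or.inl inferInstance)
    rw [← hW, hWbot, sup_bot_eq] at hsplit
    have hle : ⁅N, P0⁆ ≤ l.ker.map N.subtype := Subgroup.commutator_le.2 fun y hy x hx => by
      refine ⟨⟨y, hy⟩ * (MulAut.conjNormal x ⟨y, hy⟩)⁻¹, ?_, ?_⟩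
      · show l _ = 1
        have h1 := congrFun ((mem_inertia N _ x).1 (hP0T hx)) ⟨y, hy⟩
        rw [conjChar_eq_comp] at h1
        rw [map_mul, map_inv, Units.ext h1, mul_inv_cancel]
      · simp [commutatorElement_def, mul_assoc]
    rw [hsplit] at hle
    obtain ⟨w, hw, hwv⟩ := hle v.2
    rw [← show w = v from Subtype.ext hwv]
    exact hw
  haveI : Finite (N →* ℂˣ) := Finite.of_equiv _ linearEquivHom
  haveI : NeZero (Monoid.exponent N) := ⟨Monoid.exponent_ne_zero_of_finite⟩
  -- a real character above a nontrivial linear one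
  suffices hmain : ∃ l : N →* ℂˣ, l ≠ 1 ∧ ∃ t ∈ L, ∀ v : N, l (MulAut.conjNormal t v) = (l v)⁻¹ by
    obtain ⟨l, hl, t, htL, ht⟩ := hmain
    obtain ⟨χ, hχ, hne⟩ := exists_real_above N L hd hsupL l t htL ht
    exact absurd (hfree l hl χ hne) (hreal χ hχ)
  by_contra hno
  push Not at hno
  -- the `2`-elements of `L` centralize `N`
  have hcent : ∀ x ∈ L, (∃ k, x ^ 2 ^ k = 1) → ∀ v ∈ N, x * v = v * x := by
    rintro x hx ⟨k, hk⟩ v hv
    let σ : (N →* ℂˣ) → (N →* ℂˣ) := fun l => l.comp (MulAut.conjNormal (H := N) x).toMonoidHom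
    have hσ : ∀ (i : ℕ) (l : N →* ℂˣ) (w : N), σ^[i] l w = l (MulAut.conjNormal (x ^ i) w) := by
      intro i
      induction i with
      | zero => intro l w; simp
      | succ i ih =>
        intro l w
        rw [Function.iterate_succ_apply', pow_succ, map_mul, MulAut.mul_apply, ← ih]
        rfl
    have hfix : ∀ l, σ l = l := by
      by_contra h
      push Not at h
      obtain ⟨l₀, hl₀⟩ := h
      obtain ⟨i, b, hb, hbb⟩ := exists_inverting_pow σ (k := k) (funext fun l => MonoidHom.ext fun w => by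
        rw [hσ, hk, map_one, MulAut.one_apply, id_eq]) hl₀
      obtain ⟨w, hw⟩ := hno (σ^[2 ^ i] b * b⁻¹) (fun h => hb (mul_inv_eq_one.1 h))
        (x ^ 2 ^ i) (pow_mem hx _)
      refine hw ?_
      have h2 := DFunLike.congr_fun (hbb b) w
      rw [hσ, hσ] at h2
      rw [MonoidHom.mul_apply, MonoidHom.mul_apply, MonoidHom.inv_apply, MonoidHom.inv_apply, hσ,
        hσ, h2, mul_inv_rev, inv_inv]
    have h1 : MulAut.conjNormal x (⟨v, hv⟩ : N) = ⟨v, hv⟩ := by
      by_contra hne
      obtain ⟨φ, hφ⟩ := CommGroup.exists_apply_ne_one_of_hasEnoughRootsOfUnity N ℂ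
        (a := MulAut.conjNormal x (⟨v, hv⟩ : N) * (⟨v, hv⟩ : N)⁻¹) (fun h => hne (mul_inv_eq_one.1 h))
      refine hφ ?_
      rw [map_mul, map_inv, mul_inv_eq_one]
      exact DFunLike.congr_fun (hfix φ) (⟨v, hv⟩ : N)
    have h2 := congrArg Subtype.val h1
    rw [MulAut.conjNormal_apply] at h2
    exact mul_inv_eq_iff_eq_mul.1 h2
  by_cases hq2 : q = 2
  · -- some linear character has order two
    subst hq2
    have h2 : (2 : ℕ) ∣ Nat.card (N →* ℂˣ) := by
      rw [Nat.card_congr (CommGroup.monoidHom_mulEquiv_of_hasEnoughRootsOfUnity N ℂ).some.toEquiv]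
      exact hqN
    obtain ⟨l, hl⟩ := exists_prime_orderOf_dvd_card' 2 h2
    obtain ⟨w, hw⟩ := hno l (fun h => by rw [h, orderOf_one] at hl; omega) 1 (one_mem L)
    refine hw ?_
    rw [map_one, MulAut.one_apply, eq_inv_iff_mul_eq_one, ← pow_two, ← MonoidHom.pow_apply, ← hl,
      pow_orderOf_eq_one, MonoidHom.one_apply]
  -- all `2`-elements of `G` lie in `L`
  have hoddN : Odd (Nat.card N) := by
    obtain ⟨j, hj⟩ := IsPGroup.iff_card.1 hNq
    rw [hj]; exact (hq.odd_of_ne_two hq2).pow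
  have hO : twoResidual G ≤ L := by
    rw [twoResidual, Subgroup.closure_le]
    rintro g ⟨k, hk⟩
    have h1 : g ∈ ((N ⊔ L : Subgroup G) : Set G) := by rw [hsupL]; exact Subgroup.mem_top g
    rw [Subgroup.normal_mul] at h1
    obtain ⟨v, hv, y, hy, rfl⟩ := h1
    have hy2 : y ^ 2 ^ k = 1 := by
      have h2 := congrArg (QuotientGroup.mk' N) (pow_orderOf_eq_one (v * y))
      rw [hk, map_pow, map_mul, map_one,
        show QuotientGroup.mk' N v = 1 from (QuotientGroup.eq_one_iff v).2 hv, one_mul, ← map_pow,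
        QuotientGroup.mk'_apply, QuotientGroup.eq_one_iff] at h2
      exact hNL _ h2 (pow_mem hy _)
    have hc := hcent y hy ⟨k, hy2⟩ v hv
    have hv2 : v ^ 2 ^ k = 1 := by
      have h2 := pow_orderOf_eq_one (v * y)
      rwa [hk, Commute.mul_pow (show Commute v y from hc.symm), hy2, mul_one] at h2
    have : v = 1 := orderOf_eq_one_iff.1 (Nat.eq_one_of_dvd_coprimes
      ((Nat.coprime_two_left.2 hoddN).pow_left k) (orderOf_dvd_of_pow_eq_one hv2)
      (Subgroup.orderOf_dvd_natCard N hv))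
    rw [this]
    show 1 * y ∈ L
    rw [one_mul]
    exact hy
  haveI := twoResidual_normal (G := G)
  have hqd : q ∣ (twoResidual G).index := by
    have hdisj : Disjoint N (twoResidual G) := hd.mono_right hO
    have h1 : Nat.card N ∣ (twoResidual G).index := by
      have h2 := Subgroup.relIndex_dvd_index_of_normal (twoResidual G) N
      rwa [← Subgroup.inf_relIndex_right, (disjoint_iff.1 (hdisj.symm)), Subgroup.relIndex_bot_left] at h2
    exact hqN.trans h1
  rw [ha] at hqd
  exact hqp ((Nat.prime_dvd_prime_iff_eq hq hp).1 (hq.dvd_of_dvd_pow hqd))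

end CfsgLib.Correspondences
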