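import Mathlib
import Cfsg.Agent.Lib.Correspondences.RealDegrees
import Cfsg.Agent.Lib.CharDegreesTheory.GlaubermanSubgroup
import Cfsg.Agent.Lib.CharDegreesTheory.IrrComp

/-!
Real classes of a group whose real characters have `p'`-degree, in terms of a Sylow normalizer,
when the Sylow `p`-subgroups meet `O^{2'}` trivially.
-/

set_option autoImplicit false
set_option linter.style.haveILetI false

namespace CfsgLib.Correspondences

open Cfsg CfsgLib.CharTheory CfsgLib.CharDegreesTheory
open scoped ComplexConjugate Pointwise commutatorElement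

attribute [local instance 10000] Classical.propDecidable

universe u

variable {G : Type u} [Group G] [Finite G] {p : ℕ}

/-- Two Sylow subgroups inside a subgroup `T` are conjugate inside it. -/
theorem exists_mem_mul_normalizer [Fact p.Prime] (P : Sylow p G) (T : Subgroup G) {g : G}
    (h1 : (P : Subgroup G) ≤ T) (h2 : MulAut.conj g • (P : Subgroup G) ≤ T) :
    ∃ h ∈ T, h * g ∈ Subgroup.normalizer ((P : Subgroup G) : Set G) := by
  have h2' : ((g • P : Sylow p G) : Subgroup G) ≤ T := h2
  obtain ⟨h, hh⟩ := MulAction.exists_smul_eq T ((g • P).subtype h2') (P.subtype h1)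
  rw [Sylow.smul_subtype] at hh
  refine ⟨h, h.2, Sylow.smul_eq_iff_mem_normalizer.1 ?_⟩
  rw [mul_smul]
  exact Sylow.subtype_injective hh

theorem card_real_irr_eq_quot [Fintype G] (K : Subgroup G) [K.Normal] (hodd : Odd K.index) :
    Nat.card {C : ConjClasses G // ∃ g, ConjClasses.mk g = C ∧ IsConj g g⁻¹} =
      Nat.card (Quot (realCharRel K)) := by
  have h := card_quot_real_char K hodd
  rw [← card_real_irr_eq_card_real_classes]
  have e : {χ : IrrCharacter G // ∀ g : G, ((χ : G → ℂ) g).im = 0} ≃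
      {χ : IrrCharacter G // (χ : G → ℂ) ∘ (fun g => g⁻¹) = (χ : G → ℂ)} :=
    Equiv.subtypeEquivRight fun χ => by
      simp only [funext_iff, Function.comp_apply, IsIrrCharacter.inv χ.2, Complex.conj_eq_iff_im]
  have h2 := CfsgLib.Frobenius.card_fixed_irr (fun g : G => g⁻¹)
    (fun χ => CfsgLib.Frobenius.isIrrCharacter_comp_inv χ.2)
  rw [Nat.card_congr e]
  exact_mod_cast h2.trans h.symm

/-- Complex conjugation preserves multiplicities. -/
theorem mult_conj {C G : Type*} [Group C] [Group G] [Finite C] [Finite G] (ι : C →* G) {χ : G → ℂ}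
    (hχ : IsCharacter G χ) (β : IrrCharacter C) :
    mult ι (fun g => conj (χ g)) (fun c => conj ((β : C → ℂ) c)) = mult ι χ (β : C → ℂ) := by
  haveI := Fintype.ofFinite C
  have h1 := classInner_eq_mult ι hχ β
  have e : classInner (fun c => conj (χ (ι c))) (fun c => conj ((β : C → ℂ) c)) =
      conj (classInner (fun c => χ (ι c)) (β : C → ℂ)) := by
    simp [classInner, map_sum]
  simp only [mult]
  rw [Subsingleton.elim (Fintype.ofFinite C) ‹Fintype C›, e, h1, Complex.conj_natCast]

variable [hp : Fact p.Prime]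

/-- Every real element is conjugate into a Sylow normalizer, when `p` is prime to `|O^{2'}|`. -/
theorem exists_conj_mem_normalizer_of_coprime (hreal : RealDegrees p G)
    (hpK : ¬ p ∣ Nat.card (twoResidual G)) (P : Sylow p G) (x : G) (hx : IsConj x x⁻¹) :
    ∃ y ∈ Subgroup.normalizer ((P : Subgroup G) : Set G), IsConj x y := by
  haveI := Fintype.ofFinite G
  haveI := twoResidual_normal (G := G)
  set K := twoResidual G with hK
  have hodd : Odd K.index := odd_index_twoResidual
  haveI := Fintype.ofFinite K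
  set N := Subgroup.normalizer ((P : Subgroup G) : Set G) with hN
  haveI := Fintype.ofFinite N
  set Cn := K.subgroupOf N with hCn
  haveI := Fintype.ofFinite Cn
  have hoddN : Odd Cn.index := hodd.of_dvd_nat (Subgroup.relIndex_dvd_index_of_normal K N)
  have hdisj : ∀ g ∈ K, g ∈ (P : Subgroup G) → g = 1 := fun g hg hgP =>
    orderOf_eq_one_iff.1 (Nat.eq_one_of_dvd_coprimes (coprime_of_pgroup P.2 hpK)
      (Subgroup.orderOf_dvd_natCard _ hgP) (Subgroup.orderOf_dvd_natCard _ hg))
  -- elements of `N ∩ K` centralize `P`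
  have hcomm : ∀ c ∈ N, c ∈ K → ∀ s ∈ (P : Subgroup G), s * c = c * s := by
    intro c hcN hcK s hs
    have h1 : s * c * s⁻¹ * c⁻¹ ∈ K :=
      mul_mem ((inferInstance : K.Normal).conj_mem c hcK s) (inv_mem hcK)
    have h2 : s * c * s⁻¹ * c⁻¹ ∈ (P : Subgroup G) := by
      rw [show s * c * s⁻¹ * c⁻¹ = s * (c * s⁻¹ * c⁻¹) by group]
      exact mul_mem hs ((Subgroup.mem_normalizer_iff.1 hcN s⁻¹).1 (inv_mem hs))
    have h3 := hdisj _ h1 h2
    calc s * c = (s * c * s⁻¹ * c⁻¹) * (c * s) := by group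
      _ = c * s := by rw [h3, one_mul]
  let ι : Cn →* K :=
    { toFun := fun c => ⟨((c : N) : G), c.2⟩
      map_one' := rfl
      map_mul' := fun a b => rfl }
  have hnormK : ∀ s ∈ (P : Subgroup G), ∀ g ∈ K, s * g * s⁻¹ ∈ K := fun s _ g hg =>
    (inferInstance : K.Normal).conj_mem g hg s
  have hset : CoprimePSetup (conjRes K (P : Subgroup G) hnormK) ι p :=
    ⟨P.2, hpK, fun a b h => Subtype.ext (Subtype.ext (congrArg (Subtype.val : K → G) h)), fun g => by
      constructor
      · intro h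
        have hgN : (g : G) ∈ N := by
          have hg : ∀ s ∈ (P : Subgroup G), s * (g : G) * s⁻¹ = g := fun s hs =>
            congrArg Subtype.val (h ⟨s, hs⟩)
          refine Subgroup.mem_normalizer_iff.2 fun s => ⟨fun hs => ?_, fun hs => ?_⟩
          · rw [← mul_inv_eq_iff_eq_mul.1 (hg s hs), mul_inv_cancel_right]; exact hs
          · have h' := mul_inv_eq_iff_eq_mul.1 (hg _ hs)
            rw [show (g : G) * s * (g : G)⁻¹ * g = g * s by group] at h'
            rwa [← mul_left_cancel h'] at hs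
        exact ⟨⟨⟨g, hgN⟩, g.2⟩, rfl⟩
      · rintro ⟨c, rfl⟩ s
        refine Subtype.ext ?_
        show (s : G) * ((c : N) : G) * (s : G)⁻¹ = ((c : N) : G)
        rw [hcomm _ (c : N).2 c.2 s s.2, mul_inv_cancel_right]⟩
  -- each orbit has a `P`-invariant representative
  have hrep : ∀ q : Quot (realCharRel K), ∃ θ, Quot.mk (realCharRel K) θ = q ∧
      IsInvariant (conjRes K (P : Subgroup G) hnormK) (θ.1 : K → ℂ) := by
    intro q
    obtain ⟨θ, rfl⟩ := Quot.exists_rep q
    obtain ⟨χ, hχ, hne⟩ := exists_real_over K hodd θ.1 θ.2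
    obtain ⟨a, ha⟩ : ∃ a : ℕ, classInner (fun n : K => (χ : G → ℂ) n) (θ.1 : K → ℂ) = a :=
      IsCharacter.exists_classInner_eq_nat
        (CfsgLib.Coherence.isCharacter_comp (IsIrrCharacter.isCharacter χ.2) K.subtype) θ.1
    set T := inertia K (θ.1 : K → ℂ) with hT
    have h1 := CfsgLib.Clifford.apply_one_eq K χ.2 θ.1.2 hne
    rw [CfsgLib.Clifford.card_conjOrbit K _ T (fun g => mem_inertia K _ g), ha,
      ← charDegree_cast (IsIrrCharacter.isCharacter χ.2),
      ← charDegree_cast (IsIrrCharacter.isCharacter θ.1.2), ← Nat.cast_mul, ← Nat.cast_mul,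
      Nat.cast_inj] at h1
    have hTp : ¬ p ∣ T.index := fun hd => hreal χ hχ (h1 ▸ (hd.mul_left a).mul_right _)
    obtain ⟨S⟩ : Nonempty (Sylow p T) := inferInstance
    obtain ⟨P', hP'⟩ := S.exists_comap_subtype_eq
    have hP'T : (P' : Subgroup G) ≤ T := by
      have hcard : Nat.card ((S : Subgroup T).map T.subtype) = Nat.card (P' : Subgroup G) := by
        rw [Subgroup.card_map_of_injective T.subtype_injective, S.card_eq_multiplicity,
          P'.card_eq_multiplicity, ← Subgroup.card_mul_index T,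
          Nat.factorization_mul Nat.card_pos.ne' Subgroup.index_ne_zero_of_finite,
          Finsupp.coe_add, Pi.add_apply, Nat.factorization_eq_zero_of_not_dvd hTp, add_zero]
      have hle : (S : Subgroup T).map T.subtype ≤ (P' : Subgroup G) := by
        rw [← hP', Subgroup.map_comap_eq]; exact inf_le_right
      rw [← Subgroup.eq_of_le_of_card_ge hle hcard.ge]
      exact Subgroup.map_subtype_le _
    obtain ⟨g, hg⟩ := MulAction.exists_smul_eq G P' P
    let θ' : {θ : IrrCharacter K // ∀ k : K, ((θ : K → ℂ) k).im = 0} :=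
      ⟨⟨fun k => (θ.1 : K → ℂ) (MulAut.conjNormal g⁻¹ k),
        isIrrCharacter_comp_mulEquiv θ.1.2 (MulAut.conjNormal g⁻¹)⟩, fun k => θ.2 _⟩
    have hrel : realCharRel K θ θ' := by
      refine ⟨g, fun k k' hk => ?_⟩
      show (θ.1 : K → ℂ) (MulAut.conjNormal g⁻¹ k') = _
      exact congrArg θ.1.1 (Subtype.ext (by rw [MulAut.conjNormal_apply, hk]; group))
    refine ⟨θ', (Quot.sound hrel).symm, ?_⟩
    · intro s k
      have hs : g⁻¹ * (s : G) * g ∈ T := by
        refine hP'T ?_
        have h2 : (s : G) ∈ MulAut.conj g • (P' : Subgroup G) := by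
          rw [show MulAut.conj g • (P' : Subgroup G) = ((g • P' : Sylow p G) : Subgroup G) from rfl, hg]
          exact s.2
        exact CfsgLib.CoprimeAction.mem_conj_iff.1 h2
      have h3 := (mem_inertia K _ _).1 hs
      rw [CfsgLib.Clifford.conjChar_eq_comp] at h3
      show (θ.1 : K → ℂ) (MulAut.conjNormal g⁻¹ _) = (θ.1 : K → ℂ) (MulAut.conjNormal g⁻¹ k)
      refine Eq.trans ?_ (congrFun h3 (MulAut.conjNormal g⁻¹ k))
      exact congrArg θ.1.1 (Subtype.ext (by simp [mul_assoc]))
  choose θf hθq hθinv using hrep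
  have hcor : ∀ q, ∃ β : {β : IrrCharacter Cn // ∀ c : Cn, ((β : Cn → ℂ) c).im = 0},
      ¬ p ∣ mult ι ((θf q).1 : K → ℂ) (β.1 : Cn → ℂ) := by
    intro q
    obtain ⟨β, hβ⟩ := hset.exists_of_invariant (hθinv q)
    refine ⟨⟨β, fun c => ?_⟩, hβ⟩
    let β' : IrrCharacter Cn := ⟨_, isIrrCharacter_conj β.2⟩
    have hm := mult_conj ι (IsIrrCharacter.isCharacter (θf q).1.2) β
    rw [show (fun g : K => conj (((θf q).1 : K → ℂ) g)) = ((θf q).1 : K → ℂ) from
      funext fun g => Complex.conj_eq_iff_im.2 ((θf q).2 g)] at hm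
    have := hset.unique (hθinv q) (β := β') (β' := β) (hm ▸ hβ) hβ
    exact Complex.conj_eq_iff_im.1 (congrFun (congrArg Subtype.val this) c)
  choose βf hβ using hcor
  -- transport by elements of `N`
  have htrans : ∀ (n : N) (q q' : Quot (realCharRel K)),
      (∀ c : Cn, ((βf q').1 : Cn → ℂ) (MulAut.conjNormal n c) = ((βf q).1 : Cn → ℂ) c) → q = q' := by
    intro n q q' h
    let θ2 : IrrCharacter K := ⟨fun k => ((θf q').1 : K → ℂ) (MulAut.conjNormal (n : G) k),
      isIrrCharacter_comp_mulEquiv (θf q').1.2 (MulAut.conjNormal (n : G))⟩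
    have hm : mult ι (θ2 : K → ℂ) ((βf q).1 : Cn → ℂ) =
        mult ι ((θf q').1 : K → ℂ) ((βf q').1 : Cn → ℂ) := by
      have := mult_comp_equiv ι ι (MulAut.conjNormal (n : G) : MulAut K)
        (MulAut.conjNormal n : MulAut Cn) (fun c => Subtype.ext (by simp [ι]))
        ((θf q').1 : K → ℂ) ((βf q').1 : Cn → ℂ)
      rwa [funext h] at this
    have hinv2 : IsInvariant (conjRes K (P : Subgroup G) hnormK) (θ2 : K → ℂ) := by
      intro s k
      have hs : (n : G) * s * (n : G)⁻¹ ∈ (P : Subgroup G) :=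
        (Subgroup.mem_normalizer_iff.1 n.2 s).1 s.2
      have h3 := hθinv q' ⟨_, hs⟩ (MulAut.conjNormal (n : G) k)
      refine Eq.trans ?_ h3
      exact congrArg (θf q').1.1 (Subtype.ext (by simp [mul_assoc]))
    have heq := hset.injective hinv2 (hθinv q) (hm ▸ hβ q') (hβ q)
    rw [← hθq q, ← hθq q']
    refine Quot.sound ⟨(n : G), fun k k' hk => ?_⟩
    have := congrFun (congrArg Subtype.val heq) k
    rw [← this]
    exact congrArg (θf q').1.1 (Subtype.ext (by rw [MulAut.conjNormal_apply, hk]))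
  let F : Quot (realCharRel K) → Quot (realCharRel Cn) := fun q => Quot.mk _ (βf q)
  have hF : Function.Injective F := by
    intro q q' h
    have hgen := Quot.eqvGen_exact h
    have key : ∀ a b : {β : IrrCharacter Cn // ∀ c : Cn, ((β : Cn → ℂ) c).im = 0},
        Relation.EqvGen (realCharRel Cn) a b →
        ∃ n : N, ∀ c : Cn, (b.1 : Cn → ℂ) (MulAut.conjNormal n c) = (a.1 : Cn → ℂ) c := by
      intro a b hab
      induction hab with
      | rel a b h =>
        obtain ⟨n, hn⟩ := h
        exact ⟨n, fun c => hn c _ (MulAut.conjNormal_apply n c)⟩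
      | refl a => exact ⟨1, fun c => by simp⟩
      | symm a b _ ih =>
        obtain ⟨n, hn⟩ := ih
        refine ⟨n⁻¹, fun c => ?_⟩
        rw [← hn]
        exact congrArg b.1.1 (Subtype.ext (by simp [mul_assoc]))
      | trans a b c _ _ ih1 ih2 =>
        obtain ⟨n, hn⟩ := ih1
        obtain ⟨m, hm⟩ := ih2
        exact ⟨m * n, fun k => by rw [map_mul, MulAut.mul_apply, hm, hn]⟩
    obtain ⟨n, hn⟩ := key _ _ hgen
    exact htrans n q q' hn
  let RG := {C : ConjClasses G // ∃ g, ConjClasses.mk g = C ∧ IsConj g g⁻¹}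
  let RN := {C : ConjClasses N // ∃ g, ConjClasses.mk g = C ∧ IsConj g g⁻¹}
  have hle : Nat.card RG ≤ Nat.card RN := by
    rw [card_real_irr_eq_quot K hodd, card_real_irr_eq_quot Cn hoddN]
    exact Nat.card_le_card_of_injective F hF
  let φ : RN → RG := fun C => ⟨ConjClasses.map N.subtype C.1, by
    obtain ⟨g, hg, hgr⟩ := C.2
    refine ⟨(g : G), ?_, ?_⟩
    · rw [← hg]; rfl
    · exact N.subtype.map_isConj hgr⟩
  have hφ : Function.Injective φ := by
    rintro ⟨A, a, ha, har⟩ ⟨B, b, hb, hbr⟩ h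
    have h' : IsConj (a : G) (b : G) := by
      have h1 := congrArg Subtype.val h
      change ConjClasses.map N.subtype A = ConjClasses.map N.subtype B at h1
      rw [← ha, ← hb] at h1
      exact ConjClasses.mk_eq_mk_iff_isConj.1 h1
    have hinC : ∀ y : N, IsConj y y⁻¹ → (y : G) ∈ K := fun y hy =>
      (isConj_real_of_odd_index Cn hoddN hy.symm).1
    obtain ⟨g, hg⟩ := isConj_iff.1 h'
    have h1 : (P : Subgroup G) ≤ Subgroup.centralizer ({(b : G)} : Set G) := fun s hs =>
      Subgroup.mem_centralizer_singleton_iff.2 (hcomm _ b.2 (hinC b hbr) s hs)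
    have h2 : MulAut.conj g • (P : Subgroup G) ≤ Subgroup.centralizer ({(b : G)} : Set G) := by
      intro s hs
      have hs' := CfsgLib.CoprimeAction.mem_conj_iff.1 hs
      rw [Subgroup.mem_centralizer_singleton_iff, ← hg]
      have h3 := hcomm _ a.2 (hinC a har) _ hs'
      calc s * (g * (a : G) * g⁻¹) = g * ((g⁻¹ * s * g) * a) * g⁻¹ := by group
        _ = g * (a * (g⁻¹ * s * g)) * g⁻¹ := by rw [h3]
        _ = _ := by group
    obtain ⟨t, ht, htg⟩ := exists_mem_mul_normalizer P _ h1 h2
    rw [Subgroup.mem_centralizer_singleton_iff] at ht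
    refine Subtype.ext ?_
    show A = B
    rw [← ha, ← hb, ConjClasses.mk_eq_mk_iff_isConj]
    refine isConj_iff.2 ⟨⟨t * g, htg⟩, Subtype.ext ?_⟩
    show t * g * (a : G) * (t * g)⁻¹ = b
    calc t * g * (a : G) * (t * g)⁻¹ = t * (g * a * g⁻¹) * t⁻¹ := by group
      _ = b := by rw [hg, ht, mul_inv_cancel_right]
  have hsurj : Function.Surjective φ :=
    ((Nat.bijective_iff_injective_and_card φ).2
      ⟨hφ, le_antisymm (Nat.card_le_card_of_injective φ hφ) hle⟩).2
  obtain ⟨⟨A, a, ha, har⟩, hA⟩ := hsurj ⟨ConjClasses.mk x, x, rfl, hx⟩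
  refine ⟨(a : G), a.2, ?_⟩
  have h1 := congrArg Subtype.val hA
  change ConjClasses.map N.subtype A = ConjClasses.mk x at h1
  rw [← ha] at h1
  exact (ConjClasses.mk_eq_mk_iff_isConj.1 h1).symm

end CfsgLib.Correspondences
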