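import Mathlib
import Cfsg.Agent.Lib.Correspondences.RealLocal

/-!
Real characters above real characters of a normal subgroup of odd index: uniqueness and degree.
-/

set_option autoImplicit false
set_option linter.style.haveILetI false
set_option linter.unusedSectionVars false

namespace CfsgLib.Correspondences

open Cfsg CfsgLib.CharTheory CfsgLib.RealChar CfsgLib.CharDegreesTheory
open scoped ComplexConjugate

attribute [local instance 10000] Classical.propDecidable

variable {G : Type*} [Group G] [Finite G] [Fintype G] (N : Subgroup G) [N.Normal] [Fintype N]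

/-- The indicator of a character of a normal subgroup of odd index, from the group above. -/
theorem sum_fsIndicator_over [Fintype (IrrCharacter G)] (hodd : Odd N.index) (θ : IrrCharacter N) :
    ∑ χ : IrrCharacter G, fsIndicator (χ : G → ℂ) *
      classInner (fun n : N => (χ : G → ℂ) n) (θ : N → ℂ) = fsIndicator (θ : N → ℂ) := by
  simp only [← classInner_smul_left, ← classInner_sum_left]
  rw [← conj_fsIndicator_irr θ.2, fsIndicator, Cfsg.classInner, map_mul, map_inv₀,
    Complex.conj_natCast, map_sum]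
  congr 1
  symm
  rw [← Finset.sum_fiberwise (Finset.univ : Finset N) (fun u : N => u * u)]
  refine Finset.sum_congr rfl fun n _ => ?_
  rw [Finset.sum_congr rfl (g := fun _ => conj ((θ : N → ℂ) n)) fun u hu => by
    rw [(Finset.mem_filter.1 hu).2], Finset.sum_const, nsmul_eq_mul]
  congr 1
  rw [Finset.sum_apply]
  refine Eq.trans ?_ (card_sqrt_eq_sum (n : G))
  rw [Nat.cast_inj]
  refine Finset.card_bij (fun u _ => (u : G)) (fun u hu => ?_) (fun u _ v _ huv => Subtype.ext huv)
    fun v hv => ?_
  · exact Finset.mem_filter.2 ⟨Finset.mem_univ _, congrArg Subtype.val (Finset.mem_filter.1 hu).2⟩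
  · have hv2 := (Finset.mem_filter.1 hv).2
    exact ⟨⟨v, mem_of_mul_self_mem_of_odd N hodd (hv2 ▸ n.2)⟩,
      Finset.mem_filter.2 ⟨Finset.mem_univ _, Subtype.ext hv2⟩, rfl⟩

theorem realCharRel_of_constituents {χ : IrrCharacter G}
    {θ η : {θ : IrrCharacter N // ∀ k : N, ((θ : N → ℂ) k).im = 0}}
    (h1 : classInner (fun n : N => (χ : G → ℂ) n) (θ.1 : N → ℂ) ≠ 0)
    (h2 : classInner (fun n : N => (χ : G → ℂ) n) (η.1 : N → ℂ) ≠ 0) : realCharRel N θ η := by
  obtain ⟨g, hg⟩ := CfsgLib.Clifford.exists_conj_of_constituents N χ.2 θ.1.2 η.1.2 h1 h2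
  refine ⟨g⁻¹, fun k k' hk => ?_⟩
  rw [hg, CfsgLib.Clifford.conjChar_eq_comp]
  exact congrArg θ.1.1 (Subtype.ext (by rw [MulAut.conjNormal_apply, hk]; group))

/-- Above each real character there is exactly one real character, and each real character lies
above a real character. -/
theorem real_over_unique (hodd : Odd N.index) :
    (∀ χ : IrrCharacter G, (∀ g, ((χ : G → ℂ) g).im = 0) →
      ∃ θ : IrrCharacter N, (∀ k : N, ((θ : N → ℂ) k).im = 0) ∧
        classInner (fun n : N => (χ : G → ℂ) n) (θ : N → ℂ) ≠ 0) ∧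
    (∀ (θ : IrrCharacter N), (∀ k : N, ((θ : N → ℂ) k).im = 0) → ∀ χ χ' : IrrCharacter G,
      (∀ g, ((χ : G → ℂ) g).im = 0) → (∀ g, ((χ' : G → ℂ) g).im = 0) →
      classInner (fun n : N => (χ : G → ℂ) n) (θ : N → ℂ) ≠ 0 →
      classInner (fun n : N => (χ' : G → ℂ) n) (θ : N → ℂ) ≠ 0 → χ = χ') := by
  let R := {θ : IrrCharacter N // ∀ k : N, ((θ : N → ℂ) k).im = 0}
  have hch : ∀ q : Quot (realCharRel N), ∃ χ : {χ : IrrCharacter G // ∀ g, ((χ : G → ℂ) g).im = 0},
      ∃ θ : R, Quot.mk _ θ = q ∧
        classInner (fun n : N => (χ.1 : G → ℂ) n) (θ.1 : N → ℂ) ≠ 0 := by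
    intro q
    obtain ⟨θ, rfl⟩ := Quot.exists_rep q
    obtain ⟨χ, h1, h2⟩ := exists_real_over N hodd θ.1 θ.2
    exact ⟨⟨χ, h1⟩, θ, rfl, h2⟩
  choose ch rep hrep hne using hch
  have hinj : Function.Injective ch := fun q q' h => by
    rw [← hrep q, ← hrep q']
    exact Quot.sound (realCharRel_of_constituents N (hne q) (h ▸ hne q'))
  have hsurj : Function.Surjective ch :=
    (hinj.bijective_of_nat_card_le (by
      rw [card_real_irr_eq_card_real_classes, card_real_irr_eq_quot N hodd])).2
  refine ⟨fun χ hχ => ?_, fun θ hθ χ χ' hχ hχ' h1 h2 => ?_⟩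
  · obtain ⟨q, hq⟩ := hsurj ⟨χ, hχ⟩
    exact ⟨(rep q).1, (rep q).2, by have := hne q; rwa [hq] at this⟩
  · have key : ∀ ψ : IrrCharacter G, ∀ hψ : (∀ g, ((ψ : G → ℂ) g).im = 0),
        classInner (fun n : N => (ψ : G → ℂ) n) (θ : N → ℂ) ≠ 0 →
        ch (Quot.mk _ (⟨θ, hθ⟩ : R)) = ⟨ψ, hψ⟩ := by
      intro ψ hψ h
      obtain ⟨q, hq⟩ := hsurj ⟨ψ, hψ⟩
      rw [← hq]
      congr 1
      rw [← hrep q]
      refine Quot.sound (realCharRel_of_constituents N (θ := (⟨θ, hθ⟩ : R)) h ?_)
      have := hne q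
      rwa [hq] at this
    exact congrArg Subtype.val ((key χ hχ h1).symm.trans (key χ' hχ' h2))

/-- The degree of the real character above a real character. -/
theorem real_over_degree (hodd : Odd N.index) {χ : IrrCharacter G} (hχ : ∀ g, ((χ : G → ℂ) g).im = 0)
    {θ : IrrCharacter N} (hθ : ∀ k : N, ((θ : N → ℂ) k).im = 0)
    (hne : classInner (fun n : N => (χ : G → ℂ) n) (θ : N → ℂ) ≠ 0) :
    charDegree (χ : G → ℂ) = (CfsgLib.CharTheory.inertia N (θ : N → ℂ)).index * charDegree (θ : N → ℂ) := by
  haveI := Fintype.ofFinite (IrrCharacter G)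
  obtain ⟨a, ha⟩ := IsCharacter.exists_classInner_eq_nat
    (CfsgLib.Coherence.isCharacter_comp (IsIrrCharacter.isCharacter χ.2) N.subtype) θ
  have hsum := sum_fsIndicator_over N hodd θ
  rw [Finset.sum_eq_single χ (fun ψ _ hψ => ?_) (fun h => absurd (Finset.mem_univ χ) h)] at hsum
  · have ha1 : a = 1 := by
      change fsIndicator (χ : G → ℂ) * _ = _ at hsum
      change classInner (fun n : N => (χ : G → ℂ) n) (θ : N → ℂ) = a at ha
      rw [ha] at hsum
      have h1 := (fsIndicator_irr_ne_zero_iff χ.2).2 hχ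
      have h2 := (fsIndicator_irr_ne_zero_iff θ.2).2 hθ
      rcases (fsIndicator_irr_cases χ.2).1 with e | e | e <;>
        rcases (fsIndicator_irr_cases θ.2).1 with e' | e' | e' <;>
        first
          | exact absurd e h1
          | exact absurd e' h2
          | (rw [e, e'] at hsum
             have hz := congrArg Complex.re hsum
             simp only [Complex.mul_re, Complex.one_re, Complex.one_im, Complex.neg_re,
               Complex.neg_im, Complex.natCast_re, Complex.natCast_im] at hz
             have h3 : (0 : ℝ) ≤ a := Nat.cast_nonneg a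
             exact_mod_cast (show (a : ℝ) = 1 by linarith))
    have h := CfsgLib.Clifford.apply_one_eq N χ.2 θ.2 hne
    rw [CfsgLib.Clifford.card_conjOrbit N _ _ (fun g => mem_inertia N _ g),
      show classInner (fun n : N => (χ : G → ℂ) n) (θ : N → ℂ) = a from ha, ha1, Nat.cast_one, one_mul,
      ← charDegree_cast (IsIrrCharacter.isCharacter χ.2),
      ← charDegree_cast (IsIrrCharacter.isCharacter θ.2), ← Nat.cast_mul, Nat.cast_inj] at h
    exact h
  · by_contra h0
    obtain ⟨h3, h4⟩ := mul_ne_zero_iff.1 h0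
    exact hψ ((real_over_unique N hodd).2 θ hθ ψ χ ((fsIndicator_irr_ne_zero_iff ψ.2).1 h3) hχ h4 hne)

end CfsgLib.Correspondences

namespace CfsgLib.Correspondences

open CfsgLib.CharTheory
open scoped Pointwise

/-- The cosets fixed by a Sylow subgroup inside `T` are those of its normalizer. -/
theorem index_modEq_relIndex_normalizer {G : Type*} [Group G] [Finite G] {p : ℕ} [Fact p.Prime]
    (P : Sylow p G) {T : Subgroup G} (hPT : (P : Subgroup G) ≤ T) :
    T.index ≡ T.relIndex (Subgroup.normalizer ((P : Subgroup G) : Set G)) [MOD p] := by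
  set N := Subgroup.normalizer ((P : Subgroup G) : Set G) with hN
  let f : N ⧸ T.subgroupOf N → G ⧸ T := Quotient.map' (fun n : N => (n : G)) (fun a b h => by
    rw [QuotientGroup.leftRel_apply] at h ⊢
    exact h)
  have hf : Function.Injective f := by
    intro a b h
    induction a using QuotientGroup.induction_on with
    | _ a =>
      induction b using QuotientGroup.induction_on with
      | _ b =>
        have h' := (QuotientGroup.eq (s := T)).1 (show ((a : G) : G ⧸ T) = ((b : G) : G ⧸ T) from h)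
        exact (QuotientGroup.eq (s := T.subgroupOf N)).2 h'
  have hfix : Set.range f = MulAction.fixedPoints (P : Subgroup G) (G ⧸ T) := by
    ext x
    induction x using QuotientGroup.induction_on with
    | _ g =>
      constructor
      · rintro ⟨a, ha⟩ s
        induction a using QuotientGroup.induction_on with
        | _ a =>
          rw [← ha]
          refine QuotientGroup.eq.2 (hPT ?_)
          show ((s : G) * (a : G))⁻¹ * (a : G) ∈ (P : Subgroup G)
          rw [show ((s : G) * (a : G))⁻¹ * (a : G) = (a : G)⁻¹ * (s : G)⁻¹ * ((a : G)⁻¹)⁻¹ by group]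
          exact (Subgroup.mem_normalizer_iff.1 (inv_mem a.2) _).1 (inv_mem s.2)
      · intro hg
        have h2 : MulAut.conj g⁻¹ • (P : Subgroup G) ≤ T := by
          intro y hy
          obtain ⟨s, hs, rfl⟩ := Subgroup.mem_map.1 hy
          show g⁻¹ * s * g⁻¹⁻¹ ∈ T
          have := QuotientGroup.eq.1 ((hg ⟨s, hs⟩).symm : ((g : G) : G ⧸ T) = ((s * g : G) : G ⧸ T))
          rwa [inv_inv, mul_assoc]
        obtain ⟨h, hhT, hhN⟩ := exists_mem_mul_normalizer P T hPT h2
        refine ⟨(⟨(h * g⁻¹)⁻¹, inv_mem hhN⟩ : N), QuotientGroup.eq.2 ?_⟩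
        show ((h * g⁻¹)⁻¹)⁻¹ * g ∈ T
        rwa [inv_inv, inv_mul_cancel_right]
  have h := P.2.card_modEq_card_fixedPoints (G ⧸ T)
  rw [← hfix, Nat.card_range_of_injective hf] at h
  exact h

theorem sylow_le_of_not_dvd_index {G : Type*} [Group G] [Finite G] {p : ℕ} [hp : Fact p.Prime]
    (A T : Subgroup G) [A.Normal] (hA : IsPGroup p A) (hT : ¬ p ∣ T.index) : A ≤ T := by
  refine Subgroup.relIndex_eq_one.1 (Nat.eq_one_of_dvd_coprimes
    (coprime_of_pgroup hA hT) ?_ (relIndex_dvd_index_of_normal_right T))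
  exact Subgroup.relIndex_dvd_card T A

end CfsgLib.Correspondences
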