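import Mathlib
import Cfsg.Agent.Lib.Cores.FPF
import Cfsg.Agent.Lib.Cores.PCore
import Cfsg.Agent.Lib.TwoGroups.RankOne
import Cfsg.Agent.Lib.NormalPComplement.Basic
import Cfsg.Agent.Lib.PermGroups.RegularExceptional
import Cfsg.Agent.Lib.Correspondences.SeparableDegrees

/-!
Solvable groups transitive on the non-identity elements of an abelian `p`-group with point
stabilizers `p`-groups: they have a normal `p`-complement and abelian Sylow `p`-subgroups.
-/

set_option autoImplicit false
set_option linter.style.haveILetI false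
set_option linter.unusedSectionVars false

namespace CfsgLib.Correspondences

open Cfsg Subgroup
open scoped commutatorElement Pointwise

variable {H : Type*} [Group H] [Finite H] {p : ℕ} [hp : Fact p.Prime]

/-- A normal `p'`-subgroup containing the derived group gives the conclusion. -/
theorem complement_of_commutator_le (C : Subgroup H) [C.Normal] (hC : ¬ p ∣ Nat.card C)
    (hle : commutator H ≤ C) :
    HasNormalPComplement p H ∧ ∀ P : Sylow p H, IsMulCommutative (P : Subgroup H) := by
  refine ⟨CfsgLib.NormalPComplement.hasNormalPComplement_of_forall_mem fun g hg => ?_, fun P => ⟨⟨fun x y => ?_⟩⟩⟩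
  · let M : Subgroup H := C ⊔ zpowers g
    have hMn : M.Normal := Subgroup.Normal.of_commutator_le H (hle.trans le_sup_left)
    refine CfsgLib.Cores.le_pPrimeCore_of_not_dvd hp.out (N := M) ?_ (mem_sup_right (mem_zpowers g))
    intro hd
    have h : Nat.card M ∣ Nat.card C * Nat.card (zpowers g) := by
      have hn : zpowers g ≤ normalizer (C : Set H) := Subgroup.le_normalizer_of_normal
      have e := C.card_mul_index
      have h1 : Nat.card (C.subgroupOf M) * (C.subgroupOf M).index = Nat.card M :=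
        Subgroup.card_mul_index _
      rw [Nat.card_congr (Subgroup.subgroupOfEquivOfLe le_sup_left).toEquiv] at h1
      rw [← h1]
      refine Nat.mul_dvd_mul_left _ ?_
      rw [show (C.subgroupOf M).index = C.relIndex M from rfl, Subgroup.relIndex_sup_left]
      exact Subgroup.relIndex_dvd_card C (zpowers g)
    rcases hp.out.dvd_mul.1 (hd.trans h) with h' | h'
    · exact hC h'
    · rw [Nat.card_zpowers] at h'
      exact hp.out.coprime_iff_not_dvd.1 hg.symm h'
  · refine Subtype.ext (commutatorElement_eq_one_iff_mul_comm.1 ?_)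
    have h1 : ⁅(x : H), (y : H)⁆ ∈ C :=
      hle (Subgroup.commutator_mem_commutator (mem_top _) (mem_top _))
    have h2 : ⁅(x : H), (y : H)⁆ ∈ (P : Subgroup H) :=
      mul_mem (mul_mem (mul_mem x.2 y.2) (inv_mem x.2)) (inv_mem y.2)
    exact orderOf_eq_one_iff.1 (Nat.eq_one_of_dvd_coprimes (coprime_of_pgroup P.2 hC)
      (Subgroup.orderOf_dvd_natCard _ h2) (Subgroup.orderOf_dvd_natCard _ h1))

theorem q_inv_a {n : ℕ} (i : ZMod (2 * n)) :
    (QuaternionGroup.a i)⁻¹ = QuaternionGroup.a (-i) := rfl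

theorem q_inv_xa {n : ℕ} (i : ZMod (2 * n)) :
    (QuaternionGroup.xa i)⁻¹ = QuaternionGroup.xa ((n : ZMod (2 * n)) + i) := rfl

theorem q8_central_sq : ∀ x : QuaternionGroup 2, (∀ y, x * y = y * x) → x * x = 1 := by decide

theorem q8_sq_unique : ∀ x : QuaternionGroup 2, x * x = 1 → x = 1 ∨ x = QuaternionGroup.a 2 := by decide

variable {V : Type*} [CommGroup V] [Finite V]

/-- The setting: a transitive action with `p`-group stabilizers and trivial `p`-core. -/
structure TransSetup (φ : H →* MulAut V) (p : ℕ) : Prop where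
  isPGroup : IsPGroup p V
  nontriv : ∃ v : V, v ≠ 1
  trans : ∀ v w : V, v ≠ 1 → w ≠ 1 → ∃ h, φ h v = w
  stab : ∀ v : V, v ≠ 1 → ∀ h, φ h v = v → ∃ k : ℕ, orderOf h = p ^ k
  core : pCore p H = ⊥

namespace TransSetup

instance finiteSemidirect (φ : H →* MulAut V) : Finite (V ⋊[φ] H) :=
  Finite.of_equiv (V × H) SemidirectProduct.equivProd.symm

variable {φ : H →* MulAut V} (hs : TransSetup φ p)
include hs

theorem free {h : H} (hh : ¬ p ∣ orderOf h) {v : V} (hv : v ≠ 1) (hfix : φ h v = v) : h = 1 := by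
  obtain ⟨k, hk⟩ := hs.stab v hv h hfix
  rcases k with _ | k
  · exact orderOf_eq_one_iff.1 (by rw [hk, pow_zero])
  · exact absurd (hk ▸ dvd_pow_self p k.succ_ne_zero) hh

theorem free_of_mem {S : Subgroup H} (hS : ¬ p ∣ Nat.card S) {h : H} (hh : h ∈ S) {v : V}
    (hv : v ≠ 1) (hfix : φ h v = v) : h = 1 :=
  hs.free (fun hd => hS (hd.trans (Subgroup.orderOf_dvd_natCard S hh))) hv hfix

theorem injective : Function.Injective φ := by
  rw [← MonoidHom.ker_eq_bot_iff, eq_bot_iff, ← hs.core]
  refine CfsgLib.Cores.le_pCore fun x => ?_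
  obtain ⟨v, hv⟩ := hs.nontriv
  obtain ⟨k, hk⟩ := hs.stab v hv x (by rw [MonoidHom.mem_ker.1 x.2]; rfl)
  exact ⟨k, Subtype.ext (by rw [SubmonoidClass.coe_pow, ← hk, pow_orderOf_eq_one]; rfl)⟩

theorem not_dvd_of_normal_comm (A : Subgroup H) [A.Normal] [IsMulCommutative A] :
    ¬ p ∣ Nat.card A := by
  intro hd
  obtain ⟨P⟩ : Nonempty (Sylow p A) := inferInstance
  haveI : (P : Subgroup A).Normal := inferInstance
  haveI := Sylow.characteristic_of_normal P inferInstance
  have h : (P : Subgroup A).map A.subtype ≤ pCore p H := CfsgLib.Cores.le_pCore (P.2.map _)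
  rw [hs.core, le_bot_iff, Subgroup.map_eq_bot_iff_of_injective _ A.subtype_injective] at h
  exact P.not_dvd_index (by rw [h, Subgroup.index_bot]; exact hd)

theorem fpf_semidirect {S : Subgroup H} (hS : ¬ p ∣ Nat.card S) :
    ∀ a ∈ S.map (SemidirectProduct.inr : H →* V ⋊[φ] H), a ≠ 1 →
      (SemidirectProduct.inl : V →* V ⋊[φ] H).range ⊓ centralizer ({a} : Set (V ⋊[φ] H)) = ⊥ := by
  rintro _ ⟨h, hh, rfl⟩ h1
  rw [eq_bot_iff]
  rintro _ ⟨⟨v, rfl⟩, hc⟩
  rw [Subgroup.mem_bot]
  by_contra hv
  have hv' : v ≠ 1 := fun e => hv (by rw [e, map_one])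
  refine h1 ?_
  rw [hs.free_of_mem hS hh hv' ?_, map_one]
  refine SemidirectProduct.inl_injective (φ := φ) ?_
  rw [SemidirectProduct.inl_aut, (Subgroup.mem_centralizer_singleton_iff.1 hc).symm, map_inv,
    mul_inv_cancel_right]

theorem inl_range_ne_bot : (SemidirectProduct.inl : V →* V ⋊[φ] H).range ≠ ⊥ := by
  obtain ⟨v, hv⟩ := hs.nontriv
  intro h
  exact hv (SemidirectProduct.inl_injective (φ := φ)
    ((Subgroup.eq_bot_iff_forall _).1 h _ ⟨v, rfl⟩ |>.trans (map_one _).symm))

theorem le_normalizer_range (S : Subgroup H) :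
    S.map (SemidirectProduct.inr : H →* V ⋊[φ] H) ≤
      normalizer ((SemidirectProduct.inl : V →* V ⋊[φ] H).range : Set (V ⋊[φ] H)) := by
  haveI : (SemidirectProduct.inl : V →* V ⋊[φ] H).range.Normal := by
    rw [SemidirectProduct.range_inl_eq_ker_rightHom]; infer_instance
  exact Subgroup.le_normalizer_of_normal

theorem isCyclic (A : Subgroup H) [IsMulCommutative A] (hA : ¬ p ∣ Nat.card A) : IsCyclic A := by
  haveI : IsMulCommutative (A.map (SemidirectProduct.inr : H →* V ⋊[φ] H)) :=
    Subgroup.map_isMulCommutative A _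
  haveI : IsCyclic (A.map (SemidirectProduct.inr : H →* V ⋊[φ] H)) :=
    CfsgLib.Cores.isCyclic_of_fpf hs.inl_range_ne_bot (hs.le_normalizer_range A) (hs.fpf_semidirect hA)
  exact (A.equivMapOfInjective (SemidirectProduct.inr : H →* V ⋊[φ] H)
    SemidirectProduct.inr_injective).isCyclic.2 inferInstance

theorem uniqueOrderP {r : ℕ} [Fact r.Prime] (R : Subgroup H) (hR : IsPGroup r R)
    (hRp : ¬ p ∣ Nat.card R) : CfsgLib.TwoGroups.UniqueOrderP r R :=
  (CfsgLib.Cores.uniqueOrderP_of_fpf (hR.map (SemidirectProduct.inr : H →* V ⋊[φ] H))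
    hs.inl_range_ne_bot (hs.le_normalizer_range R) (hs.fpf_semidirect hRp)).of_injective
    (R.equivMapOfInjective (SemidirectProduct.inr : H →* V ⋊[φ] H)
      SemidirectProduct.inr_injective).toMonoidHom
    (MulEquiv.injective _)

theorem involution_unique (hp2 : p ≠ 2) {a b : H} (ha : orderOf a = 2) (hb : orderOf b = 2) : a = b := by
  have key : ∀ c : H, orderOf c = 2 → ∀ v : V, φ c v = v⁻¹ := by
    intro c hc v
    have hc1 : c ≠ 1 := fun e => by rw [e, orderOf_one] at hc; omega
    have hnd : ¬ p ∣ orderOf c := by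
      rw [hc]
      exact fun h => hp2 ((Nat.prime_dvd_prime_iff_eq hp.out Nat.prime_two).1 h)
    have hfix : φ c (v * φ c v) = v * φ c v := by
      rw [map_mul, ← MulAut.mul_apply, ← map_mul, ← pow_two, ← hc, pow_orderOf_eq_one, map_one,
        MulAut.one_apply, mul_comm]
    by_contra hne
    exact hc1 (hs.free hnd (fun e => hne (eq_inv_of_mul_eq_one_right e)) hfix)
  exact hs.injective (MulEquiv.ext fun v => by rw [key a ha, key b hb])

/-- A normal subgroup strictly above a maximal normal abelian subgroup, inside its centralizer,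
contains a normal quaternion group of order eight. -/
theorem exists_q8 [Group.IsSolvable H] (A : Subgroup H) [A.Normal]
    (hmax : ∀ B : Subgroup H, B.Normal → IsMulCommutative B → A ≤ B → B = A)
    (E : Subgroup H) [E.Normal] (hAE : A ≤ E) (hEC : E ≤ centralizer (A : Set H)) (hne : E ≠ A) :
    ∃ R : Subgroup H, R.Normal ∧ R ≤ E ∧ Nonempty (R ≃* QuaternionGroup 2) := by
  classical
  let f : ℕ → Subgroup H := fun n => Nat.rec (motive := fun _ => Subgroup H) E (fun _ D => ⁅D, D⁆) n
  have hfn : ∀ n, (f n).Normal := by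
    intro n
    induction n with
    | zero => exact (inferInstance : E.Normal)
    | succ n ih => haveI := ih; exact Subgroup.commutator_normal _ _
  have hfle : ∀ n, f n ≤ derivedSeries H n := by
    intro n
    induction n with
    | zero => exact le_top
    | succ n ih => exact commutator_mono ih ih
  have hfE : ∀ n, f n ≤ E := by
    intro n
    induction n with
    | zero => exact le_rfl
    | succ n ih => exact (commutator_mono ih ih).trans (Subgroup.commutator_le_left E E)
  obtain ⟨N, hN⟩ := (Group.isSolvable_def H).1 inferInstance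
  have hex : ∃ n : ℕ, ¬ f n ≤ A ∧ f (n + 1) ≤ A := by
    by_contra hall
    push Not at hall
    have : ∀ n, ¬ f n ≤ A := by
      intro n
      induction n with
      | zero => exact fun h => hne (le_antisymm h hAE)
      | succ n ih => exact hall n ih
    exact this N ((hfle N).trans (hN ▸ bot_le))
  obtain ⟨n, h1, h2⟩ := hex
  haveI := hfn n
  set D := f n ⊔ A with hD
  haveI hDn : D.Normal := Subgroup.sup_normal (f n) A
  have hDE : D ≤ E := sup_le (hfE n) hAE
  have hDcomm : ⁅D, D⁆ ≤ A := by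
    have h : ⁅D, D⁆.map (QuotientGroup.mk' A) = ⊥ := by
      rw [Subgroup.map_commutator, hD, Subgroup.map_sup,
        show A.map (QuotientGroup.mk' A) = ⊥ by
          rw [Subgroup.map_eq_bot_iff, QuotientGroup.ker_mk'], sup_bot_eq,
        ← Subgroup.map_commutator, Subgroup.map_eq_bot_iff, QuotientGroup.ker_mk']
      exact h2
    rwa [Subgroup.map_eq_bot_iff, QuotientGroup.ker_mk'] at h
  have hcent : ∀ a ∈ A, ∀ d ∈ D, a * d = d * a := fun a ha d hd =>
    Subgroup.mem_centralizer_iff.1 (hEC (hDE hd)) a ha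
  haveI hDnil : Group.IsNilpotent D := by
    let g : D →* H ⧸ A := (QuotientGroup.mk' A).comp D.subtype
    haveI : IsMulCommutative g.range := by
      refine ⟨⟨?_⟩⟩
      rintro ⟨_, x, rfl⟩ ⟨_, y, rfl⟩
      refine Subtype.ext ?_
      show g x * g y = g y * g x
      rw [← commutatorElement_eq_one_iff_mul_comm, ← map_commutatorElement]
      exact (QuotientGroup.eq_one_iff _).2 (hDcomm (Subgroup.commutator_mem_commutator x.2 y.2))
    letI : CommGroup g.range := { (inferInstance : Group g.range) with mul_comm := (inferInstance : IsMulCommutative g.range).is_comm.comm }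
    refine Subgroup.isNilpotent_of_ker_le_center g.rangeRestrict (fun x hx => ?_)
    rw [Subgroup.mem_center_iff]
    intro d
    have hxA : (x : H) ∈ A := by
      rw [MonoidHom.ker_rangeRestrict, MonoidHom.mem_ker] at hx
      exact (QuotientGroup.eq_one_iff _).1 hx
    exact Subtype.ext (hcent _ hxA d d.2).symm
  have hDna : ¬ IsMulCommutative D := fun h =>
    h1 (le_sup_left.trans (hmax D hDn h le_sup_right).le)
  obtain ⟨r, hr, S, hS⟩ : ∃ r : ℕ, ∃ _ : r.Prime, ∃ S : Sylow r D, ¬ IsMulCommutative (S : Subgroup D) := by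
    by_contra hall
    push Not at hall
    obtain ⟨e⟩ := ((Group.isNilpotent_of_finite_tfae (G := D)).out 0 4).1 hDnil
    refine hDna ⟨⟨fun x y => e.symm.injective ?_⟩⟩
    rw [map_mul, map_mul]
    funext q P
    exact ((hall q (Nat.prime_of_mem_primeFactors q.2) P).is_comm.comm _ _)
  haveI : Fact r.Prime := ⟨hr⟩
  have htfae : Group.IsNilpotent D ↔ ∀ (q : ℕ) (_hq : Fact q.Prime) (T : Sylow q D),
      (T : Subgroup D).Normal := (Group.isNilpotent_of_finite_tfae (G := D)).out 0 3
  haveI : (S : Subgroup D).Normal := htfae.1 hDnil r inferInstance S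
  haveI := Sylow.characteristic_of_normal S inferInstance
  set R := (S : Subgroup D).map D.subtype with hR
  haveI hRn : R.Normal := inferInstance
  have hRr : IsPGroup r R := S.2.map D.subtype
  have hRna : ¬ IsMulCommutative R := by
    intro h
    refine hS ⟨⟨fun x y => ?_⟩⟩
    refine ((S : Subgroup D).equivMapOfInjective D.subtype D.subtype_injective).injective ?_
    rw [map_mul, map_mul]
    exact h.is_comm.comm (_ : R) _
  have hrp : r ≠ p := fun e => by
    subst e
    refine hRna ?_
    rw [le_bot_iff.1 ((CfsgLib.Cores.le_pCore hRr).trans hs.core.le)]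
    infer_instance
  have hRp : ¬ p ∣ Nat.card R := by
    obtain ⟨k, hk⟩ := IsPGroup.iff_card.1 hRr
    rw [hk]
    exact fun h => hrp ((Nat.prime_dvd_prime_iff_eq hp.out hr).1 (hp.out.dvd_of_dvd_pow h)).symm
  rcases CfsgLib.TwoGroups.isCyclic_or_quaternion hRr (hs.uniqueOrderP R hRr hRp) with hc | ⟨-, m, hm, ⟨e⟩⟩
  · exact absurd (inferInstance : IsMulCommutative R) hRna
  · have hRD : R ≤ D := Subgroup.map_subtype_le _
    refine ⟨R, inferInstance, hRD.trans hDE, ?_⟩
    have hm1 : m = 1 := by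
      by_contra hne1
      let x := e.symm (QuaternionGroup.xa 0)
      let y := e.symm (QuaternionGroup.a 1)
      have h := hcent _ (hDcomm (Subgroup.commutator_mem_commutator (hRD x.2) (hRD y.2))) _ (hRD x.2)
      have h' : ⁅x, y⁆ * x = x * ⁅x, y⁆ := Subtype.ext h
      have h'' := congrArg e h'
      simp only [x, y, commutatorElement_def, map_mul, map_inv, MulEquiv.apply_symm_apply,
        QuaternionGroup.xa_mul_a, q_inv_a, q_inv_xa,
        QuaternionGroup.xa_mul_xa, QuaternionGroup.a_mul_a, QuaternionGroup.a_mul_xa,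
        QuaternionGroup.xa.injEq] at h''
      have h4 : ((4 : ℕ) : ZMod (2 * 2 ^ m)) = 0 := by
        have hc : ((2 * 2 ^ m : ℕ) : ZMod (2 * 2 ^ m)) = 0 := ZMod.natCast_self _
        push_cast at hc h'' ⊢
        linear_combination h'' + 2 * hc
      rw [ZMod.natCast_eq_zero_iff] at h4
      have h8 : 2 * 2 ^ 2 ≤ 2 * 2 ^ m := Nat.mul_le_mul_left _ (Nat.pow_le_pow_right two_pos (by omega))
      have := Nat.le_of_dvd (by norm_num) h4
      omega
    subst hm1
    exact ⟨e⟩

theorem card_stab_sylow (v : V) (hv : v ≠ 1) :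
    ∃ P : Sylow p H, ∀ h : H, h ∈ (P : Subgroup H) ↔ φ h v = v := by
  classical
  letI : MulAction H V := MulAction.compHom V φ
  have hst : IsPGroup p (MulAction.stabilizer H v) := IsPGroup.iff_orderOf.2 fun x => by
    obtain ⟨k, hk⟩ := hs.stab v hv x x.2
    exact ⟨k, by rw [← Subgroup.orderOf_coe, hk]⟩
  have horb : MulAction.orbit H v = ({1}ᶜ : Set V) := by
    ext w
    constructor
    · rintro ⟨h, rfl⟩ h1
      exact hv ((φ h).injective ((h1 : φ h v = 1).trans (map_one _).symm))
    · intro hw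
      exact hs.trans v w hv hw
  have hidx : (MulAction.stabilizer H v).index = Nat.card V - 1 := by
    rw [MulAction.index_stabilizer, horb, Set.ncard_compl, Set.ncard_singleton]
  have hnd : ¬ p ∣ (MulAction.stabilizer H v).index := by
    rw [hidx]
    obtain ⟨n, hn⟩ := IsPGroup.iff_card.1 hs.isPGroup
    have hV1 : 1 < Nat.card V := Finite.one_lt_card_iff_nontrivial.2 ⟨⟨v, 1, hv⟩⟩
    intro hd
    have hpn : p ∣ Nat.card V := by
      rcases n with _ | n
      · rw [hn, pow_zero] at hV1; omega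
      · exact hn ▸ dvd_pow_self p n.succ_ne_zero
    have h1 := Nat.dvd_sub hpn hd
    rw [show Nat.card V - (Nat.card V - 1) = 1 by omega, Nat.dvd_one] at h1
    exact hp.out.ne_one h1
  exact ⟨hst.toSylow hnd, fun h => Iff.rfl⟩

theorem card_eq (v : V) (hv : v ≠ 1) :
    ∀ P : Sylow p H, Nat.card H = (Nat.card V - 1) * Nat.card (P : Subgroup H) := by
  classical
  intro Q
  obtain ⟨P, hP⟩ := hs.card_stab_sylow v hv
  letI : MulAction H V := MulAction.compHom V φ
  have e : (P : Subgroup H) = MulAction.stabilizer H v := Subgroup.ext fun h => hP h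
  have horb : MulAction.orbit H v = ({1}ᶜ : Set V) := by
    ext w
    constructor
    · rintro ⟨h, rfl⟩ h1
      exact hv ((φ h).injective ((h1 : φ h v = 1).trans (map_one _).symm))
    · intro hw
      exact hs.trans v w hv hw
  rw [Q.card_eq_multiplicity, ← P.card_eq_multiplicity, ← Subgroup.index_mul_card (P : Subgroup H), e,
    MulAction.index_stabilizer, horb, Set.ncard_compl, Set.ncard_singleton]

/-- Transitive solvable groups with `p`-group stabilizers and trivial `p`-core. -/
theorem main [Group.IsSolvable H] :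
    HasNormalPComplement p H ∧ ∀ P : Sylow p H, IsMulCommutative (P : Subgroup H) := by
  classical
  obtain ⟨v0, hv0⟩ := hs.nontriv
  obtain ⟨A, -, hA⟩ := Finite.exists_le_maximal
    (p := fun A : Subgroup H => A.Normal ∧ IsMulCommutative A) (a := ⊥) ⟨inferInstance, inferInstance⟩
  haveI := hA.1.1
  haveI := hA.1.2
  have hmax : ∀ B : Subgroup H, B.Normal → IsMulCommutative B → A ≤ B → B = A := fun B h1 h2 h =>
    (hA.2 ⟨h1, h2⟩ h).antisymm h
  have hAp : ¬ p ∣ Nat.card A := hs.not_dvd_of_normal_comm A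
  haveI := hs.isCyclic A hAp
  set C := centralizer (A : Set H) with hC
  have hHC : commutator H ≤ C := by
    rw [commutator_eq_closure, Subgroup.closure_le]
    rintro _ ⟨x, y, rfl⟩
    have h1 : MulAut.conjNormal (H := A) ⁅x, y⁆ = 1 := by
      rw [map_commutatorElement, commutatorElement_eq_one_iff_mul_comm]
      apply (IsCyclic.mulAutMulEquiv A).injective
      rw [map_mul, map_mul]
      exact mul_comm _ _
    rw [SetLike.mem_coe, Subgroup.mem_centralizer_iff]
    intro a ha
    have h2 : ((MulAut.conjNormal (H := A) ⁅x, y⁆ ⟨a, ha⟩ : A) : H) = a := by rw [h1]; rfl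
    rw [MulAut.conjNormal_apply] at h2
    exact (mul_inv_eq_iff_eq_mul.1 h2).symm
  haveI : C.Normal := inferInstance
  by_cases hpC : ¬ p ∣ Nat.card C
  · exact complement_of_commutator_le C hpC hHC
  push Not at hpC
  have hAC : A ≤ C := Subgroup.le_centralizer_iff_isMulCommutative.2 inferInstance
  obtain ⟨R, hRn, hRC, ⟨e⟩⟩ := hs.exists_q8 A hmax C hAC le_rfl (fun h => hAp (h ▸ hpC))
  haveI := hRn
  have hR8 : Nat.card R = 8 := by
    rw [Nat.card_congr e.toEquiv, Nat.card_eq_fintype_card, QuaternionGroup.card]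
  have hp2 : p ≠ 2 := by
    rintro rfl
    have h : R ≤ pCore 2 H := CfsgLib.Cores.le_pCore (IsPGroup.of_card (n := 3) (by rw [hR8]; norm_num))
    rw [hs.core, le_bot_iff] at h
    rw [h, Subgroup.card_bot] at hR8
    omega
  let y : R := e.symm (QuaternionGroup.a 1)
  have hy4 : orderOf (y : H) = 4 := by
    rw [Subgroup.orderOf_coe, MulEquiv.orderOf_eq, QuaternionGroup.orderOf_a_one]
  set z : H := (y : H) ^ 2 with hz
  have hz2 : orderOf z = 2 := by rw [hz, orderOf_pow' _ (by norm_num), hy4]; rfl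
  have hzc : ∀ h : H, h * z * h⁻¹ = z := fun h => hs.involution_unique hp2
    (by rw [← hz2]; exact MulEquiv.orderOf_eq (MulAut.conj h) z) hz2
  -- the kernel of the action on `R`
  set E := C ⊓ centralizer (R : Set H) with hEdef
  have hAE : A ≤ E := le_inf hAC fun a ha => Subgroup.mem_centralizer_iff.2 fun r hr =>
    (Subgroup.mem_centralizer_iff.1 (hRC hr) a ha).symm
  have hEA : E = A := by
    by_contra hne
    obtain ⟨R', hR'n, hR'E, ⟨e'⟩⟩ := hs.exists_q8 A hmax E hAE inf_le_left hne
    let x : R' := e'.symm (QuaternionGroup.a 1)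
    have hx4 : orderOf (x : H) = 4 := by
      rw [Subgroup.orderOf_coe, MulEquiv.orderOf_eq, QuaternionGroup.orderOf_a_one]
    have hxc := Subgroup.mem_centralizer_iff.1 (hR'E x.2).2
    have hx2 : (x : H) ^ 2 = z := hs.involution_unique hp2
      (by rw [orderOf_pow' _ (by norm_num), hx4]; rfl) hz2
    have hcm : Commute (y : H) (x : H) := hxc y y.2
    have hsq : ((x : H) * (y : H)⁻¹) ^ 2 = 1 := by
      rw [(hcm.symm.inv_right).mul_pow, inv_pow, hx2, ← hz, mul_inv_cancel]
    have hxR : (x : H) ∈ R := by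
      have hzR : z ∈ R := pow_mem y.2 2
      rcases eq_or_ne ((x : H) * (y : H)⁻¹) 1 with h | h
      · rw [mul_inv_eq_one] at h; rw [h]; exact y.2
      · have h' := hs.involution_unique hp2 (orderOf_eq_prime hsq h) hz2
        rw [mul_inv_eq_iff_eq_mul] at h'
        rw [h']; exact mul_mem hzR y.2
    have h := q8_central_sq (e ⟨x, hxR⟩) (fun w => by
      obtain ⟨r, rfl⟩ := e.surjective w
      rw [← map_mul, ← map_mul]
      exact congrArg e (Subtype.ext (hxc r r.2).symm))
    rw [← map_mul, EmbeddingLike.map_eq_one_iff] at h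
    have hx2' : (x : H) ^ 2 = 1 := by rw [pow_two]; exact congrArg Subtype.val h
    have := orderOf_dvd_of_pow_eq_one hx2'
    rw [hx4] at this
    omega
  let ψ : C →* MulAut R := (MulAut.conjNormal : H →* MulAut R).comp C.subtype
  have hψker : ψ.ker = A.subgroupOf C := by
    ext c
    rw [MonoidHom.mem_ker, Subgroup.mem_subgroupOf, ← hEA, hEdef, Subgroup.mem_inf]
    constructor
    · intro h
      refine ⟨c.2, Subgroup.mem_centralizer_iff.2 fun r hr => ?_⟩
      have h2 := congrArg Subtype.val (DFunLike.congr_fun h ⟨r, hr⟩)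
      change ((MulAut.conjNormal (c : H) (⟨r, hr⟩ : R) : R) : H) = r at h2
      rw [MulAut.conjNormal_apply] at h2
      exact (mul_inv_eq_iff_eq_mul.1 h2).symm
    · rintro ⟨-, h⟩
      refine MulEquiv.ext fun r => Subtype.ext ?_
      show ((MulAut.conjNormal (c : H) r : R) : H) = (r : H)
      rw [MulAut.conjNormal_apply, ← Subgroup.mem_centralizer_iff.1 h r r.2, mul_inv_cancel_right]
  set c := Nat.card ψ.range with hc
  have hcard : Nat.card A * c = Nat.card C := by
    rw [hc, ← Subgroup.index_ker, hψker, ← Subgroup.card_mul_index (A.subgroupOf C),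
      Nat.card_congr (Subgroup.subgroupOfEquivOfLe hAC).toEquiv]
  have hc24 : c ∣ 24 := by
    rw [← CfsgLib.PermGroups.card_mulAut_q8, ← Nat.card_congr (MulAut.congr e).toEquiv]
    exact Subgroup.card_subgroup_dvd_card _
  have hpc : p ∣ c := (hp.out.dvd_mul.1 (hcard ▸ hpC)).resolve_left hAp
  have hp3 : p = 3 := by
    have h24 : p ∣ 2 ^ 3 * 3 := hpc.trans hc24
    rcases hp.out.dvd_mul.1 h24 with h | h
    · exact absurd ((Nat.prime_dvd_prime_iff_eq hp.out Nat.prime_two).1 (hp.out.dvd_of_dvd_pow h)) hp2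
    · exact (Nat.prime_dvd_prime_iff_eq hp.out Nat.prime_three).1 h
  have h4c : 4 ∣ c := by
    let ρ : R →* ψ.range := ψ.rangeRestrict.comp (Subgroup.inclusion hRC)
    have hker : ρ.ker ≤ Subgroup.zpowers (⟨z, pow_mem y.2 2⟩ : R) := by
      intro r hr
      have hr' : Subgroup.inclusion hRC r ∈ ψ.ker := by
        rw [MonoidHom.mem_ker] at hr ⊢
        exact congrArg Subtype.val hr
      rw [hψker, Subgroup.mem_subgroupOf, ← hEA] at hr'
      have hcm := Subgroup.mem_centralizer_iff.1 hr'.2
      have hsq := q8_central_sq (e r) (fun w => by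
        obtain ⟨s, rfl⟩ := e.surjective w
        rw [← map_mul, ← map_mul]
        exact congrArg e (Subtype.ext (hcm s s.2).symm))
      rw [← map_mul, EmbeddingLike.map_eq_one_iff] at hsq
      rcases eq_or_ne r 1 with rfl | hne
      · exact one_mem _
      · have h' := hs.involution_unique hp2 (a := (r : H))
          (orderOf_eq_prime (by rw [pow_two]; exact congrArg Subtype.val hsq)
            (fun h => hne (Subtype.ext h))) hz2
        exact Subgroup.mem_zpowers_iff.2 ⟨1, by rw [zpow_one]; exact Subtype.ext h'.symm⟩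
    have h2 : Nat.card ρ.ker ∣ 2 := by
      refine (Subgroup.card_dvd_of_le hker).trans ?_
      rw [Nat.card_zpowers, ← Subgroup.orderOf_coe, hz2]
    have h3 : Nat.card ρ.range ∣ c := hc ▸ Subgroup.card_subgroup_dvd_card _
    have h5 := Subgroup.card_mul_index ρ.ker
    rw [Subgroup.index_ker, hR8] at h5
    rcases (Nat.dvd_prime Nat.prime_two).1 h2 with h | h <;> rw [h] at h5
    · exact (dvd_trans ⟨2, by omega⟩ h3 : 4 ∣ c)
    · exact (dvd_trans ⟨1, by omega⟩ h3 : 4 ∣ c)
  subst hp3
  have hc12 : c = 12 ∨ c = 24 := by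
    have h3c : 12 ∣ c := Nat.Coprime.mul_dvd_of_dvd_of_dvd (m := 4) (n := 3) (by norm_num) h4c hpc
    have hle := Nat.le_of_dvd (by norm_num) hc24
    have hpos : 0 < c := Nat.card_pos
    omega
  -- the Sylow 3-subgroups of `C`
  have hSy : ∀ Q : Sylow 3 C, A.subgroupOf C ≤ normalizer ((Q : Subgroup C) : Set C) := fun Q a ha =>
    Subgroup.mem_normalizer_iff.2 fun q => by
      have hcomm : a * q = q * a := Subtype.ext (Subgroup.mem_centralizer_iff.1 q.2 (a : H) ha)
      rw [hcomm, mul_inv_cancel_right]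
  have hn3 : Nat.card (Sylow 3 C) ≠ 1 := by
    intro h1
    haveI : Subsingleton (Sylow 3 C) := (Nat.card_eq_one_iff_unique.1 h1).1
    obtain ⟨Q⟩ : Nonempty (Sylow 3 C) := inferInstance
    haveI : (Q : Subgroup C).Normal := Sylow.normal_of_subsingleton Q
    haveI := Sylow.characteristic_of_normal Q inferInstance
    have h : (Q : Subgroup C).map C.subtype ≤ pCore 3 H := CfsgLib.Cores.le_pCore (Q.2.map _)
    rw [hs.core, le_bot_iff, Subgroup.map_eq_bot_iff_of_injective _ C.subtype_injective] at h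
    exact Q.not_dvd_index (by rw [h, Subgroup.index_bot]; exact hpC)
  obtain ⟨Q1⟩ : Nonempty (Sylow 3 C) := inferInstance
  have hn4 : Nat.card (Sylow 3 C) = 4 := by
    have hmod : Nat.card (Sylow 3 C) % 3 = 1 := card_sylow_modEq_one 3 C
    have hd : Nat.card (Sylow 3 C) ∣ c := by
      rw [Q1.card_eq_index_normalizer]
      refine (Subgroup.index_dvd_of_le (hSy Q1)).trans ?_
      rw [hc, ← Subgroup.index_ker, hψker]
    have hd3 : ¬ 3 ∣ Nat.card (Sylow 3 C) := by omega
    have hpos : 0 < Nat.card (Sylow 3 C) := Nat.card_pos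
    have hle : Nat.card (Sylow 3 C) ∣ 8 := by
      have h24 := hd.trans hc24
      exact (((Nat.Prime.coprime_iff_not_dvd Nat.prime_three).2 hd3).symm).dvd_of_dvd_mul_right
        (show Nat.card (Sylow 3 C) ∣ 8 * 3 from h24)
    have hle' := Nat.le_of_dvd (by norm_num) hle
    obtain ⟨n, hn⟩ : ∃ n, Nat.card (Sylow 3 C) = n := ⟨_, rfl⟩
    rw [hn] at hle hle' hmod hn3 ⊢
    interval_cases n <;> first | omega | norm_num at hle
  -- each point determines one Sylow subgroup of `C`
  let Fix : Sylow 3 C → Subgroup V := fun Q =>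
    { carrier := {v | ∀ q : C, q ∈ (Q : Subgroup C) → φ (q : H) v = v}
      one_mem' := fun q _ => map_one _
      mul_mem' := fun {a b} ha hb q hq => by rw [map_mul, ha q hq, hb q hq]
      inv_mem' := fun {a} ha q hq => by rw [map_inv, ha q hq] }
  have huniq : ∀ v : V, v ≠ 1 → ∃! Q : Sylow 3 C, v ∈ Fix Q := by
    intro v hv
    obtain ⟨P, hP⟩ := hs.card_stab_sylow v hv
    have hS : ¬ 3 ∣ ((P : Subgroup H).subgroupOf C).index := fun h =>
      P.not_dvd_index (h.trans (relIndex_dvd_index_of_normal_right (J := C) (P : Subgroup H)))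
    let Q : Sylow 3 C := P.2.comap_subtype.toSylow hS
    refine ⟨Q, fun q hq => (hP _).1 hq, fun Q' hQ' => ?_⟩
    exact Sylow.ext ((Q'.3 Q.2 fun q hq => (hP _).2 (hQ' q hq)).symm)
  have hconj : ∀ Q Q' : Sylow 3 C, Nat.card (Fix Q) = Nat.card (Fix Q') := by
    intro Q Q'
    obtain ⟨g, rfl⟩ := MulAction.exists_smul_eq C Q Q'
    refine Nat.card_congr (Equiv.subtypeEquiv (φ (g : H)).toEquiv fun v => ?_)
    constructor
    · intro hv q hq
      have hq' := CfsgLib.CoprimeAction.mem_conj_iff.1
        (show q ∈ MulAut.conj g • (Q : Subgroup C) from hq)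
      have h := hv _ hq'
      simp only [Subgroup.coe_mul, Subgroup.coe_inv, map_mul, MulAut.mul_apply, map_inv] at h
      show φ (q : H) (φ (g : H) v) = φ (g : H) v
      have h' := congrArg (φ (g : H)) h
      rwa [MulAut.apply_inv_self] at h'
    · intro hv q hq
      have hq' : g * q * g⁻¹ ∈ ((g • Q : Sylow 3 C) : Subgroup C) := by
        show g * q * g⁻¹ ∈ MulAut.conj g • (Q : Subgroup C)
        exact CfsgLib.CoprimeAction.mem_conj_iff.2 (by simpa [mul_assoc] using hq)
      have h : φ ((g * q * g⁻¹ : C) : H) (φ (g : H) v) = φ (g : H) v := hv _ hq'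
      simp only [Subgroup.coe_mul, Subgroup.coe_inv, map_mul, MulAut.mul_apply, map_inv,
        MulAut.inv_apply_self, EmbeddingLike.apply_eq_iff_eq] at h
      exact h
  have hnt : ∀ Q : Sylow 3 C, 2 ≤ Nat.card (Fix Q) := by
    intro Q
    obtain ⟨Q0, hQ0, -⟩ := huniq v0 hv0
    rw [hconj Q Q0]
    haveI : Nontrivial (Fix Q0) := ⟨⟨⟨v0, hQ0⟩, 1, fun h => hv0 (congrArg Subtype.val h)⟩⟩
    exact Finite.one_lt_card
  have hcount : Nat.card V - 1 = 4 * (Nat.card (Fix Q1) - 1) := by
    haveI := Fintype.ofFinite (Sylow 3 C)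
    let f : {v : V // v ≠ 1} → Σ Q : Sylow 3 C, {v : Fix Q // v ≠ 1} := fun v =>
      ⟨(huniq v.1 v.2).choose, ⟨⟨v.1, (huniq v.1 v.2).choose_spec.1⟩,
        fun h => v.2 (congrArg Subtype.val h)⟩⟩
    have hf : Function.Bijective f := by
      constructor
      · intro a b h
        exact Subtype.ext (congrArg (fun x : Σ Q : Sylow 3 C, {v : Fix Q // v ≠ 1} => x.2.1.1) h)
      · rintro ⟨Q, ⟨v, hv⟩, hv1⟩
        have hv1' : v ≠ 1 := fun h => hv1 (Subtype.ext h)
        refine ⟨⟨v, hv1'⟩, ?_⟩
        have he : Q = (huniq v hv1').choose := (huniq v hv1').choose_spec.2 Q hv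
        subst he
        rfl
    have h := Nat.card_eq_of_bijective f hf
    haveI := Fintype.ofFinite V
    rw [Nat.card_sigma, Finset.sum_congr rfl (g := fun _ => Nat.card (Fix Q1) - 1) fun Q _ => ?_] at h
    · rw [Finset.sum_const, Finset.card_univ, ← Nat.card_eq_fintype_card, hn4, smul_eq_mul,
        show Nat.card {v : V // v ≠ 1} = Nat.card V - 1 by
          simp [Nat.card_eq_fintype_card, Fintype.card_subtype_compl]] at h
      exact h
    · rw [hconj Q1 Q]
      haveI := Fintype.ofFinite (Fix Q)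
      simp [Nat.card_eq_fintype_card, Fintype.card_subtype_compl]
  have hbound : Nat.card (Fix Q1) * Nat.card (Fix Q1) ≤ Nat.card V := by
    haveI : Nontrivial (Sylow 3 C) := Finite.one_lt_card_iff_nontrivial.1 (by omega)
    obtain ⟨Q2, hQ2⟩ := exists_ne Q1
    nth_rewrite 2 [hconj Q1 Q2]
    rw [← Nat.card_prod]
    refine Nat.card_le_card_of_injective (fun x => (x.1 : V) * x.2) ?_
    rintro ⟨a, b⟩ ⟨a', b'⟩ h
    have h1 : (a : V)⁻¹ * a' = b * (b' : V)⁻¹ := by
      rw [inv_mul_eq_iff_eq_mul, ← mul_assoc, eq_mul_inv_iff_mul_eq]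
      exact h.symm
    have h2 : (a : V)⁻¹ * a' = 1 := by
      by_contra hne
      have m1 : (a : V)⁻¹ * a' ∈ Fix Q1 := (Fix Q1).mul_mem ((Fix Q1).inv_mem a.2) a'.2
      have m2 : (a : V)⁻¹ * a' ∈ Fix Q2 := h1 ▸ (Fix Q2).mul_mem b.2 ((Fix Q2).inv_mem b'.2)
      exact hQ2 ((huniq _ hne).unique m2 m1)
    rw [inv_mul_eq_one] at h2
    simp only [h2, mul_right_inj] at h
    exact Prod.ext (Subtype.ext h2) (Subtype.ext h)
  have hV9 : Nat.card V = 9 := by
    obtain ⟨n, hn⟩ := IsPGroup.iff_card.1 (hs.isPGroup.to_subgroup (Fix Q1))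
    have h2 := hnt Q1
    have hs3 : Nat.card (Fix Q1) ≤ 3 := by nlinarith [Nat.sub_add_cancel (show 1 ≤ Nat.card (Fix Q1) by omega), Nat.sub_add_cancel (show 1 ≤ Nat.card V by omega)]
    have : Nat.card (Fix Q1) = 3 := by
      rcases n with _ | _ | n
      · omega
      · omega
      · have : (3 : ℕ) ^ 2 ≤ 3 ^ (n + 1 + 1) := Nat.pow_le_pow_right (by norm_num) (by omega)
        omega
    omega
  obtain ⟨P⟩ : Nonempty (Sylow 3 H) := inferInstance
  obtain ⟨b, hb⟩ := IsPGroup.iff_card.1 P.2
  have hH : Nat.card H = 8 * 3 ^ b := by rw [hs.card_eq v0 hv0 P, hV9, hb]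
  have hC8 : Nat.card A * c ∣ 8 * 3 ^ b := hH ▸ hcard ▸ Subgroup.card_subgroup_dvd_card C
  have hzA : z ∈ A := by
    rw [← hEA]
    exact ⟨hRC (pow_mem y.2 2), Subgroup.mem_centralizer_iff.2 fun r _ =>
      (mul_inv_eq_iff_eq_mul.1 (hzc r))⟩
  have hA2 : Nat.card A = 2 := by
    have h2A : 2 ∣ Nat.card A := hz2 ▸ Subgroup.orderOf_dvd_natCard A hzA
    have h8 : Nat.card A * 4 ∣ 8 :=
      (Nat.Coprime.pow_right b (Nat.Coprime.mul_left
        ((Nat.Prime.coprime_iff_not_dvd Nat.prime_three).2 hAp).symm (by norm_num))).dvd_of_dvd_mul_right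
        ((Nat.mul_dvd_mul_left _ h4c).trans hC8)
    have := Nat.le_of_dvd (by norm_num) h8
    have := Nat.le_of_dvd Nat.card_pos h2A
    omega
  have hCtop : C = ⊤ := by
    refine eq_top_iff.2 fun h _ => Subgroup.mem_centralizer_iff.2 fun a ha => ?_
    rcases eq_or_ne a 1 with rfl | hne
    · simp
    · have ha2 : orderOf a = 2 := by
        rcases (Nat.dvd_prime Nat.prime_two).1 (hA2 ▸ Subgroup.orderOf_dvd_natCard A ha) with h' | h'
        · exact absurd (orderOf_eq_one_iff.1 h') hne
        · exact h'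
      rw [hs.involution_unique hp2 ha2 hz2]
      exact (mul_inv_eq_iff_eq_mul.1 (hzc h)).symm
  have hcH : 2 * c = 8 * 3 ^ b := by
    rw [← hA2, hcard, ← hH, hCtop, Subgroup.card_top]
  have hH24 : Nat.card H = 24 := by
    rcases hc12 with h | h
    · omega
    · exfalso
      rw [h] at hcH
      rcases b with _ | _ | b
      · simp at hcH
      · norm_num at hcH
      · have : (3 : ℕ) ^ 2 ≤ 3 ^ (b + 1 + 1) := Nat.pow_le_pow_right (by norm_num) (by omega)
        omega
  refine complement_of_commutator_le R (by rw [hR8]; norm_num) ?_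
  have hidx : R.index = 3 := by
    have := R.card_mul_index
    rw [hR8, hH24] at this
    omega
  haveI : Fact (Nat.card (H ⧸ R)).Prime := ⟨by rw [← Subgroup.index_eq_card, hidx]; norm_num⟩
  haveI : IsCyclic (H ⧸ R) := isCyclic_of_prime_card (p := Nat.card (H ⧸ R)) rfl
  exact Subgroup.Normal.quotient_commutative_iff_commutator_le.1 inferInstance

end TransSetup

end CfsgLib.Correspondences
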