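import Mathlib
import Cfsg.Agent.Lib.Clifford.Basic
import Cfsg.Agent.Lib.CharTheory.Ito
import Cfsg.Agent.Lib.RealChar.Indicator

/-!
Degrees over a normal subgroup with `2`-group quotient, and a criterion for indicator `+1`.
-/

set_option autoImplicit false
set_option linter.style.haveILetI false
set_option linter.unusedSectionVars false

namespace CfsgLib.Correspondences

open Cfsg CfsgLib.CharTheory CfsgLib.Clifford
open scoped ComplexConjugate

universe u

theorem exists_two_pow_degree_aux : ∀ n : ℕ, ∀ {G : Type u} [Group G] [Finite G], Nat.card G = n →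
    ∀ (N : Subgroup G) [N.Normal] [Fintype N], (∃ a : ℕ, N.index = 2 ^ a) → ∀ {χ : G → ℂ},
    IsIrrCharacter G χ → ∀ θ : IrrCharacter N,
    Cfsg.classInner (fun x : N => χ x) (θ : N → ℂ) ≠ 0 →
    ∃ j : ℕ, χ 1 = (2 : ℂ) ^ j * (θ : N → ℂ) 1 := by
  intro n
  induction n using Nat.strongRecOn with | ind n ih => ?_
  intro G _ _ hn N _ _ hN χ hχ θ hθ
  classical
  haveI := Fintype.ofFinite G
  obtain ⟨a, ha⟩ := hN
  rcases a with _ | a
  · -- `N` is everything
    have htop : N = ⊤ := Subgroup.index_eq_one.1 (by rw [ha, pow_zero])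
    subst htop
    have hres : IsIrrCharacter (⊤ : Subgroup G) (fun x : (⊤ : Subgroup G) => χ x) :=
      isIrrCharacter_comp_mulEquiv hχ (Subgroup.topEquiv)
    refine ⟨0, ?_⟩
    have := classInner_irr hres θ.2
    rw [pow_zero, one_mul]
    by_cases he : (fun x : (⊤ : Subgroup G) => χ x) = (θ : (⊤ : Subgroup G) → ℂ)
    · exact congrFun he 1
    · rw [if_neg he] at this; exact absurd this hθ
  · -- a normal subgroup of index two above `N`
    obtain ⟨R, hR⟩ := Sylow.exists_subgroup_card_pow_prime (G := G ⧸ N) 2 (n := a)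
      (by rw [← Subgroup.index_eq_card, ha]; exact pow_dvd_pow 2 (Nat.le_succ a))
    have hR2 : R.index = 2 := by
      have h := Subgroup.card_mul_index R
      rw [hR, ← Subgroup.index_eq_card, ha, pow_succ] at h
      exact Nat.eq_of_mul_eq_mul_left (pow_pos two_pos a) h
    set M := R.comap (QuotientGroup.mk' N) with hM
    have hMidx : M.index = 2 := by
      rw [hM, Subgroup.index_comap_of_surjective _ (QuotientGroup.mk'_surjective N), hR2]
    haveI : M.Normal := Subgroup.normal_of_index_eq_two hMidx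
    have hNM : N ≤ M := fun x hx => by
      rw [hM, Subgroup.mem_comap, show QuotientGroup.mk' N x = 1 from (QuotientGroup.eq_one_iff x).2 hx]
      exact R.one_mem
    haveI := Fintype.ofFinite M
    obtain ⟨ψ, hψ⟩ := exists_constituent M (IsIrrCharacter.isCharacter hχ) (apply_one_ne_zero_of_isIrr hχ)
    obtain ⟨e, he⟩ := IsCharacter.exists_classInner_eq_nat
      (CfsgLib.Coherence.isCharacter_comp (IsIrrCharacter.isCharacter hχ) M.subtype) ψ
    have he' : Cfsg.classInner (fun x : M => χ x) (ψ : M → ℂ) = e := he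
    set t := (conjOrbit M (ψ : M → ℂ)).card with ht
    have hres := res_eq M hχ ψ.2 hψ
    rw [he'] at hres
    have hbound : e ^ 2 * t ≤ 2 := by
      have h1 : Cfsg.classInner (fun x : M => χ x) (fun x : M => χ x) = ((e ^ 2 * t : ℕ) : ℂ) := by
        conv_lhs => arg 2; rw [hres]
        rw [classInner_smul_right, classInner_sum_right,
          Finset.sum_congr rfl (g := fun _ => (e : ℂ)) fun η hη => by
            obtain ⟨g, rfl⟩ := (mem_conjOrbit M).1 hη
            rw [classInner_conjChar M (IsIrrCharacter.isClassFunction hχ), he'],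
          Finset.sum_const, nsmul_eq_mul, Complex.conj_natCast]
        push_cast
        ring
      have h2 := classInner_self_of_isIrr hχ
      rw [Cfsg.classInner, inv_mul_eq_one₀ (Nat.cast_ne_zero.2 Nat.card_pos.ne')] at h2
      rw [Cfsg.classInner, inv_mul_eq_iff_eq_mul₀ (Nat.cast_ne_zero.2 Nat.card_pos.ne')] at h1
      have h3 : ∀ z : ℂ, z * conj z = ((Complex.normSq z : ℝ) : ℂ) := fun z => Complex.mul_conj z
      simp only [h3] at h1 h2
      rw [← Complex.ofReal_sum, ← Nat.cast_mul, ← Complex.ofReal_natCast, Complex.ofReal_inj] at h1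
      rw [← Complex.ofReal_sum, ← Complex.ofReal_natCast, Complex.ofReal_inj] at h2
      have h4 : ∑ x : M, Complex.normSq (χ x) ≤ ∑ g : G, Complex.normSq (χ g) := by
        have hmap : ∑ x : M, Complex.normSq (χ x) =
            ∑ g ∈ Finset.univ.map (Function.Embedding.subtype (fun x => x ∈ M)), Complex.normSq (χ g) :=
          by rw [Finset.sum_map]; rfl
        rw [hmap]
        exact Finset.sum_le_sum_of_subset_of_nonneg (Finset.subset_univ _)
          fun g _ _ => Complex.normSq_nonneg _
      rw [h1, ← h2, ← Subgroup.card_mul_index M, hMidx, Nat.cast_le] at h4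
      exact Nat.le_of_mul_le_mul_left h4 Nat.card_pos
    have he0 : e ≠ 0 := fun h0 => hψ (by rw [he', h0, Nat.cast_zero])
    have ht0 : 0 < t := Finset.card_pos.2 ⟨_, (mem_conjOrbit M).2 ⟨1, conjChar_one M _⟩⟩
    have he1 : e = 1 := by
      by_contra hne
      have : 2 ≤ e := by omega
      have : 4 ≤ e ^ 2 := by nlinarith
      nlinarith
    rw [he1] at hbound
    simp only [one_pow, one_mul] at hbound
    have h1 := apply_one_eq M hχ ψ.2 hψ
    rw [he', he1, Nat.cast_one, one_mul, ← ht] at h1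
    -- the induction step
    haveI := Fintype.ofFinite (N.subgroupOf M)
    obtain ⟨θ', hθ'⟩ := exists_constituent (N.subgroupOf M) (IsIrrCharacter.isCharacter ψ.2)
      (apply_one_ne_zero_of_isIrr ψ.2)
    let eN : N.subgroupOf M ≃* N := Subgroup.subgroupOfEquivOfLe hNM
    have hlt : Nat.card M < n := by
      rw [← hn, ← Subgroup.card_mul_index M, hMidx]
      have := Nat.card_pos (α := M)
      omega
    obtain ⟨j, hj⟩ := ih _ hlt rfl (N.subgroupOf M) (by
      have hd : N.relIndex M ∣ 2 ^ (a + 1) := ha ▸ Subgroup.relIndex_dvd_index_of_normal N M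
      obtain ⟨b, -, hb⟩ := (Nat.dvd_prime_pow Nat.prime_two).1 hd
      exact ⟨b, hb⟩) ψ.2 θ' hθ'
    let θ'' : N → ℂ := fun x => (θ' : N.subgroupOf M → ℂ) (eN.symm x)
    have hθ''i : IsIrrCharacter N θ'' := isIrrCharacter_comp_mulEquiv θ'.2 eN.symm
    have hθ'' : Cfsg.classInner (fun x : N => χ x) θ'' ≠ 0 := by
      obtain ⟨c, f, hc, hf, hle⟩ := classInner_res_le hNM (IsIrrCharacter.isCharacter hχ) hθ''i {ψ}
        (fun φ hφ => by rw [Finset.mem_singleton.1 hφ]; exact hψ)
      rw [Finset.sum_singleton] at hle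
      have hfe : f ψ ≠ 0 := fun h0 => hθ' (by
        rw [← classInner_comp_mulEquiv eN.symm]
        exact (hf ψ).trans (by rw [h0, Nat.cast_zero]))
      rw [hc]
      exact Nat.cast_ne_zero.2 (by omega)
    obtain ⟨g, hg⟩ := exists_conj_of_constituents N hχ θ.2 hθ''i hθ hθ''
    have hdeg : (θ' : N.subgroupOf M → ℂ) 1 = (θ : N → ℂ) 1 := by
      rw [← conjChar_apply_one N (θ : N → ℂ) g, ← hg]
      show _ = (θ' : N.subgroupOf M → ℂ) (eN.symm 1)
      rw [map_one]
    rw [hdeg] at hj
    rw [hj] at h1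
    interval_cases t
    · exact ⟨j, by rw [h1, Nat.cast_one, one_mul]⟩
    · exact ⟨j + 1, by rw [h1, pow_succ]; push_cast; ring⟩

variable {G : Type u} [Group G]

/-- If `G/N` is a `2`-group, the degrees over `θ` are `θ(1)` times powers of two. -/
theorem exists_two_pow_degree [Finite G] (N : Subgroup G) [N.Normal] [Fintype N]
    (hN : ∃ a : ℕ, N.index = 2 ^ a) {χ : G → ℂ} (hχ : IsIrrCharacter G χ) (θ : IrrCharacter N)
    (hθ : Cfsg.classInner (fun x : N => χ x) (θ : N → ℂ) ≠ 0) :
    ∃ j : ℕ, χ 1 = (2 : ℂ) ^ j * (θ : N → ℂ) 1 :=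
  exists_two_pow_degree_aux _ rfl N hN hχ θ hθ

open CfsgLib.RealChar Matrix in
/-- A real irreducible character whose restriction to a subgroup contains the trivial character an
odd number of times has indicator one. -/
theorem fsIndicator_eq_one_of_odd_fixed [Fintype G] (P : Subgroup G) [Fintype P] {χ : G → ℂ}
    (h : IsIrrCharacter G χ) (hreal : ∀ g, (χ g).im = 0) {d : ℕ}
    (hd : Cfsg.classInner (fun x : P => χ x) (fun _ => 1) = d) (hodd : Odd d) :
    fsIndicator χ = 1 := by
  obtain ⟨n, ρ, hρ, rfl⟩ := h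
  obtain ⟨B, hB, hB0⟩ := exists_form_of_real ρ hreal
  obtain ⟨c, hc, hct, hfs⟩ := fsIndicator_of_form ρ hB hB0
  rw [hfs]
  refine hc.resolve_right ?_
  rintro rfl
  have hu : IsUnit B.det := (det_form_ne_zero hB hB0).isUnit
  set M := toMatRep ρ with hM
  set E : Matrix (Fin n) (Fin n) ℂ := (Nat.card P : ℂ)⁻¹ • ∑ u : P, M u with hE
  have hcP : (Nat.card P : ℂ) ≠ 0 := Nat.cast_ne_zero.2 Nat.card_pos.ne'
  have hidem : E * E = E := by
    have h1 : ∀ u : P, M u * E = E := fun u => by
      rw [hE, Matrix.mul_smul, Finset.mul_sum]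
      congr 1
      exact Fintype.sum_equiv (Equiv.mulLeft u) _ _ fun v => by simp
    conv_lhs => arg 1; rw [hE]
    rw [Matrix.smul_mul, Finset.sum_mul, Finset.sum_congr rfl fun u _ => h1 u, Finset.sum_const,
      Finset.card_univ, ← Nat.cast_smul_eq_nsmul ℂ, smul_smul, ← Nat.card_eq_fintype_card,
      inv_mul_cancel₀ hcP, one_smul]
  have hEB : E * B = B * Eᵀ := by
    rw [hE, Matrix.smul_mul, Finset.sum_mul, Matrix.transpose_smul, Matrix.transpose_sum,
      Matrix.mul_smul, Finset.mul_sum]
    congr 1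
    refine Fintype.sum_equiv (Equiv.inv P) _ _ fun u => ?_
    simpa using form_intertwines hB (u : G)
  have htrace : E.trace = d := by
    rw [← hd, hE, Matrix.trace_smul, Matrix.trace_sum, Cfsg.classInner, smul_eq_mul]
    simp [hM, trace_toMatRep]
  -- factor `E` through its range
  set f := Matrix.toLin' E with hf
  set W := LinearMap.range f with hW
  let b := Module.finBasis ℂ W
  set U : Matrix (Fin n) (Fin (Module.finrank ℂ W)) ℂ :=
    LinearMap.toMatrix b (Pi.basisFun ℂ (Fin n)) W.subtype with hU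
  set V : Matrix (Fin (Module.finrank ℂ W)) (Fin n) ℂ :=
    LinearMap.toMatrix (Pi.basisFun ℂ (Fin n)) b f.rangeRestrict with hV
  have hUV : U * V = E := by
    rw [hU, hV, ← LinearMap.toMatrix_comp]
    have : W.subtype ∘ₗ f.rangeRestrict = f := LinearMap.ext fun x => rfl
    rw [this, LinearMap.toMatrix_eq_toMatrix', hf, LinearMap.toMatrix'_toLin']
  have hVU : V * U = 1 := by
    rw [hU, hV, ← LinearMap.toMatrix_comp]
    have : f.rangeRestrict ∘ₗ W.subtype = LinearMap.id := LinearMap.ext fun x => Subtype.ext (by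
      obtain ⟨y, hy⟩ := x.2
      show f (x : Fin n → ℂ) = x
      rw [← hy, hf, ← LinearMap.comp_apply, ← Matrix.toLin'_mul, hidem])
    rw [this, LinearMap.toMatrix_id]
  have hrank : Module.finrank ℂ W = d := by
    have h1 := congrArg Matrix.trace hVU
    rw [Matrix.trace_mul_comm, hUV, htrace, Matrix.trace_one, Fintype.card_fin, Nat.cast_inj] at h1
    exact h1.symm
  have hinv : (V * B * Vᵀ) * (Uᵀ * B⁻¹ * U) = 1 := by
    calc (V * B * Vᵀ) * (Uᵀ * B⁻¹ * U) = V * (B * (U * V)ᵀ) * B⁻¹ * U := by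
          rw [Matrix.transpose_mul]; simp only [Matrix.mul_assoc]
      _ = V * (U * V) * (B * B⁻¹) * U := by
          rw [hUV, ← hEB]; simp only [Matrix.mul_assoc]
      _ = (V * U) * (V * U) := by
          rw [Matrix.mul_nonsing_inv B hu]; simp only [Matrix.mul_assoc, Matrix.one_mul]
      _ = 1 := by rw [hVU, Matrix.one_mul]
  have hskew : (V * B * Vᵀ)ᵀ = (-1 : ℂ) • (V * B * Vᵀ) := by
    rw [Matrix.transpose_mul, Matrix.transpose_mul, Matrix.transpose_transpose, hct,
      Matrix.smul_mul, Matrix.mul_smul, Matrix.mul_assoc]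
  have hdet := congrArg Matrix.det hskew
  rw [Matrix.det_transpose, Matrix.det_smul, Fintype.card_fin, (hrank.symm ▸ hodd : Odd _).neg_one_pow] at hdet
  have h0 : (V * B * Vᵀ).det = 0 := by linear_combination hdet / 2
  have h1 := congrArg Matrix.det hinv
  rw [Matrix.det_mul, h0, zero_mul, Matrix.det_one] at h1
  exact zero_ne_one h1

end CfsgLib.Correspondences
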